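import Cfsg.Agent.L0.Pc

/-! Orbit counting lemmas for the recognition of `A₇`. -/

set_option autoImplicit false
set_option linter.unusedSectionVars false

namespace Cfsg.Agent.H3.AS

open Subgroup MulAction Module

variable {G : Type*} [Group G] [Finite G]

section
variable (X : Type*) [MulAction G X] [Finite X]

/-- the number of orbits -/
noncomputable def orb (S : Subgroup G) : ℕ := Nat.card (orbitRel.Quotient S X)

/-- invariant functions -/
noncomputable def inv (S : Subgroup G) : Submodule ℚ (X → ℚ) :=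
  LinearMap.range (LinearMap.funLeft ℚ ℚ (Quotient.mk'' : X → orbitRel.Quotient S X))

theorem mem_inv {S : Subgroup G} {f : X → ℚ} : f ∈ inv X S ↔ ∀ s ∈ S, ∀ x, f (s • x) = f x :=
  ⟨by
    rintro ⟨g, rfl⟩ s hs x
    exact congrArg g (Quotient.sound' ⟨⟨s, hs⟩, rfl⟩),
  fun h => ⟨Quotient.lift f (by rintro _ y ⟨s, rfl⟩; exact h s s.2 y), rfl⟩⟩

theorem rank_inv (S : Subgroup G) : finrank ℚ (inv X S) = orb X S := by
  have := Fintype.ofFinite (orbitRel.Quotient S X)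
  rw [inv, LinearMap.finrank_range_of_inj (LinearMap.funLeft_injective_of_surjective _ _ _
    Quotient.mk''_surjective), orb, finrank_fintype_fun_eq_card, Nat.card_eq_fintype_card]

theorem orb_ineq {D A B : Subgroup G} (h1 : D ≤ A) (h2 : D ≤ B) :
    orb X A + orb X B ≤ orb X D + orb X (A ⊔ B) := by
  rw [← rank_inv, ← rank_inv, ← rank_inv, ← rank_inv, ← Submodule.finrank_sup_add_finrank_inf_eq]
  refine add_le_add (Submodule.finrank_mono (sup_le (fun f h => ?_) fun f h => ?_))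
    (Submodule.finrank_mono fun f h => (mem_inv X).2 fun s hs => ?_)
  · exact (mem_inv X).2 fun s hs => (mem_inv X).1 h s (h1 hs)
  · exact (mem_inv X).2 fun s hs => (mem_inv X).1 h s (h2 hs)
  rw [sup_eq_closure] at hs
  refine closure_induction (fun s hs => hs.elim ((mem_inv X).1 h.1 s) ((mem_inv X).1 h.2 s))
    (by simp) (fun a b _ _ ha hb x => by rw [mul_smul, ha, hb]) (fun a _ ha x => ?_) hs
  rw [← ha, smul_inv_smul]

open Classical in
theorem orb_mul [Fintype G] (S : Subgroup G) :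
    orb X S * Nat.card S = ∑ g with g ∈ S, (fixedBy X g).ncard := by
  have := Fintype.ofFinite X
  have := Fintype.ofFinite (orbitRel.Quotient S X)
  rw [orb, Nat.card_eq_fintype_card, Nat.card_eq_fintype_card,
    ← sum_card_fixedBy_eq_card_orbits_mul_card_group, Finset.sum_subtype (p := (· ∈ S)) _ (by simp)]
  exact Finset.sum_congr rfl fun g _ => by
    rw [← Nat.card_eq_fintype_card, Nat.card_coe_set_eq]; rfl

end

/-- the group with its conjugation action -/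
def Cj (G : Type*) := G

instance cjAct : MulAction G (Cj G) where
  smul g y := (g * (show G from y) * g⁻¹ : G)
  one_smul y := (show ∀ y : G, 1 * y * 1⁻¹ = y by simp) y
  mul_smul a b y := (show ∀ y : G, a * b * y * (a * b)⁻¹ = a * (b * y * b⁻¹) * a⁻¹ by
    simp [mul_assoc]) y

instance cjFin : Finite (Cj G) := ‹Finite G›

theorem cls (S : Subgroup G) (g : G) :
    {y | ∃ h ∈ S, h * g * h⁻¹ = y}.ncard * Nat.card ↥(S ⊓ centralizer {g}) = Nat.card S := by
  rw [← (stabilizer S (show Cj G from g)).index_mul_card, index_stabilizer,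
    ← Nat.card_congr (subgroupOfEquivOfLe inf_le_left).toEquiv, inf_subgroupOf_left]
  congr 2
  · ext y
    exact ⟨fun ⟨h, hh, e⟩ => ⟨⟨h, hh⟩, e⟩, fun ⟨h, e⟩ => ⟨h, h.2, e⟩⟩
  · congr 1
    ext h
    exact mem_centralizer_singleton_iff.trans mul_inv_eq_iff_eq_mul.symm

/-- the number of conjugates of `x` commuting with `g` -/
noncomputable def pi (x g : G) : ℕ := {y | IsConj x y ∧ Commute g y}.ncard

theorem fix_eq (x g : G) : (fixedBy (orbit G (show Cj G from x)) g).ncard = pi x g := by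
  rw [← Set.ncard_image_of_injective _ Subtype.val_injective, pi]
  congr 1
  ext y
  exact ⟨by rintro ⟨⟨_, h, rfl⟩, e, rfl⟩; exact ⟨isConj_iff.2 ⟨h, rfl⟩,
    mul_inv_eq_iff_eq_mul (G := G) |>.1 (congrArg Subtype.val e)⟩, fun ⟨h, e⟩ =>
      ⟨⟨y, isConj_iff.1 h⟩, Subtype.ext (mul_inv_eq_iff_eq_mul (G := G) |>.2 e), rfl⟩⟩

theorem pi_conj (x g c : G) : pi x (c * g * c⁻¹) = pi x g := by
  rw [pi, pi, eq_comm, ← Set.ncard_image_of_injective _ (MulAut.conj c).injective, eq_comm]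
  congr 1
  ext y
  exact ⟨fun ⟨h, e⟩ => ⟨c⁻¹ * y * c, ⟨h.trans (isConj_iff.2 ⟨c⁻¹, by simp⟩), by
    simpa [mul_assoc] using e.conj c⁻¹⟩, by simp [mul_assoc]⟩, by
      rintro ⟨y, ⟨h, e⟩, rfl⟩
      exact ⟨h.trans (isConj_iff.2 ⟨c, rfl⟩), e.conj c⟩⟩

theorem pi_inv (x g : G) : pi x g⁻¹ = pi x g := by simp [pi]

theorem eight {U : Subgroup G} (hU : Nat.card U = 4) {a : G} (ha : orderOf a = 3)
    (hn : a ∈ normalizer (U : Set G)) (hc : ∀ u ∈ U, Commute u a → u = 1) :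
    {g | ∃ u ∈ U, g = u * a * u⁻¹ ∨ g = u * a⁻¹ * u⁻¹}.ncard = 8 := by
  have h1 : ∀ b, (∀ u ∈ U, Commute u b → u = 1) → {y | ∃ h ∈ U, h * b * h⁻¹ = y}.ncard = 4 :=
    fun b hb => by
      have := cls U b
      rwa [(eq_bot_iff_forall (U ⊓ centralizer {b})).2 fun u hu => hb u hu.1
        (mem_centralizer_singleton_iff.1 hu.2), card_bot, mul_one, hU] at this
  have := Set.ncard_union_eq (s := {y | ∃ h ∈ U, h * a * h⁻¹ = y})
    (t := {y | ∃ h ∈ U, h * a⁻¹ * h⁻¹ = y}) (Set.disjoint_left.2 (by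
      rintro _ ⟨u, hu, rfl⟩ ⟨w, hw, e⟩
      have h2 : a⁻¹ ^ 2 ∈ U := by
        convert mul_mem (mul_mem (inv_mem hw) hu) ((mem_normalizer_iff.1 hn _).1
          (mul_mem (inv_mem hu) hw)) using 1
        rw [sq, mul_assoc w⁻¹, ← mul_assoc a, ← mul_assoc u, ← mul_assoc u, ← mul_assoc u, ← e]
        simp [mul_assoc]
      have h3 : (a⁻¹ ^ 2) ^ 4 = 1 := congrArg Subtype.val (hU ▸ pow_card_eq_one' (x := (⟨_, h2⟩ : U)))
      rw [← pow_mul, ← orderOf_dvd_iff_pow_eq_one, orderOf_inv, ha] at h3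
      omega))
  rw [h1 a hc, h1 a⁻¹ fun u hu e => hc u hu (by simpa using e)] at this
  refine Eq.trans (congrArg _ ?_) this
  ext g
  simp only [Set.mem_ofPred_eq, Set.mem_union, and_or_left, exists_or, eq_comm]

theorem syl {S : Subgroup G} {n : ℕ} (hS : 2 ^ n ∣ Nat.card S) {U : Subgroup G} (h : U ≤ S) {m : ℕ}
    (hU : Nat.card U = 2 ^ m) (hm : m ≤ n) : ∃ D : Subgroup G, U ≤ D ∧ D ≤ S ∧ Nat.card D = 2 ^ n := by
  obtain ⟨K, k1, k2⟩ := Sylow.exists_subgroup_card_pow_prime_le 2 (G := S) hS (U.subgroupOf S)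
    ((Nat.card_congr (subgroupOfEquivOfLe h).toEquiv).trans hU) hm
  exact ⟨K.map S.subtype, fun a ha => ⟨⟨a, h ha⟩, k2 ha, rfl⟩, map_subtype_le K,
    (card_map_of_injective S.subtype_injective).trans k1⟩

theorem half {U D : Subgroup G} (h : U ≤ D) (hU : Nat.card U = 4) (hD : Nat.card D = 8) {j : G}
    (h1 : j ∈ D) (h2 : j ∉ U) {S : Subgroup G} (h3 : U ≤ S) (h4 : j ∈ S) : D ≤ S := fun d hd => by
  have := (U.subgroupOf D).index_mul_card
  rw [Nat.card_congr (subgroupOfEquivOfLe h).toEquiv, hU, hD] at this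
  by_cases e : d ∈ U
  · exact h3 e
  exact (S.mul_mem_cancel_left h4).1 (h3 ((mul_mem_iff_of_index_two (H := U.subgroupOf D) (by omega)
    (a := ⟨j, h1⟩) (b := ⟨d, hd⟩)).2 (iff_of_false h2 e)))

theorem mem3 {y g : G} (h : orderOf y = 3) (hg : g ∈ zpowers y) : g = 1 ∨ g = y ∨ g = y⁻¹ := by
  classical
  obtain ⟨i, hi, rfl⟩ := Finset.mem_image.1 (mem_zpowers_iff_mem_range_orderOf.1 hg)
  have := pow_orderOf_eq_one y
  rw [h] at hi this
  have hi := Finset.mem_range.1 hi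
  interval_cases i
  · simp
  · simp
  · exact Or.inr (Or.inr (eq_inv_of_mul_eq_one_left (by rwa [← pow_succ])))

theorem ne_inv3 {y : G} (h : orderOf y = 3) : y ≠ y⁻¹ := fun e => by
  simpa [h] using orderOf_dvd_of_pow_eq_one ((sq y).trans (mul_eq_one_iff_eq_inv.2 e))

theorem pow_mem_card {S : Subgroup G} {n : ℕ} (h : Nat.card S = n) {g : G} (hg : g ∈ S) : g ^ n = 1 :=
  congrArg Subtype.val (h ▸ pow_card_eq_one' (x := (⟨g, hg⟩ : S)))

theorem card4 {z v : G} (hz : z * z = 1) (hv : v * v = 1) (h1 : z ≠ 1) (h2 : v ≠ 1) (h3 : z ≠ v) :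
    ({1, z, v, z * v} : Set G).ncard = 4 :=
  Set.ncard_eq_four.2 ⟨_, _, _, _, h1.symm, h2.symm, fun e => h3 (by
    simpa [← mul_assoc, hz] using congrArg (z * ·) e), h3, by simpa using h2, by simpa using h1, rfl⟩

theorem mem4 {U : Subgroup G} (hU : Nat.card U = 4) (h : ∀ w ∈ U, w * w = 1) {z v : G} (hz : z ∈ U)
    (hv : v ∈ U) (h1 : z ≠ 1) (h2 : v ≠ 1) (h3 : z ≠ v) {w : G} (hw : w ∈ U) :
    w = 1 ∨ w = z ∨ w = v ∨ w = z * v :=
  (Set.eq_of_subset_of_ncard_le (s := {1, z, v, z * v}) (t := U) (by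
    simp [Set.insert_subset_iff, hz, hv, mul_mem]) (by
      rw [card4 (h z hz) (h v hv) h1 h2 h3, ← hU]; rfl)).ge hw

theorem comm4 {U : Subgroup G} (h : ∀ w ∈ U, w * w = 1) {z v : G} (hz : z ∈ U) (hv : v ∈ U) :
    Commute z v := by
  have := inv_eq_of_mul_eq_one_left (h _ (mul_mem hz hv))
  rw [mul_inv_rev, inv_eq_of_mul_eq_one_left (h _ hz), inv_eq_of_mul_eq_one_left (h _ hv)] at this
  exact this.symm

theorem s4 {U : Subgroup G} (hU : Nat.card U = 4) {a j : G} (ha : orderOf a = 3) (hj : j * j = 1)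
    (h1 : a ∈ normalizer (U : Set G)) (h2 : j ∈ normalizer (U : Set G))
    (h3 : j * a * j⁻¹ ∈ zpowers a ⊔ U) : Nat.card ↥(zpowers j ⊔ (zpowers a ⊔ U)) ≤ 24 := by
  have a1 := L0.card_sup_zpowers_le U (p := 3) (x := a) (by norm_num) (fun h hh => by
    simpa using (mem_normalizer_iff.1 (inv_mem h1) h).1 hh) (by simp [← ha])
  have a2 := L0.card_sup_zpowers_le (zpowers a ⊔ U) (p := 2) (x := j) (by norm_num) (fun h hh => by
    simpa [inv_eq_of_mul_eq_one_left hj] using (show zpowers a ⊔ U ≤ (zpowers a ⊔ U).comap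
      (MulAut.conj j).toMonoidHom from sup_le (zpowers_le.2 h3) fun u hu =>
        mem_sup_right ((mem_normalizer_iff.1 h2 u).1 hu)) hh) (by simp [sq, hj])
  omega

theorem nine {H : Subgroup G} {a b : G} (ha : orderOf a = 3) (hb : orderOf b = 3) (h1 : a ∈ H)
    (h2 : b ∈ H) (h : ¬ 9 ∣ Nat.card H) : IsConj a b ∨ IsConj a⁻¹ b := by
  have pg : ∀ c (h : c ∈ H), orderOf c = 3 → IsPGroup 3 (zpowers (⟨c, h⟩ : H)) := fun c h e =>
    IsPGroup.of_card (n := 1) (by simp [e])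
  obtain ⟨P, hP⟩ := (pg a h1 ha).exists_le_sylow
  obtain ⟨Q, hQ⟩ := (pg b h2 hb).exists_le_sylow
  obtain ⟨g, rfl⟩ := exists_smul_eq H Q P
  obtain ⟨k, hk⟩ := IsPGroup.iff_card.1 (g • Q).isPGroup'
  have h3 : k ≤ 1 := not_lt.1 fun e => h ((pow_dvd_pow 3 e).trans (hk ▸ card_subgroup_dvd_card _))
  have h4 := eq_of_le_of_card_ge hP (by
    rw [hk, Nat.card_zpowers, orderOf_mk, ha]; exact Nat.pow_le_pow_right (by norm_num) h3)
  have h5 : g * ⟨b, h2⟩ * g⁻¹ ∈ zpowers (⟨a, h1⟩ : H) :=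
    h4 ▸ smul_mem_pointwise_smul _ (MulAut.conj g) _ (hQ (mem_zpowers _))
  have h6 : IsConj (g * b * g⁻¹ : G) b := (isConj_iff.2 ⟨_, rfl⟩).symm
  rcases mem3 (by simpa using ha) h5 with e | e | e <;> rw [show (g * b * g⁻¹ : G) = _ from
    congrArg Subtype.val e] at h6
  · simp [← isConj_one_left.1 h6.symm |>.symm] at hb
  exacts [Or.inl h6, Or.inr h6]

theorem alt_of [IsSimpleGroup G] (hc : Nat.card G = 2520) {H : Subgroup G} (h1 : H ≠ ⊤)
    (h2 : H.index ≤ 7) : Nonempty (G ≃* alternatingGroup (Fin 7)) := by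
  classical
  have := Fintype.ofFinite (G ⧸ H)
  have hi := (MonoidHom.ker_eq_bot_iff _).1 (H.normalCore_eq_ker ▸ (IsSimpleGroup.eq_bot_or_eq_top_of_normal
    H.normalCore inferInstance).resolve_right fun e => h1 (top_le_iff.1 (e ▸ H.normalCore_le)))
  have h3 := (toPermHom G (G ⧸ H)).range.index_mul_card
  rw [← Nat.card_congr (MonoidHom.ofInjective hi).toEquiv, hc, Nat.card_perm, ← index] at h3
  have h4 : H.index = 7 := by
    generalize H.index = n at h2 h3
    interval_cases n <;> simp [Nat.factorial] at h3 <;> omega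
  rw [h4] at h3
  exact ⟨((MonoidHom.ofInjective hi).trans (MulEquiv.subgroupCongr
    (Equiv.Perm.eq_alternatingGroup_of_index_eq_two (by simp [Nat.factorial] at h3; omega)))).trans
      (Finite.equivFinOfCardEq h4).altCongrHom⟩

end Cfsg.Agent.H3.AS
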