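import Cfsg.Agent.H3.AS1

/-! Local structure of a simple group with the class data of `A₇`. -/

set_option autoImplicit false
set_option linter.unusedSectionVars false

namespace Cfsg.Agent.H3.AS

open Subgroup MulAction

variable {G : Type*} [Group G] [Finite G]

/-- the class data of `A₇` -/
structure Hy (x : G) : Prop where
  card : Nat.card G = 2520
  h2 : ∀ s t : G, orderOf s = 2 → orderOf t = 2 → IsConj s t
  c2 : ∀ t : G, orderOf t = 2 → Nat.card (centralizer ({t} : Set G)) = 24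
  c4 : ∀ r : G, orderOf r = 4 → Nat.card (centralizer ({r} : Set G)) = 4
  h6 : ∀ s t : G, orderOf s = 6 → orderOf t = 6 → IsConj s t
  c6 : ∀ s : G, orderOf s = 6 → Nat.card (centralizer ({s} : Set G)) = 12
  x3 : orderOf x = 3
  cx : Nat.card (centralizer ({x} : Set G)) = 36
  h3 : ∀ y : G, orderOf y = 3 → IsConj x y ∨ Nat.card (centralizer ({y} : Set G)) = 9

theorem mc {a b : G} : a ∈ centralizer ({b} : Set G) ↔ Commute a b := mem_centralizer_singleton_iff

theorem ord2 {t : G} (h : t * t = 1) (h1 : t ≠ 1) : orderOf t = 2 :=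
  orderOf_eq_prime ((sq t).trans h) h1

theorem pow43 {y t : G} (hy : orderOf y = 3) (ht : orderOf t = 2) (h : Commute y t) :
    orderOf (y * t) = 6 ∧ (y * t) ^ 4 = y ∧ (y * t) ^ 3 = t := by
  have h1 := hy ▸ pow_orderOf_eq_one y
  have h2 := ht ▸ pow_orderOf_eq_one t
  refine ⟨by rw [h.orderOf_mul_eq_mul_orderOf_of_coprime (by rw [hy, ht]; rfl), hy, ht], ?_, ?_⟩
  · rw [h.mul_pow, pow_succ y, h1, show 4 = 2 * 2 from rfl, pow_mul, h2]; simp
  · rw [h.mul_pow, pow_succ t, h1, h2]; simp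

/-- the number of orbits on the class of `x` -/
noncomputable def ox (x : G) (S : Subgroup G) : ℕ := orb (orbit G (show Cj G from x)) S

namespace Hy

variable {x : G} (H : Hy x)
include H

theorem cen6 {y t : G} (hy : orderOf y = 3) (ht : orderOf t = 2) (h : Commute y t) :
    Nat.card ↥(centralizer {t} ⊓ centralizer ({y} : Set G)) = 12 := by
  obtain ⟨h1, h2, h3⟩ := pow43 hy ht h
  rw [← H.c6 _ h1]
  congr 2
  ext c
  simp only [mem_inf, mc]
  exact ⟨fun e => e.2.mul_right e.1, fun e => ⟨h3 ▸ e.pow_right 3, h2 ▸ e.pow_right 4⟩⟩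

theorem con6 {y t y' t' : G} (hy : orderOf y = 3) (ht : orderOf t = 2) (h : Commute y t)
    (hy' : orderOf y' = 3) (ht' : orderOf t' = 2) (h' : Commute y' t') :
    ∃ c, c * y * c⁻¹ = y' ∧ c * t * c⁻¹ = t' := by
  obtain ⟨h1, h2, h3⟩ := pow43 hy ht h
  obtain ⟨h4, h5, h6⟩ := pow43 hy' ht' h'
  obtain ⟨c, hc⟩ := isConj_iff.1 (H.h6 _ _ h1 h4)
  exact ⟨c, by rw [← h5, ← hc, conj_pow, h2], by rw [← h6, ← hc, conj_pow, h3]⟩

theorem two {y t y' : G} (hy : orderOf y = 3) (ht : orderOf t = 2) (h : Commute y t)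
    (hy' : orderOf y' = 3) (h' : Commute y' t) : y' = y ∨ y' = y⁻¹ := by
  have h1 := cls (centralizer {t}) y
  have h2 : ∀ y', orderOf y' = 3 → Commute y' t → ∃ c ∈ centralizer {t}, c * y * c⁻¹ = y' :=
    fun y' a b => (H.con6 hy ht h a ht b).imp fun c e => ⟨mc.2 (mul_inv_eq_iff_eq_mul.1 e.2), e.1⟩
  rw [H.cen6 hy ht h, H.c2 t ht] at h1
  exact (Set.eq_of_subset_of_ncard_le (s := {y, y⁻¹}) (t := {u | ∃ c ∈ centralizer {t},
    c * y * c⁻¹ = u}) (Set.pair_subset (h2 y hy h)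
    (h2 _ (by simpa) h.inv_left)) (by rw [Set.ncard_pair (ne_inv3 hy)]; omega)).ge (h2 y' hy' h')

theorem conj {y : G} (h : IsConj x y) :
    orderOf y = 3 ∧ Nat.card (centralizer ({y} : Set G)) = 36 := by
  obtain ⟨c, rfl⟩ := isConj_iff.1 h
  refine ⟨H.x3 ▸ (MulAut.conj c).orderOf_eq x, H.cx ▸ (Nat.card_congr ((MulAut.conj c).toEquiv.subtypeEquiv
    fun a => ?_)).symm⟩
  simp [mem_centralizer_singleton_iff, ← mul_assoc]
  simp [mul_assoc]

theorem of_comm {y t : G} (hy : orderOf y = 3) (ht : orderOf t = 2) (h : Commute t y) : IsConj x y :=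
  (H.h3 y hy).resolve_right fun e => by
    simpa [ht] using orderOf_dvd_of_pow_eq_one (pow_mem_card e (mc.2 h))

theorem inv {y : G} (h : IsConj x y) : IsConj x y⁻¹ :=
  (H.h3 _ (by simpa using (H.conj h).1)).resolve_right fun e => by
    have := (H.conj h).2
    rw [show centralizer {y} = centralizer ({y⁻¹} : Set G) by ext; simp [mc]] at this
    omega

theorem four {y : G} (h : IsConj x y) : ∃ V : Subgroup G, Nat.card V = 4 ∧ (∀ w ∈ V, w * w = 1) ∧
    ∀ w, w ∈ V ↔ w ^ 4 = 1 ∧ Commute w y := by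
  obtain ⟨h3, h36⟩ := H.conj h
  obtain ⟨V, -, v1, v2⟩ := syl (S := centralizer {y}) (n := 2) (m := 0) (by simp [h36]) bot_le
    card_bot (by norm_num)
  have a : ∀ w, w ^ 4 = 1 → Commute w y → w * w = 1 := fun w h1 h2 => by
    by_contra e
    simpa [h3] using orderOf_dvd_of_pow_eq_one (pow_mem_card (H.c4 w
      (orderOf_eq_prime_pow (p := 2) (n := 1) (by simpa [sq]) h1)) (mc.2 h2.symm))
  have b : ∀ w ∈ V, w ^ 4 = 1 ∧ Commute w y := fun w hw => ⟨pow_mem_card v2 hw, mc.1 (v1 hw)⟩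
  refine ⟨V, v2, fun w hw => a w (b w hw).1 (b w hw).2, fun w => ⟨b w, fun hw => ?_⟩⟩
  by_contra hn
  obtain ⟨⟨t, t1⟩, t2⟩ := (ne_bot_iff_exists_ne_one (H := V)).1 fun e => by simp [e] at v2
  have t3 := ord2 (a t (b t t1).1 (b t t1).2) (by simpa using t2)
  have h1 := cls (centralizer {y}) t
  rw [inf_comm, H.cen6 h3 t3 (b t t1).2.symm, h36] at h1
  have := Set.ncard_le_ncard (s := insert w V) (t := insert 1 {u | ∃ c ∈ centralizer {y},
      c * t * c⁻¹ = u}) fun u hu => or_iff_not_imp_left.2 fun u1 => by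
    have hu : u ^ 4 = 1 ∧ Commute u y := hu.elim (· ▸ hw) (b u)
    exact (H.con6 h3 t3 (b t t1).2.symm h3 (ord2 (a u hu.1 hu.2) u1) hu.2.symm).imp fun c e =>
      ⟨mc.2 (mul_inv_eq_iff_eq_mul.1 e.1), e.2⟩
  have h2 := Set.ncard_insert_le 1 {u | ∃ c ∈ centralizer {y}, c * t * c⁻¹ = u}
  rw [Set.ncard_insert_of_notMem hn, show (V : Set G).ncard = 2 ^ 2 from v2] at this
  omega

theorem pi_one : pi x 1 = 70 := by
  have := cls ⊤ x
  rw [top_inf_eq, H.cx, card_top, H.card] at this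
  simp only [pi, Commute.one_left, and_true, isConj_iff]
  simp only [mem_top, true_and] at this
  omega

theorem pi_two {t : G} (ht : orderOf t = 2) : pi x t = 2 := by
  obtain ⟨⟨y, y1⟩, y2⟩ := exists_prime_orderOf_dvd_card' (G := centralizer ({t} : Set G)) 3
    (by simp [H.c2 t ht])
  rw [orderOf_mk] at y2
  have y3 := H.of_comm y2 ht (mc.1 y1).symm
  rw [pi, ← Set.ncard_pair (ne_inv3 y2)]
  congr 1
  refine Set.Subset.antisymm (fun u hu => H.two y2 ht (mc.1 y1) (H.conj hu.1).1 hu.2.symm)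
    (Set.pair_subset ⟨y3, (mc.1 y1).symm⟩ ⟨H.inv y3, (mc.1 y1).symm.inv_right⟩)

theorem pi_le {g : G} (h : g ^ 8 = 1) (h1 : g ≠ 1) : pi x g ≤ 2 := by
  have : ∀ n, orderOf (g ^ n) = 2 → pi x g ≤ 2 := fun n e => H.pi_two e ▸
    Set.ncard_le_ncard fun y hy => ⟨hy.1, hy.2.pow_left n⟩
  by_cases h2 : g ^ 2 = 1
  · exact this 1 (by simpa using orderOf_eq_prime h2 h1)
  by_cases h4 : g ^ 4 = 1
  · exact this 2 (orderOf_eq_prime (by rwa [← pow_mul]) h2)
  · exact this 4 (orderOf_eq_prime (by rwa [← pow_mul]) h4)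

theorem sum_eq (S : Subgroup G) [Fintype G] [DecidablePred (· ∈ S)] [DecidableEq G] :
    ox x S * Nat.card S = 70 + ∑ g ∈ (Finset.univ.filter (· ∈ S)).erase 1, pi x g := by
  rw [ox, orb_mul, ← H.pi_one, Finset.add_sum_erase _ _ (by simp)]
  simp only [fix_eq]
  congr

theorem pi_three {g : G} (h : orderOf g = 3) : 4 ≤ pi x g := by
  classical
  have := Fintype.ofFinite G
  have h1 := H.sum_eq (zpowers g)
  rw [Nat.card_zpowers, h, show (Finset.univ.filter (· ∈ zpowers g)).erase 1 = {g, g⁻¹} from Finset.ext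
    fun u => by
      have : g ≠ 1 := by rintro rfl; simp at h
      simp only [Finset.mem_erase, Finset.mem_filter, Finset.mem_univ, true_and, Finset.mem_singleton,
        Finset.mem_insert]
      exact ⟨fun e => (mem3 h e.2).resolve_left e.1, by rintro (rfl | rfl) <;> simp [this]⟩,
    Finset.sum_pair (ne_inv3 h), pi_inv] at h1
  obtain ⟨y, hy⟩ := Set.nonempty_of_ncard_ne_zero (show pi x g ≠ 0 by omega)
  have := Set.ncard_le_ncard (Set.pair_subset hy (show y⁻¹ ∈ _ from ⟨H.inv hy.1, hy.2.inv_right⟩))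
  rw [Set.ncard_pair (ne_inv3 (H.conj hy.1).1), ← pi] at this
  omega

theorem orb8 {D : Subgroup G} (h : Nat.card D = 8) :
    ox x D ≤ 10 ∧ ∃ r ∈ D, r * r ≠ 1 := by
  classical
  have := Fintype.ofFinite G
  have h1 := H.sum_eq D
  have h2 : ((Finset.univ.filter (· ∈ D)).erase 1).card = 7 := by
    rw [Finset.card_erase_of_mem (by simp), ← Fintype.card_subtype, ← Nat.card_eq_fintype_card, h]
  constructor
  · have := Finset.sum_le_card_nsmul ((Finset.univ.filter (· ∈ D)).erase 1) (pi x) 2 fun g hg =>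
      H.pi_le (pow_mem_card h (by simp_all)) (by simp_all)
    have := h1.trans_le (Nat.add_le_add_left this _)
    rw [h2, smul_eq_mul, h] at this
    omega
  by_contra! hn
  rw [Finset.sum_const_nat (m := 2) fun g hg => H.pi_two (ord2 (hn g (by simp_all)) (by simp_all)),
    h2, h] at h1
  omega

theorem orb_ge {U S : Subgroup G} (hU : Nat.card U = 4) {a : G} (ha : orderOf a = 3)
    (hn : a ∈ normalizer (U : Set G)) (hc : ∀ u ∈ U, Commute u a → u = 1) (h1 : U ≤ S) (h2 : a ∈ S) :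
    70 + 8 * pi x a ≤ ox x S * Nat.card S := by
  classical
  have := Fintype.ofFinite G
  have h3 := eight hU ha hn hc
  rw [Set.ncard_eq_toFinset_card', Set.toFinset_ofPred] at h3
  rw [H.sum_eq, ← h3, ← Finset.sum_const_nat (f := pi x) (by
    simp only [Finset.mem_filter]
    rintro _ ⟨-, u, -, rfl | rfl⟩ <;> simp [pi_conj, pi_inv])]
  refine Nat.add_le_add_left (Finset.sum_le_sum_of_subset ?_) _
  have : a ≠ 1 := by rintro rfl; simp at ha
  simp only [Finset.subset_iff, Finset.mem_filter]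
  rintro _ ⟨-, u, hu, rfl | rfl⟩ <;> simp [mul_mem, h1 hu, h2, this]

end Hy

end Cfsg.Agent.H3.AS
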