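import Cfsg.Agent.H3.AS2

/-! Recognition of `A₇`. -/

set_option autoImplicit false
set_option linter.unusedSectionVars false

namespace Cfsg.Agent.H3.AS

open Subgroup MulAction

variable {G : Type*} [Group G] [Finite G]

theorem cm {g a : G} : g * a * g⁻¹ = a ↔ Commute g a := mul_inv_eq_iff_eq_mul

theorem cj (g h y : G) : g * h * y * (g * h)⁻¹ = g * (h * y * h⁻¹) * g⁻¹ := by group

theorem cc {g a b : G} (h : Commute g a) (h' : Commute g (a * b)) : Commute g b := by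
  simpa using h.inv_right.mul_right h'

theorem nrm {V : Subgroup G} {y g : G} (hV : ∀ w, w ∈ V ↔ w ^ 4 = 1 ∧ Commute w y)
    (h : g * y * g⁻¹ = y ∨ g * y * g⁻¹ = y⁻¹) : g ∈ normalizer (V : Set G) :=
  mem_normalizer_fintype fun w hw => (hV _).2 ⟨by rw [conj_pow, ((hV w).1 hw).1]; simp, by
    have := ((hV w).1 hw).2.conj g
    rcases h with h | h <;> simpa [h] using this⟩

theorem swp {U : Subgroup G} (hU : Nat.card U = 4) (h : ∀ w ∈ U, w * w = 1) {z v g : G} (hz : z ∈ U)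
    (hv : v ∈ U) (h1 : z ≠ 1) (h2 : v ≠ 1) (h3 : z ≠ v) (hg : g ∈ normalizer (U : Set G))
    (c1 : Commute g z) (c2 : ¬ Commute g v) : g * v * g⁻¹ = z * v := by
  rcases mem4 hU h hz hv h1 h2 h3 ((mem_normalizer_iff.1 hg v).1 hv) with e | e | e | e
  · simp [h2] at e
  · exact absurd (conj_injective (e.trans (cm.2 c1).symm)).symm h3
  · exact absurd (cm.1 e) c2
  · exact e

namespace Hy

variable {x : G} (H : Hy x)
include H

theorem kx {y t c : G} (hy : orderOf y = 3) (ht : orderOf t = 2) (h : Commute y t) (hc : Commute c t) :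
    c * y * c⁻¹ = y ∨ c * y * c⁻¹ = y⁻¹ :=
  H.two hy ht h (hy ▸ (MulAut.conj c).orderOf_eq y) (cm.2 hc ▸ h.conj c)

theorem kV {y t c g : G} (hy : orderOf y = 3) (ht : orderOf t = 2) (h : Commute y t) (h1 : Commute c t)
    (h2 : Commute c y) (h3 : g * y * g⁻¹ = y⁻¹) (h4 : Commute g (c ^ 4)) : c ^ 4 = 1 := by
  by_contra e
  have := pow_mem_card (H.cen6 hy ht h) (g := c) ⟨mc.2 h1, mc.2 h2⟩
  rcases H.two hy ht h (orderOf_eq_prime (by rwa [← pow_mul]) e) (h1.pow_left 4) with e | e <;>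
    exact ne_inv3 hy ((cm.2 (by simpa [e] using h4)).symm.trans h3)

theorem config : ∃ (V W D : Subgroup G) (z v s a b r : G), Nat.card V = 4 ∧ Nat.card W = 4 ∧
    Nat.card D = 8 ∧ V ≤ D ∧ W ≤ D ∧ s ∈ W ∧ v ∈ V ∧ s ∉ V ∧ v ∉ W ∧ s * s = 1 ∧ v * v = 1 ∧
    IsConj x a ∧ orderOf b = 3 ∧ ¬ IsConj x b ∧ a ∈ normalizer (V : Set G) ∧
    s ∈ normalizer (V : Set G) ∧ b ∈ normalizer (W : Set G) ∧ v ∈ normalizer (W : Set G) ∧
    s * a * s⁻¹ ∈ zpowers a ⊔ V ∧ v * b * v⁻¹ = b⁻¹ ∧ (∀ u ∈ V, Commute u a → u = 1) ∧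
    (∀ u ∈ W, Commute u b → u = 1) ∧ 10 ≤ pi x a ∧ r ∈ D ∧ r ^ 4 = 1 ∧ b * r ^ 2 * b⁻¹ = s ∧
    a * s * a⁻¹ ∉ normalizer (W : Set G) := by
  obtain ⟨V, v4, vv, hV⟩ := H.four (IsConj.refl x)
  have x3 := H.x3
  have x1 := ne_inv3 x3
  obtain ⟨⟨z, z1⟩, z2⟩ := (ne_bot_iff_exists_ne_one (H := V)).1 fun e => by simp [e] at v4
  replace z2 : z ≠ 1 := by simpa using z2
  have cx : ∀ w ∈ V, Commute x w := fun w hw => ((hV w).1 hw).2.symm
  have o2 : ∀ w ∈ V, w ≠ 1 → orderOf w = 2 := fun w hw => ord2 (vv w hw)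
  have vi : ∀ w ∈ V, w⁻¹ = w := fun w hw => inv_eq_of_mul_eq_one_left (vv w hw)
  obtain ⟨a, ⟨a1, a2⟩, a3⟩ := Set.exists_mem_notMem_of_ncard_lt_ncard (s := {x, x⁻¹})
    (t := {y | IsConj x y ∧ Commute x y}) ((Set.ncard_pair x1).trans_lt
      (lt_of_lt_of_le (by norm_num) (H.pi_three x3)))
  have a4 := (H.conj a1).1
  have a5 := nrm hV (Or.inl (cm.2 a2.symm))
  have a6 : ∀ u ∈ V, Commute u a → u = 1 := fun u hu e => by_contra fun h =>
    a3 (H.two x3 (o2 u hu h) (cx u hu) a4 e.symm)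
  have a7 : 10 ≤ pi x a := by
    obtain ⟨c, hc⟩ := isConj_iff.1 a1
    have : ∀ y, Commute y x → (y = x ∨ y = x⁻¹) → y ∉ {g | ∃ u ∈ V, g = u * a * u⁻¹ ∨
        g = u * a⁻¹ * u⁻¹} := by
      rintro y - e ⟨u, hu, e'⟩
      have : u * y * u⁻¹ = y := cm.2 (by rcases e with rfl | rfl <;> simp [(cx u hu).symm])
      rw [← this] at e'
      simp only [mul_left_inj, mul_right_inj] at e'
      rcases e with rfl | rfl <;> rcases e' with e | e <;> simp_all
    have h := Set.ncard_le_ncard (s := insert x (insert x⁻¹ {g | ∃ u ∈ V, g = u * a * u⁻¹ ∨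
      g = u * a⁻¹ * u⁻¹})) (t := {y | IsConj x y ∧ Commute x y}) (by
        rintro _ (rfl | rfl | ⟨u, hu, rfl | rfl⟩)
        exacts [⟨IsConj.refl _, Commute.refl _⟩, ⟨H.inv (IsConj.refl _), (Commute.refl _).inv_right⟩,
          ⟨a1.trans (isConj_iff.2 ⟨u, rfl⟩), ((cx u hu).mul_right a2).mul_right (cx u hu).inv_right⟩,
          ⟨(H.inv a1).trans (isConj_iff.2 ⟨u, rfl⟩), ((cx u hu).mul_right a2.inv_right).mul_right
            (cx u hu).inv_right⟩])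
    rw [Set.ncard_insert_of_notMem fun e => e.elim x1 (this _ rfl (Or.inl rfl)),
      Set.ncard_insert_of_notMem (this _ (by simp) (Or.inr rfl)), eight v4 a4 a5 a6] at h
    rwa [← hc, pi_conj]
  obtain ⟨v, hv⟩ : ∃ v, v = a * z * a⁻¹ := ⟨_, rfl⟩
  have v1 : v ∈ V := hv ▸ (mem_normalizer_iff.1 a5 z).1 z1
  have v2 : v ≠ 1 := by simpa [hv] using z2
  have v3 : z ≠ v := fun e => z2 (a6 z z1 (cm.1 (hv.symm.trans e.symm)).symm)
  have m4 := fun w => mem4 v4 vv z1 v1 z2 v2 v3 (w := w)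
  have zv := comm4 vv z1 v1
  have zz := vv z z1
  have a3' : a * a * a = 1 := by rw [← pow_three', ← a4, pow_orderOf_eq_one]
  have a8 : a * v * a⁻¹ = z * v := by
    rcases m4 _ ((mem_normalizer_iff.1 a5 v).1 v1) with e | e | e | e
    · simp [v2] at e
    · have := congrArg (a * · * a⁻¹) e
      simp only [hv, ← cj, ← mul_assoc a a a, a3'] at this
      exact absurd (by simpa [hv] using this) v3
    · exact absurd (a6 v v1 (cm.1 e).symm) v2
    · exact e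
  obtain ⟨D, d1, d2, d3⟩ := syl (S := centralizer {z}) (n := 3) (m := 2) (by simp [H.c2 z (o2 z z1 z2)])
    (fun w hw => mc.2 (comm4 vv hw z1)) v4 (by norm_num)
  obtain ⟨r, r1, r2⟩ := (H.orb8 d3).2
  have r3 : r ^ 4 = 1 := by_contra fun e => e (pow_mem_card (H.c4 (r ^ 2) (orderOf_eq_prime_pow
    (p := 2) (n := 1) (by rwa [← pow_mul]) (by simpa [← pow_mul] using pow_mem_card d3 r1)))
    (mc.2 (Commute.self_pow r 2)))
  have r4 := mc.1 (d2 r1)
  have r5 : r ∉ V := fun e => r2 (vv r e)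
  have r6 : r * x * r⁻¹ = x⁻¹ := (H.kx x3 (o2 z z1 z2) (cx z z1) r4).resolve_left fun e =>
    r5 ((hV r).2 ⟨r3, cm.1 e⟩)
  have r7 : ¬ Commute r v := fun e => r5 ((eq_of_le_of_card_ge (K := centralizer {r}) (fun w hw => by
    rcases m4 w hw with rfl | rfl | rfl | rfl
    exacts [one_mem _, mc.2 r4.symm, mc.2 e.symm, mc.2 (r4.mul_right e).symm]) (by
      rw [H.c4 r (orderOf_eq_prime_pow (p := 2) (n := 1) (by simpa [sq]) r3), v4])).ge (mc.2 rfl))
  have r8 := swp v4 vv z1 v1 z2 v2 v3 (nrm hV (Or.inr r6)) r4 r7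
  have r9 : r ^ 2 = z := by
    rcases m4 (r ^ 2) ((hV _).2 ⟨by rw [← pow_mul, mul_comm, pow_mul, r3, one_pow], cm.1 (by
      rw [sq, cj, r6, ← conj_inv, r6, inv_inv])⟩) with e | e | e | e
    · exact absurd ((sq r).symm.trans e) r2
    · exact e
    · exact absurd (e ▸ Commute.self_pow r 2) r7
    · exact absurd (cc r4 (e ▸ Commute.self_pow r 2)) r7
  obtain ⟨s, hs⟩ : ∃ s, s = r * v := ⟨_, rfl⟩
  have ss : s * s = 1 := by
    rw [hs, show r * v * (r * v) = r * v * r⁻¹ * r ^ 2 * v by group, r8, r9, zv.eq, mul_assoc v, zz,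
      mul_one, vv v v1]
  have si := inv_eq_of_mul_eq_one_left ss
  have s1 : s * x * s⁻¹ = x⁻¹ := by
    rw [hs, cj, cm.2 (cx v v1).symm, r6]
  have s2 : Commute s z := hs ▸ r4.mul_left zv.symm
  have s3 : ¬ Commute s v := fun e => r7 (by simpa [hs] using e.mul_left (Commute.refl v).inv_left)
  have s4 : s ∉ V := fun e => s3 (comm4 vv e v1)
  have s5 := nrm hV (Or.inr s1)
  have s6 := swp v4 vv z1 v1 z2 v2 v3 s5 s2 s3
  have s7 : s ≠ 1 := fun e => s4 (e ▸ one_mem V)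
  have s8 : z ≠ s := fun e => s4 (e ▸ z1)
  have w1 : ∀ c, Commute c z → Commute c s → c = 1 ∨ c = z ∨ c = s ∨ c = z * s := by
    have : ∀ c, Commute c z → Commute c s → Commute c x → c = 1 ∨ c = z := fun c h1 h2 h3 => by
      rcases m4 c ((hV c).2 ⟨H.kV x3 (o2 z z1 z2) (cx z z1) h1 h3 s1 (h2.symm.pow_right 4), h3⟩)
        with e | e | rfl | rfl
      exacts [Or.inl e, Or.inr e, absurd h2.symm s3, absurd (cc s2 h2.symm) s3]
    intro c h1 h2
    rcases H.kx x3 (o2 z z1 z2) (cx z z1) h1 with e | e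
    · have := this c h1 h2 (cm.1 e)
      tauto
    rcases this (s * c) (s2.mul_left h1) ((Commute.refl s).mul_left h2) (cm.1 (by
      rw [cj, e, ← conj_inv, s1, inv_inv])) with e | e
    · simp [eq_inv_of_mul_eq_one_right e, si]
    · simp [eq_inv_mul_of_mul_eq e, si, s2.eq]
  obtain ⟨W, hW⟩ : ∃ W : Subgroup G, ∀ c, c ∈ W ↔ Commute c z ∧ Commute c s :=
    ⟨centralizer {z} ⊓ centralizer {s}, fun c => by simp only [mem_inf, mc]⟩
  have w2 : z ∈ W := (hW z).2 ⟨rfl, s2.symm⟩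
  have w3 : s ∈ W := (hW s).2 ⟨s2, rfl⟩
  replace w1 := fun c h => w1 c ((hW c).1 h).1 ((hW c).1 h).2
  have w4 : Nat.card W = 4 := by
    rw [← card4 zz ss z2 s7 s8, ← Set.Subset.antisymm (a := (W : Set G)) (b := {1, z, s, z * s}) w1 (by
      simp [Set.insert_subset_iff, w2, w3, mul_mem])]
    rfl
  have w5 : ∀ g, g * z * g⁻¹ ∈ W → g * s * g⁻¹ ∈ W → g ∈ normalizer (W : Set G) := fun g h1 h2 =>
    mem_normalizer_fintype fun w hw => by
      rcases w1 w hw with rfl | rfl | rfl | rfl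
      exacts [by simp, h1, h2, by rw [← conj_mul]; exact mul_mem h1 h2]
  have zc : ∀ w, z * (z * w) = w := fun w => by rw [← mul_assoc, zz, one_mul]
  have v4' := cm.2 zv.symm
  have v5 : v * s * v⁻¹ = z * s := by
    rw [← s2.eq, vi v v1, ← mul_right_inj s, ← mul_assoc, ← mul_assoc, ← mul_assoc, ss, one_mul,
      show s * v * s = z * v by rw [← s6, si], mul_assoc, vv v v1, mul_one]
  obtain ⟨y, y1, y2⟩ := Set.nonempty_of_ncard_ne_zero (show pi x s ≠ 0 by simp [H.pi_two (ord2 ss s7)])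
  obtain ⟨U, u4, uu, hU⟩ := H.four y1
  have u1 : s ∈ U := (hU s).2 ⟨by rw [show 4 = 2 * 2 from rfl, pow_mul, sq s, ss, one_pow], y2⟩
  have u2 : z ∉ U := fun e => by
    rcases H.two x3 (o2 z z1 z2) (cx z z1) (H.conj y1).1 ((hU z).1 e).2.symm with e | e <;>
      exact x1 ((cm.2 (by simpa [e] using y2)).symm.trans s1)
  obtain ⟨n, n1, n2⟩ := Set.exists_mem_notMem_of_ncard_lt_ncard (s := {1, s}) (t := U)
    ((Set.ncard_pair s7.symm).trans_lt (by rw [show (U : Set G).ncard = 4 from u4]; norm_num))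
  simp only [Set.mem_insert_iff, Set.mem_singleton_iff, not_or] at n2
  have n3 := comm4 uu n1 u1
  have n4 : n * z * n⁻¹ = z * s := by
    have := swp u4 uu u1 n1 s7 n2.1 (Ne.symm n2.2) (nrm hU (H.kx (H.conj y1).1 (ord2 ss s7) y2.symm
      s2.symm)) s2.symm fun e => by
        rcases w1 n ((hW n).2 ⟨e.symm, n3⟩) with e | e | e | e
        exacts [n2.1 e, u2 (e ▸ n1), n2.2 e, u2 ((U.mul_mem_cancel_right u1).1 (e ▸ n1))]
    rw [vi z z1] at this
    rw [mul_inv_eq_iff_eq_mul, mul_assoc, ← this, mul_assoc, zc]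
  obtain ⟨b, hb⟩ : ∃ b, b = v * n := ⟨_, rfl⟩
  have b1 : b * z * b⁻¹ = s := by rw [hb, cj, n4, ← conj_mul, v4', v5, zc]
  have b2 : b * s * b⁻¹ = z * s := by rw [hb, cj, cm.2 n3, v5]
  have b3 : b * (z * s) * b⁻¹ = z := by
    rw [← conj_mul, b1, b2, ← mul_assoc, s2.eq, mul_assoc, ss, mul_one]
  have b4 : ∀ u ∈ W, Commute u b → u = 1 := fun u hu e => by
    have := cm.2 e.symm
    rcases w1 u hu with rfl | rfl | rfl | rfl
    exacts [rfl, absurd (this.symm.trans b1) s8, absurd (by simpa using b2.symm.trans this) z2,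
      absurd (by simpa using this.symm.trans b3) s7]
  have b5 : orderOf b = 3 := orderOf_eq_prime (b4 _ ((hW _).2 ⟨cm.1 (by
    rw [pow_three, cj, cj, b1, b2, b3]), cm.1 (by rw [pow_three, cj, cj, b2, b3, b1])⟩)
    (Commute.pow_self b 3)) fun e => s8 (by simpa [e] using b1)
  have b6 : v * b * v⁻¹ = b⁻¹ := by
    rw [hb, ← mul_assoc, vv v v1, one_mul, mul_inv_rev, inv_eq_of_mul_eq_one_left (uu n n1)]
  have a9 : a * (z * v) * a⁻¹ = z := by
    rw [← conj_mul, ← hv, a8, ← mul_assoc, ← zv.eq, mul_assoc, vv v v1, mul_one]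
  have s9 : s * (z * v) * s⁻¹ = v := by rw [← conj_mul, s6, cm.2 s2, zc]
  have sD : s ∈ D := hs ▸ mul_mem r1 (d1 v1)
  refine ⟨V, W, D, z, v, s, a, b, r, v4, w4, d3, d1, fun w hw => ?_, w3, v1, s4,
    fun e => s3 ((hW v).1 e).2.symm, ss, vv v v1, a1, b5, fun e => ?_, a5, s5,
    w5 b (b1 ▸ w3) (b2 ▸ mul_mem w2 w3), w5 v (by rwa [v4']) (v5 ▸ mul_mem w2 w3), ?_, b6, a6, b4, a7, r1,
    r3, r9 ▸ b1, fun e => s3 (cc s2 ((hW _).1 ?_).2.symm)⟩
  · rcases w1 w hw with rfl | rfl | rfl | rfl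
    exacts [one_mem _, d1 z1, sD, mul_mem (d1 z1) sD]
  · obtain ⟨T, t4, tt, hT⟩ := H.four e
    obtain ⟨t, t1, t2, t3⟩ : ∃ t ∈ T, t ≠ 1 ∧ Commute t v := by
      obtain ⟨⟨u, u1⟩, u2⟩ := (ne_bot_iff_exists_ne_one (H := T)).1 fun e => by simp [e] at t4
      have u3 := (mem_normalizer_iff.1 (nrm hT (Or.inr b6)) u).1 u1
      by_cases h : Commute v u
      · exact ⟨u, u1, by simpa using u2, h.symm⟩
      refine ⟨_, mul_mem u1 u3, fun e => h (cm.1 ((eq_inv_of_mul_eq_one_right e).trans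
        (inv_eq_of_mul_eq_one_left (tt u u1)))), (cm.1 ?_).symm⟩
      rw [← conj_mul, ← cj, vv v v1, (comm4 tt u1 u3).eq]
      simp
    have t5 := ((hT t).1 t1).2
    have t6 : t * x * t⁻¹ = x⁻¹ := (H.kx x3 (o2 v v1 v2) (cx v v1) t3).resolve_left fun e => by
      rcases H.two x3 (ord2 (tt t t1) t2) (cm.1 e).symm b5 t5.symm with e | e <;>
        exact s8 ((cm.2 (by simpa [e] using cx z z1)).symm.trans b1)
    by_cases h : Commute t z
    · have c1 := r4.mul_left h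
      have c2 : Commute (r * t) x := cm.1 (by rw [cj, t6, ← conj_inv, r6, inv_inv])
      have c3 : (r * t) ^ 3 ∈ V := (hV _).2 ⟨by rw [← pow_mul]; exact (pow_mem_card
        (H.cen6 x3 (o2 z z1 z2) (cx z z1)) ⟨mc.2 c1, mc.2 c2⟩), c2.pow_left 3⟩
      have c4 : r * t * v * (r * t)⁻¹ = z * v := by rw [cj, cm.2 t3, r8]
      have := cm.2 (comm4 vv c3 v1)
      rw [pow_three, cj (r * t), cj (r * t), c4, ← conj_mul (a := z), cm.2 c1, c4, zc, c4] at this
      exact z2 (by simpa using this)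
    have c1 := swp v4 vv v1 z1 v2 z2 v3.symm (nrm hV (Or.inr t6)) t3 h
    have c2 : (b * z) ^ 3 = 1 := by
      rw [show (b * z) ^ 3 = b * z * b⁻¹ * (b * (b * z * b⁻¹) * b⁻¹) * b ^ 3 * z by
        simp [pow_succ, mul_assoc], b1, b2, ← b5, pow_orderOf_eq_one, ← s2.eq, ← mul_assoc, ss]
      simpa using zz
    have c3 : (b * (v * z)) ^ 3 = 1 := by
      rw [← c1, ← cm.2 t5, conj_mul, conj_pow, c2]
      simp
    have c4 : (b * (v * z)) ^ 2 = s * z := by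
      rw [sq]
      nth_rw 1 [← zv.eq]
      rw [← b1, ← b6, vi v v1]
      simp only [mul_assoc]
    rw [pow_succ, c4] at c3
    have := c4
    rw [eq_inv_of_mul_eq_one_right c3, s2.eq, inv_pow, s2.symm.mul_pow, sq, sq, zz, ss] at this
    exact s8 ((eq_inv_of_mul_eq_one_left (this.symm.trans (by simp))).trans si)
  · have c1 : Commute (s * a * s * a) x := cm.1 (by
      rw [cj, cm.2 a2.symm, cj, s1, cj, cm.2 a2.symm.inv_right, ← conj_inv, s1, inv_inv])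
    have c2 : Commute (s * a * s * a) z := cm.1 (by rw [cj, ← hv, cj, s6, cj, a9, cm.2 s2])
    have c3 := (hV _).2 ⟨H.kV x3 (o2 z z1 z2) (cx z z1) c2 c1 (g := a⁻¹ * s) (by
      rw [cj, s1, cm.2 a2.symm.inv_inv]) (Commute.pow_right (cm.1 (by
        simp [si, ← mul_assoc, ss, mul_assoc _ s s])) 4), c1⟩
    simpa [si] using mul_mem (mem_sup_right c3) (mem_sup_left (inv_mem (mem_zpowers a)))
  · have := (mem_normalizer_iff.1 e z).1 w2
    rwa [cj, cj, show a⁻¹ * z * a⁻¹⁻¹ = z * v by nth_rw 1 [← a9]; group, s9, a8] at this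

theorem alt7 [IsSimpleGroup G] : Nonempty (G ≃* alternatingGroup (Fin 7)) := by
  obtain ⟨V, W, D, z, v, s, a, b, r, v4, w4, d8, d1, d2, s1, v1, s2, v2, ss, vv, a1, b3, b1, a2, s3, b2,
    v3, c1, c2, c3, c4, c5, r1, r2, r3, c6⟩ := H.config
  have a3 := (H.conj a1).1
  obtain ⟨A, hA⟩ : ∃ A, A = zpowers v ⊔ (zpowers b ⊔ W) := ⟨_, rfl⟩
  obtain ⟨B, hB⟩ : ∃ B, B = zpowers s ⊔ (zpowers a ⊔ V) := ⟨_, rfl⟩
  have A1 : W ≤ A := hA ▸ le_sup_of_le_right le_sup_right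
  have B1 : V ≤ B := hB ▸ le_sup_of_le_right le_sup_right
  have A2 : b ∈ A := hA ▸ mem_sup_right (mem_sup_left (mem_zpowers b))
  have B2 : a ∈ B := hB ▸ mem_sup_right (mem_sup_left (mem_zpowers a))
  have A3 := half d2 w4 d8 (d1 v1) v2 A1 (hA ▸ mem_sup_left (mem_zpowers v))
  have B3 := half d1 v4 d8 (d2 s1) s2 B1 (hB ▸ mem_sup_left (mem_zpowers s))
  have A4 : Nat.card A ≤ 24 := hA ▸ s4 w4 b3 vv b2 v3 (c2 ▸ mem_sup_left (inv_mem (mem_zpowers b)))
  have B4 : Nat.card B ≤ 24 := hB ▸ s4 v4 a3 ss a2 s3 c1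
  have A5 := (H.orb_ge w4 b3 b2 c4 A1 A2).trans (Nat.mul_le_mul_left _ A4)
  have B5 := (H.orb_ge v4 a3 a2 c3 B1 B2).trans (Nat.mul_le_mul_left _ B4)
  have h1 := H.pi_three b3
  have h2 := (H.orb8 d8).1
  have h3 : ox x A + ox x B ≤ ox x D + ox x (A ⊔ B) := orb_ineq _ A3 B3
  refine alt_of H.card (H := A ⊔ B) (fun e => ?_) (not_lt.1 fun e => c6 ?_)
  · have : ox x ⊤ ≤ 1 := Finite.card_le_one_iff_subsingleton.2 ⟨by
      rintro ⟨_, g, rfl⟩ ⟨_, h, rfl⟩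
      exact Quotient.sound' ⟨⟨g * h⁻¹, trivial⟩, Subtype.ext (show (g * h⁻¹) • h • _ = g • _ by
        rw [smul_smul, inv_mul_cancel_right])⟩⟩
    rw [e] at h3
    omega
  have h4 := (A ⊔ B).index_mul_card
  have h5 : 9 ∣ Nat.card ↥(A ⊔ B) := by_contra fun h => (nine a3 b3 (mem_sup_right B2)
    (mem_sup_left A2) h).elim (fun e => b1 (a1.trans e)) fun e => b1 ((H.inv a1).trans e)
  have h6 := d8 ▸ card_dvd_of_le A3
  have h7 := b3 ▸ orderOf_dvd_of_pow_eq_one (pow_mem_card rfl A2)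
  have h8 := (A.subgroupOf (A ⊔ B)).index_mul_card
  have h9 : Nat.card A = 24 := by have := Nat.card_pos (α := A); omega
  rw [Nat.card_congr (subgroupOfEquivOfLe le_sup_left).toEquiv, h9] at h8
  have i3 : (A.subgroupOf (A ⊔ B)).index = 3 := by
    rw [H.card, ← h8] at h4
    obtain ⟨k, hk⟩ : 3 ∣ (A.subgroupOf (A ⊔ B)).index := by omega
    rw [hk] at h4 ⊢
    have : k < 5 := by nlinarith
    interval_cases k <;> omega
  have r4 : (⟨r, mem_sup_left (A3 r1)⟩ : ↥(A ⊔ B)) ^ 2 ∈ (A.subgroupOf (A ⊔ B)).normalCore := by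
    classical
    have := Fintype.ofFinite (↥(A ⊔ B) ⧸ A.subgroupOf (A ⊔ B))
    rw [normalCore_eq_ker, MonoidHom.mem_ker, map_pow]
    refine (pow_gcd_eq_one (m := 4) (n := 6)).2 ⟨?_, ?_⟩
    · rw [← map_pow, show _ ^ 4 = (1 : ↥(A ⊔ B)) from Subtype.ext r2, map_one]
    · rw [show 6 = Nat.card (Equiv.Perm (↥(A ⊔ B) ⧸ A.subgroupOf (A ⊔ B))) by
        rw [Nat.card_perm, ← index, i3]; rfl, pow_card_eq_one']
  have := (A.subgroupOf (A ⊔ B)).normalCore_le (Normal.conj_mem inferInstance _ (Normal.conj_mem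
    inferInstance _ r4 ⟨b, mem_sup_left A2⟩) ⟨a, mem_sup_right B2⟩)
  exact (show A ≤ normalizer (W : Set G) from hA ▸ sup_le (zpowers_le.2 v3)
    (sup_le (zpowers_le.2 b2) le_normalizer)) (r3 ▸ this)

end Hy

/-- A simple group of order `2520` with the class data of `A₇` is `A₇`. -/
theorem alt7 [IsSimpleGroup G] (hc : Nat.card G = 2520)
    (h2 : ∀ s t : G, orderOf s = 2 → orderOf t = 2 → IsConj s t)
    (c2 : ∀ t : G, orderOf t = 2 → Nat.card (centralizer ({t} : Set G)) = 24)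
    (c4 : ∀ r : G, orderOf r = 4 → Nat.card (centralizer ({r} : Set G)) = 4)
    (h6 : ∀ s t : G, orderOf s = 6 → orderOf t = 6 → IsConj s t)
    (c6 : ∀ s : G, orderOf s = 6 → Nat.card (centralizer ({s} : Set G)) = 12)
    {x : G} (x3 : orderOf x = 3) (cx : Nat.card (centralizer ({x} : Set G)) = 36)
    (h3 : ∀ y : G, orderOf y = 3 → IsConj x y ∨ Nat.card (centralizer ({y} : Set G)) = 9) :
    Nonempty (G ≃* alternatingGroup (Fin 7)) :=
  Hy.alt7 ⟨hc, h2, c2, c4, h6, c6, x3, cx, h3⟩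

end Cfsg.Agent.H3.AS
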