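import Cfsg.Agent.H9.AH2
import Cfsg.Agent.H8.LiftE
import Cfsg.Agent.H8.Tw

/-! The adjoint module of a simply laced Chevalley group in characteristic two. -/

set_option autoImplicit false
set_option linter.unusedSectionVars false

namespace Cfsg.Agent.H3.AT

open Cfsg.Lie Matrix Finset Cfsg.Agent.H8 Cfsg.Agent.H7 Cfsg.Agent.H9.AH

variable {D : ChevalleyDatum} {K : Type*} [Field K] [CharP K 2] [hD : RootFacts D] [hM : MatFacts D]
  [hC : ChainFacts D] [hN : NFacts D] [hS : SLFacts D] {r s k a b : ℕ} {g g' : D.group K} {v w : D.Idx → K}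

variable (D K) in
/-- The matrix of a group element. -/
def mtH : D.group K →* Matrix D.Idx D.Idx K := (Units.coeHom _).comp (D.group K).subtype

variable (D K) in
/-- The action on the adjoint module. -/
def ac : D.group K →* Module.End K (D.Idx → K) :=
  (Matrix.toLinAlgEquiv' (R := K) (n := D.Idx)).toAlgHom.toRingHom.toMonoidHom.comp (mtH D K)

theorem ac_apply (g : D.group K) (v : D.Idx → K) : ac D K g v = mtH D K g *ᵥ v := rfl

theorem ac_x (r : ℕ) (t : K) (v : D.Idx → K) : ac D K (xg D K r t) v = D.x K r t *ᵥ v := rfl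

theorem ac_mul (g g' : D.group K) (v : D.Idx → K) : ac D K (g * g') v = ac D K g (ac D K g' v) := by
  rw [map_mul]; rfl

theorem ac_one (v : D.Idx → K) : ac D K 1 v = v := by rw [map_one]; rfl

theorem ac_inv_ac (g : D.group K) (v : D.Idx → K) : ac D K g⁻¹ (ac D K g v) = v := by
  rw [← ac_mul, inv_mul_cancel, ac_one]

theorem ac_ac_inv (g : D.group K) (v : D.Idx → K) : ac D K g (ac D K g⁻¹ v) = v := by
  rw [← ac_mul, mul_inv_cancel, ac_one]

theorem ac_inj (h : ∀ v, ac D K g v = v) : g = 1 := by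
  refine Subtype.ext (Units.ext ?_)
  have : ac D K g = 1 := LinearMap.ext h
  exact (Matrix.toLinAlgEquiv' (R := K) (n := D.Idx)).injective (this.trans (map_one _).symm)

theorem vadd (v : D.Idx → K) : v + v = 0 := by
  funext c; exact CharTwo.add_self_eq_zero _

theorem vneg (v : D.Idx → K) : -v = v := neg_eq_of_add_eq_zero_left (vadd v)

theorem vsub (v w : D.Idx → K) : v - w = v + w := by rw [sub_eq_add_neg, vneg]

theorem st : IsSt D (xg D K) := (H7.isChev_xg (D := D) (F := K)).toIsSt

theorem x_inv (r : ℕ) (t : K) : (xg D K r t)⁻¹ = xg D K r t := by rw [← st.neg, CharTwo.neg_eq]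

theorem x_mul_self (r : ℕ) (t : K) : xg D K r t * xg D K r t = 1 := by
  rw [← st.add, CharTwo.add_self_eq_zero, st.zero]

theorem x_nonneg (h : r < D.nroots) (hs : s < D.nroots) (hA : 0 ≤ A D r s) (t : K) :
    ac D K (xg D K r t) (bas D K s) = bas D K s :=
  col_none h hs (ne_neg_of_A h (by omega)) (fun u hu i hi e => by
    have := norm_comb h hs hu (i := i) (j := 1) (by simpa using e)
    have : (1 : ℤ) ≤ i := by exact_mod_cast hi
    nlinarith) t

theorem x_sum (h : r < D.nroots) (hs : s < D.nroots) (hk : k < D.nroots) (e : wt D k = wt D r + wt D s) (t : K) :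
    ac D K (xg D K r t) (bas D K s) = bas D K s + t • bas D K k := by
  have hA := A_of_sum h hs hk e
  obtain ⟨k', h1, h2⟩ := hS.chain1 r s h hs hA
  obtain rfl : k' = k := Option.some_injective _ (h1.symm.trans (hC.complete _ _ _ h hs hk e))
  rw [ac_x, col_one (fun e => by rw [e, A_self h] at hA; omega) (ne_neg_of_A h hA.ge) h1 (fun u hu i hi e => by
    have := norm_comb h hs hu (i := i) (j := 1) (by simpa using e)
    have : (2 : ℤ) ≤ i := by exact_mod_cast hi
    rw [hA] at *
    nlinarith)]
  rcases h2 with h2 | h2 <;> simp [h2, CharTwo.neg_eq]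

theorem x_neg (h : r < D.nroots) (t : K) :
    ac D K (xg D K r t) (bas D K (D.neg r)) = bas D K (D.neg r) + t • hr D K r + t ^ 2 • bas D K r := by
  rw [ac_x, col_neg h, vsub]

theorem x_h (h : r < D.nroots) (t : K) (s : ℕ) :
    ac D K (xg D K r t) (hr D K s) = hr D K s + ((A D s r : K) * t) • bas D K r := by
  rw [ac_x, col_hr h, vsub]

theorem decomp (v : D.Idx → K) : v = ∑ i : Fin D.rank, v (Sum.inl i) • hr D K (D.simple i) +
    ∑ u : Fin D.nroots, v (Sum.inr u) • bas D K u := by
  funext c
  rcases c with i | u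
  · simp [Finset.sum_apply, hr, hv, hD.cor_simple, Pi.single_apply, bas_inl']
  · simp [Finset.sum_apply, bas_inr, Fin.ext_iff.symm]

theorem hom_ext {M : Type*} [AddCommGroup M] [Module K M] {f f' : (D.Idx → K) →ₗ[K] M}
    (h1 : ∀ s < D.nroots, f (bas D K s) = f' (bas D K s))
    (h2 : ∀ i : Fin D.rank, f (hr D K (D.simple i)) = f' (hr D K (D.simple i))) : f = f' := by
  refine LinearMap.ext fun v => ?_
  rw [decomp v]
  simp only [map_add, map_sum, map_smul, h1 _ (Fin.is_lt _), h2]

variable (D K) in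
/-- The Gram matrix of the invariant form. -/
def JJ : Matrix D.Idx D.Idx K := Matrix.of fun a b =>
  match a, b with
  | Sum.inr u, Sum.inr u' => if u.1 = D.neg u' then 1 else 0
  | Sum.inl i, Sum.inl j => (A D (D.simple i) (D.simple j) : K)
  | _, _ => 0

variable (D K) in
/-- The invariant form. -/
def kap : LinearMap.BilinForm K (D.Idx → K) := Matrix.toBilin' (JJ D K)

theorem kap_apply (v w : D.Idx → K) : kap D K v w = ∑ i, ∑ j, v i * JJ D K i j * w j := Matrix.toBilin'_apply _ _ _

theorem kap_e (v : D.Idx → K) (h : r < D.nroots) : kap D K v (bas D K r) = v (Sum.inr ⟨D.neg r, neg_lt h⟩) := by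
  have e : bas D K r = Pi.single (Sum.inr ⟨r, h⟩) 1 := bas_enc D K (Sum.inr ⟨r, h⟩)
  simp [kap_apply, e, Pi.single_apply, Fintype.sum_sum_type, JJ]
  rw [Finset.sum_eq_single ⟨D.neg r, neg_lt h⟩] <;> simp +contextual [Fin.ext_iff]

theorem kap_comm (v w : D.Idx → K) : kap D K v w = kap D K w v := by
  rw [kap_apply, kap_apply, Finset.sum_comm]
  refine sum_congr rfl fun i _ => sum_congr rfl fun j _ => ?_
  have : JJ D K j i = JJ D K i j := by
    rcases i with i | i <;> rcases j with j | j <;> simp only [JJ, of_apply]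
    · rw [A_symm]
    · exact if_congr ⟨eq_neg_comm i.2, eq_neg_comm j.2⟩ rfl rfl
  rw [this]; ring

theorem kap_ee (hs : s < D.nroots) (h : r < D.nroots) :
    kap D K (bas D K s) (bas D K r) = if s = D.neg r then 1 else 0 := by
  rw [kap_e _ h, bas_inr]; simp only [eq_comm]

theorem kap_he (s : ℕ) (h : r < D.nroots) : kap D K (hr D K s) (bas D K r) = 0 := by rw [kap_e _ h, hr_inr]

theorem kap_eh (s : ℕ) (h : r < D.nroots) : kap D K (bas D K r) (hr D K s) = 0 := by rw [kap_comm, kap_he s h]

theorem kap_hh (r s : ℕ) : kap D K (hr D K r) (hr D K s) = (A D r s : K) := by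
  have : A D r s = ∑ i : Fin D.rank, ∑ j : Fin D.rank, cor D r i * A D (D.simple i) (D.simple j) * cor D s j := by
    rw [A, dotProduct]
    refine sum_congr rfl fun i _ => ?_
    rw [← A_simple, A_symm, A, dotProduct, mul_sum]
    refine sum_congr rfl fun j _ => ?_
    rw [← A_simple, A_symm]; ring
  simp [kap_apply, Fintype.sum_sum_type, JJ, hr, hv, this]

variable (D K) in
/-- The rank one part of a root element. -/
def pr (r : ℕ) : Module.End K (D.Idx → K) := ((kap D K).flip (bas D K r)).smulRight (bas D K r)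

theorem pr_apply (r : ℕ) (v : D.Idx → K) : pr D K r v = kap D K v (bas D K r) • bas D K r := rfl

variable (D K) in
/-- The adjoint action of a root vector. -/
def ad (r : ℕ) : Module.End K (D.Idx → K) := ac D K (xg D K r 1) - 1 - pr D K r

theorem ad_apply (r : ℕ) (v : D.Idx → K) :
    ad D K r v = ac D K (xg D K r 1) v + v + kap D K v (bas D K r) • bas D K r := by
  rw [ad, LinearMap.sub_apply, LinearMap.sub_apply, vsub, vsub]; rfl

theorem ad_nonneg (h : r < D.nroots) (hs : s < D.nroots) (hA : 0 ≤ A D r s) : ad D K r (bas D K s) = 0 := by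
  rw [ad_apply, x_nonneg h hs hA, vadd, kap_ee hs h, if_neg (ne_neg_of_A h (by omega))]; simp

theorem ad_sum (h : r < D.nroots) (hs : s < D.nroots) (hk : k < D.nroots) (e : wt D k = wt D r + wt D s) :
    ad D K r (bas D K s) = bas D K k := by
  rw [ad_apply, x_sum h hs hk e, kap_ee hs h, if_neg (ne_neg_of_A h (A_of_sum h hs hk e).ge), add_right_comm _ _ (bas D K s),
    vadd]
  simp

theorem ad_neg (h : r < D.nroots) : ad D K r (bas D K (D.neg r)) = hr D K r := by
  rw [ad_apply, x_neg h, kap_ee (neg_lt h) h, if_pos rfl]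
  simp only [one_smul, one_pow]
  linear_combination (exp := 1) vadd (bas D K (D.neg r)) + vadd (bas D K r)

theorem ad_h (h : r < D.nroots) (s : ℕ) : ad D K r (hr D K s) = (A D s r : K) • bas D K r := by
  rw [ad_apply, x_h h, kap_he s h, add_right_comm _ _ (hr D K s), vadd]; simp

theorem wt_refl_neg (h : A D r s = -1) : wt D (refl D r s) = wt D r + wt D s := by
  rw [wt_refl, h]; simp [add_comm]

theorem refl_lt (r : ℕ) (hs : s < D.nroots) : refl D r s < D.nroots := W_lt (refl_mem r) hs

theorem A_cases' (h : r < D.nroots) (hs : s < D.nroots) : 0 ≤ A D r s ∨ s = D.neg r ∨ A D r s = -1 := by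
  rcases A_cases h hs with e | e | e | e | e
  · left; rw [e, A_self h]; omega
  all_goals omega

theorem x_eq (h : r < D.nroots) (t : K) (v : D.Idx → K) :
    ac D K (xg D K r t) v = v + t • ad D K r v + (t ^ 2 * kap D K v (bas D K r)) • bas D K r := by
  have : ac D K (xg D K r t) = 1 + t • ad D K r + t ^ 2 • pr D K r := by
    refine hom_ext (fun s hs => ?_) fun i => ?_ <;>
      simp only [LinearMap.add_apply, LinearMap.smul_apply, Module.End.one_apply, pr_apply]
    · rcases A_cases' h hs with e | rfl | e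
      · rw [x_nonneg h hs e, ad_nonneg h hs e, kap_ee hs h, if_neg (ne_neg_of_A h (by omega))]; simp
      · rw [x_neg h, ad_neg h, kap_ee hs h, if_pos rfl, one_smul]
      · rw [x_sum h hs (refl_lt r hs) (wt_refl_neg e), ad_sum h hs (refl_lt r hs) (wt_refl_neg e), kap_ee hs h,
          if_neg (ne_neg_of_A h e.ge)]; simp
    · rw [x_h h, ad_h h, kap_he _ h, smul_smul, mul_comm]; simp
  rw [this, mul_smul]; rfl

theorem kap_ad_ee (h : r < D.nroots) (hs : s < D.nroots) (hk : k < D.nroots) :
    kap D K (ad D K r (bas D K s)) (bas D K k) = if wt D r + wt D s + wt D k = 0 then 1 else 0 := by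
  rcases A_cases' h hs with e | rfl | e
  · rw [ad_nonneg h hs e, if_neg fun e' => ?_]
    · simp
    have := A_of_sum h hs (neg_lt hk) (by rw [wt_neg hk]; linear_combination -e')
    omega
  · rw [ad_neg h, kap_he _ hk, if_neg]
    rw [wt_neg h]; simpa using wt_ne_zero hk
  · rw [ad_sum h hs (refl_lt r hs) (wt_refl_neg e), kap_ee (refl_lt r hs) hk, ← wt_refl_neg e]
    refine if_congr ⟨fun e' => by rw [e', wt_neg hk]; simp, fun e' => eq_neg_of_wt (refl_lt r hs) hk ?_⟩ rfl rfl
    linear_combination e'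

theorem kap_ad_eh (h : r < D.nroots) (hs : s < D.nroots) (a : ℕ) :
    kap D K (ad D K r (bas D K s)) (hr D K a) = kap D K (bas D K s) (ad D K r (hr D K a)) := by
  rw [ad_h h, map_smul, kap_ee hs h, smul_eq_mul]
  rcases A_cases' h hs with e | rfl | e
  · rw [ad_nonneg h hs e, if_neg (ne_neg_of_A h (by omega))]; simp
  · rw [ad_neg h, kap_hh, if_pos rfl, mul_one, A_symm]
  · rw [ad_sum h hs (refl_lt r hs) (wt_refl_neg e), kap_eh _ (refl_lt r hs), if_neg (ne_neg_of_A h e.ge), mul_zero]

theorem kap_ad (h : r < D.nroots) (v w : D.Idx → K) : kap D K (ad D K r v) w = kap D K v (ad D K r w) := by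
  have : (kap D K).compl₁₂ (ad D K r) 1 = (kap D K).compl₁₂ 1 (ad D K r) := by
    refine hom_ext (fun s hs => hom_ext (fun k hk => ?_) fun i => ?_) fun i => hom_ext (fun k hk => ?_) fun j => ?_ <;>
      simp only [LinearMap.compl₁₂_apply, Module.End.one_apply]
    · rw [kap_comm (bas D K s), kap_ad_ee h hs hk, kap_ad_ee h hk hs, add_right_comm]
    · exact kap_ad_eh h hs _
    · rw [kap_comm, ← kap_ad_eh h hk, kap_comm]
    · rw [ad_h h, ad_h h, map_smul, map_smul, LinearMap.smul_apply, kap_he _ h, kap_eh _ h, smul_zero, smul_zero]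
  exact LinearMap.congr_fun₂ this v w

theorem ind_group {P : D.group K → Prop} (h1 : P 1) (hx : ∀ r < D.nroots, ∀ t, P (xg D K r t))
    (hm : ∀ a b, P a → P b → P (a * b)) (g : D.group K) : P g := by
  have : g ∈ GG (xg D K) := (H7.GG_xg (D := D) (F := K)).ge (Subgroup.mem_top g)
  have key : P g ∧ P g⁻¹ := by
    induction this using Subgroup.closure_induction with
    | mem y hy =>
      obtain ⟨r, -, t, rfl⟩ := hy
      rw [x_inv, and_self]
      by_cases h : r < D.nroots
      · exact hx r h t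
      · rw [st.out r (not_lt.1 h)]; exact h1
    | one => simpa using h1
    | mul a b _ _ ha hb => exact ⟨hm _ _ ha.1 hb.1, by rw [_root_.mul_inv_rev]; exact hm _ _ hb.2 ha.2⟩
    | inv a _ ha => simpa using ha.symm
  exact key.1

theorem kap_ac (g : D.group K) : ∀ v w, kap D K (ac D K g v) w = kap D K v (ac D K g⁻¹ w) := by
  refine ind_group (P := fun g => ∀ v w, kap D K (ac D K g v) w = kap D K v (ac D K g⁻¹ w)) (fun v w => by
    rw [inv_one, ac_one, ac_one]) (fun r h t v w => ?_) (fun a b ha hb v w => by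
    rw [ac_mul, ha, hb, _root_.mul_inv_rev, ac_mul]) g
  rw [x_inv, x_eq h, x_eq h]
  simp only [map_add, map_smul, LinearMap.add_apply, LinearMap.smul_apply, smul_eq_mul, kap_ad h, kap_comm w]
  ring

theorem kap_ac' (g : D.group K) (v w : D.Idx → K) : kap D K v (ac D K g w) = kap D K (ac D K g⁻¹ v) w := by
  rw [kap_ac, inv_inv]

theorem kap_ac_ac (g : D.group K) (v w : D.Idx → K) : kap D K (ac D K g v) (ac D K g w) = kap D K v w := by
  rw [kap_ac, ac_inv_ac]

end Cfsg.Agent.H3.AT
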