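import Cfsg.Agent.H3.AT1

/-! Gradings of the adjoint module; the action of monomial elements. -/

set_option autoImplicit false
set_option linter.unusedSectionVars false

namespace Cfsg.Agent.H3.AT

open Cfsg.Lie Matrix Finset Cfsg.Agent.H8 Cfsg.Agent.H7 Cfsg.Agent.H9.AH

variable {D : ChevalleyDatum} {K : Type*} [Field K] [CharP K 2] [hD : RootFacts D] [hM : MatFacts D]
  [hC : ChainFacts D] [hN : NFacts D] [hS : SLFacts D] {r s a b θ : ℕ} {g g' : D.group K} {v v' : D.Idx → K}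
  {φ : (Fin D.rank → ℤ) →ₗ[ℤ] ℤ} {k l m : ℤ} {w : Equiv.Perm ℕ}

variable (D) in
/-- The grading by a root. -/
def lv (θ : ℕ) : (Fin D.rank → ℤ) →ₗ[ℤ] ℤ := dotProductBilin ℤ ℤ (cor D θ)

theorem lv_wt (θ r : ℕ) : lv D θ (wt D r) = A D θ r := rfl

variable (K) in
/-- Vectors of level at least `k`. -/
def Ge (φ : (Fin D.rank → ℤ) →ₗ[ℤ] ℤ) (k : ℤ) : Submodule K (D.Idx → K) where
  carrier := {v | ∀ c, φ (wtI D c) < k → v c = 0}
  add_mem' h h' c hc := by rw [Pi.add_apply, h c hc, h' c hc, add_zero]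
  zero_mem' _ _ := rfl
  smul_mem' t _ h c hc := by rw [Pi.smul_apply, h c hc, smul_zero]

variable (K) in
/-- Vectors of level `k`. -/
def Lv (φ : (Fin D.rank → ℤ) →ₗ[ℤ] ℤ) (k : ℤ) : Submodule K (D.Idx → K) where
  carrier := {v | ∀ c, φ (wtI D c) ≠ k → v c = 0}
  add_mem' h h' c hc := by rw [Pi.add_apply, h c hc, h' c hc, add_zero]
  zero_mem' _ _ := rfl
  smul_mem' t _ h c hc := by rw [Pi.smul_apply, h c hc, smul_zero]

theorem Lv_le_Ge (h : l ≤ k) : Lv K φ k ≤ Ge K φ l := fun _ hv c hc => hv c (by omega)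

theorem Ge_mono (h : l ≤ k) : Ge K φ k ≤ Ge K φ l := fun _ hv c hc => hv c (by omega)

theorem Lv_neg (h : v ∈ Lv K φ k) : v ∈ Lv K (-φ) (-k) := fun c hc => h c fun e => hc (by simp [e])

theorem Lv_Ge_zero (h : v ∈ Lv K φ k) (h' : v ∈ Ge K φ (k + 1)) : v = 0 := funext fun c => by
  by_cases e : φ (wtI D c) = k
  · exact h' c (by omega)
  · exact h c e

theorem Lv_Lv_zero (h : v ∈ Lv K φ k) (h' : v ∈ Lv K φ l) (e : k ≠ l) : v = 0 := funext fun c => by
  by_cases e' : φ (wtI D c) = k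
  · exact h' c (by omega)
  · exact h c e'

theorem e_Lv (h : r < D.nroots) (e : φ (wt D r) = k) : bas D K r ∈ Lv K φ k := by
  rintro (i | u) hc
  · exact bas_inl' h i
  · rw [bas_inr, if_neg]
    rintro rfl
    exact hc e

theorem e_Ge (h : r < D.nroots) (e : k ≤ φ (wt D r)) : bas D K r ∈ Ge K φ k := Lv_le_Ge e (e_Lv h rfl)

theorem h_Lv (s : ℕ) : hr D K s ∈ Lv K φ 0 := by
  rintro (i | u) hc
  · exact absurd (by simp [wtI]) hc
  · rfl

theorem Lv_ind (Y : Submodule K (D.Idx → K)) (h1 : ∀ r < D.nroots, φ (wt D r) = k → bas D K r ∈ Y)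
    (h2 : k = 0 → ∀ i : Fin D.rank, hr D K (D.simple i) ∈ Y) : Lv K φ k ≤ Y := fun v hv => by
  rw [decomp v]
  refine add_mem (Submodule.sum_mem _ fun i _ => ?_) (Submodule.sum_mem _ fun u _ => ?_)
  · by_cases e : k = 0
    · exact Y.smul_mem _ (h2 e i)
    · rw [hv _ (by simpa [wtI] using Ne.symm e), zero_smul]; exact zero_mem _
  · by_cases e : φ (wt D u) = k
    · exact Y.smul_mem _ (h1 u u.2 e)
    · rw [hv (Sum.inr u) e, zero_smul]; exact zero_mem _

theorem Ge_ind (Y : Submodule K (D.Idx → K)) (h : ∀ l, k ≤ l → Lv K φ l ≤ Y) : Ge K φ k ≤ Y := fun v hv => by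
  rw [decomp v]
  refine add_mem (Submodule.sum_mem _ fun i _ => ?_) (Submodule.sum_mem _ fun u _ => ?_)
  · by_cases e : k ≤ 0
    · exact Y.smul_mem _ (h 0 e (h_Lv _))
    · rw [hv _ (by simpa [wtI] using e), zero_smul]; exact zero_mem _
  · by_cases e : k ≤ φ (wt D u)
    · exact Y.smul_mem _ (h _ e (e_Lv u.2 rfl))
    · rw [hv (Sum.inr u) (not_le.1 e), zero_smul]; exact zero_mem _

theorem Lv_map {M : Type*} [AddCommGroup M] [Module K M] (f : (D.Idx → K) →ₗ[K] M) (Y : Submodule K M)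
    (h1 : ∀ r < D.nroots, φ (wt D r) = k → f (bas D K r) ∈ Y)
    (h2 : k = 0 → ∀ i : Fin D.rank, f (hr D K (D.simple i)) ∈ Y) (hv : v ∈ Lv K φ k) : f v ∈ Y :=
  Lv_ind (Y.comap f) h1 h2 hv

theorem kap_zero (h : ∀ c c', wtI D c + wtI D c' = 0 → v c = 0 ∨ v' c' = 0) : kap D K v v' = 0 := by
  rw [kap_apply]
  refine sum_eq_zero fun i _ => sum_eq_zero fun j _ => ?_
  by_cases e : wtI D i + wtI D j = 0
  · rcases h i j e with e | e <;> simp [e]
  · have : JJ D K i j = 0 := by
      rcases i with i | i <;> rcases j with j | j <;> simp only [JJ, of_apply]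
      · exact absurd (by simp [wtI]) e
      · exact if_neg fun e' => e (by simp [wtI, e', wt_neg j.2])
    simp [this]

theorem kap_Ge (h : v ∈ Ge K φ k) (h' : v' ∈ Ge K φ l) (e : 0 < k + l) : kap D K v v' = 0 := kap_zero fun c c' e' => by
  have := congrArg φ e'
  rw [map_add, map_zero] at this
  by_cases h1 : φ (wtI D c) < k
  · exact Or.inl (h c h1)
  · exact Or.inr (h' c' (by omega))

theorem kap_Lv (h : v ∈ Lv K φ k) (h' : v' ∈ Lv K φ l) (e : k + l ≠ 0) : kap D K v v' = 0 := kap_zero fun c c' e' => by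
  have := congrArg φ e'
  rw [map_add, map_zero] at this
  by_cases h1 : φ (wtI D c) = k
  · exact Or.inr (h' c' (by omega))
  · exact Or.inl (h c h1)

theorem Lv_zero (h : v ∈ Lv K φ k) (hk : k ≠ 0)
    (h' : ∀ r < D.nroots, φ (wt D r) = -k → kap D K v (bas D K r) = 0) : v = 0 := by
  funext c
  by_cases e : φ (wtI D c) = k
  · rcases c with i | u
    · exact absurd (e.symm.trans (by simp [wtI])) hk
    · have := h' _ (neg_lt u.2) (by rw [wt_neg u.2, map_neg]; exact congrArg _ e)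
      rw [kap_e _ (neg_lt u.2)] at this
      simpa only [neg_neg' u.2, Pi.zero_apply] using this
  · exact h c e

theorem ad_Lv (h : r < D.nroots) (hv : v ∈ Lv K φ k) : ad D K r v ∈ Lv K φ (k + φ (wt D r)) := by
  refine Lv_map _ _ (fun s hs e => ?_) (fun e i => ?_) hv
  · rcases A_cases' h hs with e' | rfl | e'
    · rw [ad_nonneg h hs e']; exact zero_mem _
    · rw [ad_neg h, ← e, wt_neg h, map_neg, neg_add_cancel]; exact h_Lv _
    · rw [ad_sum h hs (refl_lt r hs) (wt_refl_neg e')]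
      exact e_Lv (refl_lt r hs) (by rw [wt_refl_neg e', map_add, e, add_comm])
  · rw [ad_h h]; exact Submodule.smul_mem _ _ (e_Lv h (by rw [e, zero_add]))

theorem ad_Ge (h : r < D.nroots) (hv : v ∈ Ge K φ k) : ad D K r v ∈ Ge K φ (k + φ (wt D r)) :=
  Ge_ind (Submodule.comap (ad D K r) (Ge K φ (k + φ (wt D r))))
    (fun _ hl _ hv => Submodule.mem_comap.2 (Lv_le_Ge (by omega) (ad_Lv h hv))) hv

theorem pr_Ge (h : r < D.nroots) (hv : v ∈ Ge K φ k) (t : K) :
    (t * kap D K v (bas D K r)) • bas D K r ∈ Ge K φ (k + 2 * φ (wt D r)) := by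
  by_cases e : 0 < k + φ (wt D r)
  · rw [kap_Ge hv (e_Ge h le_rfl) e, mul_zero, zero_smul]; exact zero_mem _
  · exact Submodule.smul_mem _ _ (e_Ge h (by omega))

theorem pr_Lv (h : r < D.nroots) (hv : v ∈ Lv K φ k) (t : K) :
    (t * kap D K v (bas D K r)) • bas D K r ∈ Lv K φ (k + 2 * φ (wt D r)) := by
  by_cases e : k + φ (wt D r) = 0
  · exact Submodule.smul_mem _ _ (e_Lv h (by omega))
  · rw [kap_Lv hv (e_Lv h rfl) e, mul_zero, zero_smul]; exact zero_mem _

/-- A subgroup of a finite group from a multiplicatively closed predicate. -/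
def mkSub {G : Type*} [Group G] [Finite G] (P : G → Prop) (h1 : P 1) (hm : ∀ a b, P a → P b → P (a * b)) :
    Subgroup G where
  carrier := {g | P g}
  one_mem' := h1
  mul_mem' := hm _ _
  inv_mem' {a} ha := by
    have key : ∀ n, P (a ^ n) := fun n => by
      induction n with
      | zero => simpa using h1
      | succ n ih => rw [pow_succ]; exact hm _ _ ih ha
    have : a⁻¹ = a ^ (orderOf a - 1) := inv_eq_of_mul_eq_one_right (by
      rw [← pow_succ', Nat.sub_add_cancel (orderOf_pos a), pow_orderOf_eq_one])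
    exact this ▸ key _

variable [Finite (D.group K)]

variable (K) in
/-- Elements raising the level. -/
def RG (φ : (Fin D.rank → ℤ) →ₗ[ℤ] ℤ) (m : ℕ) : Subgroup (D.group K) :=
  mkSub (fun g => ∀ k, ∀ v ∈ Ge K φ k, ac D K g v + v ∈ Ge K φ (k + m))
    (fun _ v _ => by rw [ac_one, vadd]; exact zero_mem _) fun a b ha hb k v hv => by
      have h1 := hb k v hv
      have h2 := ha k _ (by
        simpa [add_assoc, vadd] using add_mem (Ge_mono (k := k + m) (l := k) (by omega) h1) hv : ac D K b v ∈ _)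
      simpa [add_assoc, ← add_assoc (ac D K b v), vadd, ac_mul] using add_mem h2 h1

theorem RG.ge {m : ℕ} (h : g ∈ RG K φ m) (hv : v ∈ Ge K φ k) : ac D K g v ∈ Ge K φ k := by
  simpa [add_assoc, vadd] using add_mem (Ge_mono (k := k + m) (l := k) (by omega) (h k v hv)) hv

theorem x_RG {m : ℕ} (h : r < D.nroots) (e : (m : ℤ) ≤ φ (wt D r)) (t : K) : xg D K r t ∈ RG K φ m := fun k v hv => by
  rw [x_eq h, add_right_comm, add_right_comm v, vadd, zero_add]
  exact add_mem (Submodule.smul_mem _ _ (Ge_mono (by omega) (ad_Ge h hv))) (Ge_mono (by omega) (pr_Ge h hv _))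

theorem XS_RG {m : ℕ} {T : Set ℕ} (h : ∀ r ∈ T, r < D.nroots ∧ (m : ℤ) ≤ φ (wt D r)) : XS (xg D K) T ≤ RG K φ m :=
  XS_le.2 fun r hr t => x_RG (h r hr).1 (h r hr).2 t

theorem UU_RG : UU D (xg D K) ≤ RG K (ordL D) 1 := XS_RG fun _ hr => ⟨hr.1, pos_iff'.1 hr⟩

variable (K) in
/-- Elements preserving the level. -/
def LP (φ : (Fin D.rank → ℤ) →ₗ[ℤ] ℤ) : Subgroup (D.group K) :=
  mkSub (fun g => ∀ k, ∀ v ∈ Lv K φ k, ac D K g v ∈ Lv K φ k)
    (fun _ v hv => by rwa [ac_one]) fun a b ha hb k v hv => by rw [ac_mul]; exact ha _ _ (hb _ _ hv)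

theorem x_LP (h : r < D.nroots) (e : φ (wt D r) = 0) (t : K) : xg D K r t ∈ LP K φ := fun k v hv => by
  rw [x_eq h]
  exact add_mem (add_mem hv (Submodule.smul_mem _ _ (by simpa [e] using ad_Lv h hv))) (by simpa [e] using pr_Lv h hv _)

theorem RG_LP (h : g ∈ RG K φ 1) (h' : g ∈ LP K φ) : g = 1 := by
  have key : ∀ k, ∀ v ∈ Lv K φ k, ac D K g v = v := fun k v hv => by
    have := Lv_Ge_zero (add_mem (h' k v hv) hv) (h k v (Lv_le_Ge le_rfl hv))
    rw [← vsub, sub_eq_zero] at this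
    exact this
  have : ac D K g = 1 := hom_ext (fun s hs => key _ _ (e_Lv hs rfl)) fun i => key _ _ (h_Lv _)
  exact ac_inj fun v => by rw [this]; rfl

theorem kap_RG {m : ℕ} (h : g ∈ RG K φ m) (hv : v ∈ Ge K φ k) (hv' : v' ∈ Ge K φ l) (e : 0 < k + l + m) :
    kap D K (ac D K g v) v' = kap D K v v' := by
  have := kap_Ge (h k v hv) hv' (by omega)
  rwa [map_add, LinearMap.add_apply, CharTwo.add_eq_zero] at this

theorem kap_UU (h : g ∈ UU D (xg D K)) (hr : r < D.nroots) (hs : s < D.nroots) (e : s ≤ r) :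
    kap D K (ac D K g (bas D K r)) (bas D K (D.neg s)) = if r = s then 1 else 0 := by
  rw [kap_RG (UU_RG h) (e_Ge hr le_rfl) (e_Ge (neg_lt hs) le_rfl), kap_ee hr (neg_lt hs), neg_neg' hs]
  have : ordv D s ≤ ordv D r := by
    rcases e.eq_or_lt with rfl | e
    · rfl
    · exact (ordv_lt e hr).le
  rw [ordL_wt, ordL_wt, ordv_neg hs]; omega

variable (D K) in
/-- The element `n_r(1)`. -/
def nn (r : ℕ) : D.group K := xg D K r 1 * xg D K (D.neg r) 1 * xg D K r 1

theorem nn_eq (r : ℕ) : nE D (xg D K) r 1 = nn D K r := by simp [nE, nn, CharTwo.neg_eq]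

theorem nn_nrep (h : r < D.nroots) : NRep D (xg D K) (nn D K r) (refl D r) := 
  nn_eq (D := D) (K := K) r ▸ NRep.nE st h one_ne_zero

theorem nn_mul_self (r : ℕ) : nn D K r * nn D K r = 1 := by
  simp only [nn, mul_assoc, ← mul_assoc (xg D K r 1) (xg D K r 1), x_mul_self, one_mul,
    ← mul_assoc (xg D K (D.neg r) 1) (xg D K (D.neg r) 1)]

theorem nn_inv (r : ℕ) : (nn D K r)⁻¹ = nn D K r := inv_eq_of_mul_eq_one_right (nn_mul_self r)

theorem nn_conj (h : r < D.nroots) (s : ℕ) (t : K) : nn D K r * xg D K s t * (nn D K r)⁻¹ = xg D K (refl D r s) t := by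
  rw [← nn_eq, st.acts_nE h one_ne_zero s t]
  rcases H8.eta_cases (D := D) r s with e | e <;> simp [e, CharTwo.neg_eq]

theorem nn_e (h : r < D.nroots) (hs : s < D.nroots) : ac D K (nn D K r) (bas D K s) = bas D K (refl D r s) := by
  have h' := neg_lt h
  have h2 : ((2 : ℤ) : K) = 0 := by exact_mod_cast CharTwo.two_eq_zero
  have y1 := x_neg (K := K) h' 1
  rw [neg_neg' h] at y1
  have y2 : hr D K (D.neg r) = hr D K r := by
    funext c; rcases c with i | u <;> simp [hr, hv, cor_neg h, CharTwo.neg_eq]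
  have hk := refl_lt r hs
  rw [nn, ac_mul, ac_mul]
  rcases A_cases h hs with rfl | rfl | e | e | e
  · rw [x_nonneg h h (by rw [A_self h]; omega), y1, refl_self h, y2]
    simp only [map_add, one_smul, one_pow, x_nonneg h h (by rw [A_self h]; omega), x_neg h, x_h h, A_self h, h2, zero_mul,
      zero_smul, add_zero]
    linear_combination (exp := 1) vadd (bas D K s) + vadd (hr D K s)
  · rw [x_neg h, refl_neg_self h]
    simp only [map_add, one_smul, one_pow, x_nonneg h h (by rw [A_self h]; omega), x_neg h, x_h h, x_h h', A_self h, h2,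
      zero_mul, zero_smul, add_zero, y1, y2, x_nonneg h' h' (by rw [A_self h']; omega), A_neg_right _ h, Int.cast_neg,
      neg_zero]
    linear_combination (exp := 1) vadd (bas D K (D.neg r)) + 2 • vadd (hr D K r) + vadd (bas D K r)
  · rw [x_nonneg h hs e.ge, x_nonneg h' hs (by rw [A_neg_left h]; omega), x_nonneg h hs e.ge, refl_of_orth e]
  · have e1 : wt D (refl D r s) = wt D (D.neg r) + wt D s := by rw [wt_refl, e, wt_neg h]; simp [add_comm, sub_eq_add_neg]
    rw [x_nonneg h hs (by omega), x_sum h' hs hk e1, map_add, one_smul, x_nonneg h hs (by omega),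
      x_sum h hk hs (by rw [e1, wt_neg h]; simp), one_smul, add_left_comm, vadd, add_zero]
  · have e1 := wt_refl_neg e
    rw [x_sum h hs hk e1, map_add, one_smul, x_nonneg h' hs (by rw [A_neg_left h]; omega),
      x_sum h' hk hs (by rw [e1, wt_neg h]; simp), one_smul, add_left_comm, vadd, add_zero,
      x_nonneg h hk (by rw [A_refl_right]; omega)]

variable (D K) in
/-- The Cartan subalgebra. -/
def Car : Submodule K (D.Idx → K) := Submodule.span K (Set.range (hr D K))

theorem nn_h (h : r < D.nroots) (s : ℕ) : ac D K (nn D K r) (hr D K s) ∈ Car D K := by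
  have h' := neg_lt h
  have y1 := x_neg (K := K) h' 1
  rw [neg_neg' h] at y1
  have : ac D K (nn D K r) (hr D K s) = hr D K s + (A D s r : K) • hr D K (D.neg r) := by
    have h2 : ((2 : ℤ) : K) = 0 := by exact_mod_cast CharTwo.two_eq_zero
    rw [nn, ac_mul, ac_mul]
    simp only [map_add, map_smul, one_smul, one_pow, x_nonneg h h (by rw [A_self h]; omega), x_neg h, x_h h, x_h h', y1,
      A_neg_right _ h, A_neg_left h, A_self h, Int.cast_neg, CharTwo.neg_eq, mul_one, h2, zero_smul, add_zero, smul_add]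
    have y2 : hr D K (D.neg r) = hr D K r := by
      funext c; rcases c with i | u <;> simp [hr, hv, cor_neg h, CharTwo.neg_eq]
    rw [y2]
    linear_combination (exp := 1) vadd ((A D s r : K) • bas D K (D.neg r)) + vadd ((A D s r : K) • hr D K r) +
      2 • vadd ((A D s r : K) • bas D K r)
  rw [this]
  exact add_mem (Submodule.subset_span ⟨_, rfl⟩) (Submodule.smul_mem _ _ (Submodule.subset_span ⟨_, rfl⟩))

theorem Car_le : Car D K ≤ Lv K φ 0 := Submodule.span_le.2 (by rintro _ ⟨s, rfl⟩; exact h_Lv s)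

theorem nrep_spec (hn : NRep D (xg D K) g w) : ∃ a : Fin D.rank → Kˣ,
    (∀ s t, g * xg D K s t * g⁻¹ = xg D K (w s) (torChar a (wt D (w s)) * t)) ∧
    (∀ s < D.nroots, ac D K g (bas D K s) = (torChar a (wt D (w s)) : K) • bas D K (w s)) ∧
    ∀ s, ac D K g (hr D K s) ∈ Car D K := by
  obtain ⟨L, rfl, h⟩ := hn
  have key : (∀ s t, nWd D (xg D K) L * xg D K s t * (nWd D (xg D K) L)⁻¹ = xg D K (wordW D L s) t) ∧
      (∀ s < D.nroots, ac D K (nWd D (xg D K) L) (bas D K s) = bas D K (wordW D L s)) ∧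
      Car D K ≤ (Car D K).comap (ac D K (nWd D (xg D K) L)) := by
    clear h
    induction L with
    | nil => exact ⟨by simp, fun s _ => ac_one _, fun v hv => by simpa [ac_one] using hv⟩
    | cons i L ih =>
      rw [nWd_cons, nn_eq, wordW_cons, ← refl_simple]
      refine ⟨fun s t => ?_, fun s hs => ?_, fun v hv => ?_⟩
      · rw [Equiv.Perm.mul_apply, ← nn_conj (simple_lt i), ← ih.1]; group
      · rw [ac_mul, ih.2.1 s hs, nn_e (simple_lt i) (W_lt (wordW_mem L) hs)]; rfl
      · rw [Submodule.mem_comap, ac_mul]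
        exact (Submodule.span_le (p := (Car D K).comap (ac D K (nn D K (D.simple i))))).2
          (by rintro _ ⟨s, rfl⟩; exact nn_h (simple_lt i) s) (ih.2.2 hv)
  obtain ⟨a, ha⟩ := exists_dg_of_mem_HH (D := D) (F := K)
    (map_HH (x := xg D K) (D.group K).subtype ▸ Subgroup.mem_map_of_mem _ h)
  generalize hh : g * (nWd D (xg D K) L)⁻¹ = y at ha
  obtain rfl : g = y * nWd D (xg D K) L := by rw [← hh]; simp
  have e : ∀ v, ac D K y v = D.charDiag K (fun s => torChar a (wt D s)) *ᵥ v := fun v =>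
    congrArg (fun g : GL D.Idx K => (g : Matrix D.Idx D.Idx K) *ᵥ v) ha
  refine ⟨a, fun s t => ?_, fun s hs => ?_, fun s => ?_⟩
  · have : y * xg D K (wordW D L s) t * y⁻¹ = xg D K (wordW D L s) (torChar a (wt D (wordW D L s)) * t) :=
      Subtype.ext (by
        have := dg_conj_xu (isRootCharacter_wt (D := D) a) (wordW D L s) t
        rwa [← ha] at this)
    rw [← this, ← key.1]; group
  · rw [ac_mul, key.2.1 s hs, e, charDiag_root _ (W_lt (wordW_mem L) hs)]
  · rw [ac_mul]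
    refine (Submodule.span_le (p := (Car D K).comap (ac D K y))).2 ?_ (key.2.2 (Submodule.subset_span ⟨s, rfl⟩))
    rintro _ ⟨s, rfl⟩
    have : ac D K y (hr D K s) = hr D K s := by
      rw [e, charDiag_eq]
      funext c; rcases c with i | u <;> simp [mulVec_diagonal, dgv]
    rw [SetLike.mem_coe, Submodule.mem_comap, this]
    exact Submodule.subset_span ⟨s, rfl⟩

theorem nrep_Lv (hn : NRep D (xg D K) g w) (hv : v ∈ Lv K (lv D θ) k) : ac D K g v ∈ Lv K (lv D (w θ)) k := by
  obtain ⟨a, -, h1, h2⟩ := nrep_spec hn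
  refine Lv_map _ _ (fun s hs e => ?_) (fun e i => ?_) hv
  · rw [h1 s hs]
    exact Submodule.smul_mem _ _ (e_Lv (W_lt hn.mem_W hs) (by rw [lv_wt, A_W hn.mem_W]; exact e))
  · exact e ▸ Car_le (h2 _)

end Cfsg.Agent.H3.AT
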