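import Cfsg.Agent.H3.AT2

/-! The Heisenberg radical and the Levi factor attached to a root. -/

set_option autoImplicit false
set_option linter.unusedSectionVars false

namespace Cfsg.Agent.H3.AT

open Cfsg.Lie Matrix Finset Cfsg.Agent.H8 Cfsg.Agent.H7 Cfsg.Agent.H9.AH

variable {D : ChevalleyDatum} {K : Type*} [Field K] [CharP K 2] [hD : RootFacts D] [hM : MatFacts D]
  [hC : ChainFacts D] [hN : NFacts D] [hS : SLFacts D] {r s a b θ β γ : ℕ} {g g' l y y' n : D.group K}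
  {v v' : D.Idx → K} {φ : (Fin D.rank → ℤ) →ₗ[ℤ] ℤ} {k m : ℤ} {w w' : Equiv.Perm ℕ} [Finite (D.group K)]

variable (D) in
/-- Roots of positive level. -/
def Qs (θ : ℕ) : Set ℕ := {r | r < D.nroots ∧ 1 ≤ A D θ r}

variable (D K) in
/-- The radical. -/
def QQ (θ : ℕ) : Subgroup (D.group K) := XS (xg D K) (Qs D θ)

theorem x_Q (h : r < D.nroots) (e : 1 ≤ A D θ r) (t : K) : xg D K r t ∈ QQ D K θ := x_mem_XS (S := Qs D θ) ⟨h, e⟩ t

theorem QQ_RG : QQ D K θ ≤ RG K (lv D θ) 1 := XS_RG fun _ hr => ⟨hr.1, hr.2⟩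

variable (D K) in
/-- The Levi factor. -/
def LL (θ : ℕ) : Subgroup (D.group K) :=
  mkSub (fun g => g ∈ LP K (lv D θ) ∧ ac D K g (bas D K θ) = bas D K θ ∧
      ac D K g (bas D K (D.neg θ)) = bas D K (D.neg θ) ∧ (∀ t, Commute g (xg D K θ t)) ∧
      (∀ t, Commute g (xg D K (D.neg θ) t)) ∧ ∀ y ∈ QQ D K θ, g * y * g⁻¹ ∈ QQ D K θ)
    ⟨one_mem _, ac_one _, ac_one _, fun _ => Commute.one_left _, fun _ => Commute.one_left _, fun y hy => by simpa⟩
    fun a b ha hb => ⟨mul_mem ha.1 hb.1, by rw [ac_mul, hb.2.1, ha.2.1], by rw [ac_mul, hb.2.2.1, ha.2.2.1],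
      fun t => (ha.2.2.2.1 t).mul_left (hb.2.2.2.1 t), fun t => (ha.2.2.2.2.1 t).mul_left (hb.2.2.2.2.1 t),
      fun y hy => by simpa [mul_assoc] using ha.2.2.2.2.2 _ (hb.2.2.2.2.2 y hy)⟩

theorem LL.lp (h : l ∈ LL D K θ) (hv : v ∈ Lv K (lv D θ) k) : ac D K l v ∈ Lv K (lv D θ) k := h.1 k v hv

theorem LL.e (h : l ∈ LL D K θ) : ac D K l (bas D K θ) = bas D K θ := h.2.1

theorem LL.f (h : l ∈ LL D K θ) : ac D K l (bas D K (D.neg θ)) = bas D K (D.neg θ) := h.2.2.1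

theorem LL.cx (h : l ∈ LL D K θ) (t : K) : Commute l (xg D K θ t) := h.2.2.2.1 t

theorem LL.cy (h : l ∈ LL D K θ) (t : K) : Commute l (xg D K (D.neg θ) t) := h.2.2.2.2.1 t

theorem LL.cq (h : l ∈ LL D K θ) (hy : y ∈ QQ D K θ) : l * y * l⁻¹ ∈ QQ D K θ := h.2.2.2.2.2 y hy

theorem LL.cn (h : l ∈ LL D K θ) : Commute l (nn D K θ) := ((LL.cx h 1).mul_right (LL.cy h 1)).mul_right (LL.cx h 1)

theorem LL.ac_n (h : l ∈ LL D K θ) (v : D.Idx → K) : ac D K l (ac D K (nn D K θ) v) = ac D K (nn D K θ) (ac D K l v) := by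
  rw [← ac_mul, (LL.cn h).eq, ac_mul]

theorem LL_Q (h : l ∈ LL D K θ) (h' : l ∈ QQ D K θ) : l = 1 := RG_LP (QQ_RG h') h.1

theorem x_LL (hθ : θ < D.nroots) (h : r < D.nroots) (e : A D θ r = 0) (t : K) : xg D K r t ∈ LL D K θ := by
  have e' : A D r θ = 0 := (A_symm r θ).trans e
  have e'' : A D r (D.neg θ) = 0 := by rw [A_neg_right _ hθ, e', neg_zero]
  refine ⟨x_LP h e t, x_nonneg h hθ e'.ge t, x_nonneg h (neg_lt hθ) e''.ge t, st.commute_of_A h e'.ge t,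
    st.commute_of_A h e''.ge t, fun y hy => st.x_conj_mem ?_ (fun s hs e1 => ?_) t hy⟩
  · rintro _ rfl s hs k hk i j - hj e1
    refine ⟨hk, ?_⟩
    have : (1 : ℤ) ≤ j := by exact_mod_cast hj
    have := hs.2
    rw [A_comb e1, e]; nlinarith
  · have := hs.2
    rw [e1, A_neg_right _ h, e] at this; omega

theorem XS_LL (hθ : θ < D.nroots) {T : Set ℕ} (h : ∀ r ∈ T, r < D.nroots ∧ A D θ r = 0) :
    XS (xg D K) T ≤ LL D K θ := XS_le.2 fun r hr t => x_LL hθ (h r hr).1 (h r hr).2 t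

theorem nn_LL (hθ : θ < D.nroots) (h : r < D.nroots) (e : A D θ r = 0) : nn D K r ∈ LL D K θ :=
  mul_mem (mul_mem (x_LL hθ h e 1) (x_LL hθ (neg_lt h) (by rw [A_neg_right _ h, e, neg_zero]) 1)) (x_LL hθ h e 1)

theorem bas_ne (h : r < D.nroots) : bas D K r ≠ 0 := fun e => by
  have := kap_ee (K := K) h (neg_lt h)
  rw [e, neg_neg' h] at this
  simp at this

theorem smul_e_inj (h : r < D.nroots) {c d : K} (e : c • bas D K r = d • bas D K r) : c = d :=
  smul_left_injective K (bas_ne h) e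

theorem conj_Q (hn : NRep D (xg D K) n w) (hy : y ∈ QQ D K θ) : n * y * n⁻¹ ∈ QQ D K (w θ) :=
  hn.conj_XS st (T := Qs D (w θ)) (fun _ hs => ⟨W_lt hn.mem_W hs.1, by rw [A_W hn.mem_W]; exact hs.2⟩) hy

theorem nrep_LL (hθ : θ < D.nroots) (hn : NRep D (xg D K) n w) (hw : w θ = θ)
    (hc : ac D K n (bas D K θ) = bas D K θ) : n ∈ LL D K θ := by
  obtain ⟨a, h1, h2, -⟩ := nrep_spec hn
  have e1 : (torChar a (wt D θ) : K) = 1 := smul_e_inj hθ (by
    have := h2 θ hθ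
    rw [hw] at this
    rw [← this, hc, one_smul])
  have e2 : w (D.neg θ) = D.neg θ := by rw [W_neg hn.mem_W hθ, hw]
  have e3 : (torChar a (wt D (D.neg θ)) : K) = 1 := by rw [wt_neg hθ, torChar_neg, Units.val_inv_eq_inv_val, e1, inv_one]
  refine ⟨fun k v hv => by simpa only [hw] using nrep_Lv hn hv, hc, by rw [h2 _ (neg_lt hθ), e2, e3, one_smul],
    fun t => ?_, fun t => ?_, fun y hy => by simpa only [hw] using conj_Q hn hy⟩
  · rw [Commute, SemiconjBy, ← mul_inv_eq_iff_eq_mul, h1, hw, e1, one_mul]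
  · rw [Commute, SemiconjBy, ← mul_inv_eq_iff_eq_mul, h1, e2, e3, one_mul]

variable (D K) in
/-- Monomial elements acting without scalars. -/
structure Ex (n : D.group K) (w : Equiv.Perm ℕ) : Prop where
  rep : NRep D (xg D K) n w
  conj : ∀ s t, n * xg D K s t * n⁻¹ = xg D K (w s) t
  e : ∀ s < D.nroots, ac D K n (bas D K s) = bas D K (w s)

theorem Ex.nn (h : r < D.nroots) : Ex D K (nn D K r) (refl D r) := ⟨nn_nrep h, nn_conj h, fun _ => nn_e h⟩

theorem Ex.mul (h : Ex D K g w) (h' : Ex D K g' w') : Ex D K (g * g') (w * w') :=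
  ⟨h.rep.mul st h'.rep, fun s t => by rw [Equiv.Perm.mul_apply, ← h.conj, ← h'.conj]; group, fun s hs => by
    rw [ac_mul, h'.e s hs, h.e _ (W_lt h'.rep.mem_W hs)]; rfl⟩

theorem Ex.inv (h : Ex D K g w) : Ex D K g⁻¹ w⁻¹ :=
  ⟨h.rep.inv st, fun s t => by
    have := h.conj (w⁻¹ s) t
    rw [perm_apply_inv] at this
    rw [← this]; group, fun s hs => by
    have := h.e _ (W_lt (inv_mem h.rep.mem_W) hs)
    rw [perm_apply_inv] at this
    rw [← this, ac_inv_ac]⟩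

theorem Ex.conj_nn (h : Ex D K g w) (hr : r < D.nroots) : g * AT.nn D K r * g⁻¹ = AT.nn D K (w r) := by
  rw [AT.nn, AT.nn, ← W_neg h.rep.mem_W hr, ← h.conj, ← h.conj]; group

theorem Ex.LL (h : Ex D K n w) (hθ : θ < D.nroots) (hl : l ∈ LL D K θ) : n * l * n⁻¹ ∈ LL D K (w θ) := by
  have hw := h.rep.mem_W
  refine ⟨fun k v hv => ?_, ?_, ?_, fun t => ?_, fun t => ?_, fun y hy => ?_⟩
  · have := nrep_Lv h.inv.rep hv
    rw [perm_inv_apply] at this
    rw [ac_mul, ac_mul]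
    exact nrep_Lv h.rep (LL.lp hl this)
  · rw [ac_mul, ac_mul, ← h.e θ hθ, ac_inv_ac, LL.e hl]
  · rw [ac_mul, ac_mul, ← W_neg hw hθ, ← h.e _ (neg_lt hθ), ac_inv_ac, LL.f hl]
  · rw [← h.conj]; exact (LL.cx hl t).conj n
  · rw [← W_neg hw hθ, ← h.conj]; exact (LL.cy hl t).conj n
  · have := conj_Q h.inv.rep hy
    rw [perm_inv_apply] at this
    simpa [mul_assoc] using conj_Q h.rep (LL.cq hl this)

theorem wt_refl_one (h : A D θ β = 1) : wt D (refl D θ β) = wt D β - wt D θ := by rw [wt_refl, h, one_smul]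

theorem f_Lv (hθ : θ < D.nroots) : bas D K (D.neg θ) ∈ Lv K (lv D θ) (-2) :=
  e_Lv (neg_lt hθ) (by rw [lv_wt, A_neg_right _ hθ, A_self hθ])

theorem eθ_Lv (hθ : θ < D.nroots) : bas D K θ ∈ Lv K (lv D θ) 2 := e_Lv hθ (A_self hθ)

theorem x_f (hθ : θ < D.nroots) (hβ : β < D.nroots) (e : A D θ β = 1) (t : K) :
    ac D K (xg D K β t) (bas D K (D.neg θ)) = bas D K (D.neg θ) + t • bas D K (refl D θ β) :=
  x_sum hβ (neg_lt hθ) (refl_lt θ hβ) (by rw [wt_refl_one e, wt_neg hθ, sub_eq_add_neg]) t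

theorem lam_mul (hθ : θ < D.nroots) (hy : y ∈ RG K (lv D θ) 1) (hy' : y' ∈ RG K (lv D θ) 1) (hv : v ∈ Lv K (lv D θ) 1) :
    kap D K (ac D K (y * y') (bas D K (D.neg θ))) v =
      kap D K (ac D K y (bas D K (D.neg θ))) v + kap D K (ac D K y' (bas D K (D.neg θ))) v := by
  have h1 := kap_RG hy (hy' _ _ (Lv_le_Ge le_rfl (f_Lv hθ))) (Lv_le_Ge le_rfl hv) (by omega)
  have h2 := kap_Lv (f_Lv (K := K) hθ) hv (by omega)
  simp only [map_add, LinearMap.add_apply, h2, add_zero] at h1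
  rw [ac_mul, ← h1, add_comm, add_assoc, CharTwo.add_self_eq_zero, add_zero]

theorem lam_x (hθ : θ < D.nroots) (hr : r ∈ Qs D θ) (hβ : β < D.nroots) (e : A D θ β = 1) (t : K) :
    kap D K (ac D K (xg D K r t) (bas D K (D.neg θ))) (bas D K (D.neg (refl D θ β))) = if r = β then t else 0 := by
  have h1 := refl_lt θ hβ
  have h2 : bas D K (D.neg (refl D θ β)) ∈ Lv K (lv D θ) 1 :=
    e_Lv (neg_lt h1) (by rw [lv_wt, A_neg_right _ h1, A_refl_right, e, neg_neg])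
  have h3 := kap_Lv (f_Lv (K := K) hθ) h2 (by omega)
  have h4 := hr.2
  rcases A_cases hθ hr.1 with rfl | rfl | e' | e' | e'
  · rw [x_neg hθ, if_neg (by rintro rfl; rw [A_self hθ] at e; omega)]
    simp [h3, kap_he _ (neg_lt h1), kap_Lv (eθ_Lv (K := K) hθ) h2]
  · rw [A_neg_right _ hθ, A_self hθ] at h4; omega
  · omega
  · rw [x_f hθ hr.1 e']
    simp [h3, kap_ee (refl_lt θ hr.1) (neg_lt h1), neg_neg' h1]
  · omega

theorem lam_oprod (hθ : θ < D.nroots) (hβ : β < D.nroots) (e : A D θ β = 1) (f : ℕ → K) {L : List ℕ}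
    (hL : ∀ r ∈ L, r ∈ Qs D θ) (hn : L.Nodup) :
    kap D K (ac D K (oprod (xg D K) L f) (bas D K (D.neg θ))) (bas D K (D.neg (refl D θ β))) =
      if β ∈ L then f β else 0 := by
  have h1 := refl_lt θ hβ
  have h2 : bas D K (D.neg (refl D θ β)) ∈ Lv K (lv D θ) 1 :=
    e_Lv (neg_lt h1) (by rw [lv_wt, A_neg_right _ h1, A_refl_right, e, neg_neg])
  induction L with
  | nil => simpa [ac_one] using kap_Lv (f_Lv (K := K) hθ) h2 (by omega)
  | cons r L ih =>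
    have h3 := hL r (by simp)
    have h4 : ∀ r ∈ L, r ∈ Qs D θ := fun r hr => hL r (by simp [hr])
    rw [oprod_cons, lam_mul hθ (QQ_RG (x_mem_XS h3 _)) (QQ_RG (oprod_mem_XS h4 f)) h2, lam_x hθ h3 hβ e,
      ih h4 (List.nodup_cons.1 hn).2]
    by_cases h5 : r = β
    · subst h5; simp [(List.nodup_cons.1 hn).1]
    · simp [h5, Ne.symm h5]

theorem Q_lem (hθ : θ < D.nroots) (hp : ∀ r ∈ Qs D θ, D.IsPosRoot r) (hy : y ∈ QQ D K θ)
    (h : ∀ v ∈ Lv K (lv D θ) 1, kap D K (ac D K y (bas D K (D.neg θ))) v = 0) : ∃ s, y = xg D K θ s := by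
  let L := (List.range D.nroots).filter fun r => A D θ r = 1
  have hL : ∀ r, r ∈ L ↔ r < D.nroots ∧ A D θ r = 1 := fun r => by simp [L]
  have hL' : ∀ r, r ∈ θ :: L ↔ r ∈ Qs D θ := fun r => by
    rw [List.mem_cons, hL]
    refine ⟨?_, fun hr => ?_⟩
    · rintro (rfl | hr)
      · exact ⟨hθ, by rw [A_self hθ]; omega⟩
      · exact ⟨hr.1, hr.2.ge⟩
    · have := hr.2
      rcases A_cases hθ hr.1 with e | rfl | e | e | e
      · exact Or.inl e
      · rw [A_neg_right _ hθ, A_self hθ] at this; omega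
      · omega
      · exact Or.inr ⟨hr.1, e⟩
      · omega
  have hn : (θ :: L).Nodup := List.nodup_cons.2 ⟨fun e => by
    have := ((hL θ).1 e).2
    rw [A_self hθ] at this; omega, List.nodup_range.filter _⟩
  obtain ⟨f, rfl⟩ := st.exists_oprod (S := Qs D θ) (fun r hr s hs k hk i j hi hj e => ⟨hk, by
    have : (1 : ℤ) ≤ i := by exact_mod_cast hi
    have : (1 : ℤ) ≤ j := by exact_mod_cast hj
    have := hr.2
    have := hs.2
    rw [A_comb e]; nlinarith⟩) (one_mem _) hp hL' hn hy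
  refine ⟨f θ, ?_⟩
  have : oprod (xg D K) L f ∈ (⊥ : Subgroup (D.group K)) := oprod_mem fun β hβ => by
    obtain ⟨h1, h2⟩ := (hL β).1 hβ
    have h3 := lam_oprod hθ h1 h2 f (fun r => (hL' r).1) hn
    rw [h _ (e_Lv (neg_lt (refl_lt θ h1)) (by rw [lv_wt, A_neg_right _ (refl_lt θ h1), A_refl_right, h2, neg_neg])),
      if_pos (by simp [hβ])] at h3
    rw [← h3, st.zero]; exact one_mem _
  rw [oprod_cons, Subgroup.mem_bot.1 this, mul_one]

theorem Q_fix (hθ : θ < D.nroots) (hp : ∀ r ∈ Qs D θ, D.IsPosRoot r) (hy : y ∈ QQ D K θ)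
    (h : ac D K y (bas D K (D.neg θ)) = bas D K (D.neg θ)) : y = 1 := by
  obtain ⟨s, rfl⟩ := Q_lem hθ hp hy fun v hv => by rw [h]; exact kap_Lv (f_Lv hθ) hv (by omega)
  have := congrArg (fun v => kap D K v (bas D K (D.neg θ))) h
  simp [x_neg hθ, kap_he _ (neg_lt hθ), kap_ee hθ (neg_lt hθ), neg_neg' hθ] at this
  rw [this, st.zero]

/-- An element of the Levi factor moving a root vector to another one conjugates the root elements. -/
theorem LL.conj_x (hθ : θ < D.nroots) (hp : ∀ r ∈ Qs D θ, D.IsPosRoot r) (hl : l ∈ LL D K θ) (hβ : β < D.nroots)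
    (e : A D θ β = 1) (hγ : γ < D.nroots) (e' : A D θ γ = 1) (h : ac D K l (bas D K β) = bas D K γ) (t : K) :
    l * xg D K β t * l⁻¹ = xg D K γ t := by
  have := Q_fix hθ hp (mul_mem (inv_mem (x_Q hγ e'.ge t)) (LL.cq hl (x_Q hβ e.ge t))) (by
    rw [ac_mul, ac_mul, ac_mul, LL.f (inv_mem hl), x_f hθ hβ e, map_add, map_smul, LL.f hl, ← nn_e hθ hβ, LL.ac_n hl, h,
      nn_e hθ hγ, ← x_f hθ hγ e', ac_inv_ac])
  exact (inv_mul_eq_one.1 this).symm

/-- The Levi factor acts faithfully on the level one part. -/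
theorem LL.ker (hθ : θ < D.nroots) (hp : ∀ r ∈ Qs D θ, D.IsPosRoot r)
    (h0 : ∀ r < D.nroots, A D θ r = 0 → ∃ β < D.nroots, A D θ β = 1 ∧ A D r β = -1) (hl : l ∈ LL D K θ)
    (h : ∀ v ∈ Lv K (lv D θ) 1, ac D K l v = v) : l = 1 := by
  have h1 : ∀ β < D.nroots, A D θ β = 1 → ∀ t, Commute l (xg D K β t) := fun β hβ e t =>
    mul_inv_eq_iff_eq_mul.1 (LL.conj_x hθ hp hl hβ e hβ e (h _ (e_Lv hβ e)) t)
  have h2 : ∀ β < D.nroots, A D θ β = -1 → ∀ t, Commute l (xg D K β t) := fun β hβ e t => by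
    rw [← refl_refl (D := D) θ β, ← nn_conj hθ]
    exact ((LL.cn hl).mul_right (h1 _ (refl_lt θ hβ) (by rw [A_refl_right, e, neg_neg]) t)).mul_right (LL.cn hl).inv_right
  refine (H7.isChev_xg (D := D) (F := K)).eq_one_of_commute (H7.GG_xg.ge (Subgroup.mem_top l)) fun r t => ?_
  by_cases hr : r < D.nroots
  · rcases A_cases hθ hr with rfl | rfl | e | e | e
    · exact LL.cx hl t
    · exact LL.cy hl t
    · obtain ⟨β, hβ, e1, e2⟩ := h0 r hr e
      have e3 := wt_refl_neg e2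
      obtain ⟨δ, hδ, h3⟩ := (st (D := D) (K := K)).comm_sum (refl_lt r hβ) (neg_lt hβ) hr (by rw [e3, wt_neg hβ]; simp)
      have h4 := h1 _ (refl_lt r hβ) (by rw [A_add e3, e, e1, zero_add]) t
      have h5 := h2 _ (neg_lt hβ) (by rw [A_neg_right _ hβ, e1]) δ
      have := h3 t δ
      rw [mul_right_comm, hδ, one_mul] at this
      rw [← this, commutatorElement_def]
      exact ((h4.mul_right h5).mul_right h4.inv_right).mul_right h5.inv_right
    · exact h1 r hr e t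
    · exact h2 r hr e t
  · rw [st.out r (not_lt.1 hr)]; exact Commute.one_right _

end Cfsg.Agent.H3.AT
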