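import Cfsg.Agent.H3.AT3

/-! Groups over the field with two elements: parabolic structure and normal forms. -/

set_option autoImplicit false
set_option linter.unusedSectionVars false

namespace Cfsg.Agent.H3.AT

open Cfsg.Lie Matrix Finset Cfsg.Agent.H8 Cfsg.Agent.H7 Cfsg.Agent.H9.AH

variable {D : ChevalleyDatum} {K : Type*} [Field K] [CharP K 2] [hD : RootFacts D] [hM : MatFacts D]
  [hC : ChainFacts D] [hN : NFacts D] [hS : SLFacts D] {r s θ α β γ : ℕ} {a g g' l y y' n u u' : D.group K}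
  {v v' : D.Idx → K} {k m : ℤ} {w w' : Equiv.Perm ℕ} [Finite (D.group K)] {t : K}

/-- The stabiliser of a vector. -/
def Fx (v : D.Idx → K) : Subgroup (D.group K) :=
  mkSub (fun g => ac D K g v = v) (ac_one v) fun a b ha hb => by rw [ac_mul, hb, ha]

theorem mem_Fx : g ∈ Fx v ↔ ac D K g v = v := Iff.rfl

variable (D K) in
/-- The unipotent part of the Borel subgroup of the Levi factor. -/
def UL (θ : ℕ) : Subgroup (D.group K) := XS (xg D K) {r | D.IsPosRoot r ∧ A D θ r = 0}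

theorem UL_LL (hθ : θ < D.nroots) : UL D K θ ≤ LL D K θ := XS_LL hθ fun _ hr => ⟨hr.1.1, hr.2⟩

theorem UL_UU : UL D K θ ≤ UU D (xg D K) := XS_mono _ fun _ hr => hr.1

theorem UL_Fx (hs : s < D.nroots) (h : ∀ r, D.IsPosRoot r → A D θ r = 0 → 0 ≤ A D s r) : UL D K θ ≤ Fx (bas D K s) :=
  XS_le.2 fun r hr t => x_nonneg hr.1.1 hs ((h r hr.1 hr.2).trans_eq (A_symm s r)) t

theorem bas_inj (hr : r < D.nroots) (hs : s < D.nroots) (h : bas D K r = bas D K s) : r = s := by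
  have := kap_ee (K := K) hr (neg_lt hs)
  rw [h, kap_ee hs (neg_lt hs), neg_neg' hs, if_pos rfl] at this
  by_contra e
  simp [e] at this

theorem n_Lv (hθ : θ < D.nroots) (hv : v ∈ Lv K (lv D θ) k) : ac D K (nn D K θ) v ∈ Lv K (lv D θ) (-k) := by
  have h1 := Lv_neg (nrep_Lv (nn_nrep hθ) hv)
  have : -lv D (refl D θ θ) = lv D θ := by
    rw [refl_self hθ, lv, lv, cor_neg hθ, map_neg, neg_neg]
  rwa [this] at h1

theorem n_n (v : D.Idx → K) : ac D K (nn D K θ) (ac D K (nn D K θ) v) = v := by rw [← ac_mul, nn_mul_self, ac_one]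

theorem kap_n (v v' : D.Idx → K) : kap D K (ac D K (nn D K θ) v) v' = kap D K v (ac D K (nn D K θ) v') := by
  rw [kap_ac, nn_inv]

theorem n_e (hθ : θ < D.nroots) : ac D K (nn D K θ) (bas D K θ) = bas D K (D.neg θ) := by rw [nn_e hθ hθ, refl_self hθ]

theorem x_V1 (hθ : θ < D.nroots) (hv : v ∈ Lv K (lv D θ) 1) (t : K) : ac D K (xg D K θ t) v = v :=
  Lv_ind (Y := LinearMap.eqLocus (ac D K (xg D K θ t)) LinearMap.id)
    (fun _ hr e => x_nonneg hθ hr (by rw [lv_wt] at e; omega) t) (fun e => absurd e one_ne_zero) hv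

theorem x_n_V1 (hθ : θ < D.nroots) (hv : v ∈ Lv K (lv D θ) 1) :
    ac D K (xg D K θ 1) (ac D K (nn D K θ) v) = ac D K (nn D K θ) v + v := by
  have := Lv_ind (Y := LinearMap.eqLocus (ac D K (xg D K θ 1) ∘ₗ ac D K (nn D K θ)) (ac D K (nn D K θ) + LinearMap.id))
    (fun r hr e => by
      simp only [LinearMap.mem_eqLocus, LinearMap.comp_apply, LinearMap.add_apply, LinearMap.id_apply]
      rw [nn_e hθ hr, x_sum hθ (refl_lt θ hr) hr (by rw [wt_refl_one e]; simp), one_smul])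
    (fun e => absurd e one_ne_zero) hv
  simpa only [LinearMap.mem_eqLocus, LinearMap.comp_apply, LinearMap.add_apply, LinearMap.id_apply] using this

theorem zero_of_n (hθ : θ < D.nroots) (hv : v ∈ Lv K (lv D θ) 1)
    (h : ∀ v' ∈ Lv K (lv D θ) 1, kap D K (ac D K (nn D K θ) v) v' = 0) : v = 0 := by
  have := Lv_zero (n_Lv hθ hv) (by omega) fun r hr e => h _ (e_Lv hr (by simpa using e))
  rw [← n_n (θ := θ) v, this, map_zero]

theorem opp_aux (hs : s < D.nroots) (hr : r < D.nroots) (hu : u ∈ Fx (bas D K s)) (hu' : u' ∈ Fx (bas D K s))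
    (hn : ac D K n (bas D K s) = bas D K r) (h : kap D K (ac D K (u * n * u') (bas D K s)) (bas D K s) ≠ 0) :
    ac D K (u⁻¹ * (u * n * u') * u) (bas D K s) = bas D K (D.neg s) := by
  rw [ac_mul, ac_mul, mem_Fx.1 hu', hn, kap_ac, mem_Fx.1 (inv_mem hu), kap_ee hr hs] at h
  rw [ac_mul, mem_Fx.1 hu, ← mul_assoc, ← mul_assoc, inv_mul_cancel, one_mul, ac_mul, mem_Fx.1 hu', hn]
  by_contra e
  exact h (if_neg fun e' => e (by rw [e']))

/-- The standing hypotheses. -/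
structure Sit (S : Subgroup (D.group K)) (σ : D.group K →* D.group K) (ρ : Equiv.Perm ℕ) (θ α : ℕ) : Prop where
  fix : ∀ g ∈ S, σ g = g
  map : ∀ r t, σ (xg D K r t) = xg D K (ρ r) (t ^ 2)
  lt : ∀ r, ρ r < D.nroots ↔ r < D.nroots
  pos : ∀ r, D.IsPosRoot (ρ r) ↔ D.IsPosRoot r
  neg : ∀ r < D.nroots, ρ (D.neg r) = D.neg (ρ r)
  memU : ∀ g ∈ UU D (xg D K), σ g = g → g ∈ S
  memV : ∀ g ∈ VV D (xg D K), σ g = g → g ∈ S
  bru : ∀ g ∈ S, ∃ w, ∃ u ∈ S ⊓ UU D (xg D K), ∃ n ∈ S, NRep D (xg D K) n w ∧ ∃ u' ∈ S ⊓ UU D (xg D K), g = u * n * u'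
  hθ : θ < D.nroots
  θfix : ρ θ = θ
  lev : ∀ s < D.nroots, A D θ (ρ s) = A D θ s
  dom : ∀ r, D.IsPosRoot r → 0 ≤ A D θ r
  zero : ∀ r < D.nroots, A D θ r = 0 → ∃ β < D.nroots, A D θ β = 1 ∧ A D r β = -1
  hα : α < D.nroots
  αlev : A D θ α = 1
  αfix : ρ α = α
  αdom : ∀ r, D.IsPosRoot r → A D θ r = 0 → 0 ≤ A D α r
  chain : ∀ β < D.nroots, A D θ β = 1 → β = α ∨ ∃ β' < D.nroots, A D θ β' = 1 ∧ β < β' ∧ A D β β' = 1
  nb : ∃ β < D.nroots, A D θ β = 1 ∧ A D α β = 1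

variable (S : Subgroup (D.group K)) (θ) in
/-- Root vectors of level zero act through the group algebra. -/
def AdInv : Prop := ∀ η < D.nroots, A D θ η = 0 → ∀ v ∈ Lv K (lv D θ) 1, ∀ Y : Submodule K (D.Idx → K),
  (∀ k ∈ S ⊓ LL D K θ, ac D K k v + v ∈ Y) → ad D K η v ∈ Y

variable (S : Subgroup (D.group K)) (θ) in
/-- The symmetry condition on pairs of collinear points. -/
def Sc (a : D.group K) : Prop := ∀ g ∈ S, ∀ v ∈ Lv K (lv D θ) 1,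
  kap D K (ac D K a (ac D K g (bas D K θ))) (ac D K g v) = kap D K (ac D K g (bas D K θ)) (ac D K a (ac D K g v))

variable {S : Subgroup (D.group K)} {σ : D.group K →* D.group K} {ρ : Equiv.Perm ℕ}

theorem Sc.conj (h : Sc θ S a) (hg : g ∈ S) : Sc θ S (g⁻¹ * a * g) := fun g' hg' v hv => by
  have := h _ (mul_mem hg hg') v hv
  simp only [ac_mul] at this ⊢
  rw [kap_ac _ _ (ac D K g' v), inv_inv, this, kap_ac' g⁻¹, inv_inv]

namespace Sit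

variable (h : Sit S σ ρ θ α)
include h

theorem qpos : ∀ r ∈ Qs D θ, D.IsPosRoot r := fun r hr => pos_of_not_neg hr.1 fun e => by
  have h1 := h.dom _ ((neg_pos_iff hr.1).2 e)
  have := hr.2
  rw [A_neg_right _ hr.1] at h1; omega

theorem x_mem (hr : r < D.nroots) (e : ρ r = r) : xg D K r 1 ∈ S := by
  have : σ (xg D K r 1) = xg D K r 1 := by rw [h.map, e, one_pow]
  exact (pos_or_neg hr).elim (fun e => h.memU _ (x_mem_UU _ e _) this) fun e => h.memV _ (x_mem_VV _ e _) this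

theorem nn_mem (hr : r < D.nroots) (e : ρ r = r) : nn D K r ∈ S :=
  mul_mem (mul_mem (h.x_mem hr e) (h.x_mem (neg_lt hr) (by rw [h.neg r hr, e]))) (h.x_mem hr e)

theorem mem_fix (hr : r < D.nroots) (ht : t ≠ 0) (hx : xg D K r t ∈ S) : ρ r = r ∧ t = 1 := by
  have h1 := h.fix _ hx
  have hf := (H7.isChev_xg (D := D) (F := K)).toIsFaith
  rw [h.map] at h1
  have h2 := hf.root_eq hr ht h1.symm
  rw [← h2] at h1
  exact ⟨h2.symm, mul_left_cancel₀ ht (by rw [← pow_two, hf.x_inj hr h1, mul_one])⟩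

theorem nrep_e (hn : n ∈ S) (hw : NRep D (xg D K) n w) (hs : s < D.nroots) (e : ρ s = s) :
    ρ (w s) = w s ∧ ac D K n (bas D K s) = bas D K (w s) ∧ n * xg D K s 1 * n⁻¹ = xg D K (w s) 1 := by
  obtain ⟨a, h1, h2, -⟩ := nrep_spec hw
  have h3 := h1 s 1
  rw [mul_one] at h3
  obtain ⟨h4, h5⟩ := h.mem_fix (W_lt hw.mem_W hs) (Units.ne_zero _)
    (h3 ▸ mul_mem (mul_mem hn (h.x_mem hs e)) (inv_mem hn))
  exact ⟨h4, by rw [h2 s hs, h5, one_smul], by rw [h3, h5]⟩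

theorem UU_Fx : UU D (xg D K) ≤ Fx (bas D K θ) :=
  XS_le.2 fun r hr t => x_nonneg hr.1 h.hθ ((h.dom r hr).trans_eq (A_symm θ r)) t

theorem Q_UU : QQ D K θ ≤ UU D (xg D K) := XS_mono _ h.qpos

theorem map_XS {T : Set ℕ} (hT : ∀ r ∈ T, ρ r ∈ T) (hg : g ∈ XS (xg D K) T) : σ g ∈ XS (xg D K) T :=
  (XS_le (H := (XS (xg D K) T).comap σ)).2 (fun r hr t => by
    rw [Subgroup.mem_comap, h.map]; exact x_mem_XS (hT r hr) _) hg

theorem split (hu : u ∈ S ⊓ UU D (xg D K)) : ∃ v ∈ S ⊓ UL D K θ, ∃ y ∈ S ⊓ QQ D K θ, u = v * y := by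
  obtain ⟨v, hv, y, hy, rfl⟩ := st.exists_mul (S₁ := {r | A D θ r = 0}) (S₂ := Qs D θ) isClosed_pos (one_mem _)
    (fun _ hk => hk) (fun r hr => by
      have := h.dom r hr
      by_cases e : A D θ r = 0
      · exact Or.inl e
      · exact Or.inr ⟨hr.1, by omega⟩) hu.2
  have hy' : y ∈ QQ D K θ := XS_mono _ (fun _ hr => hr.2) hy
  have h1 : σ v ∈ UL D K θ := h.map_XS (fun r hr => ⟨(h.pos r).2 hr.1, (h.lev r hr.1.1).trans hr.2⟩) hv
  have h2 : σ y ∈ QQ D K θ := h.map_XS (fun r hr => ⟨(h.lt r).2 hr.1, (h.lev r hr.1).symm ▸ hr.2⟩) hy'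
  have h3 : v⁻¹ * σ v = y * (σ y)⁻¹ := by
    rw [eq_mul_inv_iff_mul_eq, mul_assoc, ← map_mul, h.fix _ hu.1, inv_mul_cancel_left]
  have h4 := LL_Q (UL_LL h.hθ (mul_mem (inv_mem hv) h1)) (h3 ▸ mul_mem hy' (inv_mem h2))
  have h5 : v ∈ S := h.memU v (UL_UU hv) (inv_mul_eq_one.1 h4).symm
  exact ⟨v, ⟨h5, hv⟩, y, ⟨by simpa using mul_mem (inv_mem h5) hu.1, hy'⟩, rfl⟩

theorem stab (hg : g ∈ S) (e : ac D K g (bas D K θ) = bas D K θ) : ∃ w, w θ = θ ∧ ∃ u ∈ S ⊓ UL D K θ,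
    ∃ n ∈ S ⊓ LL D K θ, NRep D (xg D K) n w ∧ ∃ u' ∈ S ⊓ UL D K θ, ∃ y ∈ S ⊓ QQ D K θ, g = u * n * u' * y := by
  obtain ⟨w, u, hu, n, hn, hw, u', hu', rfl⟩ := h.bru g hg
  have h1 := (h.nrep_e hn hw h.hθ h.θfix).2.1
  rw [ac_mul, ac_mul, mem_Fx.1 (h.UU_Fx hu'.2), h1] at e
  have h2 : w θ = θ := bas_inj (K := K) (W_lt hw.mem_W h.hθ) h.hθ (by
    rw [← ac_inv_ac u (bas D K (w θ)), e, mem_Fx.1 (h.UU_Fx (inv_mem hu.2))])
  have h3 := nrep_LL h.hθ hw h2 (by rw [h1, h2])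
  obtain ⟨v, hv, y, hy, rfl⟩ := h.split hu
  obtain ⟨v', hv', y', hy', rfl⟩ := h.split hu'
  have h4 : n * v' ∈ S ⊓ LL D K θ := mul_mem ⟨hn, h3⟩ ⟨hv'.1, UL_LL h.hθ hv'.2⟩
  exact ⟨w, h2, v, hv, n, ⟨hn, h3⟩, hw, v', hv', (n * v')⁻¹ * y * (n * v')⁻¹⁻¹ * y',
    mul_mem ⟨S.mul_mem (S.mul_mem (S.inv_mem h4.1) hy.1) (S.inv_mem (S.inv_mem h4.1)), LL.cq (inv_mem h4.2) hy.2⟩ hy',
    by group⟩

theorem ul (hu : u ∈ S ⊓ UL D K θ) : u ∈ S ⊓ LL D K θ := ⟨hu.1, UL_LL h.hθ hu.2⟩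

theorem lbru (hl : l ∈ S ⊓ LL D K θ) : ∃ w, w θ = θ ∧ ∃ u ∈ S ⊓ UL D K θ,
    ∃ n ∈ S ⊓ LL D K θ, NRep D (xg D K) n w ∧ ∃ u' ∈ S ⊓ UL D K θ, l = u * n * u' := by
  obtain ⟨w, hw, u, hu, n, hn, h1, u', hu', y, hy, e⟩ := h.stab hl.1 (LL.e hl.2)
  have h2 := mul_mem (mul_mem (h.ul hu) hn) (h.ul hu')
  have : y = 1 := LL_Q (by have := (mul_mem (inv_mem h2) hl).2; rwa [e, inv_mul_cancel_left] at this) hy.2
  exact ⟨w, hw, u, hu, n, hn, h1, u', hu', by rw [e, this, mul_one]⟩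

theorem opp_conj (ha : a ∈ S) (e : kap D K (ac D K a (bas D K θ)) (bas D K θ) ≠ 0) :
    ∃ u ∈ S, ac D K (u⁻¹ * a * u) (bas D K θ) = bas D K (D.neg θ) := by
  obtain ⟨w, u, hu, n, hn, hw, u', hu', rfl⟩ := h.bru a ha
  exact ⟨u, hu.1, opp_aux h.hθ (W_lt hw.mem_W h.hθ) (h.UU_Fx hu.2) (h.UU_Fx hu'.2) (h.nrep_e hn hw h.hθ h.θfix).2.1 e⟩

theorem nf (ha : a ∈ S) (hs : Sc θ S a) (e : ac D K a (bas D K θ) = bas D K (D.neg θ)) :
    ∃ l ∈ S ⊓ LL D K θ, a = nn D K θ * l ∨ a = nn D K θ * xg D K θ 1 * l := by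
  have hn := h.nn_mem h.hθ h.θfix
  obtain ⟨w, -, u, hu, n, hn', -, u', hu', y, hy, e'⟩ := h.stab (mul_mem hn ha) (by rw [ac_mul, e, ← n_e h.hθ, n_n])
  have hl := mul_mem (mul_mem (h.ul hu) hn') (h.ul hu')
  generalize u * n * u' = l at hl e'
  obtain rfl : a = nn D K θ * (l * y) := by rw [← e', ← mul_assoc, nn_mul_self, one_mul]
  obtain ⟨s, hs⟩ := Q_lem h.hθ h.qpos (inv_mem hy.2) fun v hv => by
    have := hs 1 (one_mem _) v hv
    rw [ac_one, ac_one, e, kap_Lv (f_Lv h.hθ) hv (by omega), kap_ac', _root_.mul_inv_rev, _root_.mul_inv_rev, nn_inv,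
      ac_mul, ac_mul, n_e h.hθ, LL.f (inv_mem hl.2)] at this
    exact this.symm
  obtain rfl : y = xg D K θ s := by rw [← x_inv, ← hs, inv_inv]
  refine ⟨l, hl, ?_⟩
  by_cases h0 : s = 0
  · left; rw [h0, st.zero, mul_one]
  · right; rw [(h.mem_fix h.hθ h0 hy.1).2, (LL.cx hl.2 1).eq, mul_assoc]

variable (hi : AdInv θ S)
include hi

theorem irr_step {Y : Submodule K (D.Idx → K)} (hY : ∀ k ∈ S ⊓ LL D K θ, ac D K k (bas D K β) + bas D K β ∈ Y)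
    (hβ : β < D.nroots) (e : A D θ β = 1) (hγ : γ < D.nroots) (e' : A D θ γ = 1) (e'' : A D β γ = 1) :
    bas D K γ ∈ Y := by
  have h1 : wt D γ = wt D (refl D β γ) + wt D β := by rw [wt_refl_one e'']; simp
  rw [← ad_sum (refl_lt β hγ) hβ hγ h1]
  exact hi _ (refl_lt β hγ) (by have := A_add (a := θ) h1; omega) _ (e_Lv hβ e) Y hY

theorem irr_iff {Y : Submodule K (D.Idx → K)} (hY : ∀ k ∈ S ⊓ LL D K θ, ∀ v ∈ Y, ac D K k v ∈ Y)
    (hβ : β < D.nroots) (e : A D θ β = 1) : bas D K β ∈ Y ↔ bas D K α ∈ Y := by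
  generalize hm : D.nroots - β = m
  induction m using Nat.strong_induction_on generalizing β with
  | _ m ih =>
    rcases h.chain β hβ e with rfl | ⟨γ, hγ, e', h1, h2⟩
    · rfl
    · rw [← ih _ (by omega) hγ e' rfl]
      exact ⟨fun h3 => h.irr_step hi (fun k hk => add_mem (hY k hk _ h3) h3) hβ e hγ e' h2,
        fun h3 => h.irr_step hi (fun k hk => add_mem (hY k hk _ h3) h3) hγ e' hβ e ((A_symm γ β).trans h2)⟩

theorem irr_aux {M : Type*} [AddCommGroup M] [Module K M] (T : (D.Idx → K) →ₗ[K] M) :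
    ∃ Y : Submodule K (D.Idx → K), (∀ v, v ∈ Y ↔ ∀ k ∈ S ⊓ LL D K θ, T (ac D K k v) = 0) ∧
      ∀ β < D.nroots, A D θ β = 1 → bas D K β ∈ Y → ∀ v ∈ Lv K (lv D θ) 1, T v = 0 := by
  let Y : Submodule K (D.Idx → K) := ⨅ k ∈ S ⊓ LL D K θ, LinearMap.ker (T ∘ₗ ac D K k)
  have h1 : ∀ v, v ∈ Y ↔ ∀ k ∈ S ⊓ LL D K θ, T (ac D K k v) = 0 := fun v => by
    simp only [Y, Submodule.mem_iInf, LinearMap.mem_ker, LinearMap.comp_apply]
  have h2 : ∀ k ∈ S ⊓ LL D K θ, ∀ v ∈ Y, ac D K k v ∈ Y := fun k hk v hv =>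
    (h1 _).2 fun k' hk' => by rw [← ac_mul]; exact (h1 v).1 hv _ (mul_mem hk' hk)
  refine ⟨Y, h1, fun β hβ e h3 v hv => ?_⟩
  have := (h1 v).1 (Lv_ind Y (fun r hr e' => (h.irr_iff hi h2 hr e').2 ((h.irr_iff hi h2 hβ e).1 h3))
    (fun e => absurd e one_ne_zero) hv) 1 (one_mem _)
  rwa [ac_one] at this

theorem irr {M : Type*} [AddCommGroup M] [Module K M] (T : (D.Idx → K) →ₗ[K] M)
    (hT : ∀ k ∈ S ⊓ LL D K θ, T (ac D K k (bas D K α)) = 0) (hv : v ∈ Lv K (lv D θ) 1) : T v = 0 := by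
  obtain ⟨Y, h1, h2⟩ := h.irr_aux hi T
  exact h2 α h.hα h.αlev ((h1 _).2 hT) v hv

theorem irr' (T : (D.Idx → K) →ₗ[K] K) {c : K}
    (hT : ∀ k ∈ S ⊓ LL D K θ, T (ac D K k (bas D K α)) = c) (hv : v ∈ Lv K (lv D θ) 1) : T v = 0 := by
  obtain ⟨Y, h1, h2⟩ := h.irr_aux hi T
  obtain ⟨β, hβ, e, e'⟩ := h.nb
  refine h2 β hβ e (h.irr_step hi (fun k hk => (h1 _).2 fun k' hk' => ?_) h.hα h.αlev hβ e e') v hv
  rw [map_add, map_add, ← ac_mul, hT _ (mul_mem hk' hk), hT _ hk', CharTwo.add_self_eq_zero]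

end Sit

end Cfsg.Agent.H3.AT
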