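import Cfsg.Agent.H3.AT4

/-! Elements satisfying the symmetry condition are involutions or have order three. -/

set_option autoImplicit false
set_option linter.unusedSectionVars false

namespace Cfsg.Agent.H3.AT

open Cfsg.Lie Matrix Finset Cfsg.Agent.H8 Cfsg.Agent.H7 Cfsg.Agent.H9.AH

variable {D : ChevalleyDatum} {K : Type*} [Field K] [CharP K 2] [hD : RootFacts D] [hM : MatFacts D]
  [hC : ChainFacts D] [hN : NFacts D] [hS : SLFacts D] {r s θ α β γ η : ℕ} {a g g' l y y' n u u' k : D.group K}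
  {v v' : D.Idx → K} {w w' : Equiv.Perm ℕ} [Finite (D.group K)] {t : K}
  {S : Subgroup (D.group K)} {σ : D.group K →* D.group K} {ρ : Equiv.Perm ℕ}

theorem A_refl (a r s : ℕ) : A D a (refl D r s) = A D a s - A D r s * A D a r := by
  rw [A, wt_refl, dotProduct_sub, dotProduct_smul]; rfl

variable (D K) in
/-- The element of order three attached to a root. -/
def rho (θ : ℕ) : D.group K := nn D K θ * xg D K θ 1

theorem LL.crho (h : l ∈ LL D K θ) : Commute l (rho D K θ) := (LL.cn h).mul_right (LL.cx h 1)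

theorem rho_inv (θ : ℕ) : (rho D K θ)⁻¹ = xg D K θ 1 * nn D K θ := by rw [rho, _root_.mul_inv_rev, x_inv, nn_inv]

theorem rho_LL (hθ : θ < D.nroots) (h : r < D.nroots) (e : A D θ r = 0) : rho D K r ∈ LL D K θ :=
  mul_mem (nn_LL hθ h e) (x_LL hθ h e 1)

theorem x_e (hθ : θ < D.nroots) (t : K) : ac D K (xg D K θ t) (bas D K θ) = bas D K θ :=
  x_nonneg hθ hθ (by rw [A_self hθ]; omega) t

theorem rho_e (hθ : θ < D.nroots) : ac D K (rho D K θ) (bas D K θ) = bas D K (D.neg θ) := by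
  rw [rho, ac_mul, x_e hθ, n_e hθ]

theorem rho_cube (hθ : θ < D.nroots) : rho D K θ * rho D K θ * rho D K θ = 1 := by
  have h1 := nn_conj (K := K) hθ θ 1
  rw [refl_self hθ, nn_inv] at h1
  calc _ = nn D K θ * (xg D K θ 1 * (nn D K θ * xg D K θ 1 * nn D K θ) * xg D K θ 1) := by simp only [rho, mul_assoc]
    _ = 1 := by rw [h1]; exact nn_mul_self θ

/-- The quadratic form attached to an element of the Levi factor. -/
def phi (θ : ℕ) (l : D.group K) (v : D.Idx → K) : K := kap D K (ac D K l⁻¹ v) (ac D K (nn D K θ) v)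

theorem phi_add (hl : l ∈ LL D K θ) (v v' : D.Idx → K) : phi θ l (v + v') =
    phi θ l v + phi θ l v' + kap D K (ac D K l v + ac D K l⁻¹ v) (ac D K (nn D K θ) v') := by
  have : kap D K (ac D K l⁻¹ v') (ac D K (nn D K θ) v) = kap D K (ac D K l v) (ac D K (nn D K θ) v') := by
    rw [kap_ac, inv_inv, LL.ac_n hl, ← kap_n, kap_comm]
  simp only [phi, map_add, LinearMap.add_apply, this]
  ring

theorem phi_conj (hk : k ∈ LL D K θ) (l : D.group K) (v : D.Idx → K) :
    phi θ (k⁻¹ * l * k) v = phi θ l (ac D K k v) := by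
  rw [phi, phi, _root_.mul_inv_rev, _root_.mul_inv_rev, inv_inv, ← mul_assoc, ac_mul, ac_mul, kap_ac, inv_inv, LL.ac_n hk]

variable (θ S) in
/-- Levi components of the elements of the second kind. -/
structure T3 (l : D.group K) : Prop where
  mem : l ∈ S ⊓ LL D K θ
  sc : Sc θ S (rho D K θ * l)

theorem T3.conj (h : T3 θ S l) (hk : k ∈ S ⊓ LL D K θ) : T3 θ S (k⁻¹ * l * k) :=
  ⟨mul_mem (mul_mem (inv_mem hk) h.mem) hk, by
    have := h.sc.conj hk.1
    rwa [← mul_assoc, (LL.crho (inv_mem hk.2)).eq, mul_assoc, mul_assoc, ← mul_assoc k⁻¹] at this⟩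

variable (θ S) in
/-- Levi components of order three. -/
structure O3 (l : D.group K) : Prop extends T3 θ S l where
  eq : ∀ v ∈ Lv K (lv D θ) 1, ac D K l v + ac D K l⁻¹ v = v

theorem conj_add (k l : D.group K) (v : D.Idx → K) : ac D K (k⁻¹ * l * k) v + ac D K (k⁻¹ * l * k)⁻¹ v =
    ac D K k⁻¹ (ac D K l (ac D K k v) + ac D K l⁻¹ (ac D K k v)) := by
  simp only [_root_.mul_inv_rev, inv_inv, ac_mul, map_add]

theorem O3.conj (h : O3 θ S l) (hk : k ∈ S ⊓ LL D K θ) : O3 θ S (k⁻¹ * l * k) :=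
  ⟨h.toT3.conj hk, fun v hv => by rw [conj_add, h.eq _ (LL.lp hk.2 hv), ac_inv_ac]⟩

namespace Sit

variable (h : Sit S σ ρ θ α)
include h

theorem eα : bas D K α ∈ Lv K (lv D θ) 1 := e_Lv h.hα h.αlev

theorem ker (hl : l ∈ LL D K θ) (e : ∀ v ∈ Lv K (lv D θ) 1, ac D K l v = v) : l = 1 := LL.ker h.hθ h.qpos h.zero hl e

theorem test0 (hs : Sc θ S a) (hv : v ∈ Lv K (lv D θ) 1) :
    kap D K (ac D K a (bas D K θ + bas D K α) + ac D K a⁻¹ (bas D K θ + bas D K α))
      (v + ad D K (refl D θ α) v + kap D K v (bas D K (refl D θ α)) • bas D K (refl D θ α)) = 0 := by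
  have h1 := refl_lt θ h.hα
  have h2 : xg D K (refl D θ α) 1 ∈ S := by
    rw [← nn_conj h.hθ]
    exact mul_mem (mul_mem (h.nn_mem h.hθ h.θfix) (h.x_mem h.hα h.αfix)) (inv_mem (h.nn_mem h.hθ h.θfix))
  have := hs _ h2 v hv
  rw [x_sum h1 h.hθ h.hα (by rw [wt_refl_one h.αlev]; simp), x_eq h1, kap_ac' a] at this
  simp only [one_smul, one_pow, one_mul] at this
  rw [map_add (kap D K), LinearMap.add_apply, this, CharTwo.add_self_eq_zero]

theorem test1 (hl : l ∈ LL D K θ) (hs : Sc θ S (nn D K θ * l)) : ac D K l (bas D K α) + ac D K l⁻¹ (bas D K α) = 0 := by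
  have h1 := refl_lt θ h.hα
  have hμ : A D θ (refl D θ α) = -1 := by rw [A_refl_right, h.αlev]
  have hz := add_mem (LL.lp hl h.eα) (LL.lp (inv_mem hl) h.eα)
  refine zero_of_n h.hθ hz fun v hv => ?_
  have := h.test0 hs hv
  rw [_root_.mul_inv_rev, nn_inv, (LL.cn (inv_mem hl)).eq, ac_mul, ac_mul, ← map_add, map_add _ (bas D K θ),
    map_add _ (bas D K θ), LL.e hl, LL.e (inv_mem hl), add_add_add_comm, vadd, zero_add, map_add (kap D K _),
    map_add (kap D K _), kap_Lv (n_Lv h.hθ hz) (ad_Lv h1 hv) (by rw [lv_wt]; omega), map_smul,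
    kap_Lv (n_Lv h.hθ hz) (e_Lv h1 hμ) (by omega)] at this
  simpa using this

theorem test2 (hl : l ∈ LL D K θ) (hs : Sc θ S (rho D K θ * l)) :
    ac D K l (bas D K α) + ac D K l⁻¹ (bas D K α) = (1 + phi θ l (bas D K α)) • bas D K α := by
  have h1 := refl_lt θ h.hα
  have hμ : A D θ (refl D θ α) = -1 := by rw [A_refl_right, h.αlev]
  have hz1 := LL.lp hl h.eα
  have hz2 := LL.lp (inv_mem hl) h.eα
  rw [← sub_eq_zero, vsub]
  refine zero_of_n h.hθ (add_mem (add_mem hz1 hz2) (Submodule.smul_mem _ _ h.eα)) fun v hv => ?_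
  have := h.test0 hs hv
  have h2 := ad_Lv h1 hv
  rw [lv_wt, hμ] at h2
  have h3 := e_Lv (K := K) (φ := lv D θ) h1 hμ
  rw [_root_.mul_inv_rev, (LL.crho (inv_mem hl)).inv_right.eq, rho_inv, rho] at this
  simp only [ac_mul, map_add, LL.e hl, LL.e (inv_mem hl), x_e h.hθ, n_e h.hθ, x_V1 h.hθ hz1, x_n_V1 h.hθ hz2, x_neg h.hθ,
    one_smul, one_pow, LinearMap.add_apply, map_smul, smul_eq_mul, kap_Lv (f_Lv h.hθ) hv (by omega),
    kap_Lv (f_Lv h.hθ) h2 (by omega), kap_Lv (f_Lv h.hθ) h3 (by omega), kap_Lv (eθ_Lv h.hθ) hv (by omega),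
    kap_Lv (eθ_Lv h.hθ) h2 (by omega), kap_Lv (eθ_Lv h.hθ) h3 (by omega), kap_Lv (h_Lv θ) hv (by omega),
    kap_he θ h1, kap_Lv (n_Lv h.hθ hz1) h2 (by omega), kap_Lv (n_Lv h.hθ hz1) h3 (by omega),
    kap_Lv (n_Lv h.hθ hz2) h2 (by omega), kap_Lv (n_Lv h.hθ hz2) h3 (by omega), kap_Lv hz2 hv (by omega),
    kap_Lv hz2 h2 (by omega), ← kap_ad h1 (hr D K θ), ad_h h1, hμ, LinearMap.smul_apply, kap_comm v] at this
  simp only [map_add, map_smul, LinearMap.add_apply, LinearMap.smul_apply, smul_eq_mul, phi, nn_e h.hθ h.hα]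
  rw [← this, Int.cast_neg, Int.cast_one, CharTwo.neg_eq]
  ring

theorem move (hl : l ∈ S ⊓ LL D K θ) : ∃ k ∈ S ⊓ UL D K θ, ∃ n ∈ S ⊓ LL D K θ, ∃ w, NRep D (xg D K) n w ∧ w θ = θ ∧
    ∃ u ∈ S ⊓ UL D K θ, k⁻¹ * l * k = n * u := by
  obtain ⟨w, hw, u, hu, n, hn, h1, u', hu', rfl⟩ := h.lbru hl
  exact ⟨u, hu, n, hn, w, h1, hw, u' * u, mul_mem hu' hu, by group⟩

theorem eig (hl : T3 θ S l) (hk : k ∈ S ⊓ LL D K θ) : ac D K l (ac D K k (bas D K α)) + ac D K l⁻¹ (ac D K k (bas D K α)) =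
    (1 + phi θ l (ac D K k (bas D K α))) • ac D K k (bas D K α) := by
  have := congrArg (ac D K k) (h.test2 (hl.conj hk).mem.2 (hl.conj hk).sc)
  rwa [conj_add, ac_ac_inv, phi_conj hk.2, map_smul] at this

variable (hi : AdInv θ S)
include hi

theorem inv_of (hl : l ∈ S ⊓ LL D K θ) (hs : Sc θ S (nn D K θ * l)) : l * l = 1 := by
  refine h.ker (mul_mem hl.2 hl.2) fun v hv => ?_
  have := h.irr hi (ac D K l + ac D K l⁻¹) (fun k hk => by
    have h1 := hs.conj hk.1
    rw [← mul_assoc, (LL.cn (inv_mem hk.2)).eq, mul_assoc, mul_assoc, ← mul_assoc k⁻¹] at h1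
    have h2 := congrArg (ac D K k) (h.test1 (mul_mem (mul_mem (inv_mem hk.2) hl.2) hk.2) h1)
    rwa [conj_add, ac_ac_inv, map_zero] at h2) hv
  rw [LinearMap.add_apply, ← vsub, sub_eq_zero] at this
  rw [ac_mul, this, ac_ac_inv]

theorem o3_of (hη : η < D.nroots) (e0 : ρ η = η) (e1 : A D θ η = 0) (e2 : A D η α = 1) (hl : T3 θ S l) : O3 θ S l := by
  have key : ∀ l, T3 θ S l → ac D K l (bas D K α) + ac D K l⁻¹ (bas D K α) = bas D K α := fun l hl => by
    have hn : nn D K η ∈ S ⊓ LL D K θ := ⟨h.nn_mem hη e0, nn_LL h.hθ hη e1⟩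
    have h1 := h.eig hl (one_mem _)
    have h2 := h.eig hl hn
    have h3 := h.eig hl (mul_mem ⟨h.x_mem hη e0, x_LL h.hθ hη e1 1⟩ hn)
    have hβ := refl_lt η h.hα
    have e3 : wt D α = wt D η + wt D (refl D η α) := by rw [wt_refl_one e2]; simp
    rw [ac_mul] at h3
    rw [nn_e hη h.hα] at h2 h3
    rw [x_sum hη hβ h.hα e3, one_smul] at h3
    rw [ac_one] at h1
    generalize refl D η α = β at *
    have e4 := A_add (a := θ) e3
    have e5 := A_add (a := α) e3
    rw [A_self h.hα, A_symm α η] at e5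
    have e6 : β ≠ α := by rintro rfl; rw [A_self hβ] at e5; omega
    have e7 : kap D K (bas D K β) (ac D K (nn D K θ) (bas D K α)) = 0 := by
      rw [nn_e h.hθ h.hα, kap_ee hβ (refl_lt θ h.hα), if_neg]
      intro e
      have := congrArg (A D α) e
      rw [A_neg_right _ (refl_lt θ h.hα), A_refl, A_self h.hα, A_symm α θ, h.αlev] at this
      omega
    rw [map_add, map_add, add_add_add_comm, h2, h1] at h3
    have h4 := congrArg (fun v => kap D K v (bas D K (D.neg β))) h3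
    have h5 := phi_add hl.mem.2 (bas D K β) (bas D K α)
    rw [h2, map_smul, LinearMap.smul_apply, e7] at h5
    simp [kap_ee hβ (neg_lt hβ), kap_ee h.hα (neg_lt hβ), neg_neg' hβ, e6.symm, h5] at h4
    rw [h1, h4, add_zero, one_smul]
  refine ⟨hl, fun v hv => ?_⟩
  have := h.irr hi (ac D K l + ac D K l⁻¹ + 1) (fun k hk => by
    have h2 := congrArg (ac D K k) (key _ (hl.conj hk))
    rw [conj_add, ac_ac_inv] at h2
    rw [LinearMap.add_apply, LinearMap.add_apply, h2, Module.End.one_apply, vadd]) hv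
  rwa [LinearMap.add_apply, LinearMap.add_apply, Module.End.one_apply, ← vsub, sub_eq_zero] at this

theorem not_t3 (hf : ∀ β < D.nroots, ρ β = β → A D θ β = 1 → β = α ∨ β = D.neg (refl D θ α)) {ι : Type} (s : Finset ι)
    (hs : Even s.card) (z : ι → D.group K) (hz : ∀ i, z i ∈ S ⊓ LL D K θ)
    (e : ∑ i ∈ s, ac D K (z i) (bas D K α) = bas D K (D.neg (refl D θ α))) (hl : T3 θ S l) : False := by
  have h1 := refl_lt θ h.hα
  have key : ∀ l, T3 θ S l → phi θ l (bas D K α) = 1 ∧ ∃ k ∈ S ⊓ LL D K θ,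
      ac D K k (bas D K α) = bas D K (D.neg (refl D θ α)) := fun l hl => by
    obtain ⟨k, hk, n, hn, w, hw, e1, u, hu, e2⟩ := h.move hl.mem
    have h2 := hl.conj (h.ul hk)
    obtain ⟨h3, h4, -⟩ := h.nrep_e hn.1 hw h.hα h.αfix
    have h5 : ac D K (k⁻¹ * l * k) (bas D K α) = bas D K (w α) := by
      rw [e2, ac_mul, mem_Fx.1 (UL_Fx h.hα h.αdom hu.2), h4]
    have h6 := phi_conj (h.ul hk).2 l (bas D K α)
    rw [mem_Fx.1 (UL_Fx h.hα h.αdom hk.2)] at h6
    have h7 := h.test2 h2.mem.2 h2.sc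
    rw [← h6]
    generalize k⁻¹ * l * k = l' at *
    have h8 : phi θ l' (bas D K α) = kap D K (bas D K (refl D θ α)) (bas D K (w α)) := by
      rw [phi, kap_ac, inv_inv, LL.ac_n h2.mem.2, h5, ← kap_n, nn_e h.hθ h.hα]
    rcases hf _ (W_lt hw.mem_W h.hα) h3 (by rw [← e1, A_W hw.mem_W, h.αlev]) with e3 | e3 <;> rw [e3] at h5 h8
    · rw [kap_ee h1 h.hα, if_neg (fun e => by
        have := congrArg (A D α) e
        rw [A_neg_right _ h.hα, A_refl, A_self h.hα, A_symm α θ, h.αlev] at this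
        omega)] at h8
      rw [h8, h5, add_zero, one_smul, add_eq_left, ← map_zero (ac D K l'⁻¹)] at h7
      exact absurd (by simpa only [ac_ac_inv] using congrArg (ac D K l') h7) (bas_ne (K := K) h.hα)
    · exact ⟨by rw [h8, kap_ee h1 (neg_lt h1), neg_neg' h1, if_pos rfl], l', h2.mem, h5⟩
  have h2 : ∀ k ∈ S ⊓ LL D K θ, phi θ l (ac D K k (bas D K α)) = 1 := fun k hk => by
    rw [← phi_conj hk.2, (key _ (hl.conj hk)).1]
  have h3 : ∀ v ∈ Lv K (lv D θ) 1, ac D K l v + ac D K l⁻¹ v = 0 := fun v hv =>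
    h.irr hi (ac D K l + ac D K l⁻¹) (fun k hk => by
      rw [LinearMap.add_apply, h.eig hl hk, h2 k hk, CharTwo.add_self_eq_zero, zero_smul]) hv
  have h4 : ∀ s : Finset ι, phi θ l (∑ i ∈ s, ac D K (z i) (bas D K α)) = s.card := fun s => by
    classical
    induction s using Finset.induction_on with
    | empty => simp [phi]
    | insert i s hi ih =>
      rw [sum_insert hi, phi_add hl.mem.2, ih, h2 _ (hz i), h3 _ (LL.lp (hz i).2 h.eα), card_insert_of_notMem hi]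
      simp [add_comm]
  obtain ⟨-, k, hk, h5⟩ := key l hl
  have := h4 s
  rw [e, ← h5, h2 k hk, (CharP.cast_eq_zero_iff K 2 _).2 hs.two_dvd] at this
  exact one_ne_zero this

end Sit

end Cfsg.Agent.H3.AT
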