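import Cfsg.Agent.H3.AT5

/-! The normal form of the elements of order three. -/

set_option autoImplicit false
set_option linter.unusedSectionVars false

namespace Cfsg.Agent.H3.AT

open Cfsg.Lie Matrix Finset Cfsg.Agent.H8 Cfsg.Agent.H7 Cfsg.Agent.H9.AH

variable {D : ChevalleyDatum} {K : Type*} [Field K] [CharP K 2] [hD : RootFacts D] [hM : MatFacts D]
  [hC : ChainFacts D] [hN : NFacts D] [hS : SLFacts D] {r s θ α β γ η δ ζ : ℕ} {a g g' l y y' n u u' k : D.group K}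
  {v v' : D.Idx → K} {w w' : Equiv.Perm ℕ} [Finite (D.group K)] {t : K}
  {S : Subgroup (D.group K)} {σ : D.group K →* D.group K} {ρ : Equiv.Perm ℕ}

theorem kap_en (hr : r < D.nroots) (hs : s < D.nroots) :
    kap D K (bas D K r) (bas D K (D.neg s)) = if r = s then 1 else 0 := by rw [kap_ee hr (neg_lt hs), neg_neg' hs]

/-- The sum of two orthogonal root vectors of level one is not a root vector. -/
theorem not_orth (hθ : θ < D.nroots) (hp : ∀ r ∈ Qs D θ, D.IsPosRoot r) (hα : α < D.nroots) (e : A D θ α = 1)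
    (hβ : β < D.nroots) (e' : A D θ β = 1) (e'' : A D α β = 0) (hl : l ∈ LL D K θ)
    (h : ac D K l (bas D K β) = bas D K α + bas D K β) : False := by
  have h1 := LL.cq hl (x_Q hβ e'.ge (1 : K))
  have h2 : ac D K (l * xg D K β 1 * l⁻¹) (bas D K (D.neg θ)) =
      bas D K (D.neg θ) + (bas D K (refl D θ α) + bas D K (refl D θ β)) := by
    rw [ac_mul, ac_mul, LL.f (inv_mem hl), x_f hθ hβ e', one_smul, map_add, LL.f hl, ← nn_e hθ hβ, LL.ac_n hl, h, map_add,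
      nn_e hθ hα]
  generalize l * xg D K β 1 * l⁻¹ = y at h1 h2
  have h3 := x_Q (θ := θ) hα e.ge (1 : K)
  have h4 := x_Q (θ := θ) hβ e'.ge (1 : K)
  obtain ⟨s, hs⟩ := Q_lem hθ hp (mul_mem h4 (mul_mem h3 h1)) fun v hv => by
    rw [lam_mul hθ (QQ_RG h4) (QQ_RG (mul_mem h3 h1)) hv, lam_mul hθ (QQ_RG h3) (QQ_RG h1) hv, h2, x_f hθ hβ e',
      x_f hθ hα e]
    simp only [map_add, LinearMap.add_apply, kap_Lv (f_Lv hθ) hv (by omega), one_smul, zero_add]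
    linear_combination CharTwo.add_self_eq_zero (kap D K (bas D K (refl D θ α)) v) +
      CharTwo.add_self_eq_zero (kap D K (bas D K (refl D θ β)) v)
  obtain rfl : y = xg D K α 1 * (xg D K β 1 * xg D K θ s) := by
    rw [← hs, ← mul_assoc (xg D K β 1), x_mul_self, one_mul, ← mul_assoc, x_mul_self, one_mul]
  have hμ := refl_lt θ hβ
  have e1 : A D α (refl D θ β) = -1 := by rw [A_refl, e'', e', A_symm α θ, e]; rfl
  have hζ := refl_lt α hμ
  have e2 := wt_refl_neg e1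
  have e3 : A D θ (refl D θ β) = -1 := by rw [A_refl_right, e']
  have e4 : bas D K (D.neg (refl D α (refl D θ β))) ∈ Lv K (lv D θ) 0 :=
    e_Lv (neg_lt hζ) (by rw [lv_wt, A_neg_right _ hζ, A_add e2, e, e3]; rfl)
  have e5 : bas D K (D.neg (refl D θ β)) ∈ Lv K (lv D θ) 1 := e_Lv (neg_lt hμ) (by rw [lv_wt, A_neg_right _ hμ, e3]; rfl)
  have e6 := e_Lv (K := K) (φ := lv D θ) hμ e3
  have e7 := e_Lv (K := K) (φ := lv D θ) hβ e'
  have e8 := e_Lv (K := K) (φ := lv D θ) (refl_lt θ hα) (show A D θ _ = -1 by rw [A_refl_right, e])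
  have h5 := congrArg (fun v => kap D K v (bas D K (D.neg (refl D α (refl D θ β))))) h2
  simp only [ac_mul] at h5
  rw [kap_ac, x_inv, x_sum hα (neg_lt hζ) (neg_lt hμ) (by rw [wt_neg hζ, wt_neg hμ, e2]; simp), x_neg hθ] at h5
  simp [x_f hθ hβ e', x_h hβ, x_nonneg hβ hθ (by rw [A_symm, e']; omega), kap_Lv (f_Lv hθ) e4, kap_Lv (f_Lv hθ) e5,
    kap_Lv (eθ_Lv hθ) e4, kap_Lv (eθ_Lv hθ) e5, kap_Lv e6 e4, kap_Lv e7 e4, kap_Lv e7 e5, kap_Lv e8 e4, kap_en hμ hμ,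
    kap_he _ (neg_lt hμ), kap_he _ (neg_lt hζ)] at h5

theorem Lv_of_Ge (hθ : θ < D.nroots) (hδ : δ < D.nroots) (e : A D θ δ = 0) (h : v ∈ Lv K (lv D θ) 1)
    (h' : v ∈ Ge K (lv D δ) 1) : v ∈ Lv K (lv D δ) 1 := fun c hc => by
  by_contra h1
  have h2 : lv D θ (wtI D c) = 1 := by_contra fun e => h1 (h c e)
  have h3 : 1 ≤ lv D δ (wtI D c) := not_lt.1 fun e => h1 (h' c e)
  rcases c with i | u
  · simp [wtI] at h2
  · simp only [wtI, Sum.elim_inr, lv_wt] at h2 h3 hc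
    rcases A_cases hδ u.2 with e' | e' | e' | e' | e'
    · rw [e'] at h2; omega
    · rw [e', A_neg_right _ hδ, A_self hδ] at h3; omega
    all_goals omega

variable (θ S) in
/-- The second root. -/
structure Sec (ρ : Equiv.Perm ℕ) (α δ : ℕ) : Prop where
  lt : δ < D.nroots
  fix : ρ δ = δ
  lev : A D θ δ = 0
  one : A D δ α = 1
  dom : ∀ r, D.IsPosRoot r → A D θ r = 0 → 0 ≤ A D δ r
  move : ∀ η < D.nroots, ρ η = η → A D θ η = 0 → A D η α = 1 → ∃ k ∈ S ⊓ LL D K θ, ac D K k (bas D K δ) = bas D K η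

variable (θ S) in
/-- The normal form of the elements of order three. -/
structure NF3 (δ : ℕ) (l : D.group K) : Prop where
  mem : l ∈ S ⊓ LL D K θ
  mem' : l ∈ LL D K δ
  o3 : O3 θ S (rho D K δ * l)
  fix : ∀ v ∈ Lv K (lv D θ) 1, v ∈ Lv K (lv D δ) 1 → ac D K l v = v

namespace Sit

variable (h : Sit S σ ρ θ α)
include h

theorem cube (hl : O3 θ S l) : l * l * l = 1 := h.ker (mul_mem (mul_mem hl.mem.2 hl.mem.2) hl.mem.2) fun v hv => by
  have h1 := congrArg (ac D K l) (hl.eq _ hv)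
  have h2 := congrArg (ac D K l) h1
  simp only [map_add, ac_ac_inv] at h1 h2
  rw [ac_mul, ac_mul]
  linear_combination (exp := 1) h1 + h2 - vadd v

theorem o3_opp (hl : O3 θ S l) : ∃ k ∈ S ⊓ LL D K θ, ∃ η < D.nroots, ρ η = η ∧ A D θ η = 0 ∧ A D η α = 1 ∧
    kap D K (ac D K (k⁻¹ * l * k) (bas D K η)) (bas D K η) = 1 := by
  obtain ⟨k, hk, n, hn, w, hw, e1, u, hu, e2⟩ := h.move hl.mem
  refine ⟨k, h.ul hk, ?_⟩
  have h2 := hl.conj (h.ul hk)
  obtain ⟨h3, h4, -⟩ := h.nrep_e hn.1 hw h.hα h.αfix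
  have h5 : ac D K (k⁻¹ * l * k) (bas D K α) = bas D K (w α) := by
    rw [e2, ac_mul, mem_Fx.1 (UL_Fx h.hα h.αdom hu.2), h4]
  have h6 := (h.nrep_e (inv_mem hn.1) (hw.inv st) h.hα h.αfix).2.1
  have hβ := W_lt hw.mem_W h.hα
  have hβ' := W_lt (inv_mem hw.mem_W) h.hα
  have e3 : A D θ (w α) = 1 := by rw [← e1, A_W hw.mem_W, h.αlev]
  generalize k⁻¹ * l * k = l' at *
  generalize w α = β at *
  generalize w⁻¹ α = β' at *
  have h7 : ac D K l'⁻¹ (bas D K α) = bas D K α + bas D K β := by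
    rw [← h5]; linear_combination (exp := 1) h2.eq _ h.eα - vadd (ac D K l' (bas D K α))
  have h8 : ac D K u⁻¹ (bas D K β') = bas D K α + bas D K β := by rw [← h7, e2, _root_.mul_inv_rev, ac_mul, h6]
  have e4 : β ≠ α := by
    rintro rfl
    rw [vadd] at h7
    exact bas_ne (K := K) hβ (by rw [← ac_ac_inv l' (bas D K β), h7, map_zero])
  obtain rfl : β' = β := by
    have := kap_UU (UL_UU (inv_mem hu.2)) hβ' hβ' le_rfl
    rw [h8, map_add, LinearMap.add_apply, kap_en h.hα hβ', kap_en hβ hβ'] at this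
    by_contra e
    by_cases e' : α = β'
    · rw [← e', mem_Fx.1 (UL_Fx h.hα h.αdom (inv_mem hu.2)), left_eq_add] at h8
      exact bas_ne hβ h8
    · simp [e', Ne.symm e] at this
  have e5 : A D α β' = 1 := by
    rcases A_cases h.hα hβ with e | e | e | e | e
    · exact absurd e e4
    · rw [e, A_neg_right _ h.hα, h.αlev] at e3; omega
    · exact (not_orth h.hθ h.qpos h.hα h.αlev hβ e3 e (h.ul (inv_mem hu)).2 h8).elim
    · exact e
    · have h9 := h.test2 h2.mem.2 h2.sc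
      rw [h2.eq _ h.eα, add_smul, one_smul, left_eq_add, smul_eq_zero, phi, kap_ac, inv_inv, LL.ac_n h2.mem.2, h5,
        nn_e h.hθ hβ, kap_ee h.hα (refl_lt θ hβ), if_pos] at h9
      · exact (h9.elim one_ne_zero (bas_ne h.hα)).elim
      have e6 := wt_refl_neg e
      have e7 := A_add (a := θ) e6
      rcases A_cases h.hθ (refl_lt α hβ) with e8 | e8 | e8 | e8 | e8
      · exact eq_neg_of_wt h.hα (refl_lt θ hβ) (by rw [wt_refl_one e3, ← e8, e6]; simp)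
      · rw [e8, A_neg_right _ h.hθ, A_self h.hθ, h.αlev] at e7; omega
      all_goals rw [h.αlev] at e7; omega
  have hη := refl_lt β' h.hα
  have e6 : wt D α = wt D β' + wt D (refl D β' α) := by rw [wt_refl_one ((A_symm β' α).trans e5)]; simp
  have e7 := A_add (a := θ) e6
  have e8 := A_add (a := α) e6
  rw [A_self h.hα] at e8
  refine ⟨_, hη, (h.mem_fix hη one_ne_zero ?_).1, by rw [h.αlev] at e7; omega, by rw [A_symm]; omega, ?_⟩
  · rw [← nn_conj hβ]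
    exact mul_mem (mul_mem (h.nn_mem hβ h3) (h.x_mem h.hα h.αfix)) (inv_mem (h.nn_mem hβ h3))
  have h9 := x_sum (K := K) h.hα (neg_lt hβ) hη (by rw [e6, wt_neg hβ]; simp) 1
  have h10 := congrArg (fun g => ac D K (g * l') (bas D K (D.neg β'))) (LL.conj_x h.hθ h.qpos h2.mem.2 h.hα h.αlev hβ e3 h5 1)
  simp only [inv_mul_cancel_right, ac_mul, h9, one_smul, map_add] at h10
  have h11 := congrArg (fun v => kap D K v (bas D K (refl D β' α))) h10
  simp only [map_add, LinearMap.add_apply] at h11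
  rw [kap_ac (xg D K β' 1), x_inv, x_sum hβ hη h.hα e6, one_smul, map_add, add_right_inj] at h11
  rw [h11, kap_ac, h7, kap_comm, map_add, LinearMap.add_apply, kap_en h.hα hβ, kap_en hβ hβ]
  simp [e4.symm]

variable (hi : AdInv θ S) (hδ : Sec θ S ρ α δ)
include hi hδ

theorem nf3 (hl : O3 θ S l) : ∃ k ∈ S ⊓ LL D K θ, ∃ l', NF3 θ S δ l' ∧ k⁻¹ * l * k = rho D K δ * l' := by
  obtain ⟨k₁, hk₁, η, hη, e1, e2, e3, e4⟩ := h.o3_opp hl
  obtain ⟨k₂, hk₂, e5⟩ := hδ.move η hη e1 e2 e3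
  have h1 := (hl.conj hk₁).conj hk₂
  obtain ⟨w, -, u, hu, n, hn, hw, u', hu', e6⟩ := h.lbru h1.mem
  have h2 := opp_aux hδ.lt (W_lt hw.mem_W hδ.lt) (UL_Fx hδ.lt hδ.dom hu.2) (UL_Fx hδ.lt hδ.dom hu'.2)
    (h.nrep_e hn.1 hw hδ.lt hδ.fix).2.1 (by rw [← e6, ac_mul, ac_mul, kap_ac, inv_inv, e5, e4]; exact one_ne_zero)
  rw [← e6] at h2
  have h3 := h1.conj (h.ul hu)
  refine ⟨k₁ * k₂ * u, mul_mem (mul_mem hk₁ hk₂) (h.ul hu), ?_⟩
  rw [show (k₁ * k₂ * u)⁻¹ * l * (k₁ * k₂ * u) = u⁻¹ * (k₂⁻¹ * (k₁⁻¹ * l * k₁) * k₂) * u by group]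
  generalize u⁻¹ * (k₂⁻¹ * (k₁⁻¹ * l * k₁) * k₂) * u = l at h2 h3
  have e7 : A D δ θ = 0 := (A_symm δ θ).trans hδ.lev
  have hρ := rho_LL (K := K) hδ.lt h.hθ e7
  have hρ' := rho_LL (K := K) h.hθ hδ.lt hδ.lev
  have hx : ∀ r < D.nroots, ρ r = r → ρ (refl D r α) = refl D r α := fun r hr e =>
    (h.nrep_e (h.nn_mem hr e) (nn_nrep hr) h.hα h.αfix).1
  have h4 := refl_lt θ h.hα
  have h5 := refl_lt δ h.hα
  have hm := (Ex.nn (K := K) h5).mul (Ex.nn h4)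
  have hm' := mul_mem (h.nn_mem h5 (hx δ hδ.lt hδ.fix)) (h.nn_mem h4 (hx θ h.hθ h.θfix))
  have e8 : (refl D (refl D δ α) * refl D (refl D θ α)) θ = δ := by
    have e9 : refl D (refl D θ α) θ = α := wt_inj (refl_lt _ h.hθ) h.hα (by
      rw [wt_refl_neg (by rw [A_symm, A_refl_right, h.αlev]), wt_refl_one h.αlev]; simp)
    rw [Equiv.Perm.mul_apply, e9]
    exact wt_inj (refl_lt _ h.hα) hδ.lt (by
      rw [wt_refl_one (by rw [A_symm, A_refl, A_self h.hα, hδ.one, A_symm, hδ.one]; rfl), wt_refl_one hδ.one]; simp)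
  generalize nn D K (refl D δ α) * nn D K (refl D θ α) = m at hm hm'
  generalize refl D (refl D δ α) * refl D (refl D θ α) = w at hm e8
  have hS : rho D K θ ∈ S := mul_mem (h.nn_mem h.hθ h.θfix) (h.x_mem h.hθ h.θfix)
  have hS' : rho D K δ ∈ S := mul_mem (h.nn_mem hδ.lt hδ.fix) (h.x_mem hδ.lt hδ.fix)
  have h6 := h3.sc.conj hm'
  obtain ⟨l', hl', e9⟩ := h.nf (mul_mem (mul_mem (inv_mem hm') (mul_mem hS h3.mem.1)) hm') h6 (by
    rw [ac_mul, hm.e θ h.hθ, e8, ac_mul, ac_mul, h2, LL.f hρ, ← e8, ← W_neg hm.rep.mem_W h.hθ, ← hm.e _ (neg_lt h.hθ),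
      ac_inv_ac])
  rcases e9 with e9 | e9
  · have h7 := h.inv_of hi hl' (e9 ▸ h6)
    have h8 : rho D K θ * l * (rho D K θ * l) = 1 := by
      have : nn D K θ * l' * (nn D K θ * l') = 1 := by
        rw [mul_assoc, ← mul_assoc l', (LL.cn hl'.2).eq, ← mul_assoc, ← mul_assoc, nn_mul_self, one_mul, h7]
      rw [← e9] at this
      simpa [mul_assoc] using congrArg (fun g => m * g * m⁻¹) this
    have h9 : rho D K θ * l * (rho D K θ * l) * (rho D K θ * l) = 1 := by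
      have := (LL.crho h3.mem.2).symm.mul_pow 3
      simpa only [pow_succ, pow_zero, one_mul, rho_cube h.hθ, h.cube h3] using this
    rw [h8, one_mul] at h9
    have := congrArg (fun g => ac D K g (bas D K θ)) h9
    simp only [ac_mul, LL.e h3.mem.2, rho_e h.hθ, ac_one] at this
    exact absurd (bas_inj (neg_lt h.hθ) h.hθ this) (neg_ne h.hθ)
  have h7 := hm.LL h.hθ hl'.2
  have h8 : rho D K θ * l = rho D K δ * (m * l' * m⁻¹) := by
    rw [← e8, rho, rho, ← hm.conj_nn h.hθ, ← hm.conj, ← rho]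
    simpa [mul_assoc] using congrArg (fun g => m * g * m⁻¹) e9
  rw [e8] at h7
  have h9 : (rho D K δ)⁻¹ * l ∈ LL D K δ := by
    have : (rho D K δ)⁻¹ * l = (rho D K θ)⁻¹ * (m * l' * m⁻¹) := by
      rw [eq_inv_mul_iff_mul_eq, ← mul_assoc, (LL.crho hρ).inv_right.eq, mul_assoc, h8, inv_mul_cancel_left]
    exact this ▸ mul_mem (inv_mem hρ) h7
  have h10 := mul_mem (inv_mem (show rho D K δ ∈ S ⊓ LL D K θ from ⟨hS', hρ'⟩)) h3.mem
  refine ⟨(rho D K δ)⁻¹ * l, ⟨h10, h9, by rwa [mul_inv_cancel_left], fun v hv hv' => ?_⟩, by rw [mul_inv_cancel_left]⟩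
  have h11 := h3.eq v hv
  rw [← mul_inv_cancel_left (rho D K δ) l] at h11
  generalize (rho D K δ)⁻¹ * l = l at h9 h11
  have h12 := LL.lp h9 hv'
  have h13 := LL.lp (inv_mem h9) hv'
  rw [_root_.mul_inv_rev, (LL.crho (inv_mem h9)).inv_right.eq, rho_inv, rho, ac_mul, ac_mul, ac_mul, ac_mul,
    x_V1 hδ.lt h12, x_n_V1 hδ.lt h13] at h11
  have h14 := Lv_Lv_zero (add_mem h13 hv') (k := 1) (l := -1) (by
    have := n_Lv hδ.lt (add_mem h12 h13)
    rw [map_add] at this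
    convert this using 1
    linear_combination (exp := 1) h11 + vadd v - vadd (ac D K (nn D K δ) (ac D K l v)) -
      vadd (ac D K (nn D K δ) (ac D K l⁻¹ v))) (by omega)
  rw [← vsub, sub_eq_zero] at h14
  rw [← h14, ac_ac_inv, h14]

omit hi in
theorem not_nf3 (hζ : ζ < D.nroots) (e1 : A D θ ζ = 1) (e2 : A D δ ζ = 0)
    (top : ∀ r < D.nroots, A D θ r = 1 → A D δ r = 0 → r ≤ ζ)
    (prof : ∀ r < D.nroots, A D θ r = 1 → (∀ β < D.nroots, A D θ β = 1 → A D δ β = 1 → A D β r = A D β ζ) → r = ζ)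
    (cong : ∀ a : Fin D.rank → Kˣ, torChar a (wt D θ) = 1 →
      (∀ β < D.nroots, A D θ β = 1 → A D δ β = 1 → torChar a (wt D β) = 1) → torChar a (wt D ζ) = 1)
    (hl : NF3 θ S δ l) : False := by
  obtain ⟨w, e3, u, hu, n, hn, hw, u', hu', e4⟩ := h.lbru hl.mem
  obtain ⟨a, -, h1, -⟩ := nrep_spec hw
  have hG : UL D K θ ≤ RG K (lv D δ) 0 := XS_RG fun r hr => ⟨hr.1.1, hδ.dom r hr.1 hr.2⟩
  have h2 : ∀ v, ac D K n v = ac D K u⁻¹ (ac D K l (ac D K u'⁻¹ v)) := fun v => by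
    rw [e4, ac_mul, ac_mul, ac_ac_inv, ac_inv_ac]
  have h3 : ∀ β < D.nroots, A D θ β = 1 → A D δ β = 1 → w β = β ∧ torChar a (wt D β) = 1 := fun β hβ e e' => by
    have h4 := LL.lp (h.ul (inv_mem hu')).2 (e_Lv hβ e)
    have h5 := kap_UU (UL_UU (mul_mem (inv_mem hu.2) (inv_mem hu'.2))) hβ hβ le_rfl
    rw [ac_mul, ← hl.fix _ h4 (Lv_of_Ge h.hθ hδ.lt hδ.lev h4 (RG.ge (hG (inv_mem hu'.2)) (e_Ge hβ e'.ge))), ← h2,
      h1 β hβ, map_smul, LinearMap.smul_apply, kap_en (W_lt hw.mem_W hβ) hβ] at h5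
    by_cases e'' : w β = β
    · exact ⟨e'', Units.ext (by simpa [e''] using h5)⟩
    · simp [e''] at h5
  have h4 : w ζ = ζ := prof _ (W_lt hw.mem_W hζ) (by rw [← e3, A_W hw.mem_W, e1]) fun β hβ e e' => by
    rw [← (h3 β hβ e e').1, A_W hw.mem_W, (h3 β hβ e e').1]
  have h5 := cong a (Units.ext (smul_e_inj h.hθ (by
    have := h1 θ h.hθ
    rw [e3] at this
    rw [← this, LL.e hn.2, Units.val_one, one_smul]))) fun β hβ e e' => (h3 β hβ e e').2
  have h6 := h1 ζ hζ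
  rw [h4, h5, Units.val_one, one_smul, h2] at h6
  have h7 : ∀ u ∈ UL D K θ, ac D K u (bas D K ζ) + bas D K ζ ∈ Lv K (lv D θ) 1 ∧
      ac D K u (bas D K ζ) + bas D K ζ ∈ Lv K (lv D δ) 1 := fun u hu => by
    have h8 := add_mem (LL.lp (UL_LL h.hθ hu) (e_Lv hζ e1)) (e_Lv (φ := lv D θ) hζ e1)
    have h9 := hG hu _ _ (e_Ge hζ e2.ge)
    have h10 := UU_RG (UL_UU hu) _ _ (e_Ge hζ le_rfl)
    refine ⟨h8, Lv_of_Ge h.hθ hδ.lt hδ.lev h8 fun c hc => by_contra fun e => ?_⟩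
    have h11 : lv D θ (wtI D c) = 1 := by_contra fun e' => e (h8 c e')
    have h12 := not_lt.1 fun e' => e (h9 c e')
    have h13 := not_lt.1 fun e' => e (h10 c e')
    rcases c with i | r
    · simp [wtI] at h11
    · simp only [wtI, Sum.elim_inr, lv_wt, ordL_wt] at h11 h12 h13 hc
      have := (ordv_lt_iff hζ r.2).1 (by omega)
      have := top r r.2 h11 (by omega)
      omega
  have h8 : ac D K l (bas D K ζ) = bas D K ζ := by
    have h9 := hl.fix _ (h7 _ (inv_mem hu'.2)).1 (h7 _ (inv_mem hu'.2)).2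
    have h10 := congrArg (ac D K u) h6
    rw [ac_ac_inv] at h10
    rw [map_add, h10] at h9
    rw [← sub_eq_zero, vsub]
    refine Lv_Lv_zero (add_mem (LL.lp hl.mem' (e_Lv hζ e2)) (e_Lv hζ e2)) (k := 0) (l := 1) ?_ (by omega)
    convert add_mem (h7 _ hu.2).2 (h7 _ (inv_mem hu'.2)).2 using 1
    linear_combination (exp := 1) h9 - vadd (ac D K u (bas D K ζ))
  have h9 : rho D K δ * l ∈ Fx (bas D K ζ) := by
    rw [mem_Fx, ac_mul, h8]; exact LL.e (rho_LL hζ hδ.lt ((A_symm ζ δ).trans e2))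
  have := hl.o3.eq _ (e_Lv hζ e1)
  rw [mem_Fx.1 h9, mem_Fx.1 (inv_mem h9), vadd] at this
  exact bas_ne hζ this.symm

end Sit

end Cfsg.Agent.H3.AT
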