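import Cfsg.Agent.H3.AT6

/-! The degree filtration on endomorphisms and the data for the extraction argument. -/

set_option autoImplicit false
set_option linter.unusedSectionVars false

namespace Cfsg.Agent.H3.AT

open Cfsg.Lie Matrix Finset Cfsg.Agent.H8 Cfsg.Agent.H7 Cfsg.Agent.H9.AH

variable {D : ChevalleyDatum} {K : Type*} [Field K] [CharP K 2] [hD : RootFacts D] [hM : MatFacts D]
  [hC : ChainFacts D] [hN : NFacts D] [hS : SLFacts D] {r s θ α : ℕ} {g g' : D.group K}
  [Finite (D.group K)] {S : Subgroup (D.group K)} {σ : D.group K →* D.group K} {ρ : Equiv.Perm ℕ} {d d' : ℤ}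
  {X X' : Module.End K (D.Idx → K)}

variable (D K) in
/-- Endomorphisms raising the level by at least `d`. -/
def Dg (θ : ℕ) (d : ℤ) : Submodule K (Module.End K (D.Idx → K)) where
  carrier := {X | ∀ k, ∀ v ∈ Ge K (lv D θ) k, X v ∈ Ge K (lv D θ) (k + d)}
  add_mem' h h' k v hv := add_mem (h k v hv) (h' k v hv)
  zero_mem' _ _ _ := zero_mem _
  smul_mem' t _ h k v hv := Submodule.smul_mem _ t (h k v hv)

theorem Dg_mul (h : X ∈ Dg D K θ d) (h' : X' ∈ Dg D K θ d') : X * X' ∈ Dg D K θ (d + d') := fun k v hv => by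
  have := h _ _ (h' k v hv)
  rwa [add_assoc, add_comm d'] at this

theorem Dg_mono (e : d' ≤ d) : Dg D K θ d ≤ Dg D K θ d' := fun _ h k v hv => Ge_mono (by omega) (h k v hv)

theorem ad_Dg (h : r < D.nroots) : ad D K r ∈ Dg D K θ (A D θ r) := fun _ _ hv => ad_Ge h hv

theorem x_Dg (h : r < D.nroots) (t : K) : ac D K (xg D K r t) + 1 + t • ad D K r ∈ Dg D K θ (2 * A D θ r) :=
  fun k v hv => by
    have : (ac D K (xg D K r t) + 1 + t • ad D K r) v = (t ^ 2 * kap D K v (bas D K r)) • bas D K r := by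
      simp only [LinearMap.add_apply, LinearMap.smul_apply, Module.End.one_apply, x_eq h]
      linear_combination (exp := 1) vadd v + vadd (t • ad D K r v)
    exact this ▸ pr_Ge h hv (t ^ 2)

variable (D K) in
/-- `g` is `1 + X` up to terms of degree two. -/
def Ld (θ : ℕ) (g : D.group K) (X : Module.End K (D.Idx → K)) : Prop :=
  X ∈ Dg D K θ 1 ∧ ac D K g + 1 + X ∈ Dg D K θ 2

theorem eadd (X : Module.End K (D.Idx → K)) : X + X = 0 := LinearMap.ext fun v => vadd (X v)

theorem Ld.x (h : r < D.nroots) (e : A D θ r = 1) (t : K) : Ld D K θ (xg D K r t) (t • ad D K r) :=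
  ⟨Submodule.smul_mem _ _ (e ▸ ad_Dg h), by simpa [e] using x_Dg (θ := θ) h t⟩

theorem Ld.one : Ld D K θ 1 0 := ⟨zero_mem _, by rw [map_one, eadd, add_zero]; exact zero_mem _⟩

theorem Ld.mul (h : Ld D K θ g X) (h' : Ld D K θ g' X') : Ld D K θ (g * g') (X + X') := by
  refine ⟨add_mem h.1 h'.1, ?_⟩
  have h1 : ac D K g + 1 ∈ Dg D K θ 1 := by simpa [add_assoc, eadd] using add_mem (Dg_mono (by omega) h.2) h.1
  have h2 : ac D K g' + 1 ∈ Dg D K θ 1 := by simpa [add_assoc, eadd] using add_mem (Dg_mono (by omega) h'.2) h'.1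
  have h3 : (ac D K g + 1) * (ac D K g' + 1) ∈ Dg D K θ 2 := Dg_mul h1 h2
  have h4 : ac D K (g * g') + 1 + (X + X') =
      (ac D K g + 1) * (ac D K g' + 1) + (ac D K g + 1 + X) + (ac D K g' + 1 + X') := LinearMap.ext fun v => by
    simp only [ac_mul, LinearMap.add_apply, Module.End.mul_apply, Module.End.one_apply, map_add]
    linear_combination (exp := 1) -vadd (ac D K g v) - vadd (ac D K g' v) - vadd v
  exact h4 ▸ add_mem (add_mem h3 h.2) h'.2

variable (θ S) in
/-- The root vector `r` is the leading term of an element of the augmentation ideal. -/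
def Fam (r : ℕ) : Prop := ∃ (ι : Type) (s : Finset ι) (c : ι → K) (g : ι → D.group K) (X : ι → Module.End K (D.Idx → K)),
  (∀ i, g i ∈ S ∧ Ld D K θ (g i) (X i) ∧ Ld D K θ (g i)⁻¹ (X i)) ∧ ∑ i ∈ s, c i = 0 ∧ ∑ i ∈ s, c i • X i = ad D K r

theorem Fam.of_mem (h : r < D.nroots) (e : A D θ r = 1) (hx : xg D K r 1 ∈ S) : Fam θ S r :=
  ⟨Bool, univ, fun _ => 1, fun i => bif i then xg D K r 1 else 1, fun i => bif i then (1 : K) • ad D K r else 0,
    fun i => by
      cases i
      · exact ⟨one_mem _, Ld.one, by simpa using Ld.one⟩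
      · exact ⟨hx, Ld.x h e 1, by simpa [x_inv] using Ld.x h e (1 : K)⟩,
    by simp [CharTwo.two_eq_zero], by simp⟩

theorem AdInv.aux {η : ℕ} (hθ : θ < D.nroots) (hη : η < D.nroots) (e : A D θ η = 0) (hx : xg D K η 1 ∈ S)
    {v : D.Idx → K} (hv : v ∈ Lv K (lv D θ) 1) {Y : Submodule K (D.Idx → K)}
    (h : ∀ k ∈ S ⊓ LL D K θ, ac D K k v + v ∈ Y) : ad D K η v ∈ Y := by
  have := h _ ⟨hx, x_LL hθ hη e 1⟩
  rwa [x_eq hη, kap_Lv hv (e_Lv hη e) (by omega), mul_zero, zero_smul, add_zero, one_smul, add_right_comm, vadd,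
    zero_add] at this

variable (D) in
/-- The roots used in the extraction argument. -/
structure XD (θ α a a' b b' : ℕ) : Prop where
  ha : a < D.nroots
  ha' : a' < D.nroots
  hb : b < D.nroots
  hb' : b' < D.nroots
  ea : wt D θ = wt D a + wt D a'
  eb : wt D θ = wt D b + wt D b'
  ab : A D a b = 0
  αa : A D α a = 1
  αb : A D α b = 1

variable (θ S) in
/-- Every non-trivial element moves a conjugate of the highest root vector to an opposite one. -/
def Opp' : Prop := ∀ a : S, a ≠ 1 → ∃ a' : S, IsConj a a' ∧ kap D K (ac D K a'.1 (bas D K θ)) (bas D K θ) ≠ 0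

theorem kap_mat (hθ : θ < D.nroots) (g : D.group K) : kap D K (ac D K g (bas D K θ)) (bas D K θ) =
    (g.1 : Matrix D.Idx D.Idx K) (Sum.inr ⟨D.neg θ, neg_lt hθ⟩) (Sum.inr ⟨θ, hθ⟩) := by
  have e : bas D K θ = Pi.single (Sum.inr ⟨θ, hθ⟩) 1 := bas_enc D K (Sum.inr ⟨θ, hθ⟩)
  rw [kap_e _ hθ, ac_apply, e, mulVec_single_one]; rfl

end Cfsg.Agent.H3.AT
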