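import Cfsg.Agent.H3.AT7

/-! The extraction argument over the field with two elements. -/

set_option autoImplicit false
set_option linter.unusedSectionVars false

namespace Cfsg.Agent.H3.AT

open Cfsg.Lie Matrix Finset Cfsg.Agent.H8 Cfsg.Agent.H7 Cfsg.Agent.H9.AH

variable {D : ChevalleyDatum} {K : Type*} [Field K] [CharP K 2] [hD : RootFacts D] [hM : MatFacts D]
  [hC : ChainFacts D] [hN : NFacts D] [hS : SLFacts D] {r s θ α a a' b b' : ℕ} {g g' : D.group K}
  [Finite (D.group K)] {S : Subgroup (D.group K)} {σ : D.group K →* D.group K} {ρ : Equiv.Perm ℕ} {d m k : ℤ}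
  {X M ψ G G' B : Module.End K (D.Idx → K)} {u v u' v' : D.Idx → K}

theorem esub (X Y : Module.End K (D.Idx → K)) : X - Y = X + Y := LinearMap.ext fun v => vsub (X v) (Y v)

theorem conj_ring {R : Type*} [Ring R] (X P P' N ψ : R) :
    (1 + X + P) * ψ * (1 + X + P') - ψ - (X * (ψ - N) + (ψ - N) * X) =
      X * N + N * X + X * ψ * X + P * ψ * (1 + X + P') + ψ * P' + X * ψ * P' := by noncomm_ring

theorem one_Dg : (1 : Module.End K (D.Idx → K)) ∈ Dg D K θ 0 := fun k v hv => by simpa using hv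

theorem conj_Dg (hm : 1 ≤ m) (hX : X ∈ Dg D K θ m) (hG : G + 1 + X ∈ Dg D K θ (m + 1))
    (hG' : G' + 1 + X ∈ Dg D K θ (m + 1)) (hM : M ∈ Dg D K θ d) (hψ : ψ + M ∈ Dg D K θ (d + 1)) :
    G * ψ * G' + ψ + (X * M + M * X) ∈ Dg D K θ (d + m + 1) := by
  have h1 : ψ ∈ Dg D K θ d := by simpa [add_assoc, eadd] using add_mem (Dg_mono (by omega) hψ) hM
  have h2 : G' ∈ Dg D K θ 0 := by
    have := add_mem (add_mem (Dg_mono (show 0 ≤ m + 1 by omega) hG') (Dg_mono (show 0 ≤ m by omega) hX)) one_Dg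
    rwa [add_assoc _ X X, eadd, add_zero, add_assoc, eadd, add_zero] at this
  have := conj_ring X (G - 1 - X) (G' - 1 - X) (ψ - M) ψ
  rw [show 1 + X + (G - 1 - X) = G by abel, show 1 + X + (G' - 1 - X) = G' by abel, sub_sub_cancel] at this
  simp only [esub] at this
  rw [this]
  exact add_mem (add_mem (add_mem (add_mem (add_mem (Dg_mono (by omega) (Dg_mul hX hψ)) (Dg_mono (by omega) (Dg_mul hψ hX)))
    (Dg_mono (by omega) (Dg_mul (Dg_mul hX h1) hX))) (Dg_mono (by omega) (Dg_mul (Dg_mul hG h1) h2)))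
    (Dg_mono (by omega) (Dg_mul h1 hG'))) (Dg_mono (by omega) (Dg_mul (Dg_mul hX h1) hG'))

variable (S) in
/-- The augmentation submodule generated by `B`. -/
def Aug (B : Module.End K (D.Idx → K)) : Submodule K (Module.End K (D.Idx → K)) :=
  Submodule.span K {ψ | ∃ g ∈ S, ψ = ac D K g * B * ac D K g⁻¹ + B}

theorem Aug.conj (hg : g ∈ S) (h : ψ ∈ Aug S B) : ac D K g * ψ * ac D K g⁻¹ ∈ Aug S B := by
  induction h using Submodule.span_induction with
  | mem x hx =>
    obtain ⟨g', hg', rfl⟩ := hx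
    have := add_mem (Submodule.subset_span (R := K) (s := {ψ | ∃ g ∈ S, ψ = ac D K g * B * ac D K g⁻¹ + B})
      ⟨_, mul_mem hg hg', rfl⟩) (Submodule.subset_span ⟨_, hg, rfl⟩)
    rw [add_add_add_comm, eadd, add_zero, _root_.mul_inv_rev, map_mul, map_mul] at this
    simpa only [Aug, mul_add, add_mul, mul_assoc] using this
  | zero => simp
  | add x y _ _ hx hy => rw [mul_add, add_mul]; exact add_mem hx hy
  | smul c x _ hx => rw [mul_smul_comm, smul_mul_assoc]; exact Submodule.smul_mem _ c hx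

variable (D K) in
/-- The derivation given by a root vector. -/
def Dr (r : ℕ) (M : Module.End K (D.Idx → K)) : Module.End K (D.Idx → K) := ad D K r * M + M * ad D K r

variable (θ S) in
/-- `M` is the leading term, of degree `d`, of an element of the augmentation submodule. -/
def Lt (B : Module.End K (D.Idx → K)) (d : ℤ) (M : Module.End K (D.Idx → K)) : Prop :=
  M ∈ Dg D K θ d ∧ ∃ ψ ∈ Aug S B, ψ + M ∈ Dg D K θ (d + 1)

theorem Lt.step (h : Lt θ S B d M) (hr : r < D.nroots) (e : A D θ r = 1) (hf : Fam θ S r) :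
    Lt θ S B (d + 1) (Dr D K r M) := by
  obtain ⟨hM, ψ, h1, h2⟩ := h
  obtain ⟨ι, s, c, g, X, h3, h4, h5⟩ := hf
  have h6 : ad D K r ∈ Dg D K θ 1 := e ▸ ad_Dg hr
  refine ⟨add_mem (add_comm d 1 ▸ Dg_mul h6 hM) (Dg_mul hM h6), ∑ i ∈ s, c i • (ac D K (g i) * ψ * ac D K (g i)⁻¹),
    Submodule.sum_mem _ fun i _ => Submodule.smul_mem _ _ (Aug.conj (h3 i).1 h1), ?_⟩
  have := Submodule.sum_mem _ fun i (_ : i ∈ s) => Submodule.smul_mem _ (c i)
    (conj_Dg le_rfl (h3 i).2.1.1 (h3 i).2.1.2 (h3 i).2.2.2 hM h2)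
  simp only [smul_add, sum_add_distrib, ← sum_smul, h4, zero_smul, add_zero] at this
  simpa only [Dr, ← h5, sum_mul, mul_sum, smul_mul_assoc, mul_smul_comm] using this

/-- Rank one endomorphisms. -/
def ro (u v : D.Idx → K) : Module.End K (D.Idx → K) := ((kap D K).flip v).smulRight u

theorem ro_apply (u v w : D.Idx → K) : ro u v w = kap D K w v • u := rfl

/-- Symmetrised rank one endomorphisms. -/
def sy (u v : D.Idx → K) : Module.End K (D.Idx → K) := ro u v + ro v u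

theorem Dr_ro (hr : r < D.nroots) (u v : D.Idx → K) : Dr D K r (ro u v) = ro (ad D K r u) v + ro u (ad D K r v) :=
  LinearMap.ext fun w => by simp [Dr, ro_apply, kap_ad hr]

theorem Dr_add (r : ℕ) (X Y : Module.End K (D.Idx → K)) : Dr D K r (X + Y) = Dr D K r X + Dr D K r Y := by
  simp only [Dr, mul_add, add_mul]; abel

theorem Dr_smul (r : ℕ) (c : K) (X : Module.End K (D.Idx → K)) : Dr D K r (c • X) = c • Dr D K r X := by
  simp only [Dr, mul_smul_comm, smul_mul_assoc, smul_add]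

theorem Dr_sy (hr : r < D.nroots) (u v : D.Idx → K) : Dr D K r (sy u v) = sy (ad D K r u) v + sy u (ad D K r v) := by
  simp only [sy, Dr_add, Dr_ro hr]; abel

theorem sy_zero (u : D.Idx → K) : sy u 0 = 0 := LinearMap.ext fun w => by simp [sy, ro_apply]

theorem zero_sy (u : D.Idx → K) : sy 0 u = 0 := LinearMap.ext fun w => by simp [sy, ro_apply]

theorem trace_ro (X : Module.End K (D.Idx → K)) (u v : D.Idx → K) :
    LinearMap.trace K _ (X * ro u v) = kap D K (X u) v := by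
  have : X * ro u v = ro (X u) v := LinearMap.ext fun w => by simp [ro_apply]
  rw [this, ro, LinearMap.trace_smulRight]; rfl

theorem A_bd (hθ : θ < D.nroots) (c : D.Idx) : (-1 ≤ lv D θ (wtI D c) ∨ c = Sum.inr ⟨_, neg_lt hθ⟩) ∧
    (lv D θ (wtI D c) ≤ 1 ∨ c = Sum.inr ⟨_, hθ⟩) ∧ -2 ≤ lv D θ (wtI D c) ∧ lv D θ (wtI D c) ≤ 2 := by
  rcases c with i | u
  · simp [wtI]
  · simp only [wtI, Sum.elim_inr, lv_wt, Sum.inr.injEq, Fin.ext_iff]
    rcases A_cases hθ u.2 with e | e | e | e | e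
    · rw [e, A_self hθ]; omega
    · rw [e, A_neg_right _ hθ, A_self hθ]; omega
    all_goals omega

theorem Ge_top (hθ : θ < D.nroots) (h : k ≤ -2) (v : D.Idx → K) : v ∈ Ge K (lv D θ) k := fun c hc => by
  have := A_bd hθ c; omega

theorem Ge_neg (hθ : θ < D.nroots) (h : kap D K v (bas D K θ) = 0) : v ∈ Ge K (lv D θ) (-1) := fun c hc => by
  rcases (A_bd hθ c).1 with e | rfl
  · omega
  · rwa [kap_e _ hθ] at h

theorem Ge_three (hθ : θ < D.nroots) (h : v ∈ Ge K (lv D θ) 3) : v = 0 := funext fun c => h c (by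
  have := A_bd hθ c; omega)

theorem Ge_two (hθ : θ < D.nroots) (h : v ∈ Ge K (lv D θ) 2) : v = kap D K v (bas D K (D.neg θ)) • bas D K θ := by
  funext c
  rcases (A_bd hθ c).2.1 with e | rfl
  · rw [h c (by omega), Pi.smul_apply, e_Ge hθ (k := 2) (φ := lv D θ) (A_self hθ).ge c (by omega), smul_zero]
  · simp [kap_e _ (neg_lt hθ), bas_inr, neg_neg' hθ]

theorem Dg_four (hθ : θ < D.nroots) (h : X ∈ Dg D K θ 4) : ∃ μ : K, X = μ • ro (bas D K θ) (bas D K θ) := by
  refine ⟨kap D K (X (bas D K (D.neg θ))) (bas D K (D.neg θ)), LinearMap.ext fun v => ?_⟩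
  have h1 := Ge_three hθ (h _ _ (Ge_neg hθ (v := v + kap D K v (bas D K θ) • bas D K (D.neg θ)) (by
    simp [kap_ee (neg_lt hθ) hθ, CharTwo.add_self_eq_zero])))
  rw [map_add, map_smul, ← vsub, sub_eq_zero] at h1
  rw [h1, Ge_two hθ (h _ _ (Ge_top hθ le_rfl _)), LinearMap.smul_apply, ro_apply, smul_comm]
  simp [kap_en hθ hθ]

theorem Lt.start (hθ : θ < D.nroots) (hx : xg D K θ 1 ∈ S) (B : Module.End K (D.Idx → K)) :
    Lt θ S B (-2) (kap D K (B (bas D K θ)) (bas D K θ) • sy (hr D K θ) (bas D K (D.neg θ))) := by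
  have h1 : ∀ X : Module.End K (D.Idx → K), X ∈ Dg D K θ (-4) := fun X k v hv => by
    by_cases e : k ≤ 2
    · exact Ge_top hθ (by omega) _
    · rw [Ge_three hθ (Ge_mono (by omega) hv), map_zero]; exact zero_mem _
  have h2 : ad D K θ ∈ Dg D K θ 2 := A_self hθ ▸ ad_Dg hθ
  have h3 : ac D K (xg D K θ 1) + 1 + ad D K θ ∈ Dg D K θ (2 + 1) :=
    Dg_mono (d := 2 * A D θ θ) (by rw [A_self hθ]; omega) (by simpa using x_Dg (θ := θ) hθ (1 : K))
  generalize hc : kap D K (B (bas D K θ)) (bas D K θ) = c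
  have h4 : B + c • ro (bas D K (D.neg θ)) (bas D K (D.neg θ)) ∈ Dg D K θ (-4 + 1) := fun k v hv => by
    rcases lt_trichotomy k 2 with e | rfl | e
    · exact Ge_top hθ (by omega) _
    · rw [Ge_two hθ hv, map_smul]
      refine Submodule.smul_mem _ _ (Ge_neg hθ ?_)
      simp [ro_apply, hc, kap_en hθ hθ, kap_ee (neg_lt hθ) hθ, CharTwo.add_self_eq_zero]
    · rw [Ge_three hθ (Ge_mono (by omega) hv), map_zero]; exact zero_mem _
  have h5 := conj_Dg (by omega) h2 h3 h3 (h1 _) h4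
  have h6 := add_mem (Dg_mul h2 (h1 (c • ro (bas D K (D.neg θ)) (bas D K (D.neg θ)))))
    (Dg_mono (by omega) (Dg_mul (h1 (c • ro (bas D K (D.neg θ)) (bas D K (D.neg θ)))) h2))
  rw [← Dr, Dr_smul, Dr_ro hθ, ad_neg hθ, ← sy] at h5 h6
  exact ⟨h6, _, Submodule.subset_span ⟨_, hx, by rw [x_inv]⟩, h5⟩

theorem XD.lev (hθ : θ < D.nroots) (ha : a < D.nroots) (ha' : a' < D.nroots) (e : wt D θ = wt D a + wt D a') :
    A D θ a = 1 ∧ A D θ a' = 1 := by
  have h1 := A_of_sum ha ha' hθ e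
  rw [A_symm θ, A_symm θ, A_add e, A_add e, A_self ha, A_self ha', A_symm a' a, h1]
  omega

theorem XD.word (hθ : θ < D.nroots) (hα : α < D.nroots) (e : A D θ α = 1) (h : XD D θ α a a' b b') :
    Dr D K α (Dr D K b' (Dr D K a' (Dr D K b (Dr D K a (sy (hr D K θ) (bas D K (D.neg θ))))))) =
      sy (bas D K α) (bas D K θ) := by
  obtain ⟨ha, ha', hb, hb', ea, eb, ab, αa, αb⟩ := h
  obtain ⟨l1, l2⟩ := XD.lev hθ ha ha' ea
  obtain ⟨l3, l4⟩ := XD.lev hθ hb hb' eb
  have m1 : A D b a' = 1 := by have := A_add (a := b) ea; rw [A_symm b θ, A_symm b a] at this; omega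
  have m2 : A D a' b' = 0 := by have := A_add (a := a') eb; rw [A_symm a' θ, A_symm a' b] at this; omega
  have m3 : A D α a' = 0 := by have := A_add (a := α) ea; rw [A_symm α θ] at this; omega
  have m4 : A D α b' = 0 := by have := A_add (a := α) eb; rw [A_symm α θ] at this; omega
  have hη := refl_lt b (neg_lt ha')
  have eη := wt_refl_neg (show A D b (D.neg a') = -1 by rw [A_neg_right _ ha', m1])
  generalize refl D b (D.neg a') = η at hη eη
  rw [wt_neg ha'] at eη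
  simp only [Dr_add, Dr_sy, ha, ha', hb, hb', hα, ad_h, l1, l2, l3, l4, e, Int.cast_one, one_smul, sy_zero, zero_sy, add_zero,
    zero_add, ad_sum ha (neg_lt hθ) (neg_lt ha') (by rw [wt_neg ha', wt_neg hθ, ea]; simp),
    ad_sum hb (neg_lt hθ) (neg_lt hb') (by rw [wt_neg hb', wt_neg hθ, eb]; simp),
    ad_nonneg hb ha (by rw [A_symm, ab]), ad_sum hb (neg_lt ha') hη (by rw [wt_neg ha', eη]),
    ad_sum ha' ha hθ (by rw [ea, add_comm]), ad_nonneg ha' (neg_lt hb') (by rw [A_neg_right _ hb', m2]; rfl),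
    ad_nonneg ha' hb (by rw [A_symm, m1]; omega), ad_neg ha', ad_sum ha' hη hb (by rw [eη]; simp),
    ad_nonneg hb' hθ (by rw [A_symm, l4]; omega), ad_neg hb', ad_sum hb' hb hθ (by rw [eb, add_comm]), m2,
    ad_nonneg hb' ha' (by rw [A_symm, m2]), ad_sum hb' hη ha (by rw [eη]; linear_combination (exp := 1) eb - ea),
    Int.cast_zero, zero_smul, ad_nonneg hα hθ (by rw [A_symm, e]; omega), A_symm b' α, A_symm a' α, m3, m4,
    ad_nonneg hα hb (by omega), ad_nonneg hα hb' m4.ge, ad_nonneg hα ha' m3.ge, ad_nonneg hα ha (by omega)]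

theorem Sit.sc (h : Sit S σ ρ θ α) (hi : AdInv θ S) (hx : XD D θ α a a' b b') (fa : Fam θ S a) (fa' : Fam θ S a')
    (fb : Fam θ S b) (fb' : Fam θ S b') {x y : D.group K} {τ : K}
    (hτ : ∀ g ∈ S, ∀ g' ∈ S, LinearMap.trace K _ (ac D K (g⁻¹ * x * g) * (ac D K g' * ac D K y * ac D K g'⁻¹)) = τ)
    (hy : kap D K (ac D K y (bas D K θ)) (bas D K θ) ≠ 0) : Sc θ S x := by
  obtain ⟨l1, l2⟩ := XD.lev h.hθ hx.ha hx.ha' hx.ea
  obtain ⟨l3, l4⟩ := XD.lev h.hθ hx.hb hx.hb' hx.eb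
  obtain ⟨-, ψ, h1, h2⟩ := (((((Lt.start h.hθ (h.x_mem h.hθ h.θfix) (ac D K y)).step hx.ha l1 fa).step hx.hb l3 fb).step
    hx.ha' l2 fa').step hx.hb' l4 fb').step h.hα h.αlev (Fam.of_mem h.hα h.αlev (h.x_mem h.hα h.αfix))
  simp only [Dr_smul, hx.word h.hθ h.hα h.αlev] at h2
  obtain ⟨μ, h3⟩ := Dg_four h.hθ h2
  generalize kap D K (ac D K y (bas D K θ)) (bas D K θ) = c at hy h3
  have h4 : ∀ g ∈ S, ∀ ψ ∈ Aug S (ac D K y), LinearMap.trace K _ (ac D K (g⁻¹ * x * g) * ψ) = 0 := fun g hg ψ hψ => by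
    induction hψ using Submodule.span_induction with
    | mem x hx =>
      obtain ⟨g', hg', rfl⟩ := hx
      have := hτ g hg 1 (one_mem _)
      rw [inv_one, map_one, one_mul, mul_one] at this
      rw [mul_add, map_add, hτ g hg g' hg', this, CharTwo.add_self_eq_zero]
    | zero => simp
    | add x y _ _ hx hy => rw [mul_add, map_add, hx, hy, add_zero]
    | smul c x _ hx => rw [mul_smul_comm, map_smul, hx, smul_zero]
  intro g hg v hv
  have := h.irr' hi (kap D K (ac D K (g⁻¹ * x * g) (bas D K θ)) + kap D K (bas D K θ) ∘ₗ ac D K (g⁻¹ * x * g))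
    (c := c⁻¹ * μ * kap D K (ac D K (g⁻¹ * x * g) (bas D K θ)) (bas D K θ)) (fun k hk => by
      have h5 := congrArg (fun X => LinearMap.trace K _ (ac D K ((g * k)⁻¹ * x * (g * k)) * X)) h3
      simp only [mul_add, map_add, h4 _ (mul_mem hg hk.1) ψ h1, zero_add, mul_smul_comm, map_smul, sy, trace_ro,
        smul_eq_mul] at h5
      rw [show (g * k)⁻¹ * x * (g * k) = k⁻¹ * (g⁻¹ * x * g) * k by group] at h5
      generalize g⁻¹ * x * g = x at h5
      simp only [ac_mul, LL.e hk.2, kap_ac k⁻¹, inv_inv] at h5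
      rw [LinearMap.add_apply, LinearMap.comp_apply, kap_comm (bas D K θ), mul_assoc, ← h5]
      field_simp
      ring) hv
  rw [LinearMap.add_apply, LinearMap.comp_apply, CharTwo.add_eq_zero] at this
  simp only [ac_mul] at this
  rwa [kap_ac g⁻¹, kap_ac' g⁻¹, inv_inv] at this

end Cfsg.Agent.H3.AT
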