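import Cfsg.Agent.H3.AT8
import Cfsg.Agent.H9.AH0

/-! Products of two classes over the field with two elements: the final arguments. -/

set_option autoImplicit false
set_option linter.unusedSectionVars false

namespace Cfsg.Agent.H3.AT

open Cfsg.Lie Matrix Finset Cfsg.Agent.H8 Cfsg.Agent.H7 Cfsg.Agent.H9.AH

theorem dvd_of_pow_mem {G : Type*} [Group G] {H : Subgroup G} {z : G} {p N : ℕ} (hp : p.Prime) (h1 : z ^ p = 1)
    (h2 : z ∉ H) (h3 : z ^ N ∈ H) : p ∣ N := by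
  by_contra e
  obtain ⟨m, hm⟩ := exists_pow_eq_self_of_coprime
    (((hp.coprime_iff_not_dvd).2 e).symm.coprime_dvd_right (orderOf_dvd_of_pow_eq_one h1))
  exact h2 (hm ▸ pow_mem h3 m)

theorem exists_conj_pow {G : Type*} [Group G] [Finite G] {p : ℕ} [Fact p.Prime] {a b : G} (ha : a ^ p = 1)
    (hb : b ^ p = 1) : ∃ g k, (a * (g * b * g⁻¹)) ^ p ^ k = 1 := by
  have key : ∀ x : G, x ^ p = 1 → IsPGroup p (Subgroup.zpowers x) := fun x hx =>
    let ⟨k, hk⟩ : PEl p x := pel_of_pow (k := 1) (by rwa [pow_one])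
    IsPGroup.of_card (n := k) (by rw [Nat.card_zpowers, hk])
  obtain ⟨P, hP⟩ := (key a ha).exists_le_sylow
  obtain ⟨Q, hQ⟩ := (key b hb).exists_le_sylow
  obtain ⟨g, hg⟩ := MulAction.exists_smul_eq G Q P
  have h1 : a ∈ (P : Subgroup G) := hP (Subgroup.mem_zpowers a)
  have h2 : g * b * g⁻¹ ∈ (P : Subgroup G) := by
    rw [← hg, Sylow.coe_subgroup_smul]
    exact Subgroup.smul_mem_pointwise_smul _ (MulAut.conj g) _ (hQ (Subgroup.mem_zpowers b))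
  obtain ⟨k, hk⟩ := P.isPGroup' ⟨_, mul_mem h1 h2⟩
  exact ⟨g, k, by simpa using congrArg Subtype.val hk⟩

variable {D : ChevalleyDatum} {K : Type*} [Field K] [CharP K 2] [hD : RootFacts D] [hM : MatFacts D]
  [hC : ChainFacts D] [hN : NFacts D] [hS : SLFacts D] {θ α δ p p' q q' N : ℕ} {g l l' m z : D.group K}
  [Finite (D.group K)] {S : Subgroup (D.group K)} {σ : D.group K →* D.group K} {ρ : Equiv.Perm ℕ} {a b c : S}

theorem pow_Fx (hm : m ∈ LL D K θ) (hc : Commute z m) (h : (z * m) ^ N = 1) : z ^ N ∈ Fx (bas D K θ) := by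
  rw [hc.mul_pow] at h
  rw [eq_inv_of_mul_eq_one_left h]
  exact LL.e (inv_mem (pow_mem hm N))

theorem pow_order (a : S) : a.1 ^ orderOf a = 1 := by rw [← Subgroup.coe_pow, pow_orderOf_eq_one]; rfl

theorem rho_not (hθ : θ < D.nroots) : rho D K θ ∉ Fx (bas D K θ) := fun h =>
  neg_ne hθ (bas_inj (K := K) (neg_lt hθ) hθ (by rw [← rho_e hθ, mem_Fx.1 h]))

theorem inv_sq (hl : l ∈ LL D K θ) (h : l * l = 1) (e : a.1 = nn D K θ * l) : a ^ 2 ^ 1 = 1 := Subtype.ext (by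
  rw [pow_one, pow_two, Subgroup.coe_mul, e, mul_assoc, ← mul_assoc l, (LL.cn hl).eq, ← mul_assoc, ← mul_assoc, nn_mul_self,
    one_mul, h]; rfl)

namespace Sit

variable (h : Sit S σ ρ θ α)
include h

theorem inv_inv (hc : CP a b c) (hl : l ∈ LL D K θ) (h1 : l * l = 1) (e : a.1 = nn D K θ * l) (hl' : l' ∈ LL D K θ)
    (h2 : l' * l' = 1) (e' : b.1 = nn D K θ * l') : False := by
  refine hc.pel_false (pel_of_pow (inv_sq hl h1 e)) (pel_of_pow (inv_sq hl' h2 e')) Nat.prime_three (by omega)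
    (IsConj.refl _) (isConj_conj ⟨_, h.x_mem h.hθ h.θfix⟩ b) ?_
  have h3 := pow_order (a * (⟨_, h.x_mem h.hθ h.θfix⟩ * b * ⟨_, h.x_mem h.hθ h.θfix⟩⁻¹))
  generalize orderOf (a * _) = N at h3 ⊢
  have h4 : nn D K θ * l * (xg D K θ 1 * (nn D K θ * l') * (xg D K θ 1)⁻¹) = rho D K θ ^ 2 * (l * l') := by
    rw [x_inv, mul_assoc (xg D K θ 1), mul_assoc (nn D K θ) l', (LL.cx hl' 1).eq, pow_two, mul_assoc (rho D K θ),
      ← mul_assoc (rho D K θ) l, ← (LL.crho hl).eq, rho, mul_assoc (nn D K θ), mul_assoc (nn D K θ), ← mul_assoc l,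
      (LL.cx hl 1).eq]
    simp only [mul_assoc]
  simp only [Subgroup.coe_mul, Subgroup.coe_inv, e, e', h4] at h3
  have h5 := pow_Fx (mul_mem hl hl') ((LL.crho (mul_mem hl hl')).symm.pow_left 2) h3
  rw [← pow_mul] at h5
  have := dvd_of_pow_mem Nat.prime_three (by simpa [pow_succ] using rho_cube h.hθ) (rho_not h.hθ) h5
  omega

variable (hδ : Sec θ S ρ α δ)
include hδ

theorem inv_o3 (hc : CP a b c) (hl : NF3 θ S δ l) (e : a.1 = rho D K θ * (rho D K δ * l)) (hl' : l' ∈ LL D K θ)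
    (h2 : l' * l' = 1) (e' : b.1 = nn D K θ * l') (f1 : l' ∈ Fx (bas D K α)) (f2 : l' ∈ Fx (bas D K (refl D δ α))) :
    Concl 2 a b c := by
  have h1 : ac D K (rho D K δ * l) (bas D K α) = bas D K (refl D δ α) := by
    rw [ac_mul, hl.fix _ h.eα (e_Lv h.hα hδ.one), rho, ac_mul, x_nonneg hδ.lt h.hα (by rw [hδ.one]; omega), nn_e hδ.lt h.hα]
  have h3 := hl.o3
  generalize rho D K δ * l = l at h1 h3 e
  have h4 : ac D K l (bas D K (refl D δ α)) = bas D K (refl D δ α) + bas D K α := by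
    have := congrArg (ac D K l) (h3.eq _ h.eα)
    rw [map_add, ac_ac_inv, h1] at this
    linear_combination (exp := 1) this - vadd (bas D K α)
  have h5 := pow_order (a * b)
  have h6 : rho D K θ * l * (nn D K θ * l') = xg D K (D.neg θ) 1 * (l * l') := by
    rw [← refl_self h.hθ, ← nn_conj h.hθ, nn_inv, mul_assoc, ← mul_assoc l, (LL.cn h3.mem.2).eq, rho]
    simp only [mul_assoc]
  rw [Subgroup.coe_mul, e, e', h6] at h5
  have hm := mul_mem h3.mem.2 hl'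
  have h7 : xg D K (D.neg θ) 1 ^ 2 = 1 := by rw [pow_two, x_mul_self]
  have h8 := dvd_of_pow_mem Nat.prime_two h7 (fun e => by
    have := x_neg (K := K) (neg_lt h.hθ) 1
    rw [neg_neg' h.hθ, mem_Fx.1 e] at this
    simpa [kap_ee h.hθ h.hθ, kap_ee (neg_lt h.hθ) h.hθ, kap_he _ h.hθ] using
      congrArg (fun v => kap D K v (bas D K θ)) this) (pow_Fx hm (LL.cy hm 1).symm h5)
  refine hc.concl_two (Or.inr ((pel_of_pow (inv_sq hl' h2 e')).dvd hc.hb)) (IsConj.refl _) (IsConj.refl _) (IsConj.refl _)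
    (IsConj.refl _) h8 Nat.prime_three (by omega) ?_
  obtain ⟨N, hN⟩ := h8
  rw [(LL.cy hm 1).symm.mul_pow, hN, pow_mul, h7, one_pow, one_mul, ← hN] at h5
  have h9 : ∀ j : ℕ, ac D K ((l * l') ^ j) (bas D K α) = ac D K (l ^ j) (bas D K α) ∧
      ac D K ((l * l') ^ j) (bas D K (refl D δ α)) = ac D K (l ^ j) (bas D K (refl D δ α)) := fun j => by
    induction j with
    | zero => simp
    | succ j ih => simp only [pow_succ, ac_mul, mem_Fx.1 f1, mem_Fx.1 f2, h1, h4, map_add, ih.1, ih.2, and_self]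
  refine dvd_of_pow_mem (H := Fx (bas D K α)) Nat.prime_three (by simpa [pow_succ] using h.cube h3) (fun e => ?_)
    (by rw [mem_Fx, ← (h9 _).1, h5, ac_one])
  have := congrArg (A D δ) (bas_inj (K := K) (refl_lt δ h.hα) h.hα (by rw [← h1, mem_Fx.1 e]))
  rw [A_refl_right, hδ.one] at this
  omega

theorem o3_o3 (hc : CP a b c) (hl : NF3 θ S δ l) (e : a.1 = rho D K θ * (rho D K δ * l)) (hl' : NF3 θ S δ l')
    (e' : b.1 = rho D K θ * (rho D K δ * l')) : False := by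
  have : Fact (Nat.Prime 3) := ⟨Nat.prime_three⟩
  let C := S ⊓ Subgroup.centralizer {nn D K θ, nn D K δ, xg D K θ 1, xg D K δ 1, xg D K α 1}
  have h1 : ∀ l, NF3 θ S δ l → l ∈ C ∧ l ^ 3 = 1 := fun l hl => ⟨⟨hl.mem.1, by
    rintro _ (rfl | rfl | rfl | rfl | rfl)
    · exact (LL.cn hl.mem.2).symm
    · exact (LL.cn hl.mem').symm
    · exact (LL.cx hl.mem.2 1).symm
    · exact (LL.cx hl.mem' 1).symm
    · exact (mul_inv_eq_iff_eq_mul.1 (LL.conj_x h.hθ h.qpos hl.mem.2 h.hα h.αlev h.hα h.αlev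
        (hl.fix _ h.eα (e_Lv h.hα hδ.one)) 1)).symm⟩, by
    simpa only [pow_succ, pow_zero, one_mul, rho_cube hδ.lt, h.cube hl.o3] using ((LL.crho hl.mem').symm.mul_pow 3).symm⟩
  obtain ⟨g, k, hk⟩ := exists_conj_pow (p := 3) (a := (⟨l, (h1 l hl).1⟩ : C)) (b := ⟨l', (h1 l' hl').1⟩)
    (Subtype.ext (h1 l hl).2) (Subtype.ext (h1 l' hl').2)
  have h2 : ∀ z ∈ C, Commute (nn D K θ) z ∧ Commute (nn D K δ) z ∧ Commute (xg D K α 1) z ∧
      Commute (rho D K θ * rho D K δ) z := fun z hz =>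
    ⟨hz.2 _ (by simp), hz.2 _ (by simp), hz.2 _ (by simp), ((Commute.mul_left (hz.2 _ (by simp)) (hz.2 _ (by simp))).mul_left
      (Commute.mul_left (hz.2 _ (by simp)) (hz.2 _ (by simp))))⟩
  have hn : nn D K θ * nn D K δ ∈ S := mul_mem (h.nn_mem h.hθ h.θfix) (h.nn_mem hδ.lt hδ.fix)
  have hx := h.x_mem h.hα h.αfix
  have h3 : nn D K θ * nn D K δ * (rho D K θ * rho D K δ) * (nn D K θ * nn D K δ)⁻¹ = (rho D K θ * rho D K δ)⁻¹ := by
    have h4 := LL.crho (nn_LL (K := K) h.hθ hδ.lt hδ.lev)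
    have h5 := LL.cn (rho_LL (K := K) h.hθ hδ.lt hδ.lev)
    have h6 := LL.crho (rho_LL (K := K) h.hθ hδ.lt hδ.lev)
    have h7 : ∀ r, nn D K r * rho D K r * nn D K r = (rho D K r)⁻¹ := fun r => by
      rw [rho_inv, rho, ← mul_assoc, nn_mul_self, one_mul]
    rw [_root_.mul_inv_rev, nn_inv, nn_inv, mul_assoc (nn D K θ), ← mul_assoc (nn D K δ), h4.eq, ← h6.eq,
      _root_.mul_inv_rev, ← h7 θ, mul_assoc _ (nn D K θ), ← h5.inv_left.eq, ← h7 δ]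
    simp only [mul_assoc]
  have h4 : rho D K θ * rho D K δ * xg D K α 1 * (rho D K θ * rho D K δ)⁻¹ = xg D K (refl D θ (refl D δ α)) 1 := by
    have h5 := st.commute_of_A (K := K) hδ.lt (show 0 ≤ A D δ α by rw [hδ.one]; omega) 1 1
    have h6 := st.commute_of_A (K := K) h.hθ (show 0 ≤ A D θ (refl D δ α) by rw [A_refl, hδ.lev, h.αlev]; omega) 1 1
    calc _ = nn D K θ * (xg D K θ 1 * (nn D K δ * (xg D K δ 1 * xg D K α 1 * (xg D K δ 1)⁻¹) * (nn D K δ)⁻¹) *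
          (xg D K θ 1)⁻¹) * (nn D K θ)⁻¹ := by rw [rho, rho]; group
      _ = _ := by rw [h5.eq, mul_inv_cancel_right, nn_conj hδ.lt, h6.eq, mul_inv_cancel_right, nn_conj h.hθ]
  have hl1 := (h1 l hl).1
  have hl2 : g.1 * l' * g.1⁻¹ ∈ C := mul_mem (mul_mem g.2 (h1 l' hl').1) (inv_mem g.2)
  have h5 : g.1 * b.1 * g.1⁻¹ = rho D K θ * rho D K δ * (g.1 * l' * g.1⁻¹) := by
    rw [e', ← mul_assoc (rho D K θ), ← mul_assoc, ← (h2 _ g.2).2.2.2.eq]; group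
  have hk' : (l * (g.1 * l' * g.1⁻¹)) ^ 3 ^ k = 1 := by simpa using congrArg Subtype.val hk
  have o1 := hc.order (IsConj.refl a) ((isConj_conj ⟨_, g.2.1⟩ b).trans (isConj_conj ⟨_, hn⟩ _))
  have o2 := hc.order (IsConj.refl a) (((isConj_conj ⟨_, g.2.1⟩ b).trans (isConj_conj ⟨_, hn⟩ _)).trans (isConj_conj ⟨_, hx⟩ _))
  rw [← Subgroup.orderOf_coe] at o1 o2
  simp only [Subgroup.coe_mul, Subgroup.coe_inv, h5, e, ← mul_assoc (rho D K θ) (rho D K δ)] at o1 o2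
  generalize g.1 * l' * g.1⁻¹ = l' at hl2 hk' o1 o2
  have h6 : nn D K θ * nn D K δ * (rho D K θ * rho D K δ * l') * (nn D K θ * nn D K δ)⁻¹ =
      (rho D K θ * rho D K δ)⁻¹ * l' := by
    rw [← h3, mul_assoc _ (nn D K θ * nn D K δ)⁻¹ l', ((h2 _ hl2).1.mul_left (h2 _ hl2).2.1).inv_left.eq]; group
  have hm := h2 _ (mul_mem hl1 hl2)
  rw [h6] at o1 o2
  have h7 := h2 _ hl1
  have h8 := h2 _ hl2
  generalize rho D K θ * rho D K δ = τ at *
  rw [show τ * l * (τ⁻¹ * l') = l * l' by rw [h7.2.2.2.eq]; group] at o1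
  rw [show τ * l * (xg D K α 1 * (τ⁻¹ * l') * (xg D K α 1)⁻¹) = τ * xg D K α 1 * τ⁻¹ * (xg D K α 1)⁻¹ * (l * l') by
    rw [mul_assoc (xg D K α 1), mul_assoc τ⁻¹, ← h8.2.2.1.inv_left.eq, mul_assoc τ, ← mul_assoc l, ← h7.2.2.1.eq,
      mul_assoc _ l, ← mul_assoc l, ← h7.2.2.2.inv_left.eq, mul_assoc _ l, ← mul_assoc l, ← h7.2.2.1.inv_left.eq]
    group] at o2
  have h9 := orderOf_dvd_iff_pow_eq_one.1 (o2.trans o1.symm ▸ orderOf_dvd_of_pow_eq_one hk')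
  rw [(((hm.2.2.2.mul_left hm.2.2.1).mul_left hm.2.2.2.inv_left).mul_left hm.2.2.1.inv_left).mul_pow, hk', mul_one, h4,
    x_inv] at h9
  have hμ := refl_lt θ (refl_lt δ h.hα)
  have h10 := st.commute_of_A (K := K) h.hα (show 0 ≤ A D α (refl D θ (refl D δ α)) by
    rw [A_refl, A_refl, A_refl, A_self h.hα, hδ.lev, h.αlev, A_symm α δ, A_symm α θ, hδ.one, h.αlev]; omega) 1 1
  have h11 := dvd_of_pow_mem (H := ⊥) Nat.prime_two (z := xg D K (refl D θ (refl D δ α)) 1 * xg D K α 1)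
    (by rw [h10.symm.mul_pow, pow_two, pow_two, x_mul_self, x_mul_self, one_mul]) (fun e => by
      have := congrArg (A D θ) ((H7.isChev_xg (D := D) (F := K)).toIsFaith.root_eq hμ one_ne_zero
        ((eq_inv_of_mul_eq_one_left e).trans (x_inv _ _)))
      rw [A_refl_right, A_refl, hδ.lev, h.αlev] at this
      omega) h9
  have := Nat.prime_two.dvd_of_dvd_pow h11
  omega

end Sit

namespace Sit

variable (h : Sit S σ ρ θ α) (hi : AdInv θ S) (hx : XD D θ α p p' q q') (fa : Fam θ S p) (fa' : Fam θ S p')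
  (fb : Fam θ S q) (fb' : Fam θ S q') (ho : Opp' θ S)
include h hi hx fa fa' fb fb' ho

theorem nf_cp (hc : CP a b c) : ∃ a' : S, IsConj a a' ∧ ∃ l ∈ S ⊓ LL D K θ,
    (a'.1 = nn D K θ * l ∧ l * l = 1) ∨ (a'.1 = rho D K θ * l ∧ T3 θ S l) := by
  obtain ⟨a₁, k₁, h1⟩ := ho a hc.ha
  obtain ⟨b₁, k₂, h2⟩ := ho b hc.hb
  have h3 : Sc θ S a₁.1 := h.sc hi hx fa fa' fb fb' (τ := LinearMap.trace K _ (ac D K c.1)) (fun g hg g' hg' => by
    have := hc.cls (fun x => LinearMap.trace K _ (ac D K x.1)) (fun g x => by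
      simp only [Subgroup.coe_mul, map_mul]
      rw [LinearMap.trace_mul_cycle, ← map_mul, ← Subgroup.coe_mul, inv_mul_cancel, Subgroup.coe_one, map_one, one_mul])
      (k₁.trans (isConj_conj' ⟨g, hg⟩ a₁)) (k₂.trans (isConj_conj ⟨g', hg'⟩ b₁))
    simpa only [Subgroup.coe_mul, Subgroup.coe_inv, map_mul] using this) h2
  obtain ⟨u, hu, h4⟩ := h.opp_conj a₁.2 h1
  have h5 := h3.conj hu
  obtain ⟨l, hl, e⟩ := h.nf (mul_mem (mul_mem (inv_mem hu) a₁.2) hu) h5 h4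
  exact ⟨_, k₁.trans (isConj_conj' ⟨u, hu⟩ a₁), l, hl, e.imp (fun e => ⟨e, h.inv_of hi hl (e ▸ h5)⟩)
    fun e => ⟨e, hl, e ▸ h5⟩⟩

theorem noCP (hno : ∀ l, ¬ T3 θ S l) : NoCP S := fun a b c hc => by
  obtain ⟨a', k, l, hl, e | e⟩ := h.nf_cp hi hx fa fa' fb fb' ho hc
  · obtain ⟨b', k', l', hl', e' | e'⟩ := h.nf_cp hi hx fa fa' fb fb' ho hc.symm
    · exact h.inv_inv (hc.congr k k') hl.2 e.2 e.1 hl'.2 e'.2 e'.1
    · exact hno _ e'.2
  · exact hno _ e.2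

variable (hδ : Sec θ S ρ α δ)
include hδ

theorem noCP' (hno : ∀ l, ¬ NF3 θ S δ l) : NoCP S := h.noCP hi hx fa fa' fb fb' ho fun l hl =>
  let ⟨_, _, _, h1, _⟩ := h.nf3 hi hδ (h.o3_of hi hδ.lt hδ.fix hδ.lev hδ.one hl)
  hno _ h1

theorem nf_cp' (hc : CP a b c) : ∃ a' : S, IsConj a a' ∧ ∃ l ∈ S ⊓ LL D K θ,
    (a'.1 = nn D K θ * l ∧ l * l = 1) ∨ (a'.1 = rho D K θ * (rho D K δ * l) ∧ NF3 θ S δ l) := by
  obtain ⟨a', k, l, hl, e | e⟩ := h.nf_cp hi hx fa fa' fb fb' ho hc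
  · exact ⟨a', k, l, hl, Or.inl e⟩
  obtain ⟨g, hg, l', h1, h2⟩ := h.nf3 hi hδ (h.o3_of hi hδ.lt hδ.fix hδ.lev hδ.one e.2)
  refine ⟨_, k.trans (isConj_conj' ⟨g, hg.1⟩ a'), l', h1.mem, Or.inr ⟨?_, h1⟩⟩
  simp only [Subgroup.coe_mul, Subgroup.coe_inv, e.1, ← h2]
  rw [← mul_assoc, (LL.crho (inv_mem hg.2)).eq]; group

theorem good (hpl : ∀ l ∈ S ⊓ LL D K θ, l * l = 1 → ∃ k ∈ S ⊓ LL D K θ, k⁻¹ * l * k ∈ Fx (bas D K α) ∧
    k⁻¹ * l * k ∈ Fx (bas D K (refl D δ α))) : Good 2 S := by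
  have key : ∀ {a b c : S} {l l' : D.group K}, CP a b c → NF3 θ S δ l → a.1 = rho D K θ * (rho D K δ * l) → l' ∈ S ⊓ LL D K θ →
      l' * l' = 1 → b.1 = nn D K θ * l' → Concl 2 a b c := fun {a b c l l'} hc hl e hl' h1 e' => by
    obtain ⟨k, hk, f1, f2⟩ := hpl l' hl' h1
    have h2 := (mul_mem (mul_mem (inv_mem hk) hl') hk).2
    have h3 : k⁻¹ * l' * k * (k⁻¹ * l' * k) = 1 := by
      calc _ = k⁻¹ * (l' * l') * k := by group
        _ = 1 := by rw [h1]; group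
    obtain ⟨b', k', h4⟩ : ∃ b' : S, IsConj b b' ∧ b'.1 = nn D K θ * (k⁻¹ * l' * k) :=
      ⟨_, isConj_conj' ⟨k, hk.1⟩ b, by
        simp only [Subgroup.coe_mul, Subgroup.coe_inv, e']
        rw [← mul_assoc, (LL.cn (inv_mem hk).2).eq]; group⟩
    have h5 := h.inv_o3 hδ (hc.right k') hl e h2 h3 h4 f1 f2
    exact Concl.congr h5 (IsConj.refl a) k'
  intro a b c hc
  obtain ⟨a', k, l, hl, e⟩ := h.nf_cp' hi hx fa fa' fb fb' ho hδ hc
  obtain ⟨b', k', l', hl', e'⟩ := h.nf_cp' hi hx fa fa' fb fb' ho hδ hc.symm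
  refine Concl.congr ?_ k k'
  have hc' := hc.congr k k'
  rcases e with e | e <;> rcases e' with e' | e'
  · exact (h.inv_inv hc' hl.2 e.2 e.1 hl'.2 e'.2 e'.1).elim
  · exact (key hc'.symm e'.2 e'.1 hl e.2 e.1).symm
  · exact key hc' e.2 e.1 hl' e'.2 e'.1
  · exact (h.o3_o3 hδ hc' e.2 e.1 e'.2 e'.1).elim

end Sit

end Cfsg.Agent.H3.AT
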