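import Cfsg.Agent.H3.Basic

set_option autoImplicit false

namespace Cfsg.Agent.H3

open Subgroup

theorem two_dvd_automizer_of_real {G : Type*} [Group G] [Finite G] {p : ℕ} [Fact p.Prime]
    (P : Sylow p G) (hP : IsMulCommutative (P : Subgroup G)) (s : G) (hs : orderOf s = p)
    (hp : p ≠ 2) (hconj : IsConj s s⁻¹) :
    2 ∣ ((Subgroup.centralizer ((P : Subgroup G) : Set G)).subgroupOf
        (Subgroup.normalizer ((P : Subgroup G) : Set G))).index := by
  have hpp : p.Prime := Fact.out
  have h1 : IsPGroup p (zpowers s) := by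
    apply IsPGroup.of_card (n := 1)
    rw [Nat.card_zpowers, hs, pow_one]
  obtain ⟨R, hR⟩ := h1.exists_le_sylow
  obtain ⟨k, hk⟩ := MulAction.exists_smul_eq G R P
  set t := k * s * k⁻¹ with ht
  have htP : t ∈ (P : Subgroup G) := by
    rw [← hk, mem_sylow_smul]
    have : k⁻¹ * t * k = s := by rw [ht]; group
    rw [this]; exact hR (mem_zpowers s)
  have hto : orderOf t = p := by
    rw [← hs, ht]; exact (MulAut.conj k).orderOf_eq s
  have hconj' : IsConj t t⁻¹ := by
    have h2 : IsConj s t := isConj_iff.2 ⟨k, rfl⟩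
    have h3 : IsConj s⁻¹ t⁻¹ := isConj_iff.2 ⟨k, by rw [ht]; group⟩
    exact h2.symm.trans (hconj.trans h3)
  obtain ⟨g, hg⟩ := isConj_iff.1 hconj'
  have hQ : zpowers t ≤ (P : Subgroup G) := by rwa [zpowers_le]
  refine dvd_trans ?_ (abelian_sylow_automizer_dvd P hP _ hQ)
  have hgN : g ∈ normalizer ((zpowers t : Subgroup G) : Set G) := by
    apply mem_normalizer_fintype
    rintro _ ⟨m, rfl⟩
    refine ⟨-m, ?_⟩
    simp only
    rw [← conj_zpow, hg]; simp
  set N := normalizer ((zpowers t : Subgroup G) : Set G)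
  set C := centralizer ((zpowers t : Subgroup G) : Set G)
  have hne : t ≠ t⁻¹ := by
    intro h
    have h2 : t ^ 2 = 1 := by rw [pow_two]; nth_rewrite 2 [h]; simp
    have h3 := orderOf_dvd_of_pow_eq_one h2
    rw [hto] at h3
    exact hp ((Nat.prime_dvd_prime_iff_eq hpp Nat.prime_two).1 h3)
  have hord : orderOf (QuotientGroup.mk (s := C.subgroupOf N) ⟨g, hgN⟩) = 2 := by
    have : Fact (Nat.Prime 2) := ⟨Nat.prime_two⟩
    apply orderOf_eq_prime
    · rw [← QuotientGroup.mk_pow, QuotientGroup.eq_one_iff, mem_subgroupOf, mem_centralizer_iff]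
      rintro _ ⟨m, rfl⟩
      have h2 : g ^ 2 * t * (g ^ 2)⁻¹ = t := by
        calc g ^ 2 * t * (g ^ 2)⁻¹ = g * (g * t * g⁻¹) * g⁻¹ := by simp [pow_two, mul_assoc]
          _ = g * t⁻¹ * g⁻¹ := by rw [hg]
          _ = (g * t * g⁻¹)⁻¹ := by group
          _ = t := by rw [hg, inv_inv]
      have h3 : Commute (g ^ 2) t := by
        rw [commute_iff_eq]
        calc g ^ 2 * t = g ^ 2 * t * (g ^ 2)⁻¹ * g ^ 2 := by group
          _ = t * g ^ 2 := by rw [h2]
      exact (h3.zpow_right m).symm.eq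
    · intro h
      rw [QuotientGroup.eq_one_iff, mem_subgroupOf, mem_centralizer_iff] at h
      have h2 := h t (mem_zpowers t)
      apply hne
      rw [← hg]
      simp only at h2
      rw [← h2]; group
  rw [← hord]
  exact orderOf_dvd_natCard _

end Cfsg.Agent.H3
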