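import Mathlib

/-! Burnside's theorem on transitive groups of prime degree, by the polynomial method. -/

set_option autoImplicit false

namespace Cfsg.Agent.H3.DT

open Polynomial Finset

variable {p : ℕ} [hp : Fact p.Prime]

theorem exists_powsum {U : Finset (ZMod p)} (h0 : (0 : ZMod p) ∉ U) (h1 : U.Nonempty) :
    ∃ r, (0 < r ∧ r ≤ U.card) ∧ ∑ u ∈ U, u ^ r ≠ 0 := by
  by_contra! h
  obtain ⟨v, hv⟩ := h1
  let g : (ZMod p)[X] := X * ∏ u ∈ U.erase v, (X - C u)
  have h2 : g.natDegree < U.card + 1 := by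
    have := card_erase_of_mem hv
    have := card_pos.2 ⟨v, hv⟩
    have h3 := natDegree_mul_le (p := (X : (ZMod p)[X])) (q := ∏ u ∈ U.erase v, (X - C u))
    rw [natDegree_finsetProd_X_sub_C_eq_card, natDegree_X] at h3
    show (X * _ : (ZMod p)[X]).natDegree < _
    omega
  have h3 : ∑ u ∈ U, g.eval u = 0 := by
    simp only [eval_eq_sum_range' h2]
    rw [sum_comm]
    refine sum_eq_zero fun k hk => ?_
    rw [← mul_sum]
    rcases k.eq_zero_or_pos with rfl | e
    · simp [g]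
    · rw [h k ⟨e, Nat.lt_succ_iff.1 (mem_range.1 hk)⟩, mul_zero]
  rw [sum_eq_single_of_mem v hv fun u hu e => by
    simp only [g, eval_mul, eval_prod]
    rw [prod_eq_zero (mem_erase.2 ⟨e, hu⟩) (by simp), mul_zero]] at h3
  simp only [g, eval_mul, eval_prod, eval_X, eval_sub, eval_C, mul_eq_zero, prod_eq_zero_iff, sub_eq_zero] at h3
  rcases h3 with rfl | ⟨u, hu, rfl⟩
  exacts [h0 hv, by simp at hu]

theorem affine_of_small {U : Finset (ZMod p)} (h0 : (0 : ZMod p) ∉ U) (h1 : U.Nonempty) (h2 : 2 * U.card < p)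
    {π : ZMod p → ZMod p} (hπ : Function.Injective π) (h : ∀ i, ∀ u ∈ U, π (i + u) - π i ∈ U) :
    ∃ α β, ∀ i, π i = α * i + β := by
  classical
  obtain ⟨f, hf, hf'⟩ : ∃ f : (ZMod p)[X], f.natDegree < p ∧ ∀ i, f.eval i = π i := by
    refine ⟨Lagrange.interpolate univ id π, ?_, fun i => Lagrange.eval_interpolate_at_node π (fun _ _ _ _ e => e) (mem_univ i)⟩
    have := Lagrange.degree_interpolate_lt (s := univ) π (v := id) fun _ _ _ _ e => e
    rw [card_univ, ZMod.card] at this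
    by_cases e : Lagrange.interpolate univ id π = 0
    · rw [e]; exact hp.out.pos
    · exact (natDegree_lt_iff_degree_lt e).2 this
  by_cases hn : f.natDegree ≤ 1
  · obtain ⟨α, β, rfl⟩ := exists_eq_X_add_C_of_natDegree_le_one hn
    exact ⟨α, β, fun i => by simpa using (hf' i).symm⟩
  exfalso
  have hf0 : f ≠ 0 := by rintro rfl; simp at hn
  obtain ⟨w, hw, hw'⟩ : ∃ w, w * f.natDegree < p ∧ p ≤ w * f.natDegree + f.natDegree :=
    ⟨(p - 1) / f.natDegree, by have := Nat.div_mul_le_self (p - 1) f.natDegree; omega, by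
      have := Nat.lt_div_mul_add (a := p - 1) (b := f.natDegree) (by omega); omega⟩
  have hw0 : 0 < w := Nat.pos_of_ne_zero (by rintro rfl; omega)
  have hw1 : f.natDegree ≤ w * f.natDegree := Nat.le_mul_of_pos_left _ hw0
  obtain ⟨⟨r0, r1⟩, r2⟩ := Nat.find_spec (exists_powsum h0 h1)
  have r3 := fun k => Nat.find_min (exists_powsum h0 h1) (m := k)
  generalize Nat.find (exists_powsum h0 h1) = r at r0 r1 r2 r3
  replace r3 : ∀ k, 0 < k → k < r → ∑ u ∈ U, u ^ k = 0 := fun k a b => by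
    simpa [a, show k ≤ U.card by omega] using r3 k b
  have h3 : ∑ u ∈ U, taylor u (f ^ w) = ∑ u ∈ U, (C u + f) ^ w := by
    refine eq_of_natDegree_lt_card_of_eval_eq' _ _ univ (fun i _ => ?_) ?_
    · simp only [eval_finsetSum, taylor_eval, eval_pow, eval_add, eval_C, hf']
      refine sum_bij (fun u _ => π (i + u) - π i) (h i) (fun a _ b _ e => by simpa [hπ.eq_iff] using e)
        (fun b hb => ?_) fun a _ => by simp
      obtain ⟨a, ha, e⟩ := surjOn_of_injOn_of_card_le (fun u => π (i + u) - π i) (h i)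
        (fun a _ b _ e => by simpa [hπ.eq_iff] using e) le_rfl hb
      exact ⟨a, ha, e⟩
    · rw [card_univ, ZMod.card]
      refine max_lt ((natDegree_sum_le_of_forall_le _ _ fun u _ => ?_).trans_lt hw)
        ((natDegree_sum_le_of_forall_le _ _ fun u _ => ?_).trans_lt hw)
      · rw [natDegree_taylor, natDegree_pow]
      · rw [natDegree_pow, natDegree_C_add]
  obtain ⟨m, hm⟩ : ∃ m, w * f.natDegree = r + m := Nat.exists_eq_add_of_le (by omega)
  have h4 := congrArg (coeff · m) h3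
  have h5 : (hasseDeriv m (f ^ w)).natDegree < r + 1 := by
    have := natDegree_hasseDeriv_le (f ^ w) m
    rw [natDegree_pow] at this; omega
  simp only [finsetSum_coeff, taylor_coeff, eval_eq_sum_range' h5, add_pow, ← C_pow, ← C_eq_natCast, coeff_mul_C,
    coeff_C_mul, hasseDeriv_coeff] at h4
  rw [sum_comm, sum_comm (s := U)] at h4
  simp only [← mul_sum, ← sum_mul] at h4
  rw [sum_range_succ, sum_eq_single_of_mem 0 (mem_range.2 r0) fun k hk e => by
      rw [r3 k (by omega) (mem_range.1 hk), mul_zero],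
    sum_eq_single_of_mem (s := range (w + 1)) 0 (by simp) fun k hk e => by
      by_cases h6 : k < r
      · rw [r3 k (by omega) h6, zero_mul, zero_mul]
      · rw [coeff_eq_zero_of_natDegree_lt, mul_zero, zero_mul]
        obtain ⟨j, rfl⟩ := Nat.exists_eq_add_of_le (Nat.lt_succ_iff.1 (mem_range.1 hk))
        rw [natDegree_pow, Nat.add_sub_cancel_left]
        nlinarith] at h4
  have h6 : (f ^ w).coeff (r + m) ≠ 0 := by
    rw [← hm, ← natDegree_pow]; exact leadingCoeff_ne_zero.2 (pow_ne_zero _ hf0)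
  have h7 : ((r + m).choose m : ZMod p) ≠ 0 := fun e =>
    hp.out.coprime_iff_not_dvd.1 (Nat.Prime.coprime_choose_of_lt hp.out (by omega) (by omega))
      ((ZMod.natCast_eq_zero_iff _ _).1 e)
  simp [mul_comm, h6, h7, r2] at h4

theorem affine_of {U : Finset (ZMod p)} (h0 : (0 : ZMod p) ∉ U) (h1 : U.Nonempty) {v : ZMod p} (hv : v ≠ 0)
    (hv' : v ∉ U) {π : ZMod p → ZMod p} (hπ : Function.Injective π) (h : ∀ i, ∀ u ∈ U, π (i + u) - π i ∈ U) :
    ∃ α β, ∀ i, π i = α * i + β := by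
  by_cases h2 : 2 * U.card < p
  · exact affine_of_small h0 h1 h2 hπ h
  refine affine_of_small (U := univ.erase 0 \ U) (by simp) ⟨v, by simp [hv, hv']⟩ ?_ hπ fun i u hu => ?_
  · rw [card_sdiff_of_subset fun u hu => mem_erase.2 ⟨by rintro rfl; exact h0 hu, mem_univ _⟩,
      card_erase_of_mem (mem_univ _), card_univ, ZMod.card]
    have := hp.out.pos
    omega
  · simp only [mem_sdiff, mem_erase, mem_univ, and_true] at hu ⊢
    refine ⟨by simpa [sub_eq_zero, hπ.eq_iff] using hu.1, fun e => ?_⟩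
    obtain ⟨a, ha, e⟩ := surjOn_of_injOn_of_card_le (fun u => π (i + u) - π i) (h i)
      (fun a _ b _ e => by simpa [hπ.eq_iff] using e) le_rfl e
    obtain rfl : a = u := by simpa [hπ.eq_iff] using e
    exact hu.2 ha

open MulAction

variable {X T : Type*} [Group X] [MulAction X T]

theorem le_ncard_of_move {S : Set T} (hS : S.Finite) {c : X} {k : ℕ} (hc : c ^ p ^ k = 1) {s : T}
    (hs : ∀ n : ℕ, c ^ n • s ∈ S) (h : c • s ≠ s) : p ≤ period c s ∧ period c s ≤ S.ncard ∧ ∃ j, period c s = p ^ j := by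
  obtain ⟨j, -, hj⟩ := (Nat.dvd_prime_pow hp.out).1 ((period_dvd_orderOf c s).trans (orderOf_dvd_of_pow_eq_one hc))
  refine ⟨hj ▸ Nat.le_self_pow (by rintro rfl; exact h (period_eq_one_iff.1 hj)) p, ?_, j, hj⟩
  rw [← Set.ncard_Iio_nat (period c s)]
  exact Set.ncard_le_ncard_of_injOn (fun n => c ^ n • s) (fun n _ => hs n)
    (by simpa [period_eq_minimalPeriod] using Function.iterate_injOn_Iio_minimalPeriod (f := (c • ·)) (x := s)) hS

theorem exists_coord {S : Set T} (hS : S.ncard = p) {c : X} {k : ℕ} (hc : c ^ p ^ k = 1) {s : T}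
    (hs : ∀ n : ℕ, c ^ n • s ∈ S) (h : c • s ≠ s) : ∃ e : ZMod p → T, Function.Injective e ∧ Set.range e = S ∧
      e 0 = s ∧ ∀ (n : ℕ) i, c ^ n • e i = e (i + n) := by
  have hf : S.Finite := Set.finite_of_ncard_ne_zero (hS ▸ hp.out.ne_zero)
  obtain ⟨h1, h2, -⟩ := le_ncard_of_move hf hc hs h
  have h3 : period c s = p := by omega
  have h4 : Function.Injective fun i : ZMod p => c ^ i.val • s := fun i j e => ZMod.val_injective p
    ((by simpa [period_eq_minimalPeriod] using Function.iterate_injOn_Iio_minimalPeriod (f := (c • ·)) (x := s) :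
      Set.InjOn (fun n => c ^ n • s) (Set.Iio (period c s))) (h3 ▸ i.val_lt) (h3 ▸ j.val_lt) e)
  refine ⟨_, h4, Set.eq_of_subset_of_ncard_le (Set.range_subset_iff.2 fun _ => hs _) ?_ hf, by simp, fun n i => ?_⟩
  · rw [Set.ncard_range_of_injective h4, Nat.card_zmod, hS]
  · rw [ZMod.val_add, ZMod.val_natCast, Nat.add_mod_mod, congrArg (_ % ·) h3.symm, pow_mod_period_smul, add_comm,
      pow_add, mul_smul]

/-- Burnside's theorem on groups of prime degree. -/
theorem burnside (Y : Subgroup X) {S : Set T} (hS : S.ncard = p) (hY : ∀ y ∈ Y, ∀ s ∈ S, y • s ∈ S) {c : X}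
    (hc : c ∈ Y) {k : ℕ} (hc' : c ^ p ^ k = 1) {s : T} (hs : s ∈ S) (h : c • s ≠ s) :
    (∀ u ∈ S, ∀ v ∈ S, u ≠ s → v ≠ s → ∃ y ∈ Y, y • s = s ∧ y • u = v) ∨
      ∀ y ∈ Y, (∃ n : ℕ, ∀ t ∈ S, y • c • t = c ^ n • y • t) ∧
        ∀ u ∈ S, ∀ v ∈ S, u ≠ v → y • u = u → y • v = v → ∀ t ∈ S, y • t = t := by
  classical
  obtain ⟨e, he, rfl, rfl, h1⟩ := exists_coord hS hc' (fun n => hY _ (pow_mem hc n) _ hs) h
  refine or_iff_not_imp_left.2 fun h2 y hy => ?_
  push Not at h2
  obtain ⟨_, ⟨u, rfl⟩, _, ⟨v, rfl⟩, hu, hv, h2⟩ := h2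
  choose π hπ using fun i => hY y hy _ ⟨i, rfl⟩
  obtain ⟨α, β, h3⟩ := affine_of (U := univ.filter fun w => ∃ z ∈ Y, z • e 0 = e 0 ∧ z • e u = e w)
    (by simp only [mem_filter, mem_univ, true_and, not_exists, not_and]
        exact fun z _ a b => hu (MulAction.injective z (b.trans a.symm)))
    ⟨u, by simpa using ⟨1, one_mem _, by simp⟩⟩ (v := v) (fun a => hv (a ▸ rfl)) (by simpa using h2) (π := π)
    (fun i j a => he (MulAction.injective y (by beta_reduce; rw [← hπ, ← hπ, a]))) fun i w hw => by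
      simp only [mem_filter, mem_univ, true_and] at hw ⊢
      obtain ⟨z, hz, a, b⟩ := hw
      exact ⟨c ^ (-π i).val * y * c ^ i.val * z, mul_mem (mul_mem (mul_mem (pow_mem hc _) hy) (pow_mem hc _)) hz,
        by simp [mul_smul, a, h1, ← hπ], by simp [mul_smul, b, h1, ← hπ, add_comm, sub_eq_add_neg]⟩
  refine ⟨⟨α.val, ?_⟩, ?_⟩
  · rintro _ ⟨i, rfl⟩
    rw [← pow_one c, h1, ← hπ, ← hπ, pow_one, h1, h3, h3]; simp [mul_add, add_right_comm]
  · rintro _ ⟨i, rfl⟩ _ ⟨j, rfl⟩ hij a b _ ⟨t, rfl⟩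
    rw [← hπ, h3, he.eq_iff] at a b ⊢
    have h4 : (α - 1) * (i - j) = 0 := by linear_combination a - b
    obtain rfl := sub_eq_zero.1 ((mul_eq_zero.1 h4).resolve_right (sub_ne_zero.2 fun e => hij (e ▸ rfl)))
    linear_combination a

end Cfsg.Agent.H3.DT
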