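import Cfsg.Agent.H3.BurnP

/-! Doubly transitive groups of degree `p ^ 2 + 1` with an imprimitive point stabilizer: the Sylow subgroup. -/

set_option autoImplicit false
set_option linter.unusedSectionVars false

namespace Cfsg.Agent.H3.DT

open MulAction Pointwise

variable {G Ω : Type*} [Group G] [MulAction G Ω] {p : ℕ} {R : Ω → Ω → Ω → Prop}

theorem no_design (hΩ : Nat.card Ω = p ^ 2 + 1) (hp : 0 < p) (ne : ∀ {x y z}, R x y z → y ≠ x)
    (symm : ∀ {x y z}, R x y z → R x z y) (trans : ∀ {x y z w}, R x y z → R x z w → R x y w)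
    (cls : ∀ {x y}, y ≠ x → p ≤ {z | R x y z}.ncard) {a b z : Ω} (hb : b ≠ a) (hz : z ≠ a) (hz' : ¬R a b z)
    (h : ∀ {x y z}, R x y z → y ≠ z → R y x z) : False := by
  classical
  have : Finite Ω := Nat.finite_of_card_ne_zero (by omega)
  let _ := Fintype.ofFinite Ω
  have h0 : ∀ x y, y ≠ x → p ≤ (Finset.univ.filter (R x y)).card := fun x y e => by
    rw [← Set.ncard_coe_finset]; simpa using cls e
  have h1 := Finset.card_biUnion (s := insert a (Finset.univ.filter (R a b))) (t := fun u => Finset.univ.filter (R z u))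
    fun u hu v hv e => Finset.disjoint_filter.2 fun w _ a1 a2 => by
      have h2 := symm (h (trans a1 (symm a2)) e)
      simp only [Finset.coe_insert, Finset.coe_filter, Finset.mem_univ, true_and, Set.mem_insert_iff,
        Set.mem_ofPred_eq] at hu hv
      rcases hu with rfl | hu
      · exact hz' (trans (hv.resolve_left e.symm) h2)
      rcases hv with rfl | hv
      · exact hz' (trans hu (h h2 hz.symm))
      · exact hz' (trans hu (h (trans (h (trans (symm hu) hv) e) h2) hz.symm))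
  have h2 := Finset.card_nsmul_le_sum (insert a (Finset.univ.filter (R a b))) _ p fun u hu => h0 z u (by
    rintro rfl
    simp [hz, hz'] at hu)
  have h3 := Finset.card_le_card (show (insert a (Finset.univ.filter (R a b))).biUnion
      (fun u => Finset.univ.filter (R z u)) ⊆ Finset.univ.erase z from fun w hw => by
    obtain ⟨u, -, hu⟩ := Finset.mem_biUnion.1 hw
    simpa using ne (symm (Finset.mem_filter.1 hu).2))
  rw [Finset.card_insert_of_notMem (by simpa using fun e => ne (symm e) rfl), smul_eq_mul] at h2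
  rw [Finset.card_erase_of_mem (Finset.mem_univ _), Finset.card_univ, ← Nat.card_eq_fintype_card, hΩ] at h3
  have := h0 a b hb
  simp only [Nat.add_sub_cancel] at h3
  nlinarith

variable (G p R) in
/-- An invariant family of block systems, one for each point. -/
structure Sys : Prop where
  two : ∀ {a b c d : Ω}, a ≠ b → c ≠ d → ∃ g : G, g • a = c ∧ g • b = d
  faith : ∀ g : G, (∀ x : Ω, g • x = x) → g = 1
  card : Nat.card Ω = p ^ 2 + 1
  inv : ∀ (g : G) {x y z}, R x y z → R (g • x) (g • y) (g • z)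
  ne : ∀ {x y z}, R x y z → y ≠ x
  refl : ∀ {x y}, y ≠ x → R x y y
  symm : ∀ {x y z}, R x y z → R x z y
  trans : ∀ {x y z w}, R x y z → R x z w → R x y w
  cls : ∀ {x y}, y ≠ x → {z | R x y z}.ncard = p

theorem smul_ne {g : G} {a y : Ω} (h : g • a = a) (hy : y ≠ a) : g • y ≠ a := fun e =>
  hy (MulAction.injective g (e.trans h.symm))

theorem pow_fix {g : G} {a : Ω} (h : g • a = a) (n : ℕ) : g ^ n • a = a := pow_mem (mem_stabilizer_iff.2 h) n

theorem inv_fix {g : G} {a : Ω} (h : g • a = a) : g⁻¹ • a = a := inv_smul_eq_iff.2 h.symm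

namespace Sys

variable [hp : Fact p.Prime] (h : Sys G p R)
include h

theorem fin : Finite Ω := Nat.finite_of_card_ne_zero (by rw [h.card]; omega)

theorem inv' {g : G} {x y z : Ω} (hx : g • x = x) (e : R x y z) : R x (g • y) (g • z) := hx ▸ h.inv g e

theorem inv'' {g : G} {x y z : Ω} (hx : g • x = x) (hy : R x y (g • y)) (e : R x y z) : R x y (g • z) :=
  h.trans hy (h.inv' hx e)

theorem ne' {x y z : Ω} (e : R x y z) : z ≠ x := h.ne (h.symm e)

theorem ncard_compl (a : Ω) : ({a}ᶜ : Set Ω).ncard = p ^ 2 := by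
  have := h.fin
  have := Set.ncard_add_ncard_compl ({a} : Set Ω)
  rw [h.card, Set.ncard_singleton] at this; omega

theorem ncard_lam {x y : Ω} (e : y ≠ x) : ({z | R x y z} \ {y}).ncard + 1 = p := by
  have := h.fin
  rw [Set.ncard_sdiff_singleton_add_one (s := {z | R x y z}) (h.refl e), h.cls e]

theorem exists_third {x y : Ω} (e : y ≠ x) : ∃ z, R x y z ∧ z ≠ y :=
  Set.nonempty_of_ncard_ne_zero (s := {z | R x y z} \ {y}) (by have := h.ncard_lam e; have := hp.out.two_le; omega)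

theorem exists_fourth (h2 : p ≠ 2) {x y z : Ω} (e : R x y z) : ∃ w, R x y w ∧ w ≠ y ∧ w ≠ z := by
  have := h.fin
  by_contra! h1
  have := (Set.ncard_le_ncard (show {z | R x y z} ⊆ {y, z} from fun w hw => or_iff_not_imp_left.2 (h1 w hw))).trans
    ((Set.ncard_insert_le y {z}).trans (by rw [Set.ncard_singleton]))
  have := hp.out.two_le
  rw [h.cls (h.ne e)] at *; omega

theorem exists_out {x y : Ω} (e : y ≠ x) : ∃ z, z ≠ x ∧ ¬R x y z := by
  have := h.fin
  by_contra! h1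
  have := Set.ncard_le_ncard (show ({x}ᶜ : Set Ω) ⊆ {z | R x y z} from h1)
  rw [h.cls e, h.ncard_compl] at this
  nlinarith [hp.out.two_le]

theorem exists_ne (x : Ω) : ∃ y, y ≠ x := Set.nonempty_of_ncard_ne_zero (s := {x}ᶜ) (by
  rw [h.ncard_compl]; exact pow_ne_zero _ hp.out.ne_zero)

theorem not_sym (H : ∀ {x y z}, R x y z → y ≠ z → R y x z) : False := by
  have := h.fin
  obtain ⟨a⟩ : Nonempty Ω := (Nat.card_ne_zero.1 (by rw [h.card]; omega)).1
  obtain ⟨b, hb⟩ := h.exists_ne a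
  obtain ⟨z, hz, hz'⟩ := h.exists_out hb
  exact no_design h.card hp.out.pos h.ne h.symm h.trans (fun e => (h.cls e).ge) hb hz hz' H

theorem exists_asym {x y : Ω} (e : y ≠ x) : ∃ z, R x y z ∧ z ≠ y ∧ ¬R y x z := by
  by_contra! h1
  refine h.not_sym fun {u v w} a b => ?_
  obtain ⟨g, rfl, rfl⟩ := h.two e.symm (h.ne a).symm
  simpa using h.inv g (h1 (g⁻¹ • w) (by simpa using h.inv g⁻¹ a) (by simpa [inv_smul_eq_iff] using b.symm))

theorem index_stab {a b : Ω} (e : a ≠ b) : (stabilizer G (a, b)).index = (p ^ 2 + 1) * p ^ 2 := by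
  have := h.fin
  rw [index_stabilizer, show orbit G (a, b) = Set.univ.offDiag from Set.ext fun z => ⟨by
      rintro ⟨g, rfl⟩; simpa using e, fun hz => by
      obtain ⟨g, h1, h2⟩ := h.two e hz.2.2; exact ⟨g, Prod.ext h1 h2⟩⟩]
  classical
  let _ := Fintype.ofFinite Ω
  rw [← Finset.coe_univ, ← Finset.coe_offDiag, Set.ncard_coe_finset, Finset.offDiag_card, Finset.card_univ,
    ← Nat.card_eq_fintype_card, h.card]
  exact Nat.sub_eq_of_eq_add (by ring)

theorem fix_cls {u : G} {k : ℕ} (hu : u ^ p ^ k = 1) {x y z : Ω} (hx : u • x = x) (hy : u • y = y) (e : R x y z) :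
    u • z = z := by
  have := h.fin
  by_contra h1
  have := le_ncard_of_move (S := {z | R x y z} \ {y}) (Set.toFinite _) hu (fun n => ⟨by
    simpa [pow_fix hy] using h.inv' (pow_fix hx n) e, smul_ne (pow_fix hy n) (by rintro rfl; exact h1 hy)⟩) h1
  have := h.ncard_lam (h.ne e)
  omega

variable [Finite G] {a : Ω} {P : Sylow p G}

theorem exists_fixpt (P : Sylow p G) : ∃ a : Ω, ∀ u ∈ P, u • a = a := by
  obtain ⟨a, ha⟩ := P.2.nonempty_fixed_point_of_prime_not_dvd_card Ω (by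
    rw [h.card, Nat.dvd_add_right (dvd_pow_self p two_ne_zero), Nat.dvd_one]; exact hp.out.ne_one)
  exact ⟨a, fun u hu => ha ⟨u, hu⟩⟩

theorem exists_P (a : Ω) : ∃ P : Sylow p G, ∀ u ∈ P, u • a = a := by
  obtain ⟨P⟩ : Nonempty (Sylow p G) := inferInstance
  obtain ⟨c, hc⟩ := h.exists_fixpt P
  obtain ⟨d, hd⟩ := h.exists_ne c
  obtain ⟨b, hb⟩ := h.exists_ne a
  obtain ⟨g, rfl, -⟩ := h.two hd.symm hb.symm
  refine ⟨g • P, ?_⟩
  rintro _ ⟨u, hu, rfl⟩
  simp [mul_smul, hc u hu]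

variable (hP : ∀ u ∈ P, u • a = a)
include hP

theorem orbit_P {b : Ω} (hb : b ≠ a) : orbit P b = {a}ᶜ := by
  have := h.fin
  refine Set.eq_of_subset_of_ncard_le (by rintro _ ⟨u, rfl⟩; exact smul_ne (hP u u.2) hb) ?_
  rw [h.ncard_compl, ← index_stabilizer]
  refine Nat.le_of_dvd (Nat.pos_of_ne_zero Subgroup.index_ne_zero_of_finite)
    (((hp.out.coprime_iff_not_dvd.2 P.not_dvd_index).pow_left 2).dvd_of_dvd_mul_right ?_)
  have h1 := Subgroup.index_dvd_of_le (show stabilizer G b ⊓ P ≤ stabilizer G (a, b) from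
    fun u hu => Prod.ext (hP u hu.2) hu.1)
  rw [h.index_stab hb.symm, ← Subgroup.relIndex_mul_index inf_le_right, Subgroup.inf_relIndex_right] at h1
  exact (dvd_mul_left _ _).trans h1

theorem P_trans {y z : Ω} (hy : y ≠ a) (hz : z ≠ a) : ∃ u ∈ P, u • y = z := by
  obtain ⟨u, hu⟩ := (h.orbit_P hP hy).ge hz
  exact ⟨u, u.2, hu⟩

theorem P_reg {u : G} (hu : u ∈ P) {b : Ω} (hb : b ≠ a) (e : u • b = b) : u = 1 := by
  have := h.fin
  let J : Subgroup G := P ⊓ Subgroup.normalizer (P ⊓ stabilizer G b : Subgroup G)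
  obtain ⟨z, z1, z2, z3⟩ := h.exists_asym hb.symm
  have h1 : insert z {w | R a b w} ⊆ orbit J b := fun w hw => by
    obtain ⟨v, hv, rfl⟩ := h.P_trans hP hb (show w ≠ a from hw.elim (· ▸ z2) h.ne')
    refine ⟨⟨v, hv, (Subgroup.inv_mem_iff _).1 (Subgroup.mem_normalizer_fintype fun n hn =>
      ⟨P.1.mul_mem (P.1.mul_mem (P.1.inv_mem hv) hn.1) (P.1.inv_mem (P.1.inv_mem hv)), ?_⟩)⟩, rfl⟩
    obtain ⟨k, hk⟩ := P.2 ⟨n, hn.1⟩
    have h2 : n • v • b = v • b := hw.elim (fun e => e ▸ h.fix_cls (congrArg Subtype.val hk) hn.2 (hP n hn.1) z1)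
      (h.fix_cls (congrArg Subtype.val hk) (hP n hn.1) hn.2)
    simp [mul_smul, h2]
  have h2 : orbit J b ⊆ {a}ᶜ := by rintro _ ⟨v, rfl⟩; exact smul_ne (hP v v.2.1) hb
  obtain ⟨k, hk⟩ := (P.2.to_le (inf_le_left : J ≤ P)).card_orbit b
  have h3 := Set.ncard_le_ncard h1
  have h4 := Set.ncard_le_ncard h2
  rw [Nat.card_coe_set_eq] at hk
  rw [Set.ncard_insert_of_notMem (s := {w | R a b w}) z3, h.cls hb, hk, Nat.succ_le_iff] at h3
  have h5 : 2 ≤ k := (Nat.pow_lt_pow_iff_right hp.out.one_lt).1 ((pow_one p).trans_lt h3)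
  refine h.faith u fun w => by_contra fun hw => hw ?_
  obtain ⟨v, rfl⟩ := (Set.eq_of_subset_of_ncard_le h2 (by
    rw [h.ncard_compl, hk]; exact Nat.pow_le_pow_right hp.out.pos h5)).ge (show w ≠ a by rintro rfl; exact hw (hP u hu))
  have := (((Subgroup.mem_normalizer_iff''.1 v.2.2) u).1 ⟨hu, e⟩).2
  simpa [mul_smul, inv_smul_eq_iff] using! this

theorem card_P : Nat.card P = p ^ 2 := by
  obtain ⟨b, hb⟩ := h.exists_ne a
  rw [← h.ncard_compl a, ← h.orbit_P hP hb, ← index_stabilizer, show stabilizer P b = ⊥ from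
    eq_bot_iff.2 fun u hu => Subtype.ext (h.P_reg hP u.2 hb hu), Subgroup.index_bot]

theorem P_comm {u v : G} (hu : u ∈ P) (hv : v ∈ P) : Commute u v :=
  congrArg Subtype.val ((IsPGroup.isMulCommutative_of_card_eq_prime_sq (h.card_P hP)).is_comm.comm ⟨u, hu⟩ ⟨v, hv⟩)

theorem P_pow {u : G} (hu : u ∈ P) : u ^ p ^ 2 = 1 :=
  congrArg Subtype.val (show (⟨u, hu⟩ : P.1) ^ p ^ 2 = 1 by rw [← h.card_P hP, pow_card_eq_one'])

theorem P_eq {u v : G} (hu : u ∈ P) (hv : v ∈ P) {b : Ω} (hb : b ≠ a) (e : u • b = v • b) : u = v :=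
  (inv_mul_eq_one.1 (h.P_reg hP (mul_mem (inv_mem hv) hu) hb (by rw [mul_smul, e, inv_smul_smul]))).symm

theorem P_cls {u : G} (hu : u ∈ P) {y w : Ω} (e : R a y (u • y)) (hw : w ≠ a) : R a w (u • w) := by
  obtain ⟨v, hv, rfl⟩ := h.P_trans hP (h.ne e) hw
  rw [← mul_smul, (h.P_comm hP hu hv).eq, mul_smul]
  exact h.inv' (hP v hv) e

theorem P_cover {u : G} (hu : u ∈ P) (h1 : u ≠ 1) {y z : Ω} (e : R a y (u • y)) (hz : R a y z) :
    ∃ n : ℕ, u ^ n • y = z := by
  obtain ⟨f, -, h2, h3, h4⟩ := exists_coord (h.cls (h.ne e)) (h.P_pow hP hu) (s := y) (fun n => by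
    induction n with
    | zero => simpa using h.refl (h.ne e)
    | succ n ih => rw [pow_succ', mul_smul]; exact h.inv'' (hP u hu) e ih) fun a => h1 (h.P_reg hP hu (h.ne e) a)
  obtain ⟨i, rfl⟩ := h2.ge hz
  exact ⟨i.val, by rw [← h3, h4]; simp⟩

omit hP in
theorem cop {g : G} {x y : Ω} (e : x ≠ y) (hx : g • x = x) (hy : g • y = y) : ¬p ∣ orderOf g := fun hd => by
  have h1 := orderOf_pow_orderOf_div (orderOf_pos g).ne' hd
  obtain ⟨P, hP⟩ := (IsPGroup.of_card (n := 1) ((Nat.card_zpowers _).trans (h1.trans (pow_one p).symm))).exists_le_sylow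
  obtain ⟨a, ha⟩ := h.exists_fixpt P
  have h2 : g ^ (orderOf g / p) = 1 := by
    by_cases h3 : x = a
    · exact h.P_reg ha (hP (Subgroup.mem_zpowers _)) (h3 ▸ e.symm) (pow_fix hy _)
    · exact h.P_reg ha (hP (Subgroup.mem_zpowers _)) h3 (pow_fix hx _)
  rw [h2, orderOf_one] at h1
  exact hp.out.one_lt.ne h1

omit hP in
theorem pel {g : G} {k : ℕ} (hg : g ^ p ^ k = 1) {x y : Ω} (e : x ≠ y) (hx : g • x = x) (hy : g • y = y) : g = 1 :=
  orderOf_eq_one_iff.1 (Nat.Coprime.eq_one_of_dvd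
    ((hp.out.coprime_iff_not_dvd.2 (h.cop e hx hy)).symm.pow_right k) (orderOf_dvd_of_pow_eq_one hg))

end Sys

end Cfsg.Agent.H3.DT
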