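import Cfsg.Agent.H3.DT1

/-! Doubly transitive groups of degree `p ^ 2 + 1` with an imprimitive point stabilizer: the kernel on the blocks. -/

set_option autoImplicit false
set_option linter.unusedSectionVars false

namespace Cfsg.Agent.H3.DT

open MulAction Pointwise

variable {G Ω : Type*} [Group G] [MulAction G Ω] {p : ℕ} {R : Ω → Ω → Ω → Prop}

theorem exists_fix {r : ℕ} [Fact r.Prime] {S : Subgroup G} (hS : IsPGroup r S) {B : Set Ω}
    (hB : ∀ s ∈ S, ∀ z ∈ B, s • z ∈ B) (hr : ¬r ∣ B.ncard) : ∃ z ∈ B, ∀ s ∈ S, s • z = z := by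
  let A : SubMulAction S Ω := ⟨B, fun s z hz => hB s s.2 z hz⟩
  obtain ⟨z, hz⟩ := hS.nonempty_fixed_point_of_prime_not_dvd_card A hr
  exact ⟨z, z.2, fun s hs => congrArg Subtype.val (hz ⟨s, hs⟩)⟩

theorem le_of_pgroups [Finite G] {E F : Subgroup G}
    (h : ∀ (r : ℕ) [Fact r.Prime] (S : Subgroup G), IsPGroup r S → S ≤ E → S ≤ F) : E ≤ F := by
  by_contra h1
  obtain ⟨r, hr, hd⟩ := Nat.exists_prime_and_dvd (mt Subgroup.relIndex_eq_one.1 h1)
  have := Fact.mk hr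
  obtain ⟨S⟩ : Nonempty (Sylow r E) := inferInstance
  exact S.not_dvd_index (hd.trans (Subgroup.index_dvd_of_le (Subgroup.map_le_iff_le_comap.1
    (h r _ (S.2.map E.subtype) (Subgroup.map_subtype_le _)))))

namespace Sys

variable [hp : Fact p.Prime] (h : Sys G p R)
include h

/-- The kernel of the action on the blocks. -/
def N (x : Ω) : Subgroup G where
  carrier := {g | g • x = x ∧ ∀ y ≠ x, R x y (g • y)}
  one_mem' := ⟨one_smul _ _, fun y hy => by simpa using h.refl hy⟩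
  mul_mem' := fun {a b} ha hb => ⟨by rw [mul_smul, hb.1, ha.1], fun y hy => by
    rw [mul_smul]; exact h.inv'' ha.1 (ha.2 y hy) (hb.2 y hy)⟩
  inv_mem' := fun {a} ha => ⟨inv_fix ha.1, fun y hy =>
    h.symm (by simpa using ha.2 _ (smul_ne (inv_fix ha.1) hy))⟩

theorem N_conj {x : Ω} {n : G} (hn : n ∈ h.N x) (g : G) : g * n * g⁻¹ ∈ h.N (g • x) :=
  ⟨by simp [mul_smul, hn.1], fun y hy => by
    simpa [mul_smul] using h.inv g (hn.2 (g⁻¹ • y) (by simpa [inv_smul_eq_iff] using hy))⟩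

theorem N_cls {x y z : Ω} {n : G} (hn : n ∈ h.N x) (e : R x y z) : R x y (n • z) := h.trans e (hn.2 z (h.ne' e))

theorem cls_eq {x u v : Ω} (hu : u ≠ x) : {z | R x u z} = {z | R x v z} ↔ R x v u :=
  ⟨fun e => e.le (h.refl hu), fun e => Set.ext fun _ => ⟨h.trans e, h.trans (h.symm e)⟩⟩

theorem smul_cls {g : G} {x : Ω} (hg : g • x = x) (u : Ω) : g • {z | R x u z} = {z | R x (g • u) z} :=
  Set.ext fun z => by
    rw [Set.mem_smul_set_iff_inv_smul_mem]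
    exact ⟨fun e => by simpa using h.inv' hg e, fun e => by simpa using h.inv' (inv_fix hg) e⟩

theorem ncard_blocks (a : Ω) : ((fun w => {z | R a w z}) '' {a}ᶜ).ncard = p := by
  classical
  have := h.fin
  let _ := Fintype.ofFinite Ω
  have h1 := Finset.card_eq_sum_card_image (fun w => {z | R a w z}) (Finset.univ.erase a)
  rw [Finset.sum_const_nat (m := p), ← Set.ncard_coe_finset, ← Set.ncard_coe_finset, Finset.coe_image,
    Finset.coe_erase, Finset.coe_univ, ← Set.compl_eq_univ_sdiff, h.ncard_compl, pow_two] at h1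
  · exact (Nat.eq_of_mul_eq_mul_right hp.out.pos h1).symm
  intro S hS
  obtain ⟨w, hw, rfl⟩ := Finset.mem_image.1 hS
  rw [← Set.ncard_coe_finset, ← h.cls (Finset.mem_erase.1 hw).1]
  congr 1
  ext z
  simpa using ⟨fun e => (h.cls_eq e.1).1 e.2, fun e => ⟨h.ne' e, (h.cls_eq (h.ne' e)).2 e⟩⟩

theorem burn_blocks {a : Ω} (Y : Subgroup G) (hY : ∀ y ∈ Y, y • a = a) {c : G} (hc : c ∈ Y) {k : ℕ}
    (hc' : c ^ p ^ k = 1) {b : Ω} (hb : b ≠ a) (e : ¬R a b (c • b)) :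
    (∀ u ≠ a, ∀ v ≠ a, ¬R a b u → ¬R a b v → ∃ y ∈ Y, R a b (y • b) ∧ R a v (y • u)) ∨
      ∀ y ∈ Y, (∃ n : ℕ, ∀ t ≠ a, R a (c ^ n • y • t) (y • c • t)) ∧
        ∀ u ≠ a, ∀ v ≠ a, ¬R a u v → R a u (y • u) → R a v (y • v) → y ∈ h.N a := by
  refine (burnside Y (h.ncard_blocks a) ?_ hc hc' (s := {z | R a b z}) ⟨b, hb, rfl⟩ ?_).imp
    (fun H u hu v hv e1 e2 => ?_) fun H y hy => ⟨?_, fun u hu v hv e1 e2 e3 => ⟨hY y hy, fun t ht => ?_⟩⟩
  · rintro y hy _ ⟨w, hw, rfl⟩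
    exact ⟨_, smul_ne (hY y hy) hw, (h.smul_cls (hY y hy) w).symm⟩
  · rwa [h.smul_cls (hY c hc), Ne, h.cls_eq (smul_ne (hY c hc) hb)]
  · obtain ⟨y, hy, e3, e4⟩ := H _ ⟨u, hu, rfl⟩ _ ⟨v, hv, rfl⟩ (mt (h.cls_eq hu).1 e1) (mt (h.cls_eq hv).1 e2)
    rw [h.smul_cls (hY y hy), h.cls_eq (smul_ne (hY y hy) ‹_›)] at e3 e4
    exact ⟨y, hy, e3, e4⟩
  · obtain ⟨n, hn⟩ := (H y hy).1
    refine ⟨n, fun t ht => ?_⟩
    have := hn _ ⟨t, ht, rfl⟩
    rwa [h.smul_cls (hY c hc), h.smul_cls (hY y hy), h.smul_cls (hY y hy), h.smul_cls (hY _ (pow_mem hc n)),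
      h.cls_eq (smul_ne (hY y hy) (smul_ne (hY c hc) ht))] at this
  · have := (H y hy).2 _ ⟨u, hu, rfl⟩ _ ⟨v, hv, rfl⟩ (mt (h.cls_eq hu).1 (mt h.symm e1))
      (by rwa [h.smul_cls (hY y hy), h.cls_eq (smul_ne (hY y hy) hu)])
      (by rwa [h.smul_cls (hY y hy), h.cls_eq (smul_ne (hY y hy) hv)]) _ ⟨t, ht, rfl⟩
    rwa [h.smul_cls (hY y hy), h.cls_eq (smul_ne (hY y hy) ht)] at this

/-- The block of `x` seen from `y` meets all the other blocks seen from `x`. -/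
def TT (R : Ω → Ω → Ω → Prop) (x y : Ω) : Prop := ∀ w ≠ x, ¬R x y w → ∃ z, R y x z ∧ z ≠ x ∧ R x w z

theorem TT_inj {x y : Ω} (e : y ≠ x) (H : TT R x y) {u v : Ω} (hu : R y x u) (hv : R y x v) (hu' : u ≠ x)
    (huv : R x u v) : u = v := by
  have := h.fin
  refine Set.injOn_of_ncard_image_eq (s := {z | R y x z} \ {x}) (f := fun w => {z | R x w z}) (le_antisymm
    (Set.ncard_image_le (Set.toFinite _)) ?_) (Set.toFinite _) ⟨hu, hu'⟩ ⟨hv, h.ne' huv⟩ ((h.cls_eq hu').2 (h.symm huv))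
  have h1 := Set.ncard_sdiff_singleton_add_one (s := (fun w => {z | R x w z}) '' {x}ᶜ) (a := {z | R x y z}) ⟨y, e, rfl⟩
  have h2 := h.ncard_lam e.symm
  rw [h.ncard_blocks] at h1
  refine (show _ = _ by omega).le.trans (Set.ncard_le_ncard (show ((fun w => {z | R x w z}) '' {x}ᶜ) \
    {{z | R x y z}} ⊆ _ from ?_))
  rintro _ ⟨⟨w, hw, rfl⟩, h3⟩
  obtain ⟨z, z1, z2, z3⟩ := H w hw (mt (h.cls_eq hw).2 h3)
  exact ⟨z, ⟨z1, z2⟩, (h.cls_eq z2).2 z3⟩

theorem TT_inv {x y : Ω} (e : y ≠ x) (H : TT R x y) {u v : Ω} (e' : v ≠ u) : TT R u v := fun w hw h1 => by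
  obtain ⟨g, rfl, rfl⟩ := h.two e.symm e'.symm
  obtain ⟨z, z1, z2, z3⟩ := H (g⁻¹ • w) (by simpa [inv_smul_eq_iff] using hw) fun a => h1 (by simpa using h.inv g a)
  exact ⟨g • z, h.inv g z1, by simpa using z2, by simpa using h.inv g z3⟩

/-- The kernel is doubly transitive on a block. -/
def AA (x y : Ω) : Prop := ∀ u v, R x y u → R x y v → u ≠ y → v ≠ y → ∃ n ∈ h.N x, n • y = y ∧ n • u = v

theorem AA_inv {x y : Ω} (e : y ≠ x) (H : h.AA x y) {u v : Ω} (e' : v ≠ u) : h.AA u v := fun s t hs ht h1 h2 => by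
  obtain ⟨g, rfl, rfl⟩ := h.two e.symm e'.symm
  obtain ⟨n, hn, z1, z2⟩ := H (g⁻¹ • s) (g⁻¹ • t) (by simpa using h.inv g⁻¹ hs) (by simpa using h.inv g⁻¹ ht)
    (by simpa [inv_smul_eq_iff] using h1) (by simpa [inv_smul_eq_iff] using h2)
  exact ⟨_, h.N_conj hn g, by simp [mul_smul, z1], by simp [mul_smul, z2]⟩

variable [Finite G]

theorem N_faith {a y : Ω} {n : G} (hn : n ∈ h.N a) (hy : y ≠ a) (H : ∀ z, R a y z → n • z = z) : n = 1 := by
  obtain ⟨P, hP⟩ := h.exists_P a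
  refine h.faith n fun w => by_contra fun hw => hw ?_
  have h0 : w ≠ a := by rintro rfl; exact hw hn.1
  obtain ⟨r, hr, e⟩ := h.P_trans hP (smul_ne hn.1 h0) h0
  have h1 : R a y (r • y) := h.P_cls hP hr (y := n • w) (by rw [e]; exact h.symm (hn.2 w h0)) hy
  have h2 : ∀ m : ℕ, R a y (r ^ m • y) ∧ (r * n) ^ m • y = r ^ m • y := fun m => by
    induction m with
    | zero => simpa using h.refl hy
    | succ m ih =>
      simp only [pow_succ', mul_smul, ih.2, H _ ih.1, and_true]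
      exact h.inv'' (hP r hr) h1 ih.1
  have h3 := h.P_reg hP (pow_mem hr (orderOf (r * n))) hy (by rw [← (h2 _).2, pow_orderOf_eq_one, one_smul])
  have h4 := h.cop (g := r * n) h0 (by rw [mul_smul, e]) (by rw [mul_smul, hn.1, hP r hr])
  obtain rfl : r = 1 := orderOf_eq_one_iff.1 (Nat.eq_one_of_dvd_coprimes
    ((hp.out.coprime_iff_not_dvd.2 h4).pow_left 2) (orderOf_dvd_of_pow_eq_one (h.P_pow hP hr))
    (orderOf_dvd_of_pow_eq_one h3))
  simpa using e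

theorem exists_adj {a b : Ω} {y : G} (hy : y • a = a) (e : R a b (y • b)) {P : Sylow p G} (hP : ∀ u ∈ P, u • a = a) :
    ∃ r ∈ P, r ∈ h.N a ∧ (r * y) • b = b := by
  obtain ⟨r, hr, e'⟩ := h.P_trans hP (h.ne' e) (h.ne e)
  exact ⟨r, hr, ⟨hP r hr, fun w => h.P_cls hP hr (y := y • b) (by rw [e']; exact h.symm e)⟩, by rw [mul_smul, e']⟩

theorem not_AA (h2 : p ≠ 2) {a b : Ω} (hb : b ≠ a) : ¬h.AA a b := fun H0 => by
  have := h.fin
  have H : ∀ {x y}, y ≠ x → h.AA x y := h.AA_inv hb H0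
  clear H0
  have A1 : ∀ {x y z}, R x y z → z ≠ y → ¬R y x z := fun {x y z} e1 e2 e3 => by
    obtain ⟨w, w1, w2, w3⟩ := h.exists_asym (h.ne e1)
    obtain ⟨n, hn, n1, rfl⟩ := H (h.ne e1) z w e1 w1 e2 w2
    exact w3 (by simpa [hn.1] using h.inv' n1 e3)
  by_cases hT : TT R a b
  · replace hT : ∀ {x y}, y ≠ x → TT R x y := h.TT_inv hb hT
    refine h.not_sym fun {y d x} e1 e2 => ?_
    have e3 := (h.ne' e1).symm
    obtain ⟨z, z1, z2, z3⟩ := hT e2 y e3 fun e => A1 (h.symm e1) e2 (h.symm e)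
    obtain rfl : z = y := by_contra fun e => by
      obtain ⟨u, u1, u2, u3⟩ := h.exists_fourth h2 z3
      obtain ⟨n, hn, n1, rfl⟩ := H e3 z u z3 u1 e u2
      have n2 : n • d = d := (h.TT_inj e3 (hT e3) (h.symm e1) (by simpa [hn.1] using h.inv' n1 (h.symm e1)) e2
        (hn.2 d e2)).symm
      exact u3 (h.TT_inj e2 (hT e2) z1 (by simpa [hn.1] using h.inv' n2 z1) z2 (hn.2 z z2)).symm
    exact h.symm z1
  replace hT : ∀ {x y}, y ≠ x → ¬TT R x y := fun e a => hT (h.TT_inv e a hb)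
  have A2 : ∀ {x u v} {g : G}, g • x = x → u ≠ x → v ≠ x → ¬R x u v → R x u (g • u) → R x v (g • v) → g ∈ h.N x :=
    fun {x u v g} hg hu hv e1 e2 e3 => by
      obtain ⟨P, hP⟩ := h.exists_P x
      obtain ⟨c, hc, rfl⟩ := h.P_trans hP hu hv
      refine ((h.burn_blocks (stabilizer G x) (fun _ => id) (hP c hc) (h.P_pow hP hc) hu e1).resolve_left
        (fun K => hT hu fun w hw e => ?_) g hg).2 _ hu _ hv e1 e2 e3
      obtain ⟨z, z1, z2, z3⟩ := h.exists_asym hu.symm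
      obtain ⟨y, hy, y1, y2⟩ := K z z2 w hw z3 e
      obtain ⟨r, -, r1, r2⟩ := h.exists_adj hy y1 hP
      have r3 : (r * y) • x = x := by rw [mul_smul, hy, r1.1]
      exact ⟨(r * y) • z, by simpa [r3] using h.inv' r2 z1, smul_ne r3 z2, mul_smul r y z ▸ h.N_cls r1 y2⟩
  have A3 : ∀ {x y} {n : G}, y ≠ x → n ∈ h.N y → n • x = x → n ∈ h.N x := fun {x y n} e hn h1 => by
    obtain ⟨w, w1, w2, w3⟩ : ∃ w ≠ y, ¬R y x w ∧ ∀ z, R x y z → z ≠ y → ¬R y w z := by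
      simpa [TT] using hT e.symm
    refine le_of_pgroups (E := h.N y ⊓ stabilizer G x) (fun r _ S hS hE s hs => ?_) ⟨hn, h1⟩
    by_cases hr : r = p
    · subst hr
      obtain ⟨k, hk⟩ := hS ⟨s, hs⟩
      rw [h.pel (g := s) (congrArg Subtype.val hk) e (hE hs).1.1 (hE hs).2]
      exact one_mem _
    obtain ⟨z, z1, z2⟩ := exists_fix hS (B := {z | R y w z}) (fun s hs z hz => h.N_cls (hE hs).1 hz)
      (by rwa [h.cls w1, Nat.prime_dvd_prime_iff_eq Fact.out hp.out])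
    have z3 : z ≠ x := by rintro rfl; exact w2 (h.symm z1)
    exact A2 (hE hs).2 e z3 (fun a => w3 z a (h.ne' z1) z1) (by rw [(hE hs).1.1]; exact h.refl e)
      (by rw [z2 s hs]; exact h.refl z3)
  have A4 : ∀ {x y z}, y ≠ x → z ≠ x → (∀ n ∈ h.N x, n • y = y → n • z = z) → ∀ n ∈ h.N x, n • z = z → n • y = y :=
    fun {x y z} hy hz K n hn e => by
      obtain ⟨g, g1, rfl⟩ := h.two hy.symm hz.symm
      have := Subgroup.mem_normalizer_fintype (S := (h.N x ⊓ stabilizer G y : Subgroup G)) (x := g⁻¹) fun m hm =>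
        Subgroup.mem_inf.2 ⟨by simpa [inv_fix g1] using h.N_conj hm.1 g⁻¹, by simp [mul_smul, K m hm.1 hm.2]⟩
      exact ((Subgroup.mem_normalizer_iff.1 this n).2
        ⟨by simpa [inv_fix g1] using h.N_conj hn g⁻¹, by simp [mul_smul, e]⟩).2
  obtain ⟨y, y1, y2⟩ := h.exists_third hb
  obtain ⟨u, u1, u2, u3⟩ := h.exists_fourth h2 y1
  obtain ⟨n, hn, n1, n2⟩ := H hb y u y1 u1 y2 u2
  refine no_design (R := fun x y z => y ≠ x ∧ z ≠ x ∧ ∀ n ∈ h.N x, n • y = y → n • z = z) h.card hp.out.pos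
    (fun e => e.1) (fun e => ⟨e.2.1, e.1, A4 e.1 e.2.1 e.2.2⟩)
    (fun e e' => ⟨e.1, e'.2.1, fun n hn a => e'.2.2 n hn (e.2.2 n hn a)⟩) (fun {x y} e => ?_) hb (h.ne' y1)
    (fun e => u3 (n2.symm.trans (e.2.2 n hn n1))) fun e e' =>
      ⟨e.1.symm, e'.symm, fun n hn a => e.2.2 n (A3 e.1 hn a) hn.1⟩
  obtain ⟨z, z1, z2⟩ := h.exists_third e.symm
  have B1 : {w | R y x w} \ {x} ⊆ {w | R x z w} := fun w hw => by
    obtain ⟨n, hn, n1, rfl⟩ := H e.symm z w z1 hw.1 z2 hw.2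
    exact (A3 e hn n1).2 z z2
  obtain ⟨t, ht⟩ := Set.ncard_eq_one.1 (show ({w | R x z w} \ ({w | R y x w} \ {x})).ncard = 1 by
    have := h.ncard_lam e.symm
    rw [Set.ncard_sdiff B1, h.cls z2]; omega)
  obtain ⟨t1, t2⟩ := ht.ge rfl
  have t3 : ∀ n ∈ h.N x, n • y = y → n • t = t := fun n hn a => ht.le ⟨h.N_cls hn t1, fun b => t2
    ⟨by simpa [inv_fix hn.1] using h.inv' (inv_fix a) b.1, h.ne' t1⟩⟩
  obtain ⟨P, hP⟩ := h.exists_P x
  obtain ⟨r, hr, rfl⟩ := h.P_trans hP e (h.ne' t1)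
  obtain ⟨c1, c2, -⟩ := le_ncard_of_move (S := {w | y ≠ x ∧ w ≠ x ∧ ∀ n ∈ h.N x, n • y = y → n • w = w})
    (Set.toFinite _) (h.P_pow hP hr) (s := y) (fun m => ⟨e, smul_ne (pow_fix (hP r hr) m) e, by
      induction m with
      | zero => simp
      | succ m ih =>
        intro n hn a
        have := ih (r⁻¹ * n * r⁻¹⁻¹) (by simpa [inv_fix (hP r hr)] using h.N_conj hn r⁻¹) (by simp [mul_smul, t3 n hn a])
        simpa [pow_succ', mul_smul, inv_smul_eq_iff] using this⟩)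
    fun a => A1 z1 z2 (h.symm (by rwa [a] at t1))
  exact c1.trans c2

end Sys

end Cfsg.Agent.H3.DT
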