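import Cfsg.Agent.H3.DT2

/-! Doubly transitive groups of degree `p ^ 2 + 1` with an imprimitive point stabilizer: the Sylow subgroup is normal
in the stabilizer. -/

set_option autoImplicit false
set_option linter.unusedSectionVars false

namespace Cfsg.Agent.H3.DT

open MulAction Pointwise

variable {G Ω : Type*} [Group G] [MulAction G Ω] {p : ℕ} {R : Ω → Ω → Ω → Prop}

theorem pg_zpowers {r : G} {k : ℕ} (h : r ^ p ^ k = 1) : IsPGroup p (Subgroup.zpowers r) := by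
  rintro ⟨_, i, rfl⟩
  refine ⟨k, Subtype.ext (show (r ^ i) ^ p ^ k = 1 from ?_)⟩
  rw [← zpow_natCast, ← zpow_mul, mul_comm, zpow_mul, zpow_natCast, h, one_zpow]

namespace Sys

variable [hp : Fact p.Prime] (h : Sys G p R)
include h

theorem TT_not {x y : Ω} (e : y ≠ x) (H : TT R x y) {u : Ω} (hu : R y x u) (hu' : u ≠ x) : ¬R x y u := fun e' => by
  have := h.fin
  have h1 := Set.ncard_sdiff_singleton_add_one (s := (fun w => {z | R x w z}) '' {x}ᶜ) (a := {z | R x y z}) ⟨y, e, rfl⟩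
  have h2 := h.ncard_lam e.symm
  have h3 := Set.ncard_sdiff_singleton_add_one (s := {z | R y x z} \ {x}) (a := u) ⟨hu, hu'⟩
  rw [h.ncard_blocks] at h1
  have h4 := (Set.ncard_le_ncard (show ((fun w => {z | R x w z}) '' {x}ᶜ) \ {{z | R x y z}} ⊆
      (fun w => {z | R x w z}) '' (({z | R y x z} \ {x}) \ {u}) from by
    rintro _ ⟨⟨w, hw, rfl⟩, h5⟩
    obtain ⟨z, z1, z2, z3⟩ := H w hw (mt (h.cls_eq hw).2 h5)
    exact ⟨z, ⟨⟨z1, z2⟩, by rintro rfl; exact h5 ((h.cls_eq hw).2 (h.trans e' (h.symm z3)))⟩, (h.cls_eq z2).2 z3⟩)).trans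
    (Set.ncard_image_le (Set.toFinite _))
  omega

variable [Finite G] (h2 : p ≠ 2)
include h2

theorem not_UU {a b : Ω} (hb : b ≠ a) (H0 : ∀ u ≠ a, ∀ v ≠ a, ¬R a b u → ¬R a b v →
    ∃ g : G, g • a = a ∧ (∀ z, R a b z → g • z = z) ∧ R a v (g • u)) : False := by
  have H : ∀ {x y}, y ≠ x → ∀ u ≠ x, ∀ v ≠ x, ¬R x y u → ¬R x y v →
      ∃ g : G, g • x = x ∧ (∀ z, R x y z → g • z = z) ∧ R x v (g • u) := fun {x y} e u hu v hv e1 e2 => by
    obtain ⟨g, rfl, rfl⟩ := h.two hb.symm e.symm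
    obtain ⟨n, n1, n2, n3⟩ := H0 (g⁻¹ • u) (by simpa [inv_smul_eq_iff] using hu) (g⁻¹ • v)
      (by simpa [inv_smul_eq_iff] using hv) (fun a => e1 (by simpa using h.inv g a)) fun a => e2 (by simpa using h.inv g a)
    exact ⟨g * n * g⁻¹, by simp [mul_smul, n1], fun z hz => by
      simp [mul_smul, n2 _ (show R a b (g⁻¹ • z) by simpa using h.inv g⁻¹ hz)], by simpa [mul_smul] using h.inv g n3⟩
  have hT : ∀ {x y}, y ≠ x → TT R x y := fun {x y} e w hw e' => by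
    obtain ⟨z, z1, z2, z3⟩ := h.exists_asym e.symm
    obtain ⟨g, g1, g2, g3⟩ := H e z z2 w hw z3 e'
    exact ⟨g • z, by simpa [g1] using h.inv' (g2 y (h.refl e)) z1, smul_ne g1 z2, g3⟩
  refine h.not_AA h2 hb fun u v hu hv e1 e2 => ?_
  obtain ⟨g, g1, g2, g3⟩ := H hb.symm u e1 v e2 (h.TT_not hb.symm (hT hb.symm) hu e1)
    (h.TT_not hb.symm (hT hb.symm) hv e2)
  have g4 := g2 a (h.refl hb.symm)
  have g5 : ∀ w, R a b w → R a b (g • w) := fun w hw => by simpa [g1] using h.inv' g4 hw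
  refine ⟨g, ⟨g4, fun w hw => ?_⟩, g1, (h.TT_inj hb.symm (hT hb.symm) hv (g5 u hu) e2 g3).symm⟩
  by_cases e : R a b w
  · exact h.trans (h.symm e) (g5 w e)
  · obtain ⟨z, z1, -, z3⟩ := hT hb w hw e
    exact h.trans z3 (by simpa [g2 z z1] using h.inv' g4 (h.symm z3))

variable {a : Ω} {P : Sylow p G} (hP : ∀ u ∈ P, u • a = a)
include hP

theorem Q_norm {q : G} (hq : q ∈ P) (hq' : q ∈ h.N a) (h1 : q ≠ 1) {m : G} (hm : m • a = a) :
    ∃ n : ℕ, m * q * m⁻¹ = q ^ n := by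
  obtain ⟨b, hb⟩ := h.exists_ne a
  have B1 : ∀ n ∈ h.N a, ∃ k : ℕ, n * q * n⁻¹ = q ^ k := fun n hn => by
    obtain ⟨k, hk⟩ := ((burnside (h.N a) (h.cls hb) (fun y hy s hs => h.N_cls hy hs) hq' (h.P_pow hP hq) (h.refl hb)
      fun e => h1 (h.P_reg hP hq hb e)).resolve_left (h.not_AA h2 hb fun u v hu hv => · u hu v hv) n hn).1
    refine ⟨k, mul_inv_eq_iff_eq_mul.2 (inv_mul_eq_one.1 (h.N_faith (mul_mem (inv_mem (mul_mem (pow_mem hq' k) hn))
      (mul_mem hn hq')) hb fun z hz => ?_)).symm⟩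
    rw [mul_smul, inv_smul_eq_iff, mul_smul, mul_smul, hk z hz]
  have h3 : m * q * m⁻¹ ∈ h.N a := hm ▸ h.N_conj hq' m
  obtain ⟨j, hj⟩ := h.P_cover hP hq h1 (hq'.2 b hb) (h3.2 b hb)
  obtain ⟨k, hk⟩ := B1 _ h3
  obtain ⟨l, hl⟩ := (pg_zpowers (r := m * q * m⁻¹) (k := 2) (by rw [conj_pow, h.P_pow hP hq]; simp)).to_sup_of_normal_right'
    (pg_zpowers (h.P_pow hP hq)) (Subgroup.zpowers_le.2 (Subgroup.mem_normalizer_fintype (by
      rintro _ ⟨i, rfl⟩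
      rw [← conj_zpow, hk]
      exact zpow_mem (Subgroup.npow_mem_zpowers _ _) _))) ⟨(q ^ j)⁻¹ * (m * q * m⁻¹), mul_mem
        (Subgroup.mem_sup_right (inv_mem (Subgroup.npow_mem_zpowers _ _))) (Subgroup.mem_sup_left (Subgroup.mem_zpowers _))⟩
  exact ⟨j, (inv_mul_eq_one.1 (h.pel (g := (q ^ j)⁻¹ * (m * q * m⁻¹)) (congrArg Subtype.val hl) hb
    (by rw [mul_smul, ← hj, inv_smul_smul]) (mul_mem (inv_mem (pow_mem hq' j)) h3).1)).symm⟩

omit h2 in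
theorem exists_q : ∃ q ∈ P, q ∈ h.N a ∧ q ≠ 1 := by
  obtain ⟨b, hb⟩ := h.exists_ne a
  obtain ⟨y, y1, y2⟩ := h.exists_third hb
  obtain ⟨q, hq, rfl⟩ := h.P_trans hP hb (h.ne' y1)
  exact ⟨q, hq, ⟨hP q hq, fun w => h.P_cls hP hq y1⟩, by rintro rfl; simp at y2⟩

theorem P_norm {m : G} (hm : m • a = a) {u : G} (hu : u ∈ P) : m * u * m⁻¹ ∈ P := by
  obtain ⟨b, hb⟩ := h.exists_ne a
  obtain ⟨q, hq, hq', h1⟩ := h.exists_q hP
  have C1 : ∀ {x : G}, x • b = b → Commute x q → ∀ z, R a b z → x • z = z := fun {x} e1 e2 z hz => by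
    obtain ⟨j, rfl⟩ := h.P_cover hP hq h1 (hq'.2 b hb) hz
    rw [← mul_smul, (e2.pow_right j).eq, mul_smul, e1]
  have C2 : stabilizer G a ⊓ Subgroup.centralizer {q} ≤ Subgroup.normalizer (P.1 : Set G) := fun x hx =>
    Subgroup.mem_normalizer_fintype fun u hu => by
      have hx' : Commute x q := Subgroup.mem_centralizer_singleton_iff.1 hx.2
      by_cases e : R a b (u • b)
      · obtain ⟨j, hj⟩ := h.P_cover hP hq h1 (hq'.2 b hb) e
        rw [← h.P_eq hP (pow_mem hq j) hu hb hj, (hx'.pow_right j).eq, mul_inv_cancel_right]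
        exact pow_mem hq j
      have hu' : u ∈ stabilizer G a ⊓ Subgroup.centralizer {q} :=
        ⟨hP u hu, Subgroup.mem_centralizer_singleton_iff.2 (h.P_comm hP hu hq)⟩
      obtain ⟨n, hn⟩ := ((h.burn_blocks _ (fun _ hy => (Subgroup.mem_inf.1 hy).1) hu' (h.P_pow hP hu) hb e).resolve_left (fun K =>
        h.not_UU h2 hb fun s hs t ht e1 e2 => by
          obtain ⟨y, hy, y1, y2⟩ := K s hs t ht e1 e2
          obtain ⟨r, r0, r1, r2⟩ := h.exists_adj hy.1 y1 hP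
          exact ⟨r * y, by rw [mul_smul, hy.1, r1.1], C1 r2 ((h.P_comm hP r0 hq).mul_left
            (Subgroup.mem_centralizer_singleton_iff.1 hy.2)), mul_smul r y s ▸ h.N_cls r1 y2⟩) x hx).1
      have h3 := mul_mem (inv_mem (pow_mem hu' n)) (mul_mem (mul_mem hx hu') (inv_mem hx))
      have h4 : (u ^ n)⁻¹ * (x * u * x⁻¹) ∈ h.N a := ⟨h3.1, fun t ht => by
        simpa [mul_smul] using h.inv' (inv_fix (pow_fix (hP u hu) n)) (hn _ (smul_ne (inv_fix hx.1) ht))⟩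
      obtain ⟨r, r0, r1, r2⟩ := h.exists_adj h3.1 (h4.2 b hb) hP
      have h5 := h.N_faith (mul_mem r1 h4) hb (C1 r2 ((h.P_comm hP r0 hq).mul_left
        (Subgroup.mem_centralizer_singleton_iff.1 h3.2)))
      rw [eq_mul_of_inv_mul_eq (eq_inv_of_mul_eq_one_right h5)]
      exact mul_mem (pow_mem hu n) (inv_mem r0)
  obtain ⟨k, hk⟩ := h.Q_norm h2 hP hq hq' h1 (inv_fix hm)
  refine (P.is_maximal' ((pg_zpowers (r := m * u * m⁻¹) (k := 2) (by
    rw [conj_pow, h.P_pow hP hu]; simp)).to_sup_of_normal_right' P.2 (Subgroup.zpowers_le.2 (C2 ⟨?_, ?_⟩)))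
      le_sup_right).le (Subgroup.mem_sup_left (Subgroup.mem_zpowers _))
  · simp [mul_smul, inv_fix hm, hP u hu, hm]
  · have := (h.P_comm hP hu (pow_mem hq k)).conj m
    rw [← hk] at this
    simpa [Subgroup.mem_centralizer_singleton_iff, mul_assoc] using this.eq

theorem comm_of_fix {g r : G} {b : Ω} (hb : b ≠ a) (h1 : g • a = a) (h3 : g • b = b) (hr : r ∈ P)
    (h4 : g • r • b = r • b) : Commute g r :=
  mul_inv_eq_iff_eq_mul.1 (h.P_eq hP (h.P_norm h2 hP h1 hr) hr hb (by simp [mul_smul, inv_fix h3, h4]))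

omit h2 in
theorem cover_blocks {s : G} (hs : s ∈ P) {b : Ω} (hb : b ≠ a) (e : ¬R a b (s • b)) {t : Ω} (ht : t ≠ a) :
    ∃ n : ℕ, R a (s ^ n • b) t := by
  obtain ⟨f, -, f2, f3, f4⟩ := exists_coord (h.ncard_blocks a) (h.P_pow hP hs) (s := {z | R a b z})
    (fun n => ⟨_, smul_ne (pow_fix (hP s hs) n) hb, (h.smul_cls (pow_fix (hP s hs) n) b).symm⟩)
    (by rwa [h.smul_cls (hP s hs), Ne, h.cls_eq (smul_ne (hP s hs) hb)])
  obtain ⟨i, hi⟩ := f2.ge ⟨t, ht, rfl⟩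
  exact ⟨i.val, (h.cls_eq ht).1 (by rw [← h.smul_cls (pow_fix (hP s hs) _), ← f3, f4]; simpa using hi.symm)⟩

omit hP

theorem S1 {g : G} (h0 : g ≠ 1) {b z : Ω} (h1 : g • a = a) (h3 : g • b = b) (h4 : g • z = z) (e : R a b z)
    (e' : z ≠ b) : (∀ w, R a b w → g • w = w) ∧ ∀ w ≠ a, g • w = w → R a b w := by
  obtain ⟨P, hP⟩ := h.exists_P a
  have hb := h.ne e
  obtain ⟨r, hr, rfl⟩ := h.P_trans hP hb (h.ne' e)
  have r1 := h.comm_of_fix h2 hP hb h1 h3 hr h4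
  have r2 : ∀ y w, g • y = y → R a y w → g • w = w := fun y w hy hw => by
    obtain ⟨j, rfl⟩ := h.P_cover hP hr (by rintro rfl; simp at e') (h.P_cls hP hr e (h.ne hw)) hw
    rw [← mul_smul, (r1.pow_right j).eq, mul_smul, hy]
  refine ⟨fun w => r2 b w h3, fun w hw h5 => by_contra fun h6 => h0 (h.faith g fun t => by_contra fun ht => ht ?_)⟩
  obtain ⟨s, hs, rfl⟩ := h.P_trans hP hb hw
  obtain ⟨n, hn⟩ := h.cover_blocks hP hs hb h6 (show t ≠ a by rintro rfl; exact ht h1)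
  exact r2 _ t (by rw [← mul_smul, ((h.comm_of_fix h2 hP hb h1 h3 hs h5).pow_right n).eq, mul_smul, h3]) hn

theorem S2 {g g' : G} (h0 : g ≠ 1) {b w w' : Ω} (hb : b ≠ a) (h1 : g • a = a) (h3 : g • b = b) (h1' : g' • a = a)
    (h3' : g' • b = b) (hw : w ≠ a) (hw' : w' ≠ a) (h4 : g • w = w) (h4' : g' • w' = w') (e : ¬R a b w)
    (e' : ¬R a b w') : g' • w = w := by
  obtain ⟨P, hP⟩ := h.exists_P a
  have D1 : ∀ {g : G} {w}, g • a = a → g • b = b → w ≠ a → g • w = w → ¬R a b w → g ∈ h.N a :=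
    fun {g w} h1 h3 hw h4 e => ⟨h1, fun t ht => by
      obtain ⟨s, hs, rfl⟩ := h.P_trans hP hb hw
      obtain ⟨n, hn⟩ := h.cover_blocks hP hs hb e ht
      have := h.inv' h1 hn
      rw [← mul_smul, ((h.comm_of_fix h2 hP hb h1 h3 hs h4).pow_right n).eq, mul_smul, h3] at this
      exact h.trans (h.symm hn) this⟩
  have n1 := D1 h1 h3 hw h4 e
  have n2 := D1 h1' h3' hw' h4' e'
  obtain ⟨q, hq, hq', q1⟩ := h.exists_q hP
  obtain ⟨k, hk⟩ := h.Q_norm h2 hP hq hq' q1 h1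
  obtain ⟨k', hk'⟩ := h.Q_norm h2 hP hq hq' q1 h1'
  have D2 : ∀ {g : G} {k}, g • b = b → g * q * g⁻¹ = q ^ k → ∀ i : ℕ, g • q ^ i • b = q ^ (k * i) • b :=
    fun {g k} h3 hk i => by rw [pow_mul, ← hk, conj_pow]; simp [mul_smul, inv_fix h3]
  have D3 := inv_mul_eq_one.1 (h.N_faith (mul_mem (inv_mem (mul_mem n1 n2)) (mul_mem n2 n1)) hb fun z hz => by
    obtain ⟨j, rfl⟩ := h.P_cover hP hq q1 (hq'.2 b hb) hz
    rw [mul_smul, inv_smul_eq_iff, mul_smul, mul_smul, D2 h3 hk, D2 h3' hk', D2 h3' hk', D2 h3 hk, mul_left_comm])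
  by_contra h5
  exact e (h.symm ((h.S1 h2 h0 h1 h4 (by rw [← mul_smul, D3, mul_smul, h4]) (n2.2 w hw) h5).2 b hb h3))

end Sys

end Cfsg.Agent.H3.DT
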