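import Cfsg.Agent.H3.DT3

/-! Doubly transitive groups of degree `p ^ 2 + 1` are doubly primitive, with one exception. -/

set_option autoImplicit false
set_option linter.unusedSectionVars false

namespace Cfsg.Agent.H3.DT

open MulAction Pointwise

variable {G Ω : Type*} [Group G] [MulAction G Ω] {p : ℕ} {R : Ω → Ω → Ω → Prop}

namespace Sys

variable [hp : Fact p.Prime] (h : Sys G p R) [Finite G] (h2 : p ≠ 2)
include h h2

theorem Z1 {g : G} (h0 : g ≠ 1) {x y z : Ω} (h1 : g • x = x) (h3 : g • y = y) (h4 : g • z = z) (e' : z ≠ y) :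
    ¬R x y z := fun e => by
  have T : ∀ {u v}, v ≠ u → ∃ g : G, g ≠ 1 ∧ g • u = u ∧ ∀ z, R u v z → g • z = z := fun {u v} huv => by
    obtain ⟨k, rfl, rfl⟩ := h.two (h.ne e).symm huv.symm
    exact ⟨k * g * k⁻¹, by simpa using h0, by simp [mul_smul, h1], fun w hw => by
      simp [mul_smul, (h.S1 h2 h0 h1 h3 h4 e e').1 (k⁻¹ • w) (by simpa using h.inv k⁻¹ hw)]⟩
  have A1 : ∀ {x y z}, R x y z → z ≠ y → ¬R y x z := fun {x y z} e1 e2 e3 => by
    obtain ⟨g, g0, g1, g2⟩ := T (h.ne e1)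
    obtain ⟨w, w1, w2, w3⟩ := h.exists_asym (h.ne e1)
    exact w3 ((h.S1 h2 g0 (g2 y (h.refl (h.ne e1))) g1 (g2 z e1) e3 (h.ne' e1)).2 w w2 (g2 w w1))
  obtain ⟨g', g0, g1, g2⟩ := T e'.symm
  obtain ⟨w, w1, w2⟩ := h.exists_third e'.symm
  have := h.S2 h2 g0 e' (g2 y (h.refl e'.symm)) g1 h3 h4 w2 (h.ne e).symm (g2 w w1) h1 (A1 w1 w2)
    fun a => A1 e e' (h.symm a)
  exact A1 (h.symm e) e'.symm (h.symm ((h.S1 h2 h0 h4 h3 this w1 w2).2 x (h.ne' e).symm h1))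

theorem Z2 {g : G} {x y z : Ω} (h1 : g • x = x) (h3 : g • y = y) (h4 : g • z = z) (e1 : y ≠ x) (e2 : z ≠ x)
    (e3 : z ≠ y) : g = 1 := by_contra fun h0 => by
  have := h.fin
  obtain ⟨w, w1, w2⟩ := h.exists_third e1
  refine no_design (R := fun x y z => y ≠ x ∧ z ≠ x ∧ (y = z ∨ ∃ g : G, g ≠ 1 ∧ g • x = x ∧ g • y = y ∧ g • z = z))
    h.card hp.out.pos (fun e => e.1) (fun e => ⟨e.2.1, e.1, e.2.2.imp Eq.symm fun ⟨g, a, b, c, d⟩ => ⟨g, a, b, d, c⟩⟩)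
    (fun {x y z w} e e' => ⟨e.1, e'.2.1, ?_⟩) (fun {u v} e => ?_) e1 (h.ne' w1)
    (fun e => e.2.2.elim w2.symm fun ⟨g, a, b, c, d⟩ => h.Z1 h2 a b c d w2 w1)
    fun e e' => ⟨e.1.symm, e'.symm, (e.2.2.resolve_left e').elim fun g ⟨a, b, c, d⟩ => .inr ⟨g, a, c, b, d⟩⟩
  · by_cases a : y = z
    · exact a ▸ e'.2.2
    by_cases b : z = w
    · exact b ▸ e.2.2
    obtain ⟨g, g0, g1, g2, g3⟩ := e.2.2.resolve_left a
    obtain ⟨g', g0', g1', g2', g3'⟩ := e'.2.2.resolve_left b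
    exact .inr ⟨g', g0', g1', h.S2 h2 g0 e'.1 g1 g3 g1' g2' e.1 e'.2.1 g2 g3' (h.Z1 h2 g0 g1 g3 g2 a)
      (h.Z1 h2 g0' g1' g2' g3' (Ne.symm b)), g3'⟩
  obtain ⟨k, rfl, rfl⟩ := h.two e1.symm e.symm
  obtain ⟨P, hP⟩ := h.exists_P (k • x)
  obtain ⟨r, hr, r1⟩ := h.P_trans hP e (show k • z ≠ k • x by simpa using e2)
  have r2 := h.comm_of_fix h2 hP (g := k * g * k⁻¹) e (by simp [mul_smul, h1]) (by simp [mul_smul, h3]) hr
    (by simp [mul_smul, h4, r1])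
  obtain ⟨c1, c2, -⟩ := le_ncard_of_move (S := {w | k • y ≠ k • x ∧ w ≠ k • x ∧ (k • y = w ∨ ∃ g : G, g ≠ 1 ∧
    g • k • x = k • x ∧ g • k • y = k • y ∧ g • w = w)}) (Set.toFinite _) (h.P_pow hP hr) (s := k • y)
    (fun m => ⟨e, smul_ne (pow_fix (hP r hr) m) e, .inr ⟨k * g * k⁻¹, by simpa using h0, by simp [mul_smul, h1],
      by simp [mul_smul, h3], by rw [← mul_smul, (r2.pow_right m).eq]; simp [mul_smul, h3]⟩⟩)
    (by simpa [r1] using e3)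
  exact c1.trans c2

theorem no_invol {i : G} (h0 : i ≠ 1) (h1 : i ^ 2 = 1) (a : Ω) : i • a ≠ a := fun ha => by
  classical
  have := h.fin
  let _ := Fintype.ofFinite Ω
  obtain ⟨b, hb, h3⟩ := exists_fix (r := 2) (pg_zpowers (k := 1) h1) (B := {a}ᶜ)
    (fun s hs z hz => smul_ne (Subgroup.zpowers_le.2 (mem_stabilizer_iff.2 ha) hs) hz) (by
      rw [h.ncard_compl]
      exact fun e => h2 ((Nat.prime_dvd_prime_iff_eq Nat.prime_two hp.out).1 (Nat.prime_two.dvd_of_dvd_pow e)).symm)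
  replace h3 := h3 i (Subgroup.mem_zpowers i)
  replace hb : b ≠ a := hb
  obtain ⟨P, hP⟩ := h.exists_P a
  have h4 : ∀ y ∈ P, i * y = y⁻¹ * i := fun y hy => by
    have e1 := h.P_norm h2 hP ha hy
    have e2 : i • (y * (i * y * i⁻¹)) • b = (y * (i * y * i⁻¹)) • b := by
      conv_rhs => rw [(h.P_comm hP hy e1).eq]
      simp [mul_smul, inv_fix h3, show i⁻¹ = i from inv_eq_of_mul_eq_one_right (by rwa [← pow_two]), h3]
    have e3 := h.P_reg hP (mul_mem hy e1) hb (by_contra fun e =>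
      h0 (h.Z2 h2 ha h3 e2 hb (smul_ne (hP _ (mul_mem hy e1)) hb) e))
    exact mul_inv_eq_iff_eq_mul.1 (eq_inv_of_mul_eq_one_right e3)
  have h5 : ∀ c u v : Ω, u ≠ c → v ≠ c → ∃ t : G, t • c = c ∧ t • u = v ∧ t • v = u := fun c u v hu hv => by
    obtain ⟨k, rfl, rfl⟩ := h.two hb.symm hu.symm
    obtain ⟨y, hy, e⟩ := h.P_trans hP hb (show k⁻¹ • v ≠ a by simpa [inv_smul_eq_iff] using hv)
    refine ⟨k * (y * i) * k⁻¹, by simp [mul_smul, ha, hP y hy], by simp [mul_smul, h3, e], ?_⟩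
    rw [mul_smul, ← e, mul_smul, ← mul_smul _ y, mul_assoc, h4 y hy]; simp [h3]
  choose! t ht using fun c (hc : a ≠ c ∧ b ≠ c) => h5 c a b hc.1 hc.2
  obtain ⟨y, y1, y2⟩ := h.exists_third hb
  have h6 := Finset.card_le_mul_card_image_of_maps_to (s := (Finset.univ.erase a).erase b) (f := fun c => t c • y)
    (t := (Finset.univ.filter (R b a)).erase a) (fun c hc => ?_) 2 fun z _ => not_lt.1 fun e => ?_
  · have h7 := h.ncard_lam hb.symm
    rw [Finset.card_erase_of_mem (by simpa using hb), Finset.card_erase_of_mem (Finset.mem_univ _), Finset.card_univ,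
      ← Nat.card_eq_fintype_card, h.card, ← Set.ncard_coe_finset, Finset.coe_erase, Finset.coe_filter_univ] at h6
    have : 2 * p ≤ p ^ 2 := by nlinarith [hp.out.two_le]
    omega
  · simp only [Finset.mem_erase, Finset.mem_univ, and_true, Finset.mem_filter, true_and] at hc ⊢
    obtain ⟨-, t1, t2⟩ := ht c ⟨Ne.symm hc.2, Ne.symm hc.1⟩
    exact ⟨fun e => y2 (MulAction.injective _ (e.trans t2.symm)), by simpa [t1, t2] using h.inv (t c) y1⟩
  · obtain ⟨c, d, f, hc, hd, hf, e1, e2, e3⟩ := Finset.two_lt_card_iff.1 e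
    simp only [Finset.mem_erase, Finset.mem_univ, and_true, Finset.mem_filter] at hc hd hf
    have h7 : ∀ d, (d ≠ b ∧ d ≠ a) ∧ t d • y = z → t c • d = d := fun d hd => by
      obtain ⟨-, t1, t2⟩ := ht c ⟨Ne.symm hc.1.2, Ne.symm hc.1.1⟩
      obtain ⟨t0, t3, t4⟩ := ht d ⟨Ne.symm hd.1.2, Ne.symm hd.1.1⟩
      rw [inv_mul_eq_one.1 (h.Z2 h2 (g := (t c)⁻¹ * t d) (by rw [mul_smul, t3, inv_smul_eq_iff, t1])
        (by rw [mul_smul, t4, inv_smul_eq_iff, t2]) (by rw [mul_smul, hd.2, inv_smul_eq_iff, hc.2]) hb (h.ne' y1) y2), t0]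
    have := (ht c ⟨Ne.symm hc.1.2, Ne.symm hc.1.1⟩).2.1
    rw [h.Z2 h2 (h7 c hc) (h7 d hd) (h7 f hf) e1.symm e2.symm e3.symm, one_smul] at this
    exact hb this.symm

theorem odd_false : False := by
  classical
  have := h.fin
  let _ := Fintype.ofFinite Ω
  let χ := Equiv.Perm.sign.comp (toPermHom G Ω)
  have h1 : ∀ (g : G) (a : Ω), g • a = a → χ g = 1 := fun g a ha => by
    obtain ⟨k, hk⟩ : Odd (orderOf g) := Nat.not_even_iff_odd.1 fun e => by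
      have := orderOf_pow_orderOf_div (orderOf_pos g).ne' e.two_dvd
      exact h.no_invol h2 (by rintro e; simp [e] at this) (this ▸ pow_orderOf_eq_one _) a (pow_fix ha _)
    simpa [hk, pow_succ, pow_mul] using congrArg χ (pow_orderOf_eq_one g)
  obtain ⟨a⟩ : Nonempty Ω := (Nat.card_ne_zero.1 (by rw [h.card]; omega)).1
  obtain ⟨b, hb⟩ := h.exists_ne a
  obtain ⟨k, hk⟩ := hp.out.odd_of_ne_two h2
  have h3 : p ^ 2 + 1 = 2 * (2 * (k ^ 2 + k) + 1) := by rw [hk]; ring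
  obtain ⟨t, ht⟩ := exists_prime_orderOf_dvd_card' (G := G) 2 (((Dvd.intro _ h3.symm).mul_right _).trans
    (h.index_stab hb.symm ▸ Subgroup.index_dvd_card _))
  have h4 := h.no_invol h2 (i := t) (by rintro rfl; simp at ht) (ht ▸ pow_orderOf_eq_one t)
  obtain ⟨z, z1, z2⟩ := h.exists_third (h4 a)
  obtain ⟨g, g1, g2⟩ := h.two z2 (h.ne' z1)
  have h5 := h1 (g * t) a (by rw [mul_smul, g2])
  rw [map_mul, h1 g z g1, one_mul] at h5
  have h6 := Equiv.Perm.sign_of_pow_two_eq_one (σ := toPermHom G Ω t) (by rw [← map_pow, ← ht, pow_orderOf_eq_one, map_one])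
  rw [(Fintype.card_eq_zero_iff (α := Function.fixedPoints (toPermHom G Ω t))).2 ⟨fun x => h4 x.1 x.2⟩, ← Nat.card_eq_fintype_card, h.card, h3] at h6
  rw [show Equiv.Perm.sign (toPermHom G Ω t) = 1 from h5] at h6
  simp [pow_succ, pow_mul] at h6

end Sys

theorem Sys.card_two [Finite G] (h : Sys G 2 R) : Nat.card G = 20 := by
  have := h.fin
  obtain ⟨a⟩ : Nonempty Ω := (Nat.card_ne_zero.1 (by rw [h.card]; omega)).1
  obtain ⟨b, hb⟩ := h.exists_ne a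
  have h1 : ∀ {g : G} {x y z}, g • x = x → g • y = y → R x y z → g • z = z := fun {g x y z} e1 e2 e3 => by
    by_cases e : z = y
    · rwa [e]
    obtain ⟨w, hw⟩ := Set.ncard_eq_one.1 (Nat.succ_injective (h.ncard_lam (h.ne e3)))
    exact (hw.le ⟨by simpa [e2] using h.inv' e1 e3, smul_ne e2 e⟩).trans (hw.le ⟨e3, e⟩).symm
  suffices stabilizer G (a, b) = ⊥ by rw [← Subgroup.index_bot, ← this, h.index_stab hb.symm]; rfl
  refine eq_bot_iff.2 fun g hg => h.faith g fun w => ?_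
  have g1 : g • a = a := congrArg Prod.fst hg
  have g2 : g • b = b := congrArg Prod.snd hg
  obtain ⟨z, z1, z2, z3⟩ := h.exists_asym hb.symm
  by_cases e : w = a
  · rwa [e]
  obtain ⟨P, hP⟩ := h.exists_P a
  obtain ⟨s, hs, rfl⟩ := h.P_trans hP hb z2
  obtain ⟨f, f1, f2, -, -⟩ := exists_coord (h.ncard_blocks a) (h.P_pow hP hs) (s := {z | R a b z})
    (fun n => ⟨_, smul_ne (pow_fix (hP s hs) n) hb, (h.smul_cls (pow_fix (hP s hs) n) b).symm⟩)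
    (by rwa [h.smul_cls (hP s hs), Ne, h.cls_eq (smul_ne (hP s hs) hb)])
  obtain ⟨i, hi⟩ := f2.ge ⟨b, hb, rfl⟩
  obtain ⟨j, hj⟩ := f2.ge ⟨_, z2, rfl⟩
  obtain ⟨k, hk⟩ := f2.ge ⟨w, e, rfl⟩
  have : k = i ∨ k = j := (by decide : ∀ i j k : ZMod 2, j ≠ i → k = i ∨ k = j) i j k (by
    rintro rfl; exact z3 ((h.cls_eq z2).1 (hj.symm.trans hi)))
  rcases this with rfl | rfl
  · exact h1 g1 g2 ((h.cls_eq e).1 (hk.symm.trans hi))
  · exact h1 g1 (h1 g2 g1 z1) ((h.cls_eq e).1 (hk.symm.trans hj))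

theorem exists_sys [FaithfulSMul G Ω] (hp : p.Prime) (hΩ : Nat.card Ω = p ^ 2 + 1)
    (h2 : IsMultiplyPretransitive G Ω 2) (a : Ω)
    (h : ¬IsPreprimitive (stabilizer G a) (SubMulAction.ofStabilizer G a)) : ∃ R : Ω → Ω → Ω → Prop, Sys G p R := by
  have two : ∀ {a b c d : Ω}, a ≠ b → c ≠ d → ∃ g : G, g • a = c ∧ g • b = d := is_two_pretransitive_iff.1 h2
  have : Finite Ω := Nat.finite_of_card_ne_zero (by omega)
  have : IsPretransitive (stabilizer G a) (SubMulAction.ofStabilizer G a) := ⟨fun x y => by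
    obtain ⟨g, g1, g2⟩ := two (Ne.symm x.2) (Ne.symm y.2)
    exact ⟨⟨g, g1⟩, Subtype.ext g2⟩⟩
  obtain ⟨B, hB, h1⟩ : ∃ B : Set (SubMulAction.ofStabilizer G a), IsBlock (stabilizer G a) B ∧ ¬IsTrivialBlock B := by
    by_contra! H
    exact h ⟨fun hB => H _ hB⟩
  rw [IsTrivialBlock, not_or, Set.not_subsingleton_iff] at h1
  have h3 : B.ncard = p := by
    have h4 := hB.ncard_dvd_card h1.1.nonempty
    have h5 := SubMulAction.nat_card_ofStabilizer_add_one_eq G a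
    rw [hΩ, Nat.add_right_cancel_iff] at h5
    obtain ⟨k, hk, e⟩ := (Nat.dvd_prime_pow hp).1 (h5 ▸ h4)
    interval_cases k
    · exact absurd e (Set.one_lt_ncard_iff_nontrivial.2 h1.1).ne'
    · simpa using e
    · exact absurd ((Set.eq_univ_iff_ncard B).2 (e.trans h5.symm)) h1.2
  have h4 : ∀ {g g' : G} {y y' z}, y ∈ B → y' ∈ B → z ∈ B → g • a = g' • a → g • (y : Ω) = g' • (y' : Ω) →
      ∃ w ∈ B, g • (z : Ω) = g' • (w : Ω) := fun {g g' y y' z} e1 e2 e3 e4 e5 =>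
    ⟨(⟨g'⁻¹ * g, by simp [mul_smul, e4]⟩ : stabilizer G a) • z, (hB.smul_eq_of_mem e1 (by
      convert e2 using 1; exact Subtype.ext (by simp [mul_smul, e5]))).le (Set.smul_mem_smul_set e3), by simp [mul_smul]⟩
  refine ⟨fun x y z => ∃ g : G, ∃ y' ∈ B, ∃ z' ∈ B, g • a = x ∧ g • y'.1 = y ∧ g • z'.1 = z, two,
    fun g hg => FaithfulSMul.eq_of_smul_eq_smul (α := Ω) (by simpa using hg), hΩ, ?_, ?_, fun {x y} e => ?_, ?_, ?_,
    fun {x y} e => ?_⟩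
  · rintro g _ _ _ ⟨k, y, hy, z, hz, rfl, rfl, rfl⟩
    exact ⟨g * k, y, hy, z, hz, mul_smul .., mul_smul .., mul_smul ..⟩
  · rintro _ _ _ ⟨k, y, -, z, -, rfl, rfl, rfl⟩
    exact fun e => y.2 (MulAction.injective k e)
  · obtain ⟨b, hb⟩ := h1.1.nonempty
    obtain ⟨g, g1, g2⟩ := two (Ne.symm b.2) e.symm
    exact ⟨g, b, hb, b, hb, g1, g2, g2⟩
  · rintro _ _ _ ⟨k, y, hy, z, hz, rfl, rfl, rfl⟩
    exact ⟨k, z, hz, y, hy, rfl, rfl, rfl⟩
  · rintro _ _ _ _ ⟨k, y, hy, z, hz, rfl, rfl, rfl⟩ ⟨k', y', hy', z', hz', e1, e2, rfl⟩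
    obtain ⟨w, hw, e⟩ := h4 hy' hz hz' e1 e2
    exact ⟨k, y, hy, w, hw, rfl, rfl, e.symm⟩
  · obtain ⟨b, hb⟩ := h1.1.nonempty
    obtain ⟨g, rfl, rfl⟩ := two (Ne.symm b.2) e.symm
    rw [← h3, ← Set.ncard_image_of_injective B (f := fun z => g • z.1)
      fun _ _ e => Subtype.ext (MulAction.injective g e)]
    congr 1
    ext z
    refine ⟨?_, fun ⟨w, hw, e⟩ => ⟨g, b, hb, w, hw, rfl, rfl, e⟩⟩
    rintro ⟨k, y, hy, z, hz, e1, e2, rfl⟩
    obtain ⟨w, hw, e⟩ := h4 hy hb hz e1 e2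
    exact ⟨w, hw, e.symm⟩

end Cfsg.Agent.H3.DT
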