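import Cfsg.Agent.H3.E6A
import Cfsg.Agent.H8.TwPE6
import Cfsg.Agent.H8.SCovTab

/-! The twisted group of type `E6` as a group of fixed points. -/

set_option autoImplicit false
set_option linter.unusedSectionVars false

namespace Cfsg.Agent.H3.E6

open Cfsg.Lie Matrix Cfsg.Agent.H7 Cfsg.Agent.H8 Polynomial

variable {K : Type*} [Field K] {G : Type*} [Group G] {D D' : ChevalleyDatum} {x : ℕ → K → G} [hD : RootFacts D]
  [hN : NFacts D]

theorem lang_cent [IsAlgClosed K] (hx : IsSC D x) (p : ℕ) [Fact p.Prime] [CharP K p]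
    {ι : Type*} [Fintype ι] [DecidableEq ι] {ρ : G →* Matrix ι ι K} (hρ : Function.Injective ρ)
    (hP : ∀ r c, ∃ P : Matrix ι ι K[X], ∀ t, ρ (x r (c * t)) = P.map (aeval t)) {σ γ : Monoid.End G} {q m : ℕ}
    (hq : 2 ≤ q) (hσ : ∀ g a b, ρ (σ g) a b = ρ g a b ^ q) (hγ : ∀ r, ∃ s c, ∀ t, γ (x r t) = x s (c * t))
    (hc : Commute γ σ) [NeZero m] (hm : γ ^ m = 1) {a : Fin D.rank → Kˣ} (ha : IsOfFinOrder a)
    (hF : γ (σ (hProd D x a)) = hProd D x a) {c : G} (h : c ∈ Subgroup.centralizer {hProd D x a}) :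
    ∃ g ∈ Subgroup.centralizer {hProd D x a}, g⁻¹ * γ (σ g) = c := by
  let C := Subgroup.centralizer {hProd D x a}
  let ρ' : G →* Matrix (ι × Fin m) (ι × Fin m) K := (blockDiagonalRingHom ι (Fin m) K).toMonoidHom.comp
    (MonoidHom.pi fun i => ρ.comp (γ ^ i.1 : Monoid.End G))
  have h0 : ∀ (g : C) s, co (ρ'.comp C.subtype) g s =
    if s.1.2 = s.2.2 then ρ ((γ ^ s.1.2.1) g) s.1.1 s.2.1 else 0 := fun _ _ => rfl
  have h1 : ∀ n r, ∃ s c, ∀ t, (γ ^ n) (x r t) = x s (c * t) := fun n r => by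
    induction n with
    | zero => exact ⟨r, 1, by simp⟩
    | succ n ih =>
      obtain ⟨s, c, h⟩ := ih
      obtain ⟨s', c', h'⟩ := hγ s
      exact ⟨s', c' * c, fun t => by rw [pow_succ', end_mul_apply, h, h', mul_assoc]⟩
  have h2 : ∀ r, ∃ P : Matrix _ _ K[X], ∀ t, ρ' (x r t) = P.map (aeval t) := fun r => by
    choose s c h using fun i : Fin m => h1 i r
    choose P hP using fun i => hP (s i) (c i)
    exact ⟨blockDiagonal P, fun t => by
      rw [blockDiagonal_map _ _ (map_zero _)]; exact congrArg blockDiagonal (funext fun i => (congrArg ρ (h i t)).trans (hP i t))⟩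
  have h3 : Function.Injective ρ' := fun a b h => hρ (by simpa using! congrFun (blockDiagonal_injective h) 0)
  have h6 : ∀ n g a b, ρ ((σ ^ n) g) a b = ρ g a b ^ q ^ n := fun n => by
    induction n with
    | zero => simp
    | succ n ih => intro g a b; rw [pow_succ', end_mul_apply, hσ, ih, ← pow_mul, pow_succ]
  let F : C →* C := (MonoidHom.comp (γ * σ : Monoid.End G) C.subtype).codRestrict C fun g =>
    Subgroup.mem_centralizer_singleton_iff.2 (by
      simpa [end_mul_apply, hF] using! congrArg (fun z => γ (σ z)) (Subgroup.mem_centralizer_singleton_iff.1 g.2))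
  have h8 : ∀ n g, (F^[n] g).1 = ((γ * σ) ^ n) g := fun n g => by
    induction n with
    | zero => rfl
    | succ n ih => rw [Function.iterate_succ_apply', pow_succ', end_mul_apply, ← ih]; rfl
  obtain ⟨g, hg⟩ := H8.lang (ρ := ρ'.comp C.subtype) (F := F) (m := m) (q := q ^ m) (h3.comp Subtype.val_injective)
    (fun g => hx.toIsSt.det_eq_one (ρ := ρ') hx.gen p g.1) (isCl_cent h3 (hx.toIsSt.isCl_isIrr hx.r3 hx.gen p h2).1 _)
    (isIrr_of_conn (cent_le_conn hx h2 ha)) (fun s => by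
      by_cases h : s.1.2 = s.2.2
      · convert pow_mem (coord_mem (co (ρ'.comp C.subtype)) ((s.1.1, s.1.2 + 1), (s.2.1, s.1.2 + 1))) q using 1
        funext g
        have h7 : γ ^ s.1.2.1 * (γ * σ) = σ * γ ^ (s.1.2 + 1).1 := by
          rw [← mul_assoc, ← pow_succ, (hc.pow_left _).eq, Fin.val_add, ← pow_eq_pow_mod _ hm, Fin.val_one', pow_add,
            pow_add, ← pow_eq_pow_mod _ hm]
        refine (h0 _ s).trans ?_
        rw [if_pos h, Pi.pow_apply, h0, if_pos rfl, ← hσ]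
        exact congrArg (fun f : Monoid.End G => ρ (f g) s.1.1 s.2.1) h7
      · convert zero_mem (Reg (co (ρ'.comp C.subtype))) using 1
        exact funext fun g => (h0 _ s).trans (if_neg h)) (hq.trans (Nat.le_self_pow (NeZero.ne m) q)) (fun g s => by
      rw [h0, h0, h8, hc.mul_pow, hm, one_mul]
      split_ifs
      · rw [← end_mul_apply, (hc.pow_pow _ _).eq, end_mul_apply, h6]
      · rw [zero_pow (by positivity)]) ⟨c, h⟩
  exact ⟨g, g.2, congrArg Subtype.val hg⟩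

theorem embE6 : Emb chevE6 chevE6 (fun r => (twT H7.twE6 r).1) fun r => (twT H7.twE6 r).2.2 :=
  emb_of_check agrE6 agrE6 (by decide +kernel)

theorem fixE6 {x : ℕ → K → G} (hx : IsSC chevE6 x) {q : ℕ} {φ : K →+* K} (hφ : ∀ t, φ t = t ^ q)
    (h2 : ∀ t, φ (φ t) = t) (σ : G →* G) (hσ : ∀ r t, σ (x r t) =
      embFam chevE6 (fun r => (twT H7.twE6 r).1) (fun r => (twT H7.twE6 r).2.2) x r (φ t)) (g : G) :
    g ∈ twS x (e6Words K q) ↔ σ g = g := by
  have hx' := hx.toIsSt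
  have h := okE6.twist (x := x) (ρ := rhoE6) (φ := φ) (σ := σ) (by simp) one_ne_zero (fun _ => rfl) fun r t => by
    by_cases hr : r < chevE6.nroots
    · rw [hσ, embFam_lt hr, twF, (okE6.2.2.1 r hr).2.2.2.2.2.elim id id, pow_one]
    · rw [twT_ge (okE6.1.le.trans (not_lt.1 hr)), hx.out r (not_lt.1 hr), hx.out r (not_lt.1 hr), map_one]
  have hS := twSubE6 hx.toIsFaith hφ h2 h
  refine ⟨hS.fix g, hS.mem_of_fix h hx.toIsFaith (fun a ha hf => ?_) (hx.gen.ge (Subgroup.mem_top g))⟩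
  obtain ⟨a, rfl⟩ := hx'.exists_hProd hx.r3 ha
  rw [map_hProd_mact hx' hx.r3 (φ := φ) (fun i => embE6.lt _ (simple_lt i)) (fun i t => by
    rw [map_hE, ← embE6.hE_eq hx' hx.r3 (simple_lt i) ((map_ne_zero φ).2 t.ne_zero), ← hE_comap, funext₂ hσ])] at hf
  refine hProd_mem_E6 hx' hx.r3 hφ fun i => ?_
  rw [← congrFun (hx.hP_inj hf) (pfE6 i), mact_apply]
  exact ((congrArg _ (by revert i; decide +kernel)).trans (torChar_single' _ i)).trans (Units.ext (hφ _))

variable [hD' : RootFacts D'] [hN' : NFacts D'] [hM' : MatFacts D'] [hC' : ChainFacts D'] {e ρ : ℕ → ℕ} {ε η : ℕ → ℤ}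

theorem model_tw (h : SCov D D' e ε) (hρ : Emb D D ρ η) {m : ℕ} [NeZero m]
    (hm : ∀ r < D.nroots, (fun p : ℕ × ℤ => (ρ p.1, η p.1 * p.2))^[m] (r, 1) = (r, 1)) {F : Type*} [Field F]
    [Fintype F] [Algebra F K] {q : ℕ} (hF : Fintype.card F = q ^ m) {φ₀ : F →+* F} (h0 : ∀ t, φ₀ t = t ^ q)
    {S : Subgroup (sG D D' F e ε)} (hS : ∀ σ : sG D D' F e ε →* sG D D' F e ε,
      (∀ r t, σ (ys D D' F e ε r t) = embFam D ρ η (ys D D' F e ε) r (φ₀ t)) → ∀ g, g ∈ S ↔ σ g = g)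
    {φ : K →+* K} (hφ : ∀ t, φ t = t ^ q) : ∃ γ : Monoid.End (sG D D' K e ε),
      (∀ r t, γ (ys D D' K e ε r t) = embFam D ρ η (ys D D' K e ε) r t) ∧ γ ^ m = 1 ∧
      Commute γ (mapS D D' e ε φ) ∧
      ∀ g, g ∈ S.map (mapS D D' e ε (algebraMap F K)) ↔ γ (mapS D D' e ε φ g) = g := by
  have hx := h.isSC (K := K)
  have hy := h.isSC (K := F)
  obtain ⟨γ, hγ⟩ := hx.exists_graph hρ
  obtain ⟨γ₀, hγ₀⟩ := hy.exists_graph hρ
  let σ : Monoid.End (sG D D' K e ε) := mapS D D' e ε φ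
  have hσ : ∀ r t, σ (ys D D' K e ε r t) = ys D D' K e ε r (φ t) := mapS_ys φ
  have h3 : Commute γ σ := hom_ext_XS hx.gen fun r _ t =>
    (congrArg γ (hσ r t)).trans ((hγ _ _).trans ((mapS_embFam φ r t).symm.trans (congrArg σ (hγ r t).symm)))
  have h4 : ∀ n, ∀ r < D.nroots, ((fun p : ℕ × ℤ => (ρ p.1, η p.1 * p.2))^[n] (r, 1)).1 < D.nroots ∧ ∀ t,
      (γ ^ n) (ys D D' K e ε r t) = ys D D' K e ε ((fun p : ℕ × ℤ => (ρ p.1, η p.1 * p.2))^[n] (r, 1)).1
        (((fun p : ℕ × ℤ => (ρ p.1, η p.1 * p.2))^[n] (r, 1)).2 * t) := fun n r hr => by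
    induction n with
    | zero => simpa
    | succ n ih =>
      rw [Function.iterate_succ_apply']
      exact ⟨hρ.lt _ ih.1, fun t => by rw [pow_succ', end_mul_apply, ih.2, hγ, embFam_lt ih.1]; simp [mul_assoc]⟩
  have h5 : γ ^ m = 1 := hom_ext_XS hx.gen fun r _ t => by
    by_cases hr : r < D.nroots
    · exact ((h4 m r hr).2 t).trans (by rw [hm r hr]; simp; rfl)
    · rw [hx.out r (not_lt.1 hr)]; exact map_one _
  have h6 : (mapS D D' e ε (algebraMap F K)).comp (γ₀.comp (mapS D D' e ε φ₀)) =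
      (γ.comp σ).comp (mapS D D' e ε (algebraMap F K)) := hom_ext_XS hy.gen fun r _ t => by
    show mapS D D' e ε _ (γ₀ (mapS D D' e ε φ₀ _)) = γ (σ (mapS D D' e ε _ _))
    rw [mapS_ys, mapS_ys, hσ, hγ, hγ₀, mapS_embFam, h0, hφ, map_pow]
  have h7 := hS (γ₀.comp (mapS D D' e ε φ₀)) fun r t => (congrArg γ₀ (mapS_ys _ _ _)).trans (hγ₀ _ _)
  refine ⟨γ, hγ, h5, h3, fun g => ⟨?_, fun hg => ?_⟩⟩
  · rintro ⟨y, hy, rfl⟩
    exact (DFunLike.congr_fun h6 y).symm.trans (congrArg (mapS D D' e ε _) ((h7 _).1 hy))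
  · have h8 : ∀ n r t, (σ ^ n) (ys D D' K e ε r t) = ys D D' K e ε r ((φ ^ n) t) := fun n r t => by
      induction n with
      | zero => rfl
      | succ n ih => rw [pow_succ', end_mul_apply, ih, hσ, pow_succ']; rfl
    have h9 : (σ ^ m) g = g := by
      rw [← one_mul (σ ^ m), ← h5, ← h3.mul_pow, Monoid.End.coe_pow]; exact Function.iterate_fixed hg m
    obtain ⟨y, rfl⟩ := hx.mem_range_of_fix (h8 m) (fun t ht => mem_range_of_pow_card (algebraMap F K) (by
      rw [RingHom.coe_pow, funext hφ, pow_iterate] at ht; rwa [hF])) (mapS_ys _) h9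
    exact ⟨y, (h7 y).2 (mapS_injective _ ((DFunLike.congr_fun h6 y).trans hg)), rfl⟩

end Cfsg.Agent.H3.E6
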