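import Cfsg.Agent.H3.E6C
import Cfsg.Agent.H3.Carmichael
import Cfsg.Agent.H6.St2
import Cfsg.Agent.H8.LieBd

/-! The centralizer of an element of order five in the twisted group of type `E6` over the field with two elements. -/

set_option autoImplicit false
set_option linter.unusedSectionVars false

namespace Cfsg.Agent.H3.E6

open Cfsg.Lie Matrix Cfsg.Agent.H7 Cfsg.Agent.H8

/-- Six matrices satisfying Carmichael's relations. -/
def carM : Fin 8 → Matrix (Fin 4) (Fin 4) (ZMod 2) :=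
  ![!![1, 0, 0, 1; 0, 1, 1, 0; 0, 1, 0, 0; 1, 0, 0, 0], !![1, 0, 1, 1; 0, 1, 0, 1; 1, 1, 0, 0; 0, 1, 0, 0],
    !![1, 0, 1, 0; 0, 1, 1, 1; 1, 0, 0, 0; 1, 1, 0, 0], !![0, 0, 0, 1; 0, 0, 1, 1; 1, 1, 1, 0; 1, 0, 0, 1],
    !![0, 0, 1, 0; 0, 0, 0, 1; 1, 0, 1, 0; 0, 1, 0, 1], !![0, 0, 1, 1; 0, 0, 1, 0; 0, 1, 1, 0; 1, 1, 0, 1], 1, 1]

theorem exists_A8 : Nonempty (alternatingGroup (Fin 8) ≃* SpecialLinearGroup (Fin 4) (ZMod 2)) := by
  have h1 : ∀ i, carM i * carM i * carM i = 1 := by decide +kernel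
  have h2 : ∀ i j : Fin 8, i.1 < 6 → j.1 < 6 → i ≠ j → carM i * carM j * (carM i * carM j) = 1 := by decide +kernel
  have h3 : ∀ i : Fin 8, i ∈ Set.univ \ {6, 7} → i.1 < 6 := by simp; decide
  let X : Fin 8 → SpecialLinearGroup (Fin 4) (ZMod 2) := fun i => ⟨carM i, by
    have := congrArg det (h1 i)
    rw [det_mul, det_mul, det_one] at this
    revert this; generalize (carM i).det = d; revert d; decide⟩
  obtain ⟨ψ, h4, h5⟩ := carmichael Set.univ (u := (6 : Fin 8)) (v := 7) trivial trivial (by decide) X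
    ⟨fun i _ => by rw [pow_three']; exact Subtype.ext (h1 i),
      fun i hi j hj e => by rw [pow_two]; exact Subtype.ext (h2 i j (h3 i hi) (h3 j hj) e)⟩
  have h6 : ∀ g : alternatingGroup (Fin 8), g.1 ∈ AltOn Set.univ := fun g => ⟨g.2, by simp⟩
  let f : alternatingGroup (Fin 8) →* _ := MonoidHom.mk' (fun g => ψ g) fun a b => h4 _ (h6 a) _ (h6 b)
  have := alternatingGroup.isSimpleGroup (α := Fin 8) (by simp)
  refine ⟨MulEquiv.ofBijective f ((Nat.bijective_iff_injective_and_card f).2 ⟨f.ker_eq_bot_iff.1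
    (f.normal_ker.eq_bot_or_eq_top.resolve_right fun e => ?_), ?_⟩)⟩
  · have h7 : f ⟨c3 0 6 7, (c3_mem_AltOn (s := Set.univ) trivial trivial trivial (by decide) (by decide)).1⟩ = 1 :=
      e.ge (Subgroup.mem_top _)
    exact (by decide +kernel : carM 0 ≠ 1)
      (congrArg Subtype.val ((h5 0 trivial (by decide) (by decide)).symm.trans h7))
  · have := two_mul_nat_card_alternatingGroup (α := Fin 8)
    rw [Nat.card_perm, Nat.card_fin] at this
    rw [card_SL_eq 3, ZMod.card]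
    simp only [Nat.factorial, Finset.sum_range_succ, Finset.prod_range_succ, Finset.range_zero, Finset.sum_empty,
      Finset.prod_empty] at this ⊢
    omega

/-- The roots of the subsystem of type `A3`. -/
def rA (i j : Fin 4) : ℕ := ![![0, 42, 43, 44], ![29, 0, 39, 40], ![28, 32, 0, 37], ![27, 31, 34, 0]] i j

/-- The twisted action on the roots. -/
noncomputable def sP : Equiv.Perm ℕ := wordW chevE6 (fl chevE6 [1, 3, 4, 2, 3, 0, 2, 1, 3, 4, 5, 4, 3, 2, 0]) * rhoE6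

/-- The table of the action. -/
def sT (r : ℕ) : ℕ := [11, 46, 47, 48, 26, 50, 51, 30, 53, 33, 35, 71, 61, 62, 64, 67, 12, 13, 1, 14, 2, 3, 15, 5, 6, 8, 49,
  27, 28, 29, 52, 31, 32, 54, 34, 55, 16, 37, 17, 39, 40, 19, 42, 43, 44, 22, 63, 65, 66, 56, 68, 69, 57, 70, 58, 59, 4, 7,
  9, 10, 0, 36, 38, 18, 41, 20, 21, 45, 23, 24, 25, 60].getD r r

theorem rho_ge {r : ℕ} (h : 72 ≤ r) : rhoE6 r = r := congrArg Prod.fst (twT_ge (L := H7.twE6) h)

theorem sP_eq (r : ℕ) : sP r = sT r := by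
  by_cases h : r < 72
  · revert r; decide +kernel
  · rw [sP, Equiv.Perm.mul_apply, rho_ge (not_lt.1 h), W_apply_ge (wordW_mem _) (not_lt.1 h), sT,
      List.getD_eq_default _ _ (not_lt.1 h)]

theorem sP_lt {r : ℕ} : sP r < 72 ↔ r < 72 := by
  rw [sP_eq]
  by_cases h : r < 72
  · revert r; decide +kernel
  · rw [sT, List.getD_eq_default _ _ (not_lt.1 h)]

/-- The index type. -/
abbrev R6 : Type := Fin chevE6.rank

/-- The first index. -/
def i0 : R6 := ⟨0, by decide⟩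

/-- A vector from a list. -/
def vc (l : List ℤ) : R6 → ℤ := fun i => l.getD i 0

/-- The action on the torus. -/
def mM : Matrix R6 R6 ℤ := of fun i => vc ([[-1, -1, -2, -2, -1, 0], [1, 1, 1, 1, 1, 1], [0, 0, 1, 0, 0, 0],
  [0, 0, 0, 1, 0, 0], [0, 0, 0, 0, 1, 0], [0, -1, -1, -2, -2, -1]].getD i [])

/-- The exponents of the fixed points in the torus. -/
def c0 : R6 → ℤ := vc [1, 9, 8, 0, 13, 11]

variable {K : Type*} [Field K] [CharP K 2] {G : Type*} [Group G] {x : ℕ → K → G} (hx : IsSC chevE6 x)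
  {F : G →* G} (hF : ∀ r t, F (x r t) = x (sP r) (t ^ 2)) {ζ : Kˣ} (hζ : orderOf ζ = 5)
include hx

theorem exists_SL : ∃ ψ : SpecialLinearGroup (Fin 4) (ZMod 2) →* G,
    ∀ i j, i ≠ j → ∀ t, ψ (H6.slX _ i j t) = x (rA i j) (ZMod.castHom dvd_rfl K t) := by
  have hs := hx.toIsSt
  refine H6.IsSt.exists_hom ⟨⟨fun _ t u => by rw [map_add, hs.add], fun {i j k l} a b c d t u => ?_,
    fun {i j l} a b c t u => ?_⟩, fun {i j} a => ⟨fun t u => by rw [map_add, hs.add], fun t u => by rw [map_add, hs.add],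
    fun t ht u => ?_⟩⟩
  · obtain ⟨h1, h2⟩ := (by decide +kernel : ∀ i j k l : Fin 4, i ≠ j → k ≠ l → i ≠ l → j ≠ k →
      rA k l ≠ chevE6.neg (rA i j) ∧ chevE6.commTerms (rA i j) (rA k l) = []) i j k l a b c d
    exact hs.commute h1 h2 _ _
  · obtain ⟨h1, h2, e, he, h3⟩ := (by decide +kernel : ∀ i j l : Fin 4, i ≠ j → j ≠ l → i ≠ l →
      rA i j ≠ rA j l ∧ rA i j ≠ chevE6.neg (rA j l) ∧
        ∃ e ∈ [(1 : ℤ), -1], chevE6.commTerms (rA j l) (rA i j) = [(rA i l, e, 1, 1)]) i j l a b c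
    have := hs.comm' h1 h2 (ZMod.castHom dvd_rfl K u) (ZMod.castHom dvd_rfl K t)
    have h4 : (e : K) = 1 := by rcases List.mem_pair.1 he with rfl | rfl <;> simp [CharTwo.neg_eq]
    simpa [hs.x_inv, ChevalleyDatum.commWord, h3, h4, CharTwo.neg_eq, mul_comm] using this
  · obtain ⟨h1, h2⟩ := (by decide +kernel : ∀ i j : Fin 4, i ≠ j → rA i j < chevE6.nroots ∧
      chevE6.neg (rA i j) = rA j i) i j a
    have := hs.nE_conj_self h1 ((map_ne_zero (ZMod.castHom dvd_rfl K)).2 ht) (ZMod.castHom dvd_rfl K u)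
    simpa only [H6.stW, nE, h2, map_neg, map_inv₀, map_mul, map_pow] using this

include hF

theorem map_hP (a : R6 → Kˣ) : F (hProd chevE6 x a) = hProd chevE6 x (mact mM (a ^ 2)) := by
  obtain ⟨h1, h2⟩ := (by decide +kernel : (∀ i : Fin chevE6.rank, sT (chevE6.simple i) < chevE6.nroots ∧
    sT (chevE6.neg (chevE6.simple i)) = chevE6.neg (sT (chevE6.simple i))) ∧
    (of fun i j : Fin chevE6.rank => cor chevE6 (sT (chevE6.simple i)) j) = mM)
  rw [map_hProd_mact hx.toIsSt hx.r3 (φ := frobenius K 2) (fun i => (h1 i).1) fun i t => by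
    simp [hE, nE, hF, sP_eq, (h1 i).2, frobenius_def, CharTwo.neg_eq], h2]
  rfl

theorem fix_tor {a : R6 → Kˣ} (h : F (hProd chevE6 x a) = hProd chevE6 x a) :
    (a = fun i => a i0 ^ c0 i) ∧ a i0 ^ 15 = 1 := by
  have h1 : mact mM (a ^ 2) = a := hx.hP_inj ((map_hP hx hF a).symm.trans h)
  have h2 : ∀ v, torChar a ((2 : ℤ) • mM *ᵥ v - v) = 1 := fun v => by
    rw [sub_eq_add_neg, torChar_add, torChar_neg, torChar_smul, mul_inv_eq_one]
    conv_rhs => rw [← h1, torChar_mact, torChar_npow]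
    rfl
  have h3 : ∀ n : ℤ, torChar a (n • Pi.single i0 1) = a i0 ^ n := fun n => by rw [torChar_smul, torChar_single']
  refine ⟨funext fun i => ?_, ?_⟩
  · obtain ⟨v, -, hv⟩ := (by decide +kernel : ∀ i : R6, ∃ v ∈ [vc [0, 0, 0, 0, 0, 0], vc [1, 3, 0, 0, 0, -2],
      vc [0, 2, 1, 0, 0, -2], vc [0, -2, 0, 1, 0, 0], vc [1, 4, 0, 0, 1, -4], vc [1, 4, 0, 0, 0, -3]],
      Pi.single i 1 = c0 i • Pi.single i0 1 + ((2 : ℤ) • mM *ᵥ v - v)) i
    rw [← torChar_single' a i, hv, torChar_add, h2, h3, mul_one]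
  · rw [← zpow_natCast, ← h3, ← h2 (vc [-1, -6, 0, 0, 0, 4])]
    exact congrArg _ (by decide +kernel)

include hζ

theorem fix_t0 : F (hProd chevE6 x fun i => ζ ^ c0 i) = hProd chevE6 x fun i => ζ ^ c0 i := by
  rw [map_hP hx hF]
  congr 1
  rw [show ((fun i => ζ ^ c0 i) ^ 2 : R6 → Kˣ) = fun i => ζ ^ (2 • c0) i from funext fun i => by
    rw [Pi.pow_apply, ← zpow_natCast, ← _root_.zpow_mul, nsmul_eq_mul, mul_comm]; rfl, mact_pow]
  funext i
  rw [zpow_eq_zpow_iff_modEq, hζ]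
  revert i; decide +kernel

omit hx hF in
theorem mem_S {r : ℕ} (hr : r < 72) : r ∈ RT chevE6 (fun i => ζ ^ c0 i) ↔ ∃ i j, i ≠ j ∧ r = rA i j := by
  rw [mem_RT_iff hζ]
  revert r; decide +kernel

omit hx hF in
theorem fin_t0 : IsOfFinOrder fun i => ζ ^ c0 i := isOfFinOrder_iff_pow_eq_one.2 ⟨5, by norm_num, funext fun i => by
  rw [Pi.pow_apply, ← zpow_natCast, ← _root_.zpow_mul, mul_comm, _root_.zpow_mul, zpow_natCast, ← hζ,
    pow_orderOf_eq_one, _root_.one_zpow]; rfl⟩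

theorem cent_fix {ψ : SpecialLinearGroup (Fin 4) (ZMod 2) →* G}
    (hψ : ∀ i j, i ≠ j → ∀ t, ψ (H6.slX _ i j t) = x (rA i j) (ZMod.castHom dvd_rfl K t)) :
    (∀ p, F (ψ p) = ψ p) ∧ (∀ p, Commute (ψ p) (hProd chevE6 x fun i => ζ ^ c0 i)) ∧
    ∀ g ∈ Subgroup.centralizer {hProd chevE6 x fun i => ζ ^ c0 i}, F g = g →
      ∃ (k : ℕ) (z : G) (p : _), (∀ y, Commute z y) ∧ g = hProd chevE6 x (fun i => ζ ^ c0 i) ^ k * z * ψ p := by
  classical
  have hs := hx.toIsSt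
  have hA := (by decide +kernel : ∀ i j, i ≠ j → rA i j < 72 ∧ sT (rA i j) = rA i j ∧ (3 : ℤ) * 5 ∣ c0 ⬝ᵥ wt chevE6 (rA i j))
  have h1 : ∀ p, F (ψ p) = ψ p := DFunLike.congr_fun (H6.slX_hom_ext (φ := F.comp ψ) fun i j e t => by
    rw [MonoidHom.comp_apply, hψ i j e, hF, sP_eq, (hA i j e).2.1, ← map_pow, ZMod.pow_card])
  have h2 : ∀ {T : Set ℕ}, (∀ i j, i ≠ j → rA i j ∈ T) → ∀ p, ψ p ∈ XS x T := fun {T} hT p =>
    (H6.stGG_le (H := (XS x T).comap ψ) fun i _ j _ e t => by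
      rw [Subgroup.mem_comap, hψ i j e]; exact x_mem_XS (hT i j e) _) (H6.stGG_slX_univ.ge (Subgroup.mem_top p))
  have h3 : ∀ r < 72, r ∈ RT chevE6 (fun i => ζ ^ c0 i) → ∀ t, t ^ 2 = t → x r t ∈ ψ.range := fun r hr h t ht => by
    obtain ⟨i, j, e, rfl⟩ := (mem_S hζ hr).1 h
    rcases eq_zero_or_one_of_sq_eq_self ht with rfl | rfl
    exacts [⟨_, (hψ i j e 0).trans (by simp)⟩, ⟨_, (hψ i j e 1).trans (by simp)⟩]
  have h4 : ∀ r < 72, r ∈ RT chevE6 (fun i => ζ ^ c0 i) → sP r = r := fun r hr h => by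
    obtain ⟨i, j, e, rfl⟩ := (mem_S hζ hr).1 h
    rw [sP_eq, (hA i j e).2.1]
  have h5 : ∀ {T : Set ℕ}, (∀ r ∈ T, r < 72) → ∀ u ∈ XS x (T ∩ RT chevE6 fun i => ζ ^ c0 i),
      F u ∈ XS x (T ∩ RT chevE6 fun i => ζ ^ c0 i) := fun {T} hT u hu =>
    (XS_le (H := (XS x _).comap F)).2 (fun r hr t => by
      rw [Subgroup.mem_comap, hF, h4 r (hT r hr.1) hr.2]; exact x_mem_XS hr _) hu
  have h6 : ∀ u ∈ XS x ({r | chevE6.IsPosRoot r} ∩ RT chevE6 fun i => ζ ^ c0 i), F u = u → u ∈ ψ.range := fun u hu e => by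
    have hL : ∀ k, k ∈ ((posF chevE6).filter (· ∈ RT chevE6 fun i => ζ ^ c0 i)).toList ↔
        k ∈ {r | chevE6.IsPosRoot r} ∩ RT chevE6 fun i => ζ ^ c0 i := fun k => by simp [mem_posF]
    obtain ⟨f, rfl⟩ := hs.exists_oprod (isClosed_pos.inter (isClosed_RT _)) (one_mem _) (fun _ h => h.1) hL
      (Finset.nodup_toList _) hu
    have := oprod_inj_pos hx.toIsFaith (fun k hk => ((hL k).1 hk).1) (Finset.nodup_toList _) (f := fun k => f k ^ 2)
      (f' := f) (by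
        rw [← e, oprod, oprod, map_list_prod, List.map_map]
        exact congrArg _ (List.map_congr_left fun k hk => by
          rw [Function.comp_apply, hF, h4 k ((hL k).1 hk).1.1 ((hL k).1 hk).2]))
    exact Subgroup.list_prod_mem _ fun _ h => by
      obtain ⟨k, hk, rfl⟩ := List.mem_map.1 h
      exact h3 k ((hL k).1 hk).1.1 ((hL k).1 hk).2 _ (this k hk)
  refine ⟨h1, fun p => hs.commute_RT subset_rfl (h2 (fun i j e => (mem_S hζ (hA i j e).1).2 ⟨i, j, e, rfl⟩) p),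
    fun g hg e => ?_⟩
  obtain ⟨w, u, hu, h, hh, n, hn, hw, v, hv, rfl⟩ := cent_le hx (fin_t0 hζ) hg
  obtain ⟨n, rfl⟩ : n ∈ ψ.range := (Subgroup.closure_le _).2 (by
    rintro _ (⟨r, hr, rfl⟩ | ⟨r, hr, rfl⟩) <;> exact h3 r hr.1 hr.2 _ (by simp [CharTwo.neg_eq])) hn
  obtain ⟨a, rfl⟩ := hs.exists_hProd hx.r3 hh
  rw [map_mul, map_mul, map_mul, h1, map_hP hx hF] at e
  obtain ⟨e1, e2, e3⟩ := hx.toIsFaith.sharp_unique (XS_mono x Set.inter_subset_left (h5 (fun _ h => h.1) u hu))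
    (XS_mono x Set.inter_subset_left hu) (by simpa using (NRep.of_mem_HH (hProd_mem_HH x _)).mul hs hw)
    (by simpa using (NRep.of_mem_HH (hProd_mem_HH x _)).mul hs hw)
    (XS_mono x Set.inter_subset_left (h5 (fun _ h => h.1.1) v hv)) (XS_mono x Set.inter_subset_left hv) e
  obtain ⟨u, rfl⟩ := h6 u hu e1
  obtain ⟨v, rfl⟩ := h6 v (XS_mono x (Set.inter_subset_inter_left _ fun _ h => h.1) hv) e3
  obtain ⟨e4, e5⟩ := fix_tor hx hF ((map_hP hx hF a).trans (mul_right_cancel e2))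
  obtain ⟨k, -, hk⟩ := (hζ ▸ IsPrimitiveRoot.orderOf ζ).eq_pow_of_mem_rootsOfUnity (ξ := a i0 ^ 6)
    (by rw [mem_rootsOfUnity, ← pow_mul, show 6 * 5 = 15 * 2 from rfl, pow_mul, e5, one_pow])
  refine ⟨k, hProd chevE6 x fun i => (a i0 ^ 10) ^ c0 i, u * n * v, fun y => (hs.acts_hProd _).commute hs
    (fun r hr => ?_) (hx.gen.ge (Subgroup.mem_top y)), ?_⟩
  · obtain ⟨m, hm⟩ := (by decide +kernel : ∀ r < chevE6.nroots, (3 : ℤ) ∣ c0 ⬝ᵥ wt chevE6 r) r hr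
    rw [torChar_pow, hm, _root_.zpow_mul, zpow_ofNat, ← pow_mul, show 10 * 3 = 15 * 2 from rfl, pow_mul, e5]; simp
  · have e6 := hs.commute_RT (a := a) subset_rfl (h2 (fun i j e => by
      obtain ⟨m, hm⟩ := (hA i j e).2.2
      rw [RT, Set.mem_ofPred_eq, e4, torChar_pow, hm, _root_.zpow_mul, show (3 : ℤ) * 5 = (15 : ℕ) from rfl,
        zpow_natCast, e5, _root_.one_zpow]) u)
    rw [← mul_assoc (ψ u), e6.eq, ← hProd_pow hs hx.r3, ← hProd_mul hs hx.r3, map_mul, map_mul, mul_assoc, mul_assoc,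
      mul_assoc]
    congr 2
    refine e4.trans (funext fun i => ?_)
    rw [Pi.mul_apply, Pi.pow_apply, ← zpow_natCast (ζ ^ c0 i), ← _root_.zpow_mul, mul_comm (c0 i), _root_.zpow_mul,
      zpow_natCast, hk, ← mul_zpow, ← pow_add, show 6 + 10 = 15 + 1 from rfl, pow_succ, e5, one_mul]

end Cfsg.Agent.H3.E6
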