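import Cfsg.Agent.H3.E6D

/-! The rational elements of order five in the torus of `E6` form one class. -/

set_option autoImplicit false
set_option linter.unusedSectionVars false

namespace Cfsg.Agent.H3.E6

open Cfsg.Lie Matrix Cfsg.Agent.H7 Cfsg.Agent.H8

/-- The vector of digits. -/
def dv (n : ℕ) : R6 → ℤ := fun i => dig n i

theorem dn_eq (n : ℕ) {r : ℕ} (hr : r < 72) : (dn n (wl.getD r default) : ℤ) = (dv n ⬝ᵥ wt chevE6 r) % 5 := by
  have h := (by decide +kernel : ∀ r < 72, ∀ i : R6, (vc [(wl.getD r default).1, (wl.getD r default).2.1,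
    (wl.getD r default).2.2.1, (wl.getD r default).2.2.2.1, (wl.getD r default).2.2.2.2.1,
    (wl.getD r default).2.2.2.2.2] i : ℤ) ≡ wt chevE6 r i [ZMOD 5]) r hr
  generalize wl.getD r default = p at h
  have h1 : dv n ⬝ᵥ wt chevE6 r ≡ dv n ⬝ᵥ vc [p.1, p.2.1, p.2.2.1, p.2.2.2.1, p.2.2.2.2.1, p.2.2.2.2.2] [ZMOD 5] :=
    Int.ModEq.sum fun i _ => ((h i).mul_left _).symm
  rw [h1, dotProduct, show (∑ i : R6, dv n i * vc [p.1, p.2.1, p.2.2.1, p.2.2.2.1, p.2.2.2.2.1, p.2.2.2.2.2] i) =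
    dig n 0 * p.1 + dig n 1 * p.2.1 + dig n 2 * p.2.2.1 + dig n 3 * p.2.2.2.1 + dig n 4 * p.2.2.2.2.1 +
      dig n 5 * p.2.2.2.2.2 from Fin.sum_univ_six _]
  simp only [dn, dt, Nat.add_eq, Nat.mul_eq, show ∀ a b : ℕ, Nat.mod a b = a % b from fun _ _ => rfl]
  push_cast
  congr 1; ring

theorem cnt_eq (n k : ℕ) :
    cnt (dn n) k wl = ((Finset.range 72).filter fun r => (dv n ⬝ᵥ wt chevE6 r) % 5 = k).card := by
  have h1 : ∀ L, cnt (dn n) k L = L.countP (dn n · = k) := fun L => by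
    induction L with
    | nil => rfl
    | cons p L ih =>
      rw [List.countP_cons, ← ih]
      show (Bool.rec (cnt (dn n) k L) (cnt (dn n) k L).succ (Nat.beq (dn n p) k) : ℕ) = _
      by_cases h : dn n p = k
      · rw [h, Nat.beq_refl]; simp
      · rw [Bool.eq_false_iff.2 fun e => h (Nat.eq_of_beq_eq_true e)]; simp [h]
  rw [h1, (by decide +kernel : wl = (List.range 72).map (wl.getD · default)), List.countP_map,
    List.countP_eq_length_filter]
  refine congrArg List.length (List.filter_congr fun r hr => ?_)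
  simp only [Function.comp_apply, ← dn_eq n (List.mem_range.1 hr), Nat.cast_inj]

theorem ok5_of {n : ℕ} (hn : n < 15625) : ok5 n = true := by
  have := allBelow_iff.1 (allBelow_iff.1 chk5 (n / 125) (by omega)) (n % 125) (by omega)
  rwa [show Nat.add (Nat.mul 125 (n / 125)) (n % 125) = n from Nat.div_add_mod n 125] at this

variable {K : Type*} [Field K] [CharP K 2] {G : Type*} [Group G] {x : ℕ → K → G} (hx : IsSC chevE6 x)
  {F : G →* G} (hF : ∀ r t, F (x r t) = x (sP r) (t ^ 2)) {ζ : Kˣ} (hζ : orderOf ζ = 5)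
include hx hζ

theorem conj_tab (d : ℕ) : ∀ n < 15625, tab n ≠ 0 → tab n / 8 = d →
    IsConj (hProd chevE6 x fun i => ζ ^ dv n i) (hProd chevE6 x fun i => ζ ^ c0 i) := by
  induction d using Nat.strong_induction_on with
  | _ d ih =>
  intro n hn h0 hd
  have h := ok5_of hn
  rw [ok5, Bool.eq_false_iff.2 fun e => h0 (Nat.eq_of_beq_eq_true e)] at h
  simp only [Bool.or_eq_true, Bool.and_eq_true, decide_eq_true_eq, allBelow_iff] at h
  obtain rfl | ⟨⟨⟨⟨h1, h2⟩, h3⟩, h4⟩, h5⟩ := h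
  · rw [show (fun i => ζ ^ dv 5096 i) = fun i => ζ ^ c0 i from funext fun i => by
      rw [zpow_eq_zpow_iff_modEq, hζ]; revert i; decide +kernel]
  refine IsConj.trans (isConj_iff.2 ⟨_, ((NRep.simple x ⟨_, h1⟩).conj_hProd hx.toIsSt hx.r3 _).trans ?_⟩)
    (ih _ (hd ▸ h3) _ h4 h2 rfl)
  rw [mact_pow, vecMul_wM, ← refl_simple, colin_refl]
  congr 1
  funext j
  have h6 := dn_eq n (r := chevE6.simple (tab n % 8)) (simple_lt (D := chevE6) ⟨_, h1⟩)
  have h7 := (by decide +kernel : ∀ i j : R6, cor chevE6 (chevE6.simple i) j = if j.1 = i.1 then 1 else 0) ⟨_, h1⟩ j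
  rw [zpow_eq_zpow_iff_modEq, hζ, Pi.sub_apply, Pi.smul_apply, h7]
  simp only [dv] at h6 ⊢
  rw [h5 j j.2, rfd, Int.ModEq]
  split_ifs <;> simp only [smul_eq_mul, mul_one, mul_zero] <;> omega

include hF

theorem conj5 {a : R6 → Kˣ} (h5 : a ^ 5 = 1) (h1 : a ≠ 1) (h : IsConj (hProd chevE6 x a) (F (hProd chevE6 x a))) :
    IsConj (hProd chevE6 x a) (hProd chevE6 x fun i => ζ ^ c0 i) := by
  choose k hk hk' using fun i => (hζ ▸ IsPrimitiveRoot.orderOf ζ).eq_pow_of_mem_rootsOfUnity (ξ := a i)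
    ((mem_rootsOfUnity _ _).2 (congrFun h5 i))
  obtain ⟨n, hn, rfl⟩ : ∃ n < 15625, a = fun i => ζ ^ dv n i := by
    have := hk (0 : Fin 6); have := hk (1 : Fin 6); have := hk (2 : Fin 6); have := hk (3 : Fin 6)
    have := hk (4 : Fin 6); have := hk (5 : Fin 6)
    refine ⟨k (0 : Fin 6) + 5 * (k (1 : Fin 6) + 5 * (k (2 : Fin 6) + 5 * (k (3 : Fin 6) + 5 * (k (4 : Fin 6) +
      5 * k (5 : Fin 6))))), by omega, funext fun i => ?_⟩
    rw [← hk', dv, zpow_natCast]
    congr 1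
    change Fin 6 at i
    show k i = _ / 5 ^ i.1 % 5
    fin_cases i <;> simp only [Fin.reduceFinMk, Fin.zero_eta, Fin.mk_one] <;> omega
  refine conj_tab hx hζ _ n hn (fun h0 => ?_) rfl
  have h2 := ok5_of hn
  rw [ok5, h0] at h2
  rw [map_hP hx hF] at h
  obtain ⟨v, hv, h⟩ := hx.exists_W_of_isConj h
  have h3 : cnt (dn n) 1 wl = cnt (dn n) 2 wl := by
    rw [cnt_eq, cnt_eq]
    refine Finset.card_equiv (v⁻¹ * sP) fun r => ?_
    simp only [Finset.mem_filter, Finset.mem_range, Equiv.Perm.mul_apply]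
    rw [show v⁻¹ (sP r) < 72 ↔ r < 72 from (W_lt_iff (inv_mem hv)).trans sP_lt]
    refine and_congr_right fun hr => ?_
    have h4 := congrArg (torChar · (wt chevE6 (sP r))) h
    simp only [torChar_wM hv] at h4
    rw [torChar_mact, sP_eq, (by decide +kernel : ∀ r < 72, mM *ᵥ wt chevE6 (sT r) = wt chevE6 r) r hr, torChar_npow,
      torChar_pow, torChar_pow, ← zpow_natCast, ← _root_.zpow_mul, zpow_eq_zpow_iff_modEq, hζ, Int.ModEq] at h4
    rw [sP_eq]
    omega
  by_cases h4 : n = 0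
  · subst h4
    exact h1 (funext fun i => by rw [(by decide +kernel : ∀ i, dv 0 i = 0) i, zpow_zero]; rfl)
  · rw [Bool.eq_false_iff.2 fun e => h4 (Nat.eq_of_beq_eq_true e), h3, Nat.beq_refl] at h2
    exact Bool.false_ne_true h2

end Cfsg.Agent.H3.E6
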