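import Cfsg.Agent.H3.E6E

/-! Elements of order five in the twisted group of type `E6` over the field with two elements. -/

set_option autoImplicit false
set_option linter.unusedSectionVars false

namespace Cfsg.Agent.H3.E6

open Cfsg.Lie Matrix Cfsg.Agent.H7 Cfsg.Agent.H8 Polynomial

theorem cent_congr {X : Type*} [Group X] {a b : X} (h : IsConj a b) :
    Nonempty (Subgroup.centralizer {a} ≃* Subgroup.centralizer {b}) := by
  obtain ⟨c, rfl⟩ := isConj_iff.1 h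
  refine ⟨((MulAut.conj c).subgroupMap _).trans (MulEquiv.subgroupCongr (Subgroup.ext fun g => ?_))⟩
  refine Subgroup.mem_map_equiv.trans ?_
  rw [Subgroup.mem_centralizer_singleton_iff, Subgroup.mem_centralizer_singleton_iff,
    ← (MulAut.conj c).injective.eq_iff]
  simp [mul_assoc]

variable {K : Type*} [Field K] [CharP K 2] {G : Type*} [Group G] {x : ℕ → K → G} (hx : IsSC chevE6 x)
  {F : G →* G} (hF : ∀ r t, F (x r t) = x (sP r) (t ^ 2)) {ζ : Kˣ} (hζ : orderOf ζ = 5)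
include hx hF hζ

theorem conj_fix (hL : ∀ c ∈ Subgroup.centralizer {hProd chevE6 x fun i => ζ ^ c0 i},
      ∃ g ∈ Subgroup.centralizer {hProd chevE6 x fun i => ζ ^ c0 i}, g⁻¹ * F g = c)
    {y : G} (hy : F y = y) (h5 : orderOf y = 5) {a : R6 → Kˣ} (h : IsConj y (hProd chevE6 x a)) :
    ∃ g, F g = g ∧ g * hProd chevE6 x (fun i => ζ ^ c0 i) * g⁻¹ = y := by
  have h1 := isConj_orderOf h
  rw [h5] at h1
  have h2 := conj5 hx hF hζ (a := a) (hx.inj _ (by rw [hProd_pow hx.toIsSt hx.r3, h1, pow_orderOf_eq_one]))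
    (fun e => by rw [e, hProd_one hx.toIsSt hx.r3, orderOf_one] at h1; omega) (h.symm.trans (hy ▸ F.map_isConj h))
  obtain ⟨g, rfl⟩ := isConj_iff.1 (h.trans h2).symm
  rw [map_mul, map_mul, fix_t0 hx hF hζ, map_inv] at hy
  obtain ⟨d, hd, e⟩ := hL (g⁻¹ * F g) (Subgroup.mem_centralizer_singleton_iff.2 (by
    rw [mul_assoc, mul_inv_eq_iff_eq_mul.1 hy]; group))
  refine ⟨g * d⁻¹, ?_, ?_⟩
  · rw [map_mul, map_inv, eq_mul_of_inv_mul_eq e]; group
  · rw [mul_assoc g, Subgroup.mem_centralizer_singleton_iff.1 (inv_mem hd)]; group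

theorem order_five {H X : Type*} [Group H] [Group X] {j : H →* G} (hj : Function.Injective j)
    (hr : ∀ g, g ∈ j.range ↔ F g = g) {θ : H →* X} (hθ : Function.Surjective θ)
    (hk : ∀ z, θ z = 1 → z ^ 3 = 1 ∧ ∀ y, Commute z y) (hc : ∀ z, (∀ g, Commute (j z) g) → θ z = 1)
    (h5 : ∀ y : H, orderOf y = 5 → ∃ g, F g = g ∧ g * hProd chevE6 x (fun i => ζ ^ c0 i) * g⁻¹ = j y) :
    (∀ a b : X, orderOf a = 5 → orderOf b = 5 → IsConj a b) ∧ ∀ a : X, orderOf a = 5 →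
      Nonempty (Subgroup.centralizer {a} ≃* (Multiplicative (ZMod 5) × alternatingGroup (Fin 8))) := by
  have : Fact (Nat.Prime 5) := ⟨by norm_num⟩
  obtain ⟨y0, h0⟩ := (hr _).2 (fix_t0 hx hF hζ)
  have h1 : ∀ a : X, orderOf a = 5 → IsConj (θ y0) a := fun a ha => by
    obtain ⟨y, rfl⟩ := hθ a
    have h2 : θ y ^ 5 = 1 := ha ▸ pow_orderOf_eq_one _
    have h3 : θ (y ^ 6) = θ y := by rw [map_pow, pow_succ, h2, one_mul]
    obtain ⟨g, hg, e⟩ := h5 (y ^ 6) (orderOf_eq_prime (by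
      rw [← pow_mul, show 6 * 5 = 5 * 3 * 2 from rfl, pow_mul, pow_mul, (hk _ ((map_pow _ _ _).trans h2)).1, one_pow])
      fun e => by rw [← h3, e, map_one, orderOf_one] at ha; omega)
    obtain ⟨g, rfl⟩ := (hr g).2 hg
    rw [← h3]
    exact θ.map_isConj (isConj_iff.2 ⟨g, hj (by rw [← e, map_mul, map_mul, map_inv, h0])⟩)
  refine ⟨fun a b ha hb => (h1 a ha).symm.trans (h1 b hb), fun a ha => ?_⟩
  have h2 : orderOf (θ y0) = 5 := (isConj_orderOf (h1 a ha)).trans ha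
  have h3 : y0 ^ 5 = 1 := hj (by
    rw [map_pow, h0, ← hProd_pow hx.toIsSt hx.r3, map_one, ← hProd_one hx.toIsSt hx.r3]
    refine congrArg _ (funext fun i => ?_)
    rw [Pi.pow_apply, ← zpow_natCast, ← _root_.zpow_mul, mul_comm, _root_.zpow_mul, zpow_natCast, ← hζ,
      pow_orderOf_eq_one, _root_.one_zpow]; rfl)
  obtain ⟨ψ, hψ⟩ := exists_SL hx
  obtain ⟨h4, h6, h7⟩ := cent_fix hx hF hζ hψ
  obtain ⟨ε⟩ := exists_A8
  let ψ' := (MonoidHom.ofInjective hj).symm.toMonoidHom.comp (ψ.codRestrict _ fun p => (hr _).2 (h4 p))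
  have h8 : ∀ p, j (ψ' p) = ψ p := fun p => MonoidHom.apply_ofInjective_symm hj _
  let τ := θ.comp (ψ'.comp ε.toMonoidHom)
  have := alternatingGroup.isSimpleGroup (α := Fin 8) (by simp)
  have h9 : Function.Injective τ := τ.ker_eq_bot_iff.1 (τ.normal_ker.eq_bot_or_eq_top.resolve_right fun e => by
    have h10 := congrArg j (hk _ (e.ge (Subgroup.mem_top (ε.symm (H6.slX _ 0 1 1))))).1
    rw [map_pow, map_one, MonoidHom.comp_apply, h8, MulEquiv.coe_toMonoidHom, ε.apply_symm_apply, hψ 0 1 (by decide),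
      pow_three', ← hx.add, ← hx.add, CharTwo.add_self_eq_zero, zero_add, map_one] at h10
    exact one_ne_zero (hx.toIsFaith.eq_zero_of_x (by decide) h10))
  have h10 : ∀ p, Commute (θ y0) (τ p) := fun p => (show Commute y0 (ψ' (ε p)) from hj (by
    rw [map_mul, map_mul, h0, h8, (h6 _).eq])).map θ
  have h11 : ∀ (u : Subgroup.zpowers (θ y0)) p, Commute (u : X) (τ p) := by
    rintro ⟨_, k, rfl⟩ p; exact (h10 p).zpow_left k
  let Φ := ((Subgroup.zpowers (θ y0)).subtype.noncommCoprod τ h11).codRestrict (Subgroup.centralizer {θ y0})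
    fun g => mul_mem (Subgroup.zpowers_le.2 (Subgroup.mem_centralizer_singleton_iff.2 rfl) g.1.2)
      (Subgroup.mem_centralizer_singleton_iff.2 (h10 g.2).eq.symm)
  have h12 : Function.Bijective Φ := ⟨(injective_iff_map_eq_one _).2 fun g hg => by
      have e : g.1.1 * τ g.2 = 1 := congrArg Subtype.val hg
      have e2 : g.2 = 1 := (alternatingGroup.center_eq_bot (α := Fin 8) (by simp)).le
        (Subgroup.mem_center_iff.2 fun p => h9 (by
          rw [map_mul, map_mul, eq_inv_of_mul_eq_one_right e]; exact (h11 g.1 p).inv_left.eq.symm))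
      exact Prod.ext (Subtype.ext (by simpa [e2] using e)) e2, fun ⟨g, hg⟩ => by
      obtain ⟨g, rfl⟩ := hθ g
      obtain ⟨e1, e2⟩ := hk (g * y0 * g⁻¹ * y0⁻¹) (by
        simp [Subgroup.mem_centralizer_singleton_iff.1 hg])
      have e3 : (g * y0 * g⁻¹ * y0⁻¹) ^ 5 = 1 := by
        rw [← mul_one (_ ^ 5), ← h3, ← (e2 y0).mul_pow, inv_mul_cancel_right, conj_pow, h3]; group
      have e4 : g * y0 * g⁻¹ * y0⁻¹ = 1 := by simpa using pow_gcd_eq_one.2 ⟨e1, e3⟩
      obtain ⟨k, z, p, e5, e6⟩ := h7 (j g) (Subgroup.mem_centralizer_singleton_iff.2 (by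
        rw [← h0, ← map_mul, ← map_mul, mul_inv_eq_iff_eq_mul.1 (mul_inv_eq_one.1 e4)])) ((hr _).1 ⟨g, rfl⟩)
      have e7 := hc ((y0 ^ k)⁻¹ * g * (ψ' p)⁻¹) (by simpa [h0, h8, e6, mul_assoc] using e5)
      refine ⟨(⟨_, Subgroup.npow_mem_zpowers _ k⟩, ε.symm p), Subtype.ext ?_⟩
      rw [map_mul, map_mul, map_inv, map_inv, mul_inv_eq_one, inv_mul_eq_iff_eq_mul, map_pow] at e7
      simpa [Φ, τ] using e7.symm⟩
  obtain ⟨c⟩ := cent_congr (h1 a ha)
  exact ⟨c.symm.trans ((MulEquiv.ofBijective Φ h12).symm.trans (MulEquiv.prodCongr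
    (mulEquivOfPrimeCardEq (p := 5) ((Nat.card_zpowers _).trans h2) (by simp)) (MulEquiv.refl _)))⟩

end Cfsg.Agent.H3.E6
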