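import Cfsg.Agent.H3.E6F
import Mathlib.RingTheory.RootsOfUnity.AlgebraicallyClosed

/-! Elements of order five in the twisted group of type `E6` over the field with two elements. -/

set_option autoImplicit false
set_option linter.unusedSectionVars false

namespace Cfsg.Agent.H3.E6

open Cfsg.Lie Matrix Cfsg.Agent.H7 Cfsg.Agent.H8 Polynomial

theorem twE6_five {e : ℕ → ℕ} {ε : ℕ → ℤ} (h : SCov chevE6 chevE7 e ε) {K : Type*} [Field K] [Fintype K]
    (hK : Fintype.card K = 2 ^ 2) :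
    (∀ a b : twistedE6 K 2, orderOf a = 5 → orderOf b = 5 → IsConj a b) ∧ ∀ a : twistedE6 K 2, orderOf a = 5 →
      Nonempty (Subgroup.centralizer {a} ≃* (Multiplicative (ZMod 5) × alternatingGroup (Fin 8))) := by
  have : CharP K 2 := charP_of_card_eq_prime_pow hK
  let k := AlgebraicClosure K
  have : NeZero ((5 : ℕ) : k) := ⟨by rw [Ne, CharP.cast_eq_zero_iff k 2]; decide⟩
  obtain ⟨ζ', hζ'⟩ := HasEnoughRootsOfUnity.exists_primitiveRoot k 5
  obtain ⟨ζ, rfl⟩ := hζ'.isUnit (by decide)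
  have hζ : orderOf ζ = 5 := (IsPrimitiveRoot.coe_units_iff.1 hζ').eq_orderOf.symm
  have hy := h.isSC (K := K)
  have hx := h.isSC (K := k)
  obtain ⟨γ, h1, h2, h3, h4⟩ := model_tw (K := k) h embE6 (m := 2) (by decide +kernel) hK (frobenius_def (p := 2))
    (fixE6 hy (frobenius_def (p := 2)) fun t => by
      rw [frobenius_def, frobenius_def, ← pow_mul, ← pow_two, ← hK, FiniteField.pow_card]) (frobenius_def (p := 2))
  have hs : ∀ z : ℤ, z = 1 ∨ z = -1 → (z : k) = 1 := by rintro _ (rfl | rfl) <;> simp [CharTwo.neg_eq]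
  replace h1 : ∀ r t, γ (ys chevE6 chevE7 k e ε r t) = ys chevE6 chevE7 k e ε (rhoE6 r) t := fun r t => by
    by_cases hr : r < chevE6.nroots
    · rw [h1, embFam_lt hr, hs _ (okE6.2.2.1 r hr).2.2.2.2.1, one_mul]; rfl
    · rw [rho_ge (not_lt.1 hr), hx.out r (not_lt.1 hr), map_one]
  let n := nWd chevE6 (ys chevE6 chevE7 k e ε) (fl chevE6 [1, 3, 4, 2, 3, 0, 2, 1, 3, 4, 5, 4, 3, 2, 0])
  let γ' : Monoid.End (sG chevE6 chevE7 k e ε) := (MulAut.conj n).toMonoidHom.comp γ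
  let σ : Monoid.End (sG chevE6 chevE7 k e ε) := mapS chevE6 chevE7 e ε (frobenius k 2)
  have h5 : ∀ r t, γ' (ys chevE6 chevE7 k e ε r t) = ys chevE6 chevE7 k e ε (sP r) t := fun r t =>
    (congrArg (MulAut.conj n) (h1 r t)).trans ((hx.toIsSt.acts_nWd _ _ _).trans (by
      beta_reduce; rw [hs _ (wSign_cases _ _), one_mul, sP, Equiv.Perm.mul_apply]))
  have h6 : ∀ r t, σ (ys chevE6 chevE7 k e ε r t) = ys chevE6 chevE7 k e ε r (t ^ 2) := mapS_ys _
  have hF : ∀ r t, (γ' * σ) (ys chevE6 chevE7 k e ε r t) = ys chevE6 chevE7 k e ε (sP r) (t ^ 2) := fun r t => by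
    rw [end_mul_apply, h6, h5]
  have h7 : Commute γ' σ := hom_ext_XS hx.gen fun r _ t => (hF r t).trans (by
    show _ = σ (γ' _); rw [h5, h6])
  have h8 : γ' ^ 4 = 1 := hom_ext_XS hx.gen fun r _ t => by
    show (γ' ^ 4) _ = ys chevE6 chevE7 k e ε r t
    simp only [pow_succ, pow_zero, one_mul, end_mul_apply, h5, sP_eq]
    by_cases hr : r < 72
    · rw [(by decide +kernel : ∀ r < 72, sT (sT (sT (sT r))) = r) r hr]
    · have : sT r = r := List.getD_eq_default _ _ (not_lt.1 hr)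
      simp only [this]
  obtain ⟨g, hg⟩ := hx.toIsSt.lang_tw hx.r3 hx.gen 2 rhoS_injective rhoS_poly (σ := σ) le_rfl (fun _ _ _ => rfl)
    (fun r => ⟨_, 1, fun t => by rw [h1, one_mul]⟩) h3 h2 n
  obtain ⟨θ, h9, -, h10, -⟩ := hy.exists_cover
  have h11 := map_twS (x := ys chevE6 chevE7 K e ε) θ (e6Words K 2)
  rw [funext₂ h9] at h11
  let τ := (twEquiv (e6Words K 2)).toMonoidHom.comp
    ((MulEquiv.subgroupCongr h11).toMonoidHom.comp (θ.subgroupMap _))
  have h12 : ∀ z, τ z = 1 ↔ θ z = 1 := fun z => (twEquiv (e6Words K 2)).map_eq_one_iff.trans Subtype.ext_iff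
  let j := (MulAut.conj g⁻¹).toMonoidHom.comp ((mapS chevE6 chevE7 e ε (algebraMap K k)).comp
    (twS (ys chevE6 chevE7 K e ε) (e6Words K 2)).subtype)
  have h13 : ∀ y, y ∈ j.range ↔ (γ' * σ) y = y := fun y => by
    rw [← MonoidHom.map_range, ← MonoidHom.map_range, Subgroup.range_subtype, Subgroup.mem_map_equiv, h4]
    show γ (σ _) = _ ↔ n * γ (σ y) * n⁻¹ = y
    rw [MulAut.conj_symm_apply, map_mul, map_mul, map_mul, map_mul, inv_inv, map_inv, map_inv,
      eq_mul_of_inv_mul_eq hg, ← (MulAut.conj g⁻¹).injective.eq_iff]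
    simp [mul_assoc]
  refine order_five hx hF hζ (j := j) ((MulAut.conj g⁻¹).injective.comp ((mapS_injective _).comp Subtype.val_injective))
    h13 (θ := τ) ((twEquiv _).surjective.comp ((MulEquiv.subgroupCongr h11).surjective.comp (θ.subgroupMap_surjective _)))
    (fun z hz => ⟨Subtype.ext ?_, fun y => Subtype.ext (Subgroup.mem_center_iff.1 (h10 ((h12 z).1 hz)) y).symm⟩)
    (fun z hz => (h12 z).2 (H8.isChev_xg.eq_one_of_commute (H8.GG_xg.ge (Subgroup.mem_top _)) fun r t => ?_)) fun y h14 => ?_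
  · obtain ⟨a, ha, -⟩ := (mem_ker_iff hy.toIsSt hy.gen H8.isChev_xg h9).1 ((h12 z).1 hz)
    rw [Subgroup.coe_pow, ha, ← hProd_pow hy.toIsSt hy.r3, show a ^ 3 = 1 from funext fun i => Units.ext (by
      simpa [hK] using FiniteField.pow_card_sub_one_eq_one (a i : K) (a i).ne_zero), hProd_one hy.toIsSt hy.r3]
    rfl
  · rw [← h9]
    refine Commute.map (mapS_injective (algebraMap K k) ((MulAut.conj g⁻¹).injective ?_)) θ
    simpa only [map_mul] using! (hz (MulAut.conj g⁻¹ (mapS chevE6 chevE7 e ε (algebraMap K k) _))).eq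
  · obtain ⟨-, -, a, -, ha⟩ := (h.ss_classes (K := k) 2 (y := y.1) (by rw [Subgroup.orderOf_coe, h14]; decide)).1
    refine conj_fix hx hF hζ (fun c hc => lang_cent hx 2 rhoS_injective rhoS_poly (σ := σ) le_rfl (fun _ _ _ => rfl)
      (fun r => ⟨_, 1, fun t => by rw [h5, one_mul]⟩) h7 h8 (fin_t0 hζ) ((end_mul_apply γ' σ _).symm.trans (fix_t0 hx hF hζ)) hc)
      ((h13 _).1 ⟨y, rfl⟩) ((orderOf_injective j ((MulAut.conj g⁻¹).injective.comp
        ((mapS_injective _).comp Subtype.val_injective)) y).trans h14) ((isConj_iff.2 ⟨g⁻¹, rfl⟩).symm.trans ha)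

end Cfsg.Agent.H3.E6
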