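import Cfsg.Agent.H3.Core

/-! Counting fixed points over subgroups whose non-identity elements are all conjugate; small
subgroups listed by words. -/

set_option autoImplicit false

namespace Cfsg.Agent.H3

open L0 MulAction

section fix
variable {G : Type*} [Group G] (Ω : Type*) [Fintype Ω] [MulAction G Ω]

/-- the number of fixed points -/
noncomputable def fx (g : G) : ℕ := Nat.card (fixedBy Ω g)

theorem fx_one : fx Ω (1 : G) = Fintype.card Ω := by
  rw [fx, fixedBy_one_eq_univ, Nat.card_univ, Nat.card_eq_fintype_card]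

variable {Ω}

omit [Fintype Ω] in
theorem fx_conj {x g : G} (h : IsConj x g) : fx Ω g = fx Ω x := by
  obtain ⟨c, rfl⟩ := isConj_iff.mp h
  rw [fx, fx, ← smul_fixedBy, Nat.card_coe_set_eq, Nat.card_coe_set_eq, Set.ncard_smul_set]

theorem fx_lt [FaithfulSMul G Ω] {x : G} (h : x ≠ 1) : fx Ω x < Fintype.card Ω := by
  rw [fx, Nat.card_coe_set_eq, ← Nat.card_eq_fintype_card, ← Set.ncard_univ]
  refine Set.ncard_lt_ncard (Set.ssubset_univ_iff.mpr fun h1 => h ?_)
  exact fixedBy_eq_univ_iff_eq_one.mp h1

theorem sum_fx [Finite G] (P : Subgroup G) [Fintype P] {x : G}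
    (hP : ∀ g ∈ P, g ≠ 1 → IsConj x g) :
    ∑ g : P, fx Ω (g : G) = Fintype.card Ω + (Nat.card P - 1) * fx Ω x := by
  classical
  rw [← Finset.add_sum_erase _ _ (Finset.mem_univ (1 : P)), OneMemClass.coe_one, fx_one]
  congr 1
  rw [Finset.sum_congr rfl (g := fun _ => fx Ω x) fun (g : P) hg =>
    fx_conj (hP g g.prop fun h => (Finset.mem_erase.mp hg).1 (Subtype.ext h))]
  rw [Finset.sum_const, Finset.card_erase_of_mem (Finset.mem_univ _), Finset.card_univ,
    Nat.card_eq_fintype_card, smul_eq_mul]

theorem card_dvd_fx [Finite G] (P : Subgroup G) {x : G} (hP : ∀ g ∈ P, g ≠ 1 → IsConj x g) :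
    Nat.card P ∣ Fintype.card Ω + (Nat.card P - 1) * fx Ω x := by
  classical
  haveI := Fintype.ofFinite P
  haveI := Fintype.ofFinite (Quotient (orbitRel P Ω))
  rw [← sum_fx P hP]
  have := sum_card_fixedBy_eq_card_orbits_mul_card_group P Ω
  refine ⟨Fintype.card (Quotient (orbitRel P Ω)), ?_⟩
  rw [mul_comm, Nat.card_eq_fintype_card, ← this]
  refine Finset.sum_congr rfl fun g _ => ?_
  rw [fx, Nat.card_eq_fintype_card]
  rfl

theorem sum_fx_stab (P : Subgroup G) [Fintype P] :
    ∑ g : P, fx Ω (g : G) = ∑ a : Ω, Nat.card (stabilizer P a) := by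
  classical
  have h1 : ∀ g : P, fx Ω (g : G) = ∑ a : Ω, if g • a = a then 1 else 0 := fun g => by
    rw [fx, Finset.sum_boole, Nat.cast_id, Nat.card_eq_fintype_card, Fintype.card_subtype]
    rfl
  have h2 : ∀ a : Ω, Nat.card (stabilizer P a) = ∑ g : P, if g • a = a then 1 else 0 := fun a => by
    rw [Finset.sum_boole, Nat.cast_id, Nat.card_eq_fintype_card, Fintype.card_subtype]
    rfl
  simp only [h1, h2]
  exact Finset.sum_comm

end fix

section words
variable {G : Type*} [Group G] [Finite G] {N k : ℕ} {T : ℕ → ℕ → ℕ} {A : RAct G N} {x : ℕ → G}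

/-- the pairs of words that say the list `E` is closed under the letters `ls` -/
noncomputable def clP (E : List (List ℕ)) (ls : List ℕ) (m : ℕ → ℕ → ℕ) :
    List (List ℕ × List ℕ) :=
  (List.range E.length).flatMap fun i => ls.map fun l => (E.getD i [] ++ [l], E.getD (m i l) [])

/-- the pairs of words that say the words of `E` are conjugate to the word `w` -/
noncomputable def cjP (E C : List (List ℕ)) (w : List ℕ) : List (List ℕ × List ℕ) :=
  (List.range E.length).map fun i => (w ++ C.getD i [], C.getD i [] ++ E.getD i [])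

theorem sub_of_words (h : A.Tab x k T) {B : List ℕ} (hb : A.IsBase B) {W : List (List ℕ)}
    (hW : lettersB k W = true) {E C : List (List ℕ)} {ls w : List ℕ} {m : ℕ → ℕ → ℕ} {b : ℕ}
    (hbN : b < N) (hE : ∀ u ∈ E, ∀ l ∈ u, l ∈ ls)
    (hcl : RAct.eqB (dT T W) (clP ([] :: E) ls m) B = true)
    (hcj : RAct.eqB (dT T W) (cjP E C w) B = true)
    (hnd : (([] :: E).map fun u => tr (dT T W) u b).Nodup) :
    Nat.card (genL (dG x W) ls) = E.length + 1 ∧
      ∀ g ∈ genL (dG x W) ls, g ≠ 1 → IsConj (ev (dG x W) w) g := by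
  classical
  have h1 := hb.ev_eq_derive h hW hcl
  have h2 := hb.ev_eq_derive h hW hcj
  have gd : ∀ i, ([] :: E).getD i [] ∈ ([] :: E) := fun i => by
    by_cases hi : i < ([] :: E).length
    · rw [List.getD_eq_getElem _ _ hi]; exact List.getElem_mem hi
    · rw [List.getD_eq_default _ _ (not_lt.mp hi)]; simp
  have key : ∀ g ∈ genL (dG x W) ls, ∃ u ∈ ([] :: E), g = ev (dG x W) u := by
    intro g hg
    have hg' : g ∈ Submonoid.closure (dG x W '' {y | y ∈ ls}) := by
      have := Subgroup.closure_toSubmonoid_of_finite (s := dG x W '' {y | y ∈ ls})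
      exact this ▸ hg
    induction hg' using Submonoid.closure_induction_right with
    | one => exact ⟨[], by simp, rfl⟩
    | mul_right g hg0 y hy ih =>
      obtain ⟨l, hl, rfl⟩ := hy
      obtain ⟨u, hu, rfl⟩ := ih (Subgroup.le_closure_toSubmonoid _ hg0)
      obtain ⟨i, hi, rfl⟩ := List.getElem_of_mem hu
      refine ⟨_, gd (m i l), ?_⟩
      have := h1 (([] :: E).getD i [] ++ [l], ([] :: E).getD (m i l) []) (by
        simp only [clP, List.mem_flatMap, List.mem_range, List.mem_map]
        exact ⟨i, hi, l, hl, rfl⟩)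
      rw [← this, List.getD_eq_getElem _ _ hi, ev_append, ev_singleton]
  have mem : ∀ u ∈ ([] :: E), ev (dG x W) u ∈ genL (dG x W) ls := fun u hu =>
    ev_mem _ _ fun l hl => mem_genL _ (by
      rcases List.mem_cons.mp hu with rfl | hu
      · simp at hl
      · exact hE u hu l hl)
  constructor
  · have hn : (([] :: E).map (ev (dG x W))).Nodup := by
      refine List.Nodup.of_map (fun g => A.act b g) ?_
      rw [List.map_map]
      convert hnd using 2
      ext u
      exact h.act_ev_derive hW u hbN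
    have he : (genL (dG x W) ls : Set G) = (([] :: E).map (ev (dG x W))).toFinset := by
      ext g
      simp only [SetLike.mem_coe, List.coe_toFinset, Set.mem_ofPred_eq, List.mem_map]
      exact ⟨fun hg => (key g hg).imp fun u hu => ⟨hu.1, hu.2.symm⟩,
        fun ⟨u, hu, e⟩ => e ▸ mem u hu⟩
    rw [← SetLike.coe_sort_coe, he, Nat.card_coe_set_eq, Set.ncard_coe_finset,
      List.toFinset_card_of_nodup hn, List.length_map, List.length_cons]
  · intro g hg h1
    obtain ⟨u, hu, rfl⟩ := key g hg
    rcases List.mem_cons.mp hu with rfl | hu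
    · exact absurd rfl h1
    · obtain ⟨i, hi, rfl⟩ := List.getElem_of_mem hu
      have := h2 (w ++ C.getD i [], C.getD i [] ++ E.getD i []) (by
        simp only [cjP, List.mem_range, List.mem_map]
        exact ⟨i, hi, rfl⟩)
      rw [List.getD_eq_getElem _ _ hi, ev_append, ev_append] at this
      refine isConj_iff.mpr ⟨(ev (dG x W) (C.getD i []))⁻¹, ?_⟩
      rw [mul_assoc, inv_inv, this, inv_mul_cancel_left]

end words

end Cfsg.Agent.H3
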