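import Cfsg.Agent.H3.FixAvg

set_option autoImplicit false
set_option linter.unusedSectionVars false

namespace Cfsg.Agent.H3

open Equiv Equiv.Perm Subgroup

variable {α : Type*} [DecidableEq α] [Fintype α]

/-- `s` is an involution or the identity -/
def Inv2 (s : Perm α) : Prop := ∀ x, s (s x) = x

theorem Inv2.mul_self {s : Perm α} (h : Inv2 s) : s * s = 1 := Perm.ext h

theorem Inv2.inv_eq {s : Perm α} (h : Inv2 s) : s⁻¹ = s := inv_eq_of_mul_eq_one_left h.mul_self

theorem disjoint_swap_of_fixed {s : Perm α} {x y : α} (hx : s x = x) (hy : s y = y) :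
    Perm.Disjoint s (swap x y) := by
  intro z
  by_cases c1 : z = x
  · left; rw [c1, hx]
  by_cases c2 : z = y
  · left; rw [c2, hy]
  right; exact swap_apply_of_ne_of_ne c1 c2

theorem Inv2.swap_mul {s : Perm α} (h : Inv2 s) {x y : α} (hx : s x = x) (hy : s y = y) :
    Inv2 (swap x y * s) := by
  intro z
  have := (disjoint_swap_of_fixed hx hy).commute.eq
  rw [← Perm.mul_apply, mul_assoc, ← mul_assoc s, this, mul_assoc, h.mul_self]
  simp

theorem exists_two_inv (σ : Perm α) : ∀ y : α, ∃ s t : Perm α, Inv2 s ∧ Inv2 t ∧ σ = s * t ∧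
    s y = y ∧ (∀ x, σ x = x → s x = x ∧ t x = x) ∧
    t.support.card = s.support.card + if sign σ = 1 then 0 else 2 := by
  induction h : σ.support.card using Nat.strong_induction_on generalizing σ with
  | _ m ih =>
  have key : ∀ y : α, σ y ≠ y → ∃ s t : Perm α, Inv2 s ∧ Inv2 t ∧ σ = s * t ∧
      s y = y ∧ (∀ x, σ x = x → s x = x ∧ t x = x) ∧
      t.support.card = s.support.card + if sign σ = 1 then 0 else 2 := by
    intro y hy
    obtain ⟨s, t, h1, h2, h3, h4, h5, h6⟩ := ih _ (h ▸ card_support_swap_mul hy) _ rfl (σ y)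
    have hy' := h5 y (by simp)
    have h7 := h1.swap_mul hy'.1 h4
    have h8 : σ = swap y (σ y) * s * t := by rw [mul_assoc, ← h3]; simp
    have hfix : ∀ x, σ x = x → (swap y (σ y) * s) x = x ∧ t x = x := by
      intro x hx
      have c1 : x ≠ y := fun e => hy (e ▸ hx)
      have c2 : x ≠ σ y := fun e => c1 (σ.injective (hx.trans e))
      have := h5 x (by rw [Perm.mul_apply, hx, swap_apply_of_ne_of_ne c1 c2])
      exact ⟨by rw [Perm.mul_apply, this.1, swap_apply_of_ne_of_ne c1 c2], this.2⟩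
    refine ⟨t, t * (swap y (σ y) * s) * t⁻¹, h2, fun x => ?_, ?_, hy'.2, fun x hx => ⟨(hfix x hx).2, ?_⟩, ?_⟩
    · simp only [Perm.mul_apply, Perm.coe_inv, symm_apply_apply]
      have := h7 (t.symm x)
      simp only [Perm.mul_apply] at this
      rw [this, apply_symm_apply]
    · rw [h2.inv_eq, ← mul_assoc, ← mul_assoc, h2.mul_self, one_mul]; exact h8
    · rw [h2.inv_eq, Perm.mul_apply, Perm.mul_apply, (hfix x hx).2, (hfix x hx).1, (hfix x hx).2]
    · rw [card_support_conj, (disjoint_swap_of_fixed hy'.1 h4).symm.card_support_mul,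
        card_support_swap hy.symm, h6, Perm.sign_mul, sign_swap hy.symm]
      rcases Int.units_eq_one_or (sign σ) with e | e <;> simp [e] <;> omega
  intro y
  by_cases hy : σ y = y
  · by_cases h1 : σ = 1
    · exact ⟨1, 1, fun _ => rfl, fun _ => rfl, by simp [h1], rfl, fun _ _ => ⟨rfl, rfl⟩, by simp [h1]⟩
    · obtain ⟨y', hy'⟩ := exists_moved h1
      obtain ⟨s, t, h1, h2, h3, -, h5, h6⟩ := key y' hy'
      exact ⟨s, t, h1, h2, h3, (h5 y hy).1, h5, h6⟩
  · exact key y hy

theorem Inv2.cycleType {s : Perm α} (h : Inv2 s) : ∃ k, s.cycleType = Multiset.replicate k 2 ∧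
    s.support.card = 2 * k ∧ sign s = (-1) ^ k := by
  have h4 := pow_prime_eq_one_iff (p := 2).1 (by rw [pow_two, h.mul_self])
  have h5 := Multiset.eq_replicate_card.2 h4
  refine ⟨_, h5, ?_, ?_⟩
  · rw [← sum_cycleType]; nth_rewrite 1 [h5]; simp [mul_comm]
  · rw [sign_of_cycleType]; nth_rewrite 1 [h5]; simp [pow_add, mul_comm _ 2, pow_mul]

theorem Inv2.cycleType_eq {s t : Perm α} (hs : Inv2 s) (ht : Inv2 t)
    (h : s.support.card = t.support.card) : s.cycleType = t.cycleType := by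
  obtain ⟨k, a1, a2, -⟩ := hs.cycleType
  obtain ⟨l, b1, b2, -⟩ := ht.cycleType
  rw [a1, b1, show k = l by omega]

/-- `a` has two cycles of length two -/
def Good2 (a : Perm α) : Prop := ∃ p q r u, p ≠ q ∧ p ≠ r ∧ p ≠ u ∧ q ≠ r ∧ q ≠ u ∧ r ≠ u ∧
  a p = q ∧ a q = p ∧ a r = u ∧ a u = r

theorem Inv2.good_mul {s c : Perm α} (h : Inv2 s) (h3 : 3 ≤ s.support.card)
    (hd : Perm.Disjoint s c) : Good2 (s * c) := by
  obtain ⟨p, hp⟩ := Finset.card_pos.1 (show 0 < s.support.card by omega)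
  obtain ⟨r, hr, hr'⟩ := Finset.exists_mem_notMem_of_card_lt_card (s := {p, s p}) (t := s.support)
    (lt_of_le_of_lt Finset.card_le_two (by omega))
  rw [mem_support] at hp hr
  simp only [Finset.mem_insert, Finset.mem_singleton, not_or] at hr'
  have k : ∀ x, s x ≠ x → (s * c) x = s x := fun x hx => by
    rw [Perm.mul_apply, (hd x).resolve_left hx]
  refine ⟨p, s p, r, s r, hp.symm, Ne.symm hr'.1, fun e => hr'.2 (by rw [e, h]), Ne.symm hr'.2,
    fun e => hr'.1 (s.injective e).symm, hr.symm, k p hp, ?_, k r hr, ?_⟩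
  · rw [k _ (by rw [h]; exact hp.symm), h]
  · rw [k _ (by rw [h]; exact hr.symm), h]

theorem Inv2.split {s : Perm α} (h : Inv2 s) {x y : α} (hx : s x = x) (hy : s y ≠ y) :
    ∃ s', Inv2 s' ∧ s.support.card = s'.support.card + 2 ∧ Perm.Disjoint s' (c3 y x (s y)) ∧
      s * swap x y = s' * c3 y x (s y) ∧ IsThreeCycle (c3 y x (s y)) := by
  have hxy : y ≠ x := fun e => hy (by rw [e, hx])
  have hxy' : x ≠ s y := fun e => hxy (by rw [← h y, ← e, hx])
  have a1 : (s * swap y (s y)) y = y := by simp [h y]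
  have a2 : (s * swap y (s y)) (s y) = s y := by simp
  have a3 : (s * swap y (s y)) x = x := by
    rw [Perm.mul_apply, swap_apply_of_ne_of_ne hxy.symm hxy', hx]
  refine ⟨s * swap y (s y), fun z => ?_, ?_, fun z => ?_, ?_, c3_isThreeCycle hxy hy.symm hxy'⟩
  · simp only [Perm.mul_apply]
    rw [swap_comm_of_sq h, h, swap_apply_self]
  · rw [← card_support_swap hy.symm, ← (disjoint_swap_of_fixed a1 a2).card_support_mul]
    simp [mul_assoc]
  · by_cases c1 : z = y
    · left; rw [c1, a1]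
    by_cases c2 : z = x
    · left; rw [c2, a3]
    by_cases c3' : z = s y
    · left; rw [c3', a2]
    right; exact c3_apply_of_ne c1 c2 c3'
  · rw [c3, swap_comm x y]; simp [mul_assoc]

theorem inv2_dbl {p q r u : α} (h1 : p ≠ r) (h2 : p ≠ u) (h3 : q ≠ r) (h4 : q ≠ u) :
    Inv2 (swap p q * swap r u) :=
  Inv2.swap_mul (swap_apply_self r u) (swap_apply_of_ne_of_ne h1 h2) (swap_apply_of_ne_of_ne h3 h4)

theorem card_support_dbl {p q r u : α} (h0 : p ≠ q) (h1 : p ≠ r) (h2 : p ≠ u) (h3 : q ≠ r)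
    (h4 : q ≠ u) (h5 : r ≠ u) : (swap p q * swap r u).support.card = 4 := by
  rw [(disjoint_swap_of_fixed (swap_apply_of_ne_of_ne h1.symm h3.symm)
    (swap_apply_of_ne_of_ne h2.symm h4.symm)).card_support_mul, card_support_swap h0,
    card_support_swap h5]

theorem exists_good_decomp (h5 : 5 ≤ Fintype.card α) {g : Perm α} (hg : sign g = 1) :
    ∃ a a' : Perm α, g = a * a' ∧ sign a = 1 ∧ a.cycleType = a'.cycleType ∧ Good2 a := by
  have fin : ∀ a a' : Perm α, g = a * a' → Inv2 a → Inv2 a' → a.support.card = 4 →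
      a'.support.card = 4 →
      ∃ a a' : Perm α, g = a * a' ∧ sign a = 1 ∧ a.cycleType = a'.cycleType ∧ Good2 a := by
    intro a a' h1 h2 h3 h4 h6
    obtain ⟨k, -, a2, a3⟩ := h2.cycleType
    refine ⟨a, a', h1, by rw [a3, show k = 2 by omega]; rfl, h2.cycleType_eq h3 (h4.trans h6.symm), ?_⟩
    simpa using h2.good_mul (c := 1) (by omega) (Perm.disjoint_one_right a)
  obtain ⟨y0, -⟩ := exists_not_mem_of_card_lt (∅ : Finset α) (by simp; omega)
  obtain ⟨s, t, hs, ht, e, hy0, -, hc⟩ := exists_two_inv g y0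
  rw [if_pos hg, add_zero] at hc
  obtain ⟨k, -, a2, a3⟩ := hs.cycleType
  have two : ∀ A : Finset α, A.card ≤ 3 → ∃ x y, x ≠ y ∧ x ∉ A ∧ y ∉ A := by
    intro A hA
    obtain ⟨x, hx⟩ := exists_not_mem_of_card_lt A (by omega)
    obtain ⟨y, hy⟩ := exists_not_mem_of_card_lt (insert x A) (by
      rw [Finset.card_insert_of_notMem hx]; omega)
    rw [Finset.mem_insert, not_or] at hy
    exact ⟨x, y, Ne.symm hy.1, hx, hy.2⟩
  rcases Nat.even_or_odd k with hk | hk
  · by_cases h0 : k = 0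
    · have e1 : s = 1 := card_support_eq_zero.1 (by omega)
      have e2 : t = 1 := card_support_eq_zero.1 (by omega)
      obtain ⟨p, q, h1, -, -⟩ := two ∅ (by simp)
      obtain ⟨r, u, h2, h3, h4⟩ := two {p, q} (Finset.card_le_two.trans (by norm_num))
      simp only [Finset.mem_insert, Finset.mem_singleton, not_or] at h3 h4
      have b1 := inv2_dbl (Ne.symm h3.1) (Ne.symm h4.1) (Ne.symm h3.2) (Ne.symm h4.2)
      have b2 := card_support_dbl h1 (Ne.symm h3.1) (Ne.symm h4.1) (Ne.symm h3.2) (Ne.symm h4.2) h2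
      exact fin _ _ (by rw [b1.mul_self, e, e1, e2, one_mul]) b1 b1 b2 b2
    · refine ⟨s, t, e, by rw [a3, hk.neg_one_pow], hs.cycleType_eq ht hc.symm, ?_⟩
      obtain ⟨j, hj⟩ := hk
      simpa using hs.good_mul (c := 1) (by omega) (Perm.disjoint_one_right s)
  by_cases h1 : k = 1
  · obtain ⟨p, q, hpq, rfl⟩ := card_support_eq_two.1 (show s.support.card = 2 by omega)
    obtain ⟨r, u, hru, rfl⟩ := card_support_eq_two.1 (show t.support.card = 2 by omega)
    by_cases c : p ≠ r ∧ p ≠ u ∧ q ≠ r ∧ q ≠ u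
    · obtain ⟨c1, c2, c3', c4⟩ := c
      refine fin (swap p r * swap q u) (swap p u * swap q r) ?_
        (inv2_dbl hpq c2 c3'.symm hru) (inv2_dbl hpq c1 c4.symm hru.symm)
        (card_support_dbl c1 hpq c2 c3'.symm hru c4) (card_support_dbl c2 hpq c1 c4.symm hru.symm c3')
      rw [e]
      ext x
      simp only [Perm.mul_apply, swap_apply_def]
      grind
    · obtain ⟨x, y, b1, b2, b3⟩ := two {p, q, r, u} (by
        rw [not_and_or, not_and_or, not_and_or] at c
        simp only [ne_eq, not_not] at c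
        rcases c with rfl | rfl | rfl | rfl
        · exact le_trans (Finset.card_le_card (t := {p, q, u}) (by
            intro z; simp only [Finset.mem_insert, Finset.mem_singleton]; tauto)) Finset.card_le_three
        · exact le_trans (Finset.card_le_card (t := {p, q, r}) (by
            intro z; simp only [Finset.mem_insert, Finset.mem_singleton]; tauto)) Finset.card_le_three
        · exact le_trans (Finset.card_le_card (t := {p, q, u}) (by
            intro z; simp only [Finset.mem_insert, Finset.mem_singleton]; tauto)) Finset.card_le_three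
        · exact le_trans (Finset.card_le_card (t := {p, q, r}) (by
            intro z; simp only [Finset.mem_insert, Finset.mem_singleton]; tauto)) Finset.card_le_three)
      simp only [Finset.mem_insert, Finset.mem_singleton, not_or] at b2 b3
      refine fin (swap p q * swap x y) (swap x y * swap r u) (by rw [e]; simp [mul_assoc])
        (inv2_dbl (Ne.symm b2.1) (Ne.symm b3.1) (Ne.symm b2.2.1) (Ne.symm b3.2.1))
        (inv2_dbl b2.2.2.1 b2.2.2.2 b3.2.2.1 b3.2.2.2)
        (card_support_dbl hpq (Ne.symm b2.1) (Ne.symm b3.1) (Ne.symm b2.2.1) (Ne.symm b3.2.1) b1)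
        (card_support_dbl b1 b2.2.2.1 b2.2.2.2 b3.2.2.1 b3.2.2.2 hru)
  have h3 : 3 ≤ k := by obtain ⟨j, hj⟩ := hk; omega
  obtain ⟨x, y, b1, b2, b3⟩ : ∃ x y, s x = x ∧ s y ≠ y ∧
      ((t x = x ∧ t y ≠ y) ∨ (t y = y ∧ t x ≠ x)) := by
    by_cases c : s.support = t.support
    · obtain ⟨y, hy⟩ := Finset.card_pos.1 (show 0 < s.support.card by omega)
      refine ⟨y0, y, hy0, mem_support.1 hy, Or.inl ⟨?_, mem_support.1 (c ▸ hy)⟩⟩
      rw [← notMem_support, ← c, notMem_support, hy0]
    · obtain ⟨y, hy, hy'⟩ : ∃ y ∈ s.support, y ∉ t.support := by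
        by_contra h; push Not at h
        exact c (Finset.eq_of_subset_of_card_le h hc.le)
      obtain ⟨x, hx, hx'⟩ : ∃ x ∈ t.support, x ∉ s.support := by
        by_contra h; push Not at h
        exact c (Finset.eq_of_subset_of_card_le h hc.ge).symm
      exact ⟨x, y, notMem_support.1 hx', mem_support.1 hy,
        Or.inr ⟨notMem_support.1 hy', mem_support.1 hx⟩⟩
  obtain ⟨s', c1, c2, c3', c4, c5⟩ := hs.split b1 b2
  obtain ⟨t', c, d1, d2, d3, d4, d5⟩ : ∃ t' c, Inv2 t' ∧ t.support.card = t'.support.card + 2 ∧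
      Perm.Disjoint t' c ∧ t * swap x y = t' * c ∧ IsThreeCycle c := by
    rcases b3 with ⟨f1, f2⟩ | ⟨f1, f2⟩
    · obtain ⟨t', h⟩ := ht.split f1 f2
      exact ⟨t', _, h⟩
    · obtain ⟨t', h⟩ := ht.split f1 f2
      rw [swap_comm] at h
      exact ⟨t', _, h⟩
  have hxy : x ≠ y := fun e => b2 (e ▸ b1)
  refine ⟨s * swap x y, swap x y * t, by rw [e]; simp [mul_assoc], ?_, ?_, ?_⟩
  · rw [Perm.sign_mul, a3, hk.neg_one_pow, sign_swap hxy]; simp
  · rw [← cycleType_inv (swap x y * t), mul_inv_rev, ht.inv_eq, swap_inv, c4, d4,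
      c3'.cycleType_mul, d3.cycleType_mul, c5.cycleType, d5.cycleType,
      c1.cycleType_eq d1 (by omega)]
  · rw [c4]; exact c1.good_mul (by omega) c3'

theorem exists_good_commutator (h5 : 5 ≤ Fintype.card α) {g : Perm α} (hg : sign g = 1) :
    ∃ a b : Perm α, g = a * b * a⁻¹ * b⁻¹ ∧ sign a = 1 ∧ sign b = 1 ∧ Good2 a := by
  obtain ⟨a, a', h1, h2, h3, h4⟩ := exists_good_decomp h5 hg
  obtain ⟨b, hb⟩ := isConj_iff.1 (isConj_iff_cycleType_eq.2 ((cycleType_inv a).trans h3))
  rcases Int.units_eq_one_or (sign b) with e | e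
  · exact ⟨a, b, by rw [h1, ← hb]; group, h2, e, h4⟩
  · obtain ⟨p, q, r, u, hpq, -, -, -, -, -, e1, e2, -, -⟩ := id h4
    refine ⟨a, b * swap p q, ?_, h2, by rw [Perm.sign_mul, e, sign_swap hpq]; simp, h4⟩
    have : a * swap p q * a⁻¹ = swap p q := by rw [← swap_apply_apply, e1, e2, swap_comm]
    have h6 : swap p q * a⁻¹ * (swap p q)⁻¹ = a⁻¹ := by
      have h7 : Commute a (swap p q) := mul_inv_eq_iff_eq_mul.1 this
      rw [← h7.inv_left.eq, mul_inv_cancel_right]
    rw [h1, ← hb]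
    conv_lhs => rw [← h6]
    group

end Cfsg.Agent.H3
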