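import Cfsg.Agent.H3.MR1

/-! Four orders without simple groups having given centralizer data. -/

set_option autoImplicit false
set_option linter.unusedSectionVars false

namespace Cfsg.Agent.H3.KK

open Subgroup MulAction L0.EP AS MR
open scoped Pointwise

variable {G : Type*} [Group G] [Finite G]

theorem triv [IsSimpleGroup G] {X : Type*} [MulAction G X] {t : G} (h1 : t ≠ 1) (h : ∀ a : X, t • a = a)
    (g : G) (a : X) : g • a = a := by
  rcases (toPermHom G X).normal_ker.eq_bot_or_eq_top with e | e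
  · exact absurd (mem_bot.1 (e ▸ (Equiv.ext h : t ∈ (toPermHom G X).ker))) h1
  · exact Equiv.congr_fun (e ▸ mem_top g : g ∈ (toPermHom G X).ker) a

theorem dvd_fact [IsSimpleGroup G] {H : Subgroup G} (h1 : H ≠ ⊤) : Nat.card G ∣ H.index.factorial := by
  classical
  have := Fintype.ofFinite (G ⧸ H)
  have hi := (MonoidHom.ker_eq_bot_iff _).1 (H.normalCore_eq_ker ▸ (IsSimpleGroup.eq_bot_or_eq_top_of_normal
    H.normalCore inferInstance).resolve_right fun e => h1 (top_le_iff.1 (e ▸ H.normalCore_le)))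
  have h3 := card_dvd_of_injective _ hi
  rwa [Nat.card_perm, ← index] at h3

theorem hom_one [IsSimpleGroup G] {A : Type*} [Group A] [Finite A] (h : Nat.card A < Nat.card G) (f : G →* A)
    (g : G) : f g = 1 := by
  rcases f.normal_ker.eq_bot_or_eq_top with e | e
  · exact absurd (Nat.card_le_card_of_injective f ((MonoidHom.ker_eq_bot_iff _).1 e)) h.not_ge
  · exact (e ▸ mem_top g : g ∈ f.ker)

theorem four_dvd [IsSimpleGroup G] (h : 2 < Nat.card G) (X : Type*) [MulAction G X] [Finite X] {t : G}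
    (ht : t ^ 2 = 1) : Even ((Nat.card X - (fixedBy X t).ncard) / 2) := by
  classical
  have := Fintype.ofFinite X
  have h1 : Equiv.Perm.sign (toPermHom G X t) = 1 :=
    hom_one (by simpa using h) (Equiv.Perm.sign.comp (toPermHom G X)) t
  rw [Equiv.Perm.sign_of_pow_two_eq_one (by rw [← map_pow, ht, map_one]),
    neg_one_pow_eq_one_iff_even (by decide), ← Nat.card_eq_fintype_card, ← Nat.card_eq_fintype_card] at h1
  exact h1

theorem fix_mod {p : ℕ} [Fact p.Prime] (X : Type*) [MulAction G X] [Finite X] {x t : G} (hc : Commute x t)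
    (hx : x ^ p = 1) : (fixedBy X t).ncard ≡ (fixedBy X t ∩ fixedBy X x).ncard [MOD p] := by
  classical
  have := Fintype.ofFinite (fixedBy X t)
  let f : Function.End (fixedBy X t) := fun a => ⟨x • a.1, by
    rw [mem_fixedBy, ← mul_smul, ← hc.eq, mul_smul, a.2]⟩
  have h1 : ∀ (k : ℕ) a, ((f ^ k) a).1 = x ^ k • a.1 := fun k => by
    induction k with
    | zero => intro a; simp; rfl
    | succ k ih => intro a; rw [pow_succ, pow_succ, mul_smul]; exact ih (f a)
  have h2 := Equiv.Perm.card_fixedPoints_modEq (f := f) (p := p) (n := 1)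
    (funext fun a => Subtype.ext (by rw [h1, pow_one, hx, one_smul]; rfl))
  rw [← Nat.card_eq_fintype_card, ← Nat.card_eq_fintype_card] at h2
  rw [← Nat.card_coe_set_eq, ← Nat.card_coe_set_eq, Nat.card_congr (α := ↥(fixedBy X t ∩ fixedBy X x))
    (β := f.fixedPoints) ⟨fun a => ⟨⟨a.1, a.2.1⟩, Subtype.ext a.2.2⟩, fun a => ⟨a.1.1, a.1.2, congrArg Subtype.val a.2⟩,
      fun _ => rfl, fun _ => rfl⟩]
  exact h2

theorem semi {X : Type*} [MulAction G X] [Finite X] (S : Subgroup G) (a : X) (h1 : ∀ s ∈ S, s • a = a)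
    (h2 : ∀ s ∈ S, s ≠ 1 → ∀ b, s • b = b → b = a) : Nat.card S ∣ Nat.card X - 1 := by
  classical
  have := Fintype.ofFinite G
  have h3 := orb_mul X S
  rw [← Finset.add_sum_erase _ _ (a := 1) (by simp), Finset.sum_congr rfl (g := fun _ => 1) (fun s hs => by
    simp only [Finset.mem_erase, Finset.mem_filter] at hs
    exact Set.ncard_eq_one.2 ⟨a, Set.eq_singleton_iff_unique_mem.2 ⟨h1 s hs.2.2, h2 s hs.2.2 hs.1⟩⟩),
    Finset.sum_const, Finset.card_erase_of_mem (by simp), fixedBy_one_eq_univ, Set.ncard_univ,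
    ← Fintype.card_subtype, ← Nat.card_eq_fintype_card, smul_eq_mul, mul_one] at h3
  have h4 : 0 < Nat.card S := Nat.card_pos
  have h5 : 0 < Nat.card X := have : Nonempty X := ⟨a⟩; Nat.card_pos
  exact (Nat.dvd_add_iff_left dvd_rfl).2 ⟨orb X S, by rw [mul_comm, h3]; omega⟩

theorem syl_card {p k m : ℕ} [hp : Fact p.Prime] (P : Sylow p G) (h : Nat.card G = p ^ k * m) (hm : ¬ p ∣ m) :
    Nat.card P = p ^ k := by
  rw [P.card_eq_multiplicity, h, Nat.factorization_mul (pow_ne_zero _ hp.out.ne_zero) (fun e => hm (by simp [e])),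
    Finsupp.add_apply, Nat.factorization_eq_zero_of_not_dvd hm, hp.out.factorization_pow]
  simp

theorem le_norm {H K : Subgroup G} (h : H ≤ K) {p : ℕ} (hc : Nat.card K = p * Nat.card H)
    (hp : p = (Nat.card K).minFac) : K ≤ normalizer H := by
  have h1 := (H.subgroupOf K).index_mul_card
  rw [Nat.card_congr (subgroupOfEquivOfLe h).toEquiv, hc] at h1
  exact (normal_subgroupOf_iff_le_normalizer h).1
    (normal_of_index_eq_minFac_card ((Nat.eq_of_mul_eq_mul_right Nat.card_pos h1).trans hp))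

theorem sq_le {p : ℕ} [Fact p.Prime] {P : Subgroup G} (h : Nat.card P = p ^ 2) {x : G} (hx : x ∈ P) :
    P ≤ centralizer {x} := fun y hy =>
  haveI := IsPGroup.isMulCommutative_of_card_eq_prime_sq h
  mem_centralizer_singleton_iff.2 (congrArg Subtype.val (mul_comm' (⟨y, hy⟩ : P) ⟨x, hx⟩))

theorem ex_pow {p : ℕ} (hp : p.Prime) {y : G} (h : y ^ p ^ 2 = 1) (h1 : y ≠ 1) : ∃ k, orderOf (y ^ k) = p := by
  have := Fact.mk hp
  by_cases e : y ^ p = 1
  · exact ⟨1, by rw [pow_one]; exact orderOf_eq_prime e h1⟩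
  · exact ⟨p, orderOf_eq_prime (by rw [← pow_mul, ← sq, h]) e⟩

theorem ex_ord (H : Subgroup G) (p : ℕ) [Fact p.Prime] (h : p ∣ Nat.card H) : ∃ x ∈ H, orderOf x = p :=
  let ⟨x, hx⟩ := exists_prime_orderOf_dvd_card' p h
  ⟨x, x.2, by rw [orderOf_coe, hx]⟩

theorem one_syl [IsSimpleGroup G] {p : ℕ} [Fact p.Prime] (P : Sylow p G) (h : Nat.card (Sylow p G) = 1) :
    Nat.card P = 1 ∨ Nat.card P = Nat.card G := by
  have := (Nat.card_eq_one_iff_unique.1 h).1
  rcases (Sylow.normal_of_subsingleton P).eq_bot_or_eq_top with e | e <;> simp [e]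

theorem k720 [IsSimpleGroup G] (hc : Nat.card G = 720)
    (h3 : ∀ x : G, orderOf x = 3 → Nat.card (centralizer ({x} : Set G)) = 18) : False := by
  have := Fact.mk Nat.prime_three
  have c9 : ∀ P : Sylow 3 G, Nat.card P = 3 ^ 2 := fun P => syl_card P (m := 80) hc (by norm_num)
  have uq : ∀ (P Q : Sylow 3 G) (x : G), orderOf x = 3 → x ∈ P → x ∈ Q → Q = P ∧ centralizer {x} ≤ stabilizer G P :=
    fun P Q x hx h1 h2 => by
    have h4 := le_norm (sq_le (c9 P) h1) (p := 2) (by rw [h3 x hx, c9]; rfl) (by rw [h3 x hx]; decide)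
    obtain ⟨h, k1, k2⟩ := sylow_conj_in P Q _ (sq_le (c9 P) h1) (sq_le (c9 Q) h2)
    exact ⟨k2.symm.trans (Sylow.smul_eq_iff_mem_normalizer.2 (h4 k1)), P.stabilizer_eq_normalizer ▸ h4⟩
  obtain ⟨P⟩ : Nonempty (Sylow 3 G) := inferInstance
  have h5 := semi (P : Subgroup G) P (fun s hs => Sylow.smul_eq_iff_mem_normalizer.2 (le_normalizer hs))
    fun s hs h1 Q h2 => by
      obtain ⟨k, hk⟩ := ex_pow Nat.prime_three (pow_mem_card (c9 P) hs) h1
      exact (uq P Q _ hk (pow_mem hs k) (pow_mem (mem_of_smul_eq (pe_of_mem P.2 hs) h2) k)).1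
  have h6 := P.card_dvd_index
  have h7 := (P : Subgroup G).index_mul_card
  rw [c9, hc] at h7
  rw [show (P : Subgroup G).index = 80 by omega] at h6
  have h8 := mt (one_syl P) (by rw [c9, hc]; decide)
  rw [c9] at h5
  have h9 : Nat.card (Sylow 3 G) = 10 := by
    exact (by decide : ∀ n ∈ Nat.divisors 80, 3 ^ 2 ∣ n - 1 → ¬n = 1 → n = 10) _
      (Nat.mem_divisors.2 ⟨h6, by decide⟩) h5 h8
  obtain ⟨x, hx, ox⟩ := ex_ord (P : Subgroup G) 3 (by rw [c9]; decide)
  obtain ⟨t, ht, ot⟩ := ex_ord (centralizer {x}) 2 (by rw [h3 x ox]; decide)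
  have a1 := four_dvd (by rw [hc]; decide) (Sylow 3 G) (ot ▸ pow_orderOf_eq_one t)
  have a2 := fix_mod (p := 3) (Sylow 3 G) (mem_centralizer_singleton_iff.1 ht).symm (ox ▸ pow_orderOf_eq_one x)
  rw [show fixedBy (Sylow 3 G) t ∩ fixedBy (Sylow 3 G) x = {P} from Set.eq_singleton_iff_unique_mem.2
    ⟨⟨(uq P P x ox hx hx).2 ht, Sylow.smul_eq_iff_mem_normalizer.2 (le_normalizer hx)⟩, fun Q hQ =>
      (uq P Q x ox hx (mem_of_smul_eq (pe_of_mem P.2 hx) hQ.2)).1⟩, Set.ncard_singleton] at a2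
  have a3 := fix_mod (p := 2) (Sylow 3 G) (Commute.one_right t) (ot ▸ pow_orderOf_eq_one t)
  rw [fixedBy_one_eq_univ, Set.univ_inter, Set.ncard_univ, h9] at a3
  have a4 : (fixedBy (Sylow 3 G) t).ncard < 10 := by
    rw [← h9, ← Set.ncard_univ]
    refine Set.ncard_lt_ncard (Set.ssubset_univ_iff.2 fun e => h8 (Nat.card_eq_one_iff_exists.2 ⟨P, fun Q => ?_⟩))
    obtain ⟨g, rfl⟩ := exists_smul_eq G P Q
    exact triv (fun e => by simp [e] at ot) (fun a => (e ▸ Set.mem_univ a : a ∈ fixedBy _ t)) g P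
  rw [h9] at a1
  generalize (fixedBy (Sylow 3 G) t).ncard = n at *
  interval_cases n <;> simp_all (config := {decide := true})

theorem k756 [IsSimpleGroup G] (hc : Nat.card G = 756) {x : G} (hx : orderOf x = 3)
    (h : Nat.card (centralizer ({x} : Set G)) = 18) (hr : IsConj x x⁻¹) : False := by
  have := Fact.mk Nat.prime_three
  obtain ⟨E0, hE0⟩ := Sylow.exists_subgroup_card_pow_prime (G := centralizer ({x} : Set G)) 3 (n := 2) (by rw [h]; decide)
  set E := E0.map (centralizer ({x} : Set G)).subtype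
  have cE : Nat.card E = 3 ^ 2 := by rw [card_map_of_injective (subtype_injective _), hE0]
  have i2 : E0.index = 2 := by have := E0.index_mul_card; rw [hE0, h] at this; omega
  have mE : ∀ y ∈ centralizer ({x} : Set G), y ^ 9 = 1 → y ∈ E := fun y hy e => by
    have := pow_mem (mem_map_of_mem (centralizer ({x} : Set G)).subtype (sq_mem_of_index_two i2 ⟨y, hy⟩)) 5
    rwa [map_pow, ← pow_mul, show 2 * 5 = 9 + 1 by rfl, pow_succ, subtype_apply, e, one_mul] at this
  have m3 : ∀ g ∈ normalizer (zpowers x : Set G), g * x * g⁻¹ = x ∨ g * x * g⁻¹ = x⁻¹ := fun g hg =>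
    (mem3 hx ((hg x).1 (mem_zpowers x))).resolve_left fun e => by
      rw [conj_eq_one_iff.1 e] at hx; simp at hx
  have k1 : normalizer (zpowers x : Set G) ≤ normalizer (E : Set G) := fun g hg => by
    refine mem_normalizer_fintype fun y hy => mE _ ?_ (by rw [conj_pow, pow_mem_card (n := 9) cE hy]; simp)
    have c := mem_centralizer_singleton_iff.1 (map_subtype_le E0 hy)
    have c' : Commute (g * y * g⁻¹) (g * x * g⁻¹) := by
      rw [Commute, SemiconjBy, conj_mul, conj_mul, c]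
    rcases m3 g hg with e | e <;> rw [e] at c'
    · exact mem_centralizer_singleton_iff.2 c'
    · exact mem_centralizer_singleton_iff.2 (Commute.inv_right_iff.1 c')
  have k2 := cls (normalizer (zpowers x : Set G)) x
  obtain ⟨g, hg⟩ := isConj_iff.1 hr
  rw [inf_eq_right.2 (fun y hy => mem_normalizer_fintype (by
    rintro _ ⟨k, rfl⟩
    exact ⟨k, (cm.2 ((show Commute y x from mem_centralizer_singleton_iff.1 hy).zpow_right k)).symm⟩)), h,
    show {y | ∃ h ∈ normalizer (zpowers x : Set G), h * x * h⁻¹ = y} = {x, x⁻¹} from Set.ext fun y =>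
      ⟨by rintro ⟨g, hg, rfl⟩; exact m3 g hg, by
        rintro (rfl | rfl)
        · exact ⟨1, one_mem _, by simp⟩
        · refine ⟨g, mem_normalizer_fintype ?_, hg⟩
          rintro _ ⟨k, rfl⟩
          rw [← conj_zpow, hg]
          exact zpow_mem (inv_mem (mem_zpowers x)) k⟩, Set.ncard_pair (ne_inv3 hx)] at k2
  obtain ⟨P, p1, p2⟩ := Sylow.exists_subgroup_card_pow_prime_le 3 (n := 2) (m := 3) (by rw [hc]; decide) E cE (by decide)
  have k3 := card_dvd_of_le (le_norm p2 (p := 3) (by rw [p1, cE]; rfl) (by rw [p1]; norm_num))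
  have k4 := card_dvd_of_le k1
  have k5 := (normalizer (E : Set G)).index_mul_card
  rw [← k2] at k4
  rw [p1] at k3
  have k6 := dvd_fact (H := normalizer (E : Set G)) fun e => by
    rcases (normalizer_eq_top_iff.1 e).eq_bot_or_eq_top with e | e <;> rw [e] at cE <;> simp [hc] at cE
  obtain ⟨m, hm⟩ : 108 ∣ Nat.card (normalizer (E : Set G)) := Nat.lcm_dvd k3 k4
  rw [hm, hc] at k5
  have k7 : (normalizer (E : Set G)).index ∣ 7 := ⟨m, by linarith⟩
  rw [hc] at k6
  rcases (Nat.dvd_prime (by norm_num)).1 k7 with e | e <;> rw [e] at k6 <;> revert k6 <;> decide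

theorem k15600 [IsSimpleGroup G] (hc : Nat.card G = 15600)
    (c5 : ∀ y : G, orderOf y = 5 → Nat.card (centralizer ({y} : Set G)) = 25) {x : G} (hx : orderOf x = 3)
    (c3 : Nat.card (centralizer ({x} : Set G)) = 6) : False := by
  have := Fact.mk Nat.prime_five
  have c9 : ∀ P : Sylow 5 G, Nat.card P = 5 ^ 2 := fun P => syl_card P (m := 624) hc (by norm_num)
  have cen : ∀ (P : Sylow 5 G), ∀ y ∈ P, y ≠ 1 → centralizer {y} ≤ (P : Subgroup G) := fun P y hy h1 g hg => by
    obtain ⟨k, hk⟩ := ex_pow Nat.prime_five (pow_mem_card (c9 P) hy) h1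
    rw [eq_of_le_of_card_ge (sq_le (c9 P) (pow_mem hy k)) (by rw [c5 _ hk, c9]; rfl)]
    exact mem_centralizer_singleton_iff.2 ((show Commute g y from mem_centralizer_singleton_iff.1 hg).pow_right k)
  have fx : ∀ P : Sylow 5 G, ∀ s ∈ P, s • P = P := fun P s hs => Sylow.smul_eq_iff_mem_normalizer.2 (le_normalizer hs)
  have sr : ∀ P : Sylow 5 G, ∀ s ∈ P, s ≠ 1 → ∀ Q : Sylow 5 G, s • Q = Q → Q = P := fun P s hs h1 Q h2 =>
    Sylow.ext (Q.3 P.2 ((sq_le (c9 Q) (mem_of_smul_eq (pe_of_mem P.2 hs) h2)).trans (cen P s hs h1))).symm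
  obtain ⟨P⟩ : Nonempty (Sylow 5 G) := inferInstance
  have h5 := semi (P : Subgroup G) P (fx P) (sr P)
  have h6 := P.card_dvd_index
  have h7 := (P : Subgroup G).index_mul_card
  rw [c9, hc] at h7
  rw [show (P : Subgroup G).index = 624 by omega] at h6
  have h8 := mt (one_syl P) (by rw [c9, hc]; decide)
  rw [c9] at h5
  have h9 : Nat.card (Sylow 5 G) = 26 := by
    exact (by decide +kernel : ∀ n ∈ Nat.divisors 624, 5 ^ 2 ∣ n - 1 → ¬n = 1 → n = 26) _
      (Nat.mem_divisors.2 ⟨h6, by decide⟩) h5 h8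
  have three : ∀ (g : G) (Q R : Sylow 5 G), Q ≠ P → R ≠ P → Q ≠ R → g • P = P → g • Q = Q → g • R = R → g = 1 :=
    fun g Q R a1 a2 a3 b1 b2 b3 => by
    have o1 := orbs (P : Subgroup G) Q
    rw [c9, (eq_bot_iff_forall ((P : Subgroup G) ⊓ stabilizer G Q)).2 fun s hs => by_contra fun e => a1 (sr P s hs.1 e Q hs.2), card_bot, mul_one] at o1
    have o2 : orbit (P : Subgroup G) Q = {P}ᶜ := Set.eq_of_subset_of_ncard_le (by
      rintro _ ⟨u, rfl⟩ e
      exact a1 (smul_left_cancel (u : G) (e.trans (fx P u u.2).symm))) (by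
        have := Set.ncard_add_ncard_compl {P}
        rw [Set.ncard_singleton, h9] at this
        omega)
    obtain ⟨⟨u, hu⟩, e⟩ : R ∈ orbit (P : Subgroup G) Q := o2 ▸ a2
    change u • Q = R at e
    have hv : g * u * g⁻¹ ∈ P := ((Sylow.smul_eq_iff_mem_normalizer.1 b1) u).1 hu
    have e2 : u⁻¹ * (g * u * g⁻¹) = 1 := by_contra fun e2 => a1 (sr P _ (mul_mem (inv_mem hu) hv) e2 Q (by
      rw [mul_smul, mul_smul, mul_smul, inv_smul_eq_iff.2 b2.symm, e, b3, inv_smul_eq_iff, e]))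
    by_contra e3
    exact a1 (sr P g (cen P u hu (fun e4 => a3 (by rw [← e, e4, one_smul])) (mem_centralizer_singleton_iff.2
      (cm.1 (inv_mul_eq_one.1 e2).symm))) e3 Q b2)
  have k1 := cls ⊤ x
  rw [top_inf_eq, c3, card_top, hc] at k1
  set T := {y | ∃ h ∈ (⊤ : Subgroup G), h * x * h⁻¹ = y}
  have t3 : ∀ y ∈ T, y⁻¹ = y * y := by
    rintro _ ⟨h, -, rfl⟩
    refine inv_eq_of_mul_eq_one_left ?_
    rw [← pow_three', conj_pow, ← hx, pow_orderOf_eq_one]
    simp
  have k2 := Set.ncard_le_ncard (s := T ∩ stabilizer G P) Set.inter_subset_right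
  have k3 := (stabilizer G P).index_mul_card
  rw [index_stabilizer_of_transitive, h9, hc] at k3
  have k4 := Set.ncard_le_ncard_of_injOn (s := T \ stabilizer G P) (t := Set.univ) (fun y => (y⁻¹ • P, y • P))
    (fun _ _ => trivial) fun y hy z hz e => by
      obtain ⟨e1, e2⟩ := Prod.ext_iff.1 e
      simp only at e1 e2
      have n1 : y • P ≠ P := hy.2
      refine (inv_mul_eq_one.1 (three _ (y • P) (y⁻¹ • P) n1 (fun e => n1 (inv_smul_eq_iff.1 e).symm)
        (fun e => n1 ?_) ?_ ?_ ?_)).symm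
      · rw [t3 y hy.1, mul_smul] at e
        exact (smul_left_cancel y e).symm
      · rw [mul_smul, e2, inv_smul_smul]
      · rw [mul_smul, ← mul_smul y, ← t3 y hy.1, e1, e2, inv_smul_eq_iff, ← mul_smul, ← t3 z hz.1]
      · rw [mul_smul, smul_inv_smul, e1]
  rw [Set.ncard_univ, Nat.card_prod, h9] at k4
  have k5 := Set.ncard_inter_add_ncard_sdiff_eq_ncard T (stabilizer G P)
  change _ ≤ Nat.card (stabilizer G P) at k2
  omega

end Cfsg.Agent.H3.KK
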