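import Cfsg.Agent.H3.KK1

/-! No simple group of order 1512 with given centralizer data. -/

set_option autoImplicit false
set_option linter.unusedSectionVars false

namespace Cfsg.Agent.H3.KK

open Subgroup MulAction L0.EP AS MR
open scoped Pointwise

variable {G : Type*} [Group G] [Finite G]

theorem tr_pow {H : Subgroup G} {A : Type*} [CommGroup A] (ϕ : H →* A) {x : G} (hx : x ∈ H)
    (key : ∀ (k : ℕ) (g : G) (hk : g⁻¹ * x ^ k * g ∈ H), ϕ ⟨_, hk⟩ = ϕ ⟨x, hx⟩ ^ k) :
    MonoidHom.transfer ϕ x = ϕ ⟨x, hx⟩ ^ H.index := by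
  classical
  have := Fintype.ofFinite (Quotient (orbitRel (zpowers x) (G ⧸ H)))
  rw [MonoidHom.transfer_eq_prod_quotient_orbitRel_zpowers_quot, index_eq_sum_minimalPeriod H x,
    ← Finset.prod_pow_eq_pow_sum]
  exact Finset.prod_congr rfl fun _ _ => key _ _ _

theorem fix3' {x g : G} (hx : orderOf x = 3) (hr : ¬ IsConj x x⁻¹) {y : G} (hy : y ∈ zpowers x)
    (h : g * y * g⁻¹ ∈ zpowers x) : g * y * g⁻¹ = y := by
  rcases mem3 hx hy with rfl | rfl | rfl
  · simp
  · rcases mem3 hx h with e | e | e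
    · rw [conj_eq_one_iff.1 e]; simp
    · exact e
    · exact absurd (isConj_iff.2 ⟨g, e⟩) hr
  · rcases mem3 hx h with e | e | e
    · rw [conj_eq_one_iff.1 e]; simp
    · exact absurd (isConj_iff.2 ⟨g, e⟩).symm hr
    · exact e

theorem k1512 [IsSimpleGroup G] (hc : Nat.card G = 1512) (h4 : ∀ g : G, orderOf g ≠ 4)
    (h2 : ∀ s t : G, orderOf s = 2 → orderOf t = 2 → IsConj s t)
    (c2 : ∀ t : G, orderOf t = 2 → Nat.card (centralizer ({t} : Set G)) = 24)
    (hr : ∀ x t : G, orderOf x = 3 → orderOf t = 2 → Commute x t → ¬ IsConj x x⁻¹) : False := by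
  have := Fact.mk Nat.prime_three
  have c8 : ∀ S : Sylow 2 G, Nat.card S = 2 ^ 3 := fun S => syl_card S (m := 189) hc (by norm_num)
  have sq : ∀ S : Sylow 2 G, ∀ s ∈ S, s * s = 1 := fun S s hs => by
    have a1 := pow_mem_card (c8 S) hs
    have a2 : s ^ 4 = 1 := by_contra fun e => h4 (s ^ 2) (orderOf_eq_prime_pow (p := 2) (n := 1)
      (by rwa [← pow_mul]) (by rwa [← pow_mul]))
    exact by_contra fun e => h4 s (orderOf_eq_prime_pow (p := 2) (n := 1) (by rwa [pow_one, pow_two]) a2)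
  have o2 : ∀ S : Sylow 2 G, ∀ s ∈ S, s ≠ 1 → orderOf s = 2 := fun S s hs h1 =>
    orderOf_eq_prime (by rw [pow_two, sq S s hs]) h1
  have le : ∀ S : Sylow 2 G, ∀ s ∈ S, (S : Subgroup G) ≤ centralizer {s} := fun S s hs y hy =>
    mem_centralizer_singleton_iff.2 (comm4 (sq S) hy hs)
  have nm : ∀ S : Sylow 2 G, ∀ z ∈ S, z ≠ 1 → centralizer {z} ≤ stabilizer G S := fun S z hz h1 => by
    have oz := o2 S z hz h1
    have cz := c2 z oz
    obtain ⟨T⟩ : Nonempty (Sylow 3 (centralizer ({z} : Set G))) := inferInstance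
    have cT : Nat.card T = 3 ^ 1 := syl_card T (m := 8) cz (by norm_num)
    obtain ⟨x, hx, ox⟩ := ex_ord (T : Subgroup (centralizer ({z} : Set G))) 3 (by rw [cT]; decide)
    have eT : zpowers x = T := eq_of_le_of_card_ge (zpowers_le.2 hx) (by rw [cT, Nat.card_zpowers, ox]; rfl)
    have ox' : orderOf (x : G) = 3 := by rw [orderOf_coe, ox]
    have mT : ∀ y ∈ T, (y : G) ∈ zpowers (x : G) := fun y hy => by
      obtain ⟨k, rfl⟩ : y ∈ zpowers x := eT ▸ hy
      exact ⟨k, by simp⟩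
    have hT : normalizer (T : Set (centralizer ({z} : Set G))) ≤ centralizer T := fun g hg y hy =>
      Subtype.ext (mul_inv_eq_iff_eq_mul.1 (fix3' ox' (hr x z ox' oz (mem_centralizer_singleton_iff.1 x.2))
        (mT y hy) (mT _ ((hg y).1 hy)))).symm
    have k1 := MonoidHom.ker_transferSylow_isComplement' T hT
    have k2 := k1.card_mul_card
    rw [cT, cz] at k2
    have k3 : (S : Subgroup G).subgroupOf (centralizer {z}) = (MonoidHom.transferSylow T hT).ker :=
      eq_of_le_of_card_ge (fun s hs => by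
        have := pow_index_mem (H := (MonoidHom.transferSylow T hT).ker) s
        rwa [k1.symm.index_eq_card, cT, pow_one, pow_three, show s * s = 1 from Subtype.ext (sq S s hs),
          mul_one] at this) (by
        rw [Nat.card_congr (subgroupOfEquivOfLe (le S z hz)).toEquiv, c8]; omega)
    rw [Sylow.stabilizer_eq_normalizer]
    exact (normal_subgroupOf_iff_le_normalizer (le S z hz)).1 (k3 ▸ inferInstance)
  obtain ⟨S⟩ : Nonempty (Sylow 2 G) := inferInstance
  obtain ⟨z, hz, oz⟩ := ex_ord (S : Subgroup G) 2 (by rw [c8]; decide)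
  have z1 : z ≠ 1 := fun e => by simp [e] at oz
  have k1 := cls (stabilizer G S) z
  rw [inf_eq_right.2 (nm S z hz z1), c2 z oz, show {y | ∃ h ∈ stabilizer G S, h * z * h⁻¹ = y} = (S : Set G) \ {1} from
    Set.ext fun y => ⟨by
      rintro ⟨h, hh, rfl⟩
      exact ⟨((Sylow.smul_eq_iff_mem_normalizer.1 hh) z).1 hz, fun e => z1 (conj_eq_one_iff.1 e)⟩, fun ⟨h1, h1'⟩ => by
      obtain ⟨g, rfl⟩ := isConj_iff.1 (h2 z y oz (o2 S y h1 h1'))
      obtain ⟨h, a1, a2⟩ := sylow_conj_in S (g • S) _ (le S _ h1) (le (g • S) _ ((mem_sylow_smul S g _).2 (by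
        simpa [mul_assoc] using hz)))
      exact ⟨g, a2.symm.trans (nm S _ h1 h1' a1), rfl⟩⟩,
    Set.ncard_sdiff_singleton_of_mem (one_mem S), show (S : Set G).ncard = 8 from c8 S] at k1
  have k2 := (stabilizer G S).index_mul_card
  rw [index_stabilizer_of_transitive, ← k1, hc] at k2
  have h9 : Nat.card (Sylow 2 G) = 9 := by omega
  obtain ⟨x, hx, ox⟩ := ex_ord (centralizer {z}) 3 (by rw [c2 z oz]; decide)
  have xr := hr x z ox oz (mem_centralizer_singleton_iff.1 hx)
  have xS := nm S z hz z1 hx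
  obtain ⟨P, hP⟩ := (IsPGroup.of_card (p := 3) (n := 1) (G := zpowers x) (by simp [ox])).exists_le_sylow
  have xP : x ∈ (P : Subgroup G) := hP (mem_zpowers x)
  have cP : Nat.card P = 3 ^ 3 := syl_card P (m := 56) hc (by norm_num)
  have eP : zpowers x = (P : Subgroup G) ⊓ stabilizer G S := eq_of_le_of_card_ge (zpowers_le.2 ⟨xP, xS⟩) (by
    have := Nat.dvd_gcd (cP ▸ card_dvd_of_le (inf_le_left (a := (P : Subgroup G)) (b := stabilizer G S)))
      (k1 ▸ card_dvd_of_le (inf_le_right (a := (P : Subgroup G)) (b := stabilizer G S)))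
    rw [Nat.card_zpowers, ox]
    exact Nat.le_of_dvd (by decide) this)
  have o1 := orbs (P : Subgroup G) S
  rw [← eP, Nat.card_zpowers, ox, cP] at o1
  have tr : ∀ Q : Sylow 2 G, ∃ u ∈ P, u • S = Q := fun Q => by
    obtain ⟨u, hu⟩ : Q ∈ orbit (P : Subgroup G) S := (Set.eq_of_subset_of_ncard_le (Set.subset_univ
      (orbit (P : Subgroup G) S)) (by rw [Set.ncard_univ, h9]; omega)).ge (Set.mem_univ Q)
    exact ⟨u, u.2, hu⟩
  have : Nontrivial P := Finite.one_lt_card_iff_nontrivial.1 (by rw [cP]; decide)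
  obtain ⟨c, hc1, oc⟩ := ex_ord (center P) 3 (by
    obtain ⟨k, hk⟩ := IsPGroup.iff_card.1 (P.2.to_subgroup (center P))
    have := Finite.one_lt_card_iff_nontrivial.2 P.2.center_nontrivial
    rw [hk] at this ⊢
    exact dvd_pow_self 3 fun e => by simp [e] at this)
  have hle : zpowers c ≤ center P := zpowers_le.2 hc1
  have : (zpowers c).Normal := ⟨fun y hy g => by rwa [mem_center_iff.1 (hle hy) g, mul_inv_cancel_right]⟩
  have cQ : Nat.card (P ⧸ zpowers c) = 3 ^ 2 := by
    have := (zpowers c).index_mul_card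
    rw [Nat.card_zpowers, oc, cP, index] at this
    omega
  have := IsPGroup.isMulCommutative_of_card_eq_prime_sq cQ
  let _ : CommGroup (P ⧸ zpowers c) := { QuotientGroup.Quotient.group _ with mul_comm := mul_comm' }
  have t1 := tr_pow (QuotientGroup.mk' (zpowers c)) xP fun k g hk => by
    obtain ⟨u, hu, e⟩ := tr (g⁻¹ • S)
    have a1 : (g * u)⁻¹ * x ^ k * (g * u)⁻¹⁻¹ ∈ zpowers x := by
      rw [eP]
      refine ⟨by simpa [mul_assoc] using mul_mem (mul_mem (inv_mem hu) hk) hu, ?_⟩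
      change _ • S = S
      rw [inv_inv, mul_smul, mul_smul, mul_smul, e, smul_inv_smul, (pow_mem xS k : _ • S = S), inv_smul_eq_iff,
        mul_smul, e, smul_inv_smul]
    have a2 := fix3' ox xr (pow_mem (mem_zpowers x) k) a1
    rw [show (⟨_, hk⟩ : P) = ⟨u, hu⟩ * ⟨x, xP⟩ ^ k * ⟨u, hu⟩⁻¹ from Subtype.ext (by
      change g⁻¹ * x ^ k * g = u * x ^ k * u⁻¹
      conv_rhs => rw [← a2]
      group), map_mul, map_mul, map_inv, mul_inv_cancel_comm, map_pow]
  have t2 := (P : Subgroup G).index_mul_card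
  rw [cP, hc] at t2
  rw [hom_one (by rw [cQ, hc]; decide), show (P : Subgroup G).index = 56 by omega] at t1
  have t3 : QuotientGroup.mk' (zpowers c) ⟨x, xP⟩ = 1 := cop t1.symm (n := 3) (by
    rw [← map_pow, show (⟨x, xP⟩ : P) ^ 3 = 1 from Subtype.ext (show x ^ 3 = 1 from ox ▸ pow_orderOf_eq_one x), map_one])
  have t4 := mem_center_iff.1 (hle ((QuotientGroup.eq_one_iff _).1 t3))
  rw [Nat.card_eq_one_iff_exists.2 ⟨S, fun Q => ?_⟩] at h9
  · omega
  obtain ⟨g, rfl⟩ := exists_smul_eq G S Q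
  refine triv (t := x) (fun e => by simp [e] at ox) (fun Q => ?_) g S
  obtain ⟨u, hu, rfl⟩ := tr Q
  rw [← mul_smul, ← show u * x = x * u from congrArg Subtype.val (t4 ⟨u, hu⟩), mul_smul, (xS : x • S = S)]

end Cfsg.Agent.H3.KK
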