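import Cfsg.Agent.H3.AS3
import Cfsg.Agent.L0.EP.A0

/-! A simple group with the class data of `M₁₁` has a subgroup of index at most eleven. -/

set_option autoImplicit false
set_option linter.unusedSectionVars false

namespace Cfsg.Agent.H3.MR

open Subgroup MulAction L0.EP AS
open scoped Pointwise

variable {G : Type*} [Group G] [Finite G]

theorem orbs {X : Type*} [MulAction G X] (S : Subgroup G) (x : X) :
    (orbit S x).ncard * Nat.card ↥(S ⊓ stabilizer G x) = Nat.card S := by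
  rw [← (stabilizer S x).index_mul_card, index_stabilizer,
    ← Nat.card_congr (subgroupOfEquivOfLe inf_le_left).toEquiv, inf_subgroupOf_left]
  rfl

theorem eq_of_two {S : Subgroup G} (h : Nat.card S ≤ 2) {a b : G} (ha : a ∈ S) (hb : b ∈ S)
    (h1 : a ≠ 1) (h2 : b ≠ 1) : a = b := by_contra fun e => by
  have := Set.ncard_le_ncard (s := {1, a, b}) (t := S) (by simp [Set.insert_subset_iff, ha, hb])
  rw [Set.ncard_eq_three.2 ⟨_, _, _, h1.symm, h2.symm, e, rfl⟩] at this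
  exact absurd (this.trans h) (by norm_num)

theorem cop {g : G} {m n : ℕ} (h1 : g ^ m = 1) (h2 : g ^ n = 1) (h : m.Coprime n := by norm_num) :
    g = 1 := by simpa [h] using pow_gcd_eq_one.2 ⟨h1, h2⟩

/-- the class data of `M₁₁` -/
structure Hy (G : Type*) [Group G] : Prop where
  card : Nat.card G = 7920
  h2 : ∀ s t : G, orderOf s = 2 → orderOf t = 2 → IsConj s t
  c2 : ∀ t : G, orderOf t = 2 → Nat.card (centralizer ({t} : Set G)) = 48
  h3 : ∀ s t : G, orderOf s = 3 → orderOf t = 3 → IsConj s t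
  c3 : ∀ t : G, orderOf t = 3 → Nat.card (centralizer ({t} : Set G)) = 18
  c5 : ∀ t : G, orderOf t = 5 → Nat.card (centralizer ({t} : Set G)) = 5
  c11 : ∀ t : G, orderOf t = 11 → Nat.card (centralizer ({t} : Set G)) = 11
  ho : ∀ g : G, orderOf g ∈ ({1, 2, 3, 4, 5, 6, 8, 11} : Finset ℕ)

/-- `t` inverts `P` -/
def Inv (t : G) (P : Sylow 3 G) : Prop := ∀ e ∈ P, t * e * t⁻¹ = e⁻¹

theorem Inv.smul {t h : G} {P : Sylow 3 G} (hi : Inv t P) (hc : Commute h t) : Inv t (h • P) :=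
  fun e he => by
    have := hi _ ((H3.mem_sylow_smul P h e).1 he)
    rw [← cm.2 hc, cj, cj, inv_inv, this]
    group

theorem fix3 {P : Sylow 3 G} {g : G} (h : g ^ 3 = 1) (h' : g • P = P) : g ∈ P :=
  mem_of_smul_eq ⟨1, by simpa using h⟩ h'

namespace Hy

variable (H : Hy G)
include H

theorem c9 (P : Sylow 3 G) : Nat.card P = 3 ^ 2 := by
  obtain ⟨k, hk⟩ := IsPGroup.iff_card.1 P.isPGroup'
  have h1 := (P : Subgroup G).index_mul_card
  have h2 := P.not_dvd_index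
  rw [hk, H.card] at h1
  rw [show Nat.card P = 3 ^ k from hk]
  have h3 : ¬ 3 ≤ k := fun e => absurd ((pow_dvd_pow 3 e).trans (Dvd.intro_left _ h1)) (by norm_num)
  interval_cases k <;> omega

theorem o3 {P : Sylow 3 G} {e : G} (he : e ∈ P) (h1 : e ≠ 1) : orderOf e = 3 := by
  have h2 := orderOf_dvd_of_pow_eq_one (pow_mem_card (H.c9 P) he)
  have h3 := H.ho e
  rw [Ne, ← orderOf_eq_one_iff] at h1
  generalize orderOf e = n at *
  simp only [Finset.mem_insert, Finset.mem_singleton] at h3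
  rcases h3 with rfl | rfl | rfl | rfl | rfl | rfl | rfl | rfl <;> simp_all

theorem e3 {P : Sylow 3 G} {e : G} (he : e ∈ P) : e ^ 3 = 1 := by
  by_cases h : e = 1
  · simp [h]
  · exact H.o3 he h ▸ pow_orderOf_eq_one e

theorem cP {P : Sylow 3 G} {a b : G} (ha : a ∈ P) (hb : b ∈ P) : Commute a b :=
  haveI := IsPGroup.isMulCommutative_of_card_eq_prime_sq (H.c9 P)
  congrArg Subtype.val (mul_comm' (⟨a, ha⟩ : P) ⟨b, hb⟩)

theorem sq {P : Sylow 3 G} {e g : G} (he : e ∈ P) (h1 : e ≠ 1) (h : Commute g e) : g ^ 2 ∈ P := by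
  have h2 : (P : Subgroup G) ≤ centralizer {e} := fun a ha => mc.2 (H.cP ha he)
  have := ((P : Subgroup G).subgroupOf (centralizer {e})).index_mul_card
  rw [Nat.card_congr (subgroupOfEquivOfLe h2).toEquiv, show Nat.card (P : Subgroup G) = _ from H.c9 P,
    H.c3 e (H.o3 he h1)] at this
  exact sq_mem_of_index_two (H := (P : Subgroup G).subgroupOf (centralizer {e})) (by omega) ⟨g, mc.2 h⟩

theorem ti {P : Sylow 3 G} {e g : G} (he : e ∈ P) (h1 : e ≠ 1) (h : Commute g e) (h3 : g ^ 3 = 1) :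
    g ∈ P := by
  have := pow_mem (H.sq he h1 h) 2
  rwa [← pow_mul, show 2 * 2 = 3 + 1 from rfl, pow_succ, h3, one_mul] at this

theorem ti2 {P R : Sylow 3 G} {e : G} (he : e ∈ P) (h1 : e ≠ 1) (h : e ∈ R) : R = P :=
  Sylow.ext (R.is_maximal' P.isPGroup' fun _ hg => H.ti he h1 (H.cP hg h) (H.e3 hg)).symm

theorem reg {P R : Sylow 3 G} {e : G} (he : e ∈ P) (h : e • R = R) (h1 : R ≠ P) : e = 1 :=
  by_contra fun h2 => h1 (H.ti2 he h2 (fix3 (H.e3 he) h))

theorem cen {P : Sylow 3 G} {g : G} (h : ∀ e ∈ P, Commute g e) : g ∈ P := by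
  obtain ⟨⟨e, e1⟩, e2⟩ := (ne_bot_iff_exists_ne_one (H := (P : Subgroup G))).1 fun e => by
    simpa [e] using H.c9 P
  replace e2 : e ≠ 1 := by simpa using e2
  refine H.ti e1 e2 (h e e1) (by_contra fun h3 => ?_)
  have := card_dvd_of_le (H := P) (K := centralizer {g ^ 3}) fun a ha => mc.2 ((h a ha).symm.pow_right 3)
  rw [H.c2 _ (orderOf_eq_prime (by rw [← pow_mul, mul_comm, pow_mul]; exact H.e3 (H.sq e1 e2 (h e e1)))
    h3), show Nat.card (P : Subgroup G) = _ from H.c9 P] at this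
  omega

theorem n8 (P : Sylow 3 G) : ((P : Set G) \ {1}).ncard = 8 := by
  rw [Set.ncard_sdiff_singleton_of_mem (one_mem P), show (P : Set G).ncard = _ from H.c9 P]
  rfl

theorem cN (P : Sylow 3 G) : Nat.card (stabilizer G P) = 144 ∧ Nat.card (Sylow 3 G) = 55 := by
  obtain ⟨e, e1, e2⟩ := Set.nonempty_of_ncard_ne_zero (show ((P : Set G) \ {1}).ncard ≠ 0 by simp [H.n8])
  have h1 := cls (stabilizer G P) e
  rw [inf_eq_right.2 fun g hg => H.ti2 e1 e2 (cm.2 (mc.1 hg) ▸ conj_mem_smul e1 g), H.c3 e (H.o3 e1 e2),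
    show {y | ∃ h ∈ stabilizer G P, h * e * h⁻¹ = y} = (P : Set G) \ {1} from Set.ext fun y =>
      ⟨by rintro ⟨g, hg, rfl⟩; exact ⟨conj_mem_of_fix e1 hg, by simpa using e2⟩, fun hy => by
        obtain ⟨g, rfl⟩ := isConj_iff.1 (H.h3 _ _ (H.o3 e1 e2) (H.o3 hy.1 hy.2))
        exact ⟨g, H.ti2 hy.1 hy.2 (conj_mem_smul e1 g), rfl⟩⟩, H.n8] at h1
  have h2 := (stabilizer G P).index_mul_card
  rw [index_stabilizer_of_transitive, H.card, ← h1] at h2
  omega

theorem le2 {S : Subgroup G} (hS : Nat.card S ∣ 16) {e : G} (he : orderOf e = 3) :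
    Nat.card ↥(S ⊓ centralizer {e}) ≤ 2 :=
  Nat.le_of_dvd two_pos (Nat.dvd_gcd ((card_dvd_of_le inf_le_left).trans hS)
    (H.c3 e he ▸ card_dvd_of_le inf_le_right))

theorem trans {P : Sylow 3 G} {S : Subgroup G} (hS : S ≤ stabilizer G P) {e : G} (he : e ∈ P)
    (h1 : e ≠ 1) (h : 8 * Nat.card ↥(S ⊓ centralizer {e}) ≤ Nat.card S) :
    Nat.card S = 8 * Nat.card ↥(S ⊓ centralizer {e}) ∧ ∀ e' ∈ P, e' ≠ 1 → ∃ s ∈ S, s * e * s⁻¹ = e' := by
  have h2 := cls S e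
  have h3 : {y | ∃ h ∈ S, h * e * h⁻¹ = y} ⊆ (P : Set G) \ {1} := by
    rintro _ ⟨g, hg, rfl⟩
    exact ⟨conj_mem_of_fix he (hS hg), by simpa using h1⟩
  have h4 := Set.eq_of_subset_of_ncard_le h3 (H.n8 P ▸ Nat.le_of_mul_le_mul_right (h.trans h2.ge)
    Nat.card_pos)
  exact ⟨by rw [← h2, h4, H.n8], fun e' a b => h4.ge ⟨a, b⟩⟩

theorem two {P q r : Sylow 3 G} {t e e' : G} (h1 : Inv t P) (h2 : Inv t q) (h3 : Inv t r) (tt : t * t = 1)
    (he : e ∈ P) (e1 : e ≠ 1) (he' : e' ∈ r) (e2 : e' ≠ 1) (h : e • q = e' • q) : r = P := by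
  have ti := inv_eq_of_mul_eq_one_left tt
  have k1 : (e⁻¹ * e') • q = q := by rw [mul_smul, ← h, inv_smul_smul]
  have a := h1 e he
  have b := h3 e' he'
  obtain ⟨k, hk⟩ : ∃ k, k = e⁻¹ * e' := ⟨_, rfl⟩
  have c : t * k * t⁻¹ = e * e'⁻¹ := by rw [hk, ← conj_mul, ← conj_inv, a, b, inv_inv]
  have c' : t * k * t = e * e'⁻¹ := by rw [← c, ti]
  rw [← hk] at k1
  have k2 : k⁻¹ * (t * k * t) ∈ q := H.cen fun x hx => cm.1 (by
    rw [cj, cj, cj, h2 x hx, h2 _ (conj_mem_of_fix (inv_mem hx) k1)]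
    group)
  have k3 : k ^ 3 = 1 := by
    have := H.e3 (conj_mem_smul k2 e')
    rwa [c', hk, show e' * ((e⁻¹ * e')⁻¹ * (e * e'⁻¹)) * e'⁻¹ = e⁻¹ * e ^ 3 * (e' ^ 3)⁻¹ * e' by
      simp [pow_succ, mul_assoc], H.e3 he, H.e3 he', mul_one, inv_one, mul_one, ← hk] at this
  have := (h2 k (fix3 k3 k1)).symm.trans c
  exact H.ti2 (H.ti he e1 (g := e') (Commute.inv_left_iff.1 (show e'⁻¹ * e = _ by simpa [hk] using this))
    (H.e3 he')) e2 he'

end Hy

end Cfsg.Agent.H3.MR
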