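import Cfsg.Agent.H3.MR1

/-! The subgroup `M₁₀`. -/

set_option autoImplicit false
set_option linter.unusedSectionVars false

namespace Cfsg.Agent.H3.MR.Hy

open Subgroup MulAction L0.EP AS
open scoped Pointwise

variable {G : Type*} [Group G] [Finite G] (H : Hy G)
include H

theorem inv_of {R : Sylow 3 G} {g : G} (hg : g • R = R) (gg : g * g = 1)
    (h : ∀ e ∈ R, Commute g e → e = 1) : Inv g R := fun e he =>
  eq_inv_of_mul_eq_one_right (h _ (mul_mem he (conj_mem_of_fix he hg)) (cm.1 (by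
    rw [← conj_mul, ← cj, gg, (H.cP he (conj_mem_of_fix he hg)).eq]; simp)))

theorem exists_t (P : Sylow 3 G) : ∃ t, t * t = 1 ∧ t ≠ 1 ∧ Inv t P ∧
    Nat.card ↥(centralizer {t} ⊓ stabilizer G P) = 16 := by
  obtain ⟨S, -, s1, s2⟩ := syl (S := stabilizer G P) (n := 4) (m := 0) (by rw [(H.cN P).1]; norm_num) bot_le
    card_bot (by norm_num)
  obtain ⟨t, t1, ⟨t2, t3⟩, t4⟩ := exists_central_iv (IsPGroup.of_card s2) fun e => by simp [e] at s2
  have h1 : ∀ e ∈ P, Commute t e → e = 1 := fun e he h => by_contra fun h1 => by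
    have := (H.trans s1 he h1 (by have := H.le2 s2.dvd (H.o3 he h1); omega)).2
    refine t3 (cop ((pow_two t).trans t2) (H.e3 (H.cen (P := P) fun x hx => ?_)))
    by_cases h2 : x = 1
    · simp [h2]
    obtain ⟨s, hs, rfl⟩ := this x hx h2
    exact cm.2 (t4 s hs) ▸ h.conj s
  refine ⟨t, t2, t3, H.inv_of (s1 t1) t2 h1, ?_⟩
  have h3 := card_dvd_of_le (H := S) (K := centralizer {t} ⊓ stabilizer G P) fun s hs =>
    ⟨mc.2 (t4 s hs), s1 hs⟩
  have h4 := H.c2 t (ord2 t2 t3) ▸ card_dvd_of_le (inf_le_left (b := stabilizer G P))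
  have h5 : ¬ 3 ∣ Nat.card ↥(centralizer {t} ⊓ stabilizer G P) := fun e => by
    obtain ⟨⟨y, y1⟩, y3⟩ := exists_prime_orderOf_dvd_card' 3 e
    rw [orderOf_mk] at y3
    simp [h1 y (fix3 (y3 ▸ pow_orderOf_eq_one y) y1.2) (mc.1 y1.1).symm] at y3
  have := Nat.le_of_dvd (by norm_num) h4
  obtain ⟨k, hk⟩ := s2 ▸ h3
  rw [hk] at h4 h5 this ⊢
  have : k ≤ 3 := by omega
  interval_cases k <;> simp_all

theorem exists_M : ∃ M : Subgroup G, M ≠ ⊤ ∧ M.index ≤ 11 := by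
  classical
  obtain ⟨P⟩ := Sylow.nonempty (p := 3) (G := G)
  obtain ⟨t, tt, t1, tP, cS⟩ := H.exists_t P
  have t2 := ord2 tt t1
  have ti := inv_eq_of_mul_eq_one_left tt
  have i1 : ∀ {R e}, Inv t R → e ∈ R → Commute t e → e = 1 := fun {R e} h he c =>
    cop ((pow_two e).trans (mul_eq_one_iff_eq_inv.2 ((cm.2 c).symm.trans (h e he)))) (H.e3 he)
  have ex : ∀ R : Sylow 3 G, ∃ e ∈ R, e ≠ 1 := fun R => Set.nonempty_of_ncard_ne_zero
    (show ((R : Set G) \ {1}).ncard ≠ 0 by simp [H.n8])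
  have i2 : ∀ {R}, Inv t R → t • R = R := fun {R} h => by
    obtain ⟨e, e1, e2⟩ := ex R
    exact H.ti2 (inv_mem e1) (by simpa) (h e e1 ▸ conj_mem_smul e1 t)
  have i3 : ∀ {R g}, R ∈ {R | Inv t R} → Commute g t → g ∈ stabilizer G R → (∀ e ∈ R, Commute g e → e = 1) →
      g * g = 1 → g = t := fun {R g} h c hg h1 gg => by
    have : t * g ∈ R := H.cen fun e he => cm.1 (by
      rw [cj, H.inv_of hg gg h1 e he, h _ (inv_mem he), inv_inv])
    exact (eq_inv_of_mul_eq_one_right (i1 h this ((Commute.refl t).mul_right c.symm))).trans ti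
  have T3 : {R | Inv t R}.ncard = 3 := by
    have h1 := orbs (centralizer {t}) P
    rw [cS, H.c2 t t2, show orbit (centralizer ({t} : Set G)) P = {R | Inv t R} from Set.ext fun R =>
      ⟨by rintro ⟨g, rfl⟩; exact tP.smul (mc.1 g.2), fun h => ?_⟩] at h1
    · omega
    obtain ⟨g, rfl⟩ := exists_smul_eq G P R
    have h2 : t * (g⁻¹ * t * g) ∈ P := H.cen fun e he => cm.1 (by
      rw [cj, cj, cj, h _ (conj_mem_smul he g), ← conj_inv, ← cj g⁻¹]
      simpa using tP _ (inv_mem he))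
    have h3 := tP _ h2
    refine ⟨⟨g * (t * (g⁻¹ * t * g)), mc.2 ?_⟩, show (g * _) • P = _ by rw [mul_smul, smul_eq_of_mem h2]⟩
    have h4 := H.e3 h2
    generalize hc : t * (g⁻¹ * t * g) = c at *
    have h5 : g * (t * c) * g⁻¹ = t := by rw [← hc, ← mul_assoc t, tt]; group
    rw [← cm, cj]
    nth_rw 2 [← h5]
    congr 2
    rw [show c * t * c⁻¹ = t * (t * c * t⁻¹) * c⁻¹ by simp [← mul_assoc, tt, ti], h3, mul_assoc,
      ← mul_inv_rev, inv_eq_of_mul_eq_one_left ((pow_three c).symm.trans h4)]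
  obtain ⟨⟨y, y1⟩, y3⟩ := exists_prime_orderOf_dvd_card' (G := centralizer ({t} : Set G)) 3
    (by simp [H.c2 t t2])
  rw [orderOf_mk] at y3
  replace y1 := mc.1 y1
  have y0 : y ≠ 1 := by rintro rfl; simp at y3
  have yy : y ^ 3 = 1 := y3 ▸ pow_orderOf_eq_one y
  have y4 : ∀ {R}, Inv t R → y • R ≠ R := fun h e => y0 (i1 h (fix3 yy e) y1.symm)
  obtain ⟨q, hq⟩ : ∃ q, q = y • P := ⟨_, rfl⟩
  obtain ⟨r, hr⟩ : ∃ r, r = y • q := ⟨_, rfl⟩
  have tq : Inv t q := hq ▸ tP.smul y1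
  have tr : Inv t r := hr ▸ tq.smul y1
  have pq : q ≠ P := hq ▸ y4 tP
  have qr : r ≠ q := hr ▸ y4 tq
  have pr : r ≠ P := fun e => pq (by
    rw [hq, ← e, hr, hq, smul_smul, smul_smul, ← pow_three', yy, one_smul, ← hq, ← hr, e])
  have T4 : ∀ R, Inv t R → R = P ∨ R = q ∨ R = r := fun R h => (Set.eq_of_subset_of_ncard_le
    (s := {P, q, r}) (t := {R | Inv t R}) (by simp [Set.insert_subset_iff, tP, tq, tr]) (by
      rw [T3, Set.ncard_eq_three.2 ⟨_, _, _, pq.symm, pr.symm, qr.symm, rfl⟩])).ge h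
  obtain ⟨S, hS⟩ : ∃ S, S = centralizer {t} ⊓ stabilizer G P := ⟨_, rfl⟩
  rw [← hS] at cS
  have S1 : S ≤ stabilizer G P := hS ▸ inf_le_right
  have S2 : ∀ g, g ∈ S ↔ Commute g t ∧ g • P = P := fun g => by simp only [hS, mem_inf, mc]; rfl
  obtain ⟨Q, hQ⟩ : ∃ Q, Q = S ⊓ stabilizer G q := ⟨_, rfl⟩
  have Q1 : Q ≤ S := hQ ▸ inf_le_left
  have Q2 : ∀ g, g ∈ Q ↔ g ∈ S ∧ g • q = q := fun g => by simp only [hQ, mem_inf]; rfl
  have Q3 : ∀ g ∈ Q, ∀ R, Inv t R → g • R = R := fun g hg R h => by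
    obtain ⟨⟨a, b⟩, c⟩ := (S2 g).1 (Q1 hg), ((Q2 g).1 hg).2
    rcases T4 R h with rfl | rfl | rfl
    exacts [b, c, ((T4 _ (h.smul a)).resolve_left fun e => pr (smul_left_cancel g (e.trans b.symm))).resolve_left
      fun e => qr (smul_left_cancel g (e.trans c.symm))]
  have Q4 : ∀ g ∈ Q, ∀ h, Commute h t → h * g * h⁻¹ ∈ Q := fun g hg h c => by
    have : ∀ R, Inv t R → (h * g * h⁻¹) • R = R := fun R hR => by
      rw [mul_smul, mul_smul, Q3 g hg _ (hR.smul c.inv_left), smul_inv_smul]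
    exact (Q2 _).2 ⟨(S2 _).2 ⟨(c.mul_left ((S2 g).1 (Q1 hg)).1).mul_left c.inv_left, this P tP⟩, this q tq⟩
  have Q5 : 8 ≤ Nat.card Q := by
    have h1 := orbs S q
    have := Set.ncard_le_ncard (s := orbit S q) (t := {q, r}) (by
      rintro _ ⟨⟨g, hg⟩, rfl⟩
      exact (T4 _ (tq.smul ((S2 g).1 hg).1)).resolve_left fun e =>
        pq (smul_left_cancel g (e.trans ((S2 g).1 hg).2.symm)))
    rw [Set.ncard_pair qr.symm] at this
    rw [← hQ, cS] at h1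
    nlinarith
  have Q6 : Nat.card Q ∣ 16 := cS ▸ card_dvd_of_le Q1
  have tQ : t ∈ Q := (Q2 t).2 ⟨(S2 t).2 ⟨rfl, i2 tP⟩, i2 tq⟩
  have tr1 := fun e he h1 => H.trans S1 (e := e) he h1 (by have := H.le2 cS.dvd (H.o3 he h1); omega)
  have rf : ∀ g ∈ S, g * g = 1 → g ≠ t → ∃ e ∈ P, e ≠ 1 ∧ Commute g e := fun g hg gg h => by
    by_contra! hn
    exact h (i3 tP ((S2 g).1 hg).1 (S1 hg) (fun e he c => by_contra fun h => hn e he h c) gg)
  have Q7 : ∀ u ∈ Q, u * u = 1 → u ≠ 1 → u = t := fun u hu uu u1 => by_contra fun u2 => by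
    obtain ⟨e, e1, e2, e3⟩ := rf u (Q1 hu) uu u2
    have X : ∀ g, (∃ s ∈ S, s * u * s⁻¹ = g) ↔ g ∈ Q ∧ g * g = 1 ∧ g ≠ 1 ∧ g ≠ t := fun g => ⟨by
      rintro ⟨s, hs, rfl⟩
      exact ⟨Q4 u hu s ((S2 s).1 hs).1, by simp [uu], by simpa, fun e => u2 (conj_injective
        (e.trans (cm.2 ((S2 s).1 hs).1).symm))⟩, fun ⟨a, b, c, d⟩ => by
          obtain ⟨f, f1, f2, f3⟩ := rf g (Q1 a) b d
          obtain ⟨s, hs, rfl⟩ := (tr1 e e1 e2).2 f f1 f2
          exact ⟨s, hs, eq_of_two (H.le2 cS.dvd (H.o3 f1 f2)) ⟨S.mul_mem (S.mul_mem hs (Q1 hu)) (S.inv_mem hs),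
            mc.2 (e3.conj s)⟩ ⟨Q1 a, mc.2 f3⟩ (by simpa) c⟩⟩
    have := Fintype.ofFinite {g // g ∈ Q ∧ g * g = 1 ∧ g ≠ 1 ∧ g ≠ t}
    have c : ∀ h g, Commute h t → g ∈ Q ∧ g * g = 1 ∧ g ≠ 1 ∧ g ≠ t → h * g * h⁻¹ ∈ Q ∧
        h * g * h⁻¹ * (h * g * h⁻¹) = 1 ∧ h * g * h⁻¹ ≠ 1 ∧ h * g * h⁻¹ ≠ t := fun h g c ⟨a, b, d, f⟩ =>
      ⟨Q4 g a h c, by simp [b], by simpa, fun e => f (conj_injective (e.trans (cm.2 c).symm))⟩
    obtain ⟨⟨g, g1, g2, g3, g4⟩, g5⟩ := Equiv.Perm.exists_fixed_point_of_prime (p := 3) (n := 1)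
      (σ := Equiv.Perm.subtypePerm (p := fun g => g ∈ Q ∧ g * g = 1 ∧ g ≠ 1 ∧ g ≠ t)
        (MulAut.conj y).toEquiv fun g => ⟨fun h => by simpa [mul_assoc] using c y⁻¹ _ y1.inv_left h,
          c y g y1⟩) (fun h => by
        have h1 := cls S u
        simp only [X] at h1
        rw [← Nat.card_eq_fintype_card] at h
        exact absurd (h.trans (Dvd.intro _ (h1.trans cS))) (by norm_num)) (Equiv.ext fun g =>
      Subtype.ext (show y * (y * (y * g.1 * y⁻¹) * y⁻¹) * y⁻¹ = g.1 by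
        rw [← cj, ← cj, ← pow_three', yy]; simp))
    exact g4 (eq_of_two (H.le2 Q6 y3) ⟨g1, mc.2 (cm.1 (congrArg Subtype.val g5)).symm⟩
      ⟨tQ, mc.2 y1.symm⟩ g3 t1)
  obtain ⟨e, e1, e2⟩ := ex P
  have s2 : ∀ f ∈ P, f ≠ 1 → ∀ g ∈ S, Commute g f → g * g = 1 := fun f f1 f2 g hg c =>
    (pow_two g).symm.trans (pow_mem_card (g := g) (S := S ⊓ centralizer {f}) (by
      have := (tr1 f f1 f2).1; omega) ⟨hg, mc.2 c⟩)
  have Q8 : ∀ g ∈ Q, Commute g e → g = 1 := fun g hg c => by_contra fun h =>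
    e2 (i1 tP e1 (Q7 g hg (s2 e e1 e2 g (Q1 hg) c) h ▸ c))
  have Q9 := H.trans (Q1.trans S1) e1 e2 (by
    rwa [(eq_bot_iff_forall (Q ⊓ centralizer {e})).2 fun g hg => Q8 g hg.1 (mc.1 hg.2), card_bot])
  obtain ⟨⟨u, u1, u2⟩, u3⟩ := (ne_bot_iff_exists_ne_one (H := S ⊓ centralizer {e})).1 fun h => by
    have := (tr1 e e1 e2).1
    simp [h, cS] at this
  replace u3 : u ≠ 1 := fun e => u3 (Subtype.ext e)
  have u4 : u • q ≠ q := fun h => u3 (Q8 u ((Q2 u).2 ⟨u1, h⟩) (mc.1 u2))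
  have tz : ∀ f ∈ P, t • f • q = f • q → f = 1 := fun f hf h => by
    rw [smul_smul, mul_inv_eq_iff_eq_mul.1 (tP f hf), mul_smul, i2 tq, inv_smul_eq_iff, smul_smul] at h
    exact cop ((pow_two f).trans (H.reg (mul_mem hf hf) h.symm pq)) (H.e3 hf)
  obtain ⟨h, h1, h2, h3⟩ : ∃ h, Commute h t ∧ h • e • q = e • q ∧ h ≠ 1 := by
    by_contra! hn
    have a1 := orbs (centralizer {t}) (e • q)
    rw [(eq_bot_iff_forall (_ ⊓ stabilizer G (e • q))).2 fun g hg => hn g (mc.1 hg.1) hg.2, card_bot,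
      H.c2 t t2] at a1
    obtain ⟨R, hR⟩ := (IsPGroup.of_card (n := 1) (by simp [y3]) : IsPGroup 3 (zpowers y)).exists_le_sylow
    replace hR : y ∈ R := hR (mem_zpowers y)
    have a2 := orbs Q R
    have a3 := (card_le_of_le (H := Q ⊓ stabilizer G R) (K := Q ⊓ centralizer {y}) fun g hg => ⟨hg.1,
      mc.2 (mul_inv_eq_iff_eq_mul.1 (mul_inv_eq_one.1 (cop (H.e3 (mul_mem (conj_mem_of_fix hR hg.2)
        (inv_mem hR))) (pow_mem_card cS (Q1 (by
          simpa [mul_assoc] using mul_mem hg.1 (Q4 _ (inv_mem hg.1) y y1)))))))⟩).trans (H.le2 Q6 y3)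
    have a4 : 4 ≤ (orbit Q R).ncard := by nlinarith
    have a5 := Set.ncard_le_ncard (s := {R | Inv t R} ∪ orbit Q R) (t := fixedBy (Sylow 3 G) t) (by
      rintro _ (h | ⟨⟨g, hg⟩, rfl⟩)
      · exact i2 h
      have c := ((S2 g).1 (Q1 hg)).1
      exact H.ti2 (conj_mem_smul hR g) (by simpa) (cm.2 ((c.mul_left y1).mul_left c.inv_left).symm ▸
        conj_mem_smul (conj_mem_smul hR g) t))
    rw [Set.ncard_union_eq (Set.disjoint_left.2 (by
      rintro _ h ⟨⟨g, hg⟩, rfl⟩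
      have c := ((S2 g).1 (Q1 hg)).1
      exact y0 (by simpa using i1 h (conj_mem_smul hR g) ((c.mul_left y1).mul_left c.inv_left).symm))),
      T3] at a5
    obtain ⟨c, hc⟩ := isConj_iff.1 (H.h2 t u t2 (ord2 (s2 e e1 e2 u u1 (mc.1 u2)) u3))
    have a6 : ∀ g, Commute g t → g ≠ 1 → Disjoint (fixedBy (Sylow 3 G) g)
        (orbit (centralizer ({t} : Set G)) (e • q)) := fun g c g1 => Set.disjoint_left.2 (by
      rintro _ h ⟨⟨k, hk⟩, rfl⟩
      exact g1 (by simpa [mul_assoc, inv_mul_eq_one] using hn (k⁻¹ * g * k) (((mc.1 hk).inv_left.mul_left c).mul_left (mc.1 hk)) (by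
        rw [mul_smul, mul_smul, show g • k • e • q = k • e • q from h, inv_smul_smul])))
    have a7 := Set.ncard_union_eq (Set.disjoint_union_left.2 ⟨a6 t rfl t1, a6 u ((S2 u).1 u1).1 u3⟩)
    have a8 := Set.ncard_le_ncard (s := insert q (fixedBy (Sylow 3 G) u)) (Set.insert_subset
      (Or.inl (i2 tq)) (Set.subset_union_right (s := fixedBy (Sylow 3 G) t)))
    rw [Set.ncard_insert_of_notMem (s := fixedBy _ u) u4] at a8
    nth_rw 1 [← hc] at a8
    rw [← smul_fixedBy, Set.ncard_smul_set] at a8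
    have := (H.cN P).2 ▸ a7 ▸ Set.ncard_le_card _
    omega
  have hq0 : ∀ g ∈ Q, g • e • q = e • q → g = 1 := fun g hg a => Q8 g hg (cm.1 (eq_of_inv_mul_eq_one
    (H.reg (mul_mem (inv_mem e1) (conj_mem_of_fix e1 (S1 (Q1 hg)))) (by
      rw [mul_smul, mul_smul, mul_smul, Q3 _ (inv_mem hg) q tq, a, inv_smul_smul]) pq)).symm)
  have cyc : h • h • h • P = P → h • h • h • q = q → False := fun a b => by
    have c := hq0 (h ^ 3) ((Q2 _).2 ⟨(S2 _).2 ⟨h1.pow_left 3, by simpa [pow_succ, mul_smul]⟩, by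
      simpa [pow_succ, mul_smul]⟩) (by simp [pow_succ, mul_smul, h2])
    exact e2 (tz e e1 (H.ti2 (fix3 c h2) h3 (cm.2 h1.symm ▸ conj_mem_smul (fix3 c h2) t)))
  have hz : (h * e * h⁻¹) • h • q = e • q := by rw [smul_smul, inv_mul_cancel_right, mul_smul, h2]
  have inj := fun {a b : Sylow 3 G} => smul_left_cancel h (x := a) (y := b)
  obtain ⟨h4, h5⟩ : h • P = q ∧ h • q = P := by
    rcases T4 _ (tP.smul h1) with a | a | a <;> rcases T4 _ (tq.smul h1) with b | b | b <;>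
      try exact absurd (inj (b.trans a.symm)) pq
    · exact absurd (hq0 h ((Q2 h).2 ⟨(S2 h).2 ⟨h1, a⟩, b⟩) h2) h3
    · have c : ((h * e * h⁻¹)⁻¹ * e) • q = r := by rw [mul_smul, ← hz, inv_smul_smul, b]
      rw [tz _ (mul_mem (inv_mem (conj_mem_of_fix e1 a)) e1) (by rw [c, i2 tr]), one_smul] at c
      exact absurd c.symm qr
    · exact ⟨a, b⟩
    · have c := ((T4 _ (tr.smul h1)).resolve_right (not_or.2 ⟨fun c => pr (inj (c.trans a.symm)),
        fun c => qr (inj (c.trans b.symm))⟩))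
      exact (cyc (by rw [a, b, c]) (by rw [b, c, a])).elim
    · have c := ((T4 _ (tr.smul h1)).resolve_left fun c => qr (inj (c.trans b.symm))).resolve_right
        fun c => pr (inj (c.trans a.symm))
      exact (cyc (by rw [a, c, b]) (by rw [b, a, c])).elim
    · exact absurd (H.two tP tq tr tt e1 e2 (a ▸ conj_mem_smul e1 h) (by simpa) (b ▸ hz).symm) pr
  let C : Set (Sylow 3 G) := insert P (orbit (P : Subgroup G) q)
  have m : ∀ g, g • P = P → g • q = q → g ∈ stabilizer G C := fun g a b =>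
    (mem_stabilizer_set' (Set.toFinite _)).2 (by
      rintro _ (rfl | ⟨⟨f, hf⟩, rfl⟩)
      · exact Or.inl a
      exact Or.inr ⟨⟨_, conj_mem_of_fix hf a⟩, show (g * f * g⁻¹) • q = g • f • q by
        rw [mul_smul, mul_smul, inv_smul_eq_iff.2 b.symm]⟩)
  have m1 : (P : Subgroup G) ≤ stabilizer G C := fun g hg => (mem_stabilizer_set' (Set.toFinite _)).2 (by
    rintro _ (rfl | ⟨⟨f, hf⟩, rfl⟩)
    exacts [Or.inl (smul_eq_of_mem hg), Or.inr ⟨⟨_, mul_mem hg hf⟩, mul_smul g f q⟩])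
  have m2 : h ∈ stabilizer G C := (mem_stabilizer_set' (Set.toFinite _)).2 (by
    rintro _ (rfl | ⟨⟨f, hf⟩, rfl⟩)
    · exact Or.inr (h4 ▸ mem_orbit_self _)
    by_cases f1 : f = 1
    · exact Or.inl (by simpa [f1] using h5)
    obtain ⟨g, hg, rfl⟩ := Q9.2 f hf f1
    have := Q4 g hg h h1
    refine Or.inr ⟨⟨_, conj_mem_of_fix e1 (S1 (Q1 this))⟩, show (_ * e * _) • q = h • (g * e * g⁻¹) • q from ?_⟩
    rw [mul_smul, mul_smul, Q3 _ (inv_mem this) q tq, mul_smul, mul_smul, inv_smul_eq_iff.2 h2.symm,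
      mul_smul, mul_smul, Q3 _ (inv_mem hg) q tq])
  have m3 : (orbit (P : Subgroup G) q).ncard = 9 := by
    have := orbs (P : Subgroup G) q
    rwa [(eq_bot_iff_forall (_ ⊓ stabilizer G q)).2 fun g hg => H.reg hg.1 hg.2 pq, card_bot, mul_one,
      show Nat.card (P : Subgroup G) = _ from H.c9 P] at this
  have m4 : C.ncard = 10 := by
    rw [Set.ncard_insert_of_notMem, m3]
    rintro ⟨⟨f, hf⟩, a⟩
    exact pq ((eq_inv_smul_iff.2 a).trans (smul_eq_of_mem (inv_mem hf)))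
  refine ⟨stabilizer G C, fun a => ?_, ?_⟩
  · have := Set.ncard_le_ncard (s := Set.univ) (t := C) fun R _ => by
      obtain ⟨g, rfl⟩ := exists_smul_eq G P R
      exact (mem_stabilizer_set.1 (a ▸ mem_top g) P).2 (Or.inl rfl)
    rw [Set.ncard_univ, (H.cN P).2] at this
    omega
  have a1 := orbs (stabilizer G C) P
  have a2 := Set.ncard_le_ncard (s := C) (t := orbit (stabilizer G C) P) (by
    rintro _ (rfl | ⟨⟨f, hf⟩, rfl⟩)
    exacts [mem_orbit_self _, ⟨⟨_, mul_mem (m1 hf) m2⟩, (mul_smul f h P).trans (h4 ▸ rfl)⟩])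
  have a3 := H.c9 P ▸ card_dvd_of_le (le_inf m1 (show _ ≤ stabilizer G P from
    fun g hg => smul_eq_of_mem hg))
  have a4 := card_dvd_of_le (H := Q) (K := stabilizer G C ⊓ stabilizer G P) fun g hg =>
    ⟨m g (S1 (Q1 hg)) (Q3 g hg q tq), S1 (Q1 hg)⟩
  have a5 := (stabilizer G C).index_mul_card
  have a6 : 72 ≤ Nat.card ↥(stabilizer G C ⊓ stabilizer G P) := Nat.le_of_dvd Nat.card_pos
    (Nat.Coprime.mul_dvd_of_dvd_of_dvd (m := 8) (n := 9) (by norm_num) ((Dvd.intro _ Q9.1.symm).trans a4) a3)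
  have a7 : 720 ≤ Nat.card (stabilizer G C) := by nlinarith
  rw [H.card] at a5
  nlinarith

end Cfsg.Agent.H3.MR.Hy
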