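import Cfsg.Agent.H3.MR2
import Cfsg.Agent.H9.M24Bound

/-! Recognition of `M₁₁`. -/

set_option autoImplicit false
set_option linter.unusedSectionVars false

namespace Cfsg.Agent.H3.MR

open Subgroup MulAction AS H9 Spor

variable {G : Type*} [Group G] [Finite G]

theorem nrm {p : ℕ} [Fact p.Prime] {y : G} (hy : orderOf y = p)
    (hc : Nat.card (centralizer ({y} : Set G)) = p) (hp : ¬ p * p ∣ Nat.card G) : ∃ n m, n ≡ 1 [MOD p] ∧
      n * (m * p) = Nat.card G ∧ m < p ∧ Nat.card (normalizer (zpowers y : Set G)) = m * p ∧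
      (m + 1 = p → ∀ g ∈ zpowers y, g ≠ 1 → ∃ h, h * y * h⁻¹ = g) := by
  have c : Nat.card (zpowers y) = p := by rw [Nat.card_zpowers, hy]
  let Q := (IsPGroup.of_card (n := 1) (by simpa using c) : IsPGroup p (zpowers y)).toSylow fun e =>
    hp ((Nat.mul_dvd_mul_right e p).trans (c ▸ (zpowers y).index_mul_card).dvd)
  have h1 := cls (normalizer (zpowers y : Set G)) y
  rw [inf_eq_right.2 ((eq_of_le_of_card_ge (zpowers_le.2 (mc.2 rfl)) (hc.trans c.symm).le).ge.trans
    le_normalizer), hc] at h1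
  have h2 : {g | ∃ h ∈ normalizer (zpowers y : Set G), h * y * h⁻¹ = g} ⊆ (zpowers y : Set G) \ {1} := by
    rintro _ ⟨h, hh, rfl⟩
    exact ⟨(mem_normalizer_iff.1 hh y).1 (mem_zpowers y), by
      simpa using fun e => (Fact.out : p.Prime).one_lt.ne' (hy ▸ orderOf_eq_one_iff.2 e)⟩
  have h3 : ((zpowers y : Set G) \ {1}).ncard = p - 1 := by
    rw [Set.ncard_sdiff_singleton_of_mem (one_mem _), ← c]; rfl
  have h4 := Set.ncard_le_ncard h2
  have := (Fact.out : p.Prime).pos
  exact ⟨_, _, card_sylow_modEq_one p G, by rw [h1, Q.card_eq_index_normalizer]; exact index_mul_card _,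
    by omega, h1.symm, fun e g a b => ((Set.eq_of_subset_of_ncard_le h2 (by omega)).ge ⟨a, b⟩).imp
      fun _ e => e.2⟩

instance fact11 : Fact (Nat.Prime 11) := ⟨by norm_num⟩

instance fact5 : Fact (Nat.Prime 5) := ⟨by norm_num⟩

/-- discrete logarithm table -/
def lg11 (x : ZMod 11) : ℕ := [0, 0, 0, 1, 4, 3, 1, 2, 4, 2, 3].getD x.val 0

/-- the candidate map -/
def S11 (s t x : ZMod 11) : ZMod 11 := if x = 0 then 0 else 9 ^ lg11 x * if x = 3 ^ lg11 x then s else t

theorem lg11_spec : ∀ x : ZMod 11, x ≠ 0 → x = 3 ^ lg11 x * if x = 3 ^ lg11 x then 1 else 2 := by decide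

theorem dec11 : ∀ s t : ZMod 11, (∀ i : ZMod 11, ∃ n ∈ [8, 6, 5, 11], ∀ x,
    (fun x => S11 s t x + i)^[n] x = x) → ∃ j < 5, (∀ x, S11 s t (3 ^ j * x) = S11 1 6 x) ∨
      ∀ x, S11 s t (3 ^ j * x) = S11 1 10 x := by
  decide +kernel

theorem big [IsSimpleGroup G] (hc : 11 ∣ Nat.card G) {M : Subgroup G} (h : M ≠ ⊤) : 11 ≤ M.index := by
  classical
  have := Fintype.ofFinite (G ⧸ M)
  have hi := (MonoidHom.ker_eq_bot_iff _).1 (M.normalCore_eq_ker ▸ (IsSimpleGroup.eq_bot_or_eq_top_of_normal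
    M.normalCore inferInstance).resolve_right fun e => h (top_le_iff.1 (e ▸ M.normalCore_le)))
  have := hc.trans (card_dvd_of_injective _ hi)
  rwa [Nat.card_perm, (by norm_num : Nat.Prime 11).dvd_factorial] at this

theorem fin [IsSimpleGroup G] (hc : Nat.card G = 7920) (π : G →* Equiv.Perm (ZMod 11))
    (hi : Function.Injective π) (Y : ZMod 11 → G) (w : G) (s : ZMod 11 → ZMod 11) (l : ZMod 11 → GolayPt)
    (hl : Function.Injective l) (σ τ : M11) (h0 : ∀ i : ZMod 11, Y i = Y 1 ^ i.val)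
    (h1 : ∀ i x, π (Y i) x = x + i) (h2 : ∀ x, π w x = s x) (h3 : ∀ x, σ.1 (l x) = l (x + 1))
    (h4 : ∀ x, τ.1 (l x) = l (s x)) (h5 : ∀ p ∈ [(2, 2), (3, 0), (5, 0), (11, 0)], ∃ i : ZMod 11,
      (∀ x, (fun x => s x + i)^[p.1 ^ (p.2 + 1)] x = x) ∧ ∃ x, (fun x => s x + i)^[p.1 ^ p.2] x ≠ x) :
    Nonempty (G ≃* M11) := by
  let Γ : Subgroup (G × M11) :=
    { carrier := {x | ∀ i, x.2.1 (l i) = l (π x.1 i)}
      mul_mem' := fun {a b} ha hb i => by simp [ha _, hb _]
      one_mem' := fun i => by simp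
      inv_mem' := fun {a} ha i => by simp [Equiv.Perm.inv_eq_iff_eq, Equiv.symm_apply_eq, ha _] }
  let f := (MonoidHom.fst G M11).comp Γ.subtype
  let g := (MonoidHom.snd G M11).comp Γ.subtype
  have m : ∀ i, Y i * w ∈ f.range := fun i => mul_mem (h0 i ▸ pow_mem (show Y 1 ∈ f.range from
    ⟨⟨(Y 1, σ), fun x => by simp [h1, h3]⟩, rfl⟩) _) ⟨⟨(w, τ), fun x => by simp [h2, h4]⟩, rfl⟩
  have d : ∀ p ∈ [(2, 2), (3, 0), (5, 0), (11, 0)], p.1.Prime → p.1 ^ (p.2 + 1) ∣ Nat.card f.range :=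
    fun p hp h => by
      obtain ⟨i, a, x, b⟩ := h5 p hp
      have := Fact.mk h
      have c : ⇑(π (Y i * w)) = fun x => s x + i := funext fun x => by simp [h1, h2]
      rw [← c, Equiv.Perm.iterate_eq_pow, ← map_pow] at a b
      rw [← orderOf_eq_prime_pow (x := Y i * w) (fun e => b (by simp [e])) (hi (Equiv.ext (by simpa using a)))]
      exact orderOf_dvd_of_pow_eq_one (pow_mem_card rfl (m i))
  have f1 : f.range = ⊤ := by_contra fun e => by
    have a := big (by simp [hc]) e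
    have b := f.range.index_mul_card
    have c : 1320 ≤ Nat.card f.range := Nat.le_of_dvd Nat.card_pos (by
      have := d (2, 2) (by simp) (by norm_num)
      have := d (3, 0) (by simp) (by norm_num)
      have := d (5, 0) (by simp) (by norm_num)
      have := d (11, 0) (by simp) (by norm_num)
      simp only at *
      omega)
    rw [hc] at b
    nlinarith
  have f2 := MonoidHom.range_eq_top.1 f1
  have g1 : Function.Injective g := (injective_iff_map_eq_one g).2 fun x hx => Subtype.ext (Prod.ext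
    (hi (Equiv.ext fun i => hl (by simpa [show x.1.2 = 1 from hx] using (x.2 i).symm))) hx)
  have a := Nat.card_le_card_of_surjective f f2
  have b := Nat.card_le_card_of_injective g g1
  have c := card_M11_le
  exact ⟨(MulEquiv.ofBijective f (f2.bijective_of_nat_card_le (by omega))).symm.trans
    (MulEquiv.ofBijective g (g1.bijective_of_nat_card_le (by omega)))⟩

/-- an element of `M₁₁` from its table -/
noncomputable def el (t ti : ℕ) (h : checkPerm t ti = true ∧ checkM24 t = true ∧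
    preMask t 340831 = 340831 ∧ look 5 t 0 = 0) : M11 :=
  ⟨permOf t ti h.1, (rep_permOf t ti h.1).mem_M11 h.2.1 h.2.2.1 h.2.2.2⟩

theorem Hy.m11 [IsSimpleGroup G] (H : Hy G) : Nonempty (G ≃* M11) := by
  classical
  obtain ⟨M, m1, m2⟩ := H.exists_M
  have m3 := le_antisymm m2 (big (by simp [H.card]) m1)
  obtain ⟨y, oy⟩ := exists_prime_orderOf_dvd_card' (G := G) 11 (by simp [H.card])
  let ι : Multiplicative (ZMod 11) →* G := MonoidHom.mk' (fun k => y ^ k.toAdd.val) fun k l => by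
    rw [toAdd_mul, ZMod.val_add, ← pow_add]
    conv_rhs => rw [← pow_mod_orderOf, oy]
  let Y : ZMod 11 → G := fun k => ι (Multiplicative.ofAdd k)
  have Ya : ∀ k l, Y (k + l) = Y k * Y l := fun k l => map_mul ι _ _
  have Yp : ∀ k (n : ℕ), Y k ^ n = Y (n * k) := fun k n => by
    simp only [Y, ← map_pow, ← ofAdd_nsmul, nsmul_eq_mul]
  have Yi : Function.Injective Y := fun k l h => ZMod.val_injective 11 (pow_injOn_Iio_orderOf
    ((ZMod.val_lt k).trans_eq oy.symm) ((ZMod.val_lt l).trans_eq oy.symm) h)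
  have Y1 : Y 1 = y := pow_one y
  have Y0 : Y 0 = 1 := map_one ι
  have Yc : ∀ g u, g * Y 1 * g⁻¹ = Y u → ∀ s, g * Y s * g⁻¹ = Y (u * s) := fun g u h s => by
    rw [← ZMod.natCast_zmod_val s, mul_comm u, ← Yp, ← h, conj_pow, Yp, mul_one]
  have Yn : ∀ g u, g * Y 1 * g⁻¹ = Y u → ∀ n : ℕ, g ^ n * Y 1 * (g ^ n)⁻¹ = Y (u ^ n) :=
    fun g u h n => by
      induction n with
      | zero => simp
      | succ n ih => rw [pow_succ', pow_succ', ← Yc g u h, ← ih]; group
  obtain ⟨h, h5, hh⟩ : ∃ h, orderOf h = 5 ∧ h * Y 1 * h⁻¹ = Y 3 := by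
    obtain ⟨n, m, a, b, c, d, -⟩ := nrm oy (H.c11 y oy) (by simp [H.card])
    rw [H.card, Nat.ModEq] at *
    obtain rfl : m = 5 := by interval_cases m <;> omega
    obtain ⟨⟨h, h0⟩, h5⟩ := exists_prime_orderOf_dvd_card' (G := normalizer (zpowers y : Set G)) 5
      (by simp [d])
    rw [orderOf_mk] at h5
    obtain ⟨k, hk⟩ := mem_powers_iff_mem_zpowers.2 ((mem_normalizer_iff.1 h0 y).1 (mem_zpowers y))
    have e : h * Y 1 * h⁻¹ = Y k := by rw [← mul_one (k : ZMod 11), ← Yp, Y1, ← hk]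
    obtain ⟨i, i1, i2⟩ := (show ∀ u : ZMod 11, 1 = u ^ 5 → u ≠ 1 → ∃ i ∈ [1, 2, 3, 4], u ^ i = 3 by decide)
      _ (Yi (by simpa [← h5] using Yn h _ e (orderOf h))) fun e' => by
        rw [e', Y1] at e
        simpa [h5] using orderOf_dvd_of_pow_eq_one (pow_mem_card (H.c11 y oy) (mc.2 (cm.1 e)))
    exact ⟨h ^ i, by rw [Nat.Coprime.orderOf_pow (h5 ▸ by clear i2; revert i; decide), h5], i2 ▸ Yn h _ e i⟩
  obtain ⟨w, hw⟩ : ∃ w, w * h * w⁻¹ = h ^ 2 := by
    obtain ⟨n, m, a, b, c, -, d⟩ := nrm h5 (H.c5 h h5) (by simp [H.card])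
    rw [H.card, Nat.ModEq] at *
    exact d (by interval_cases m <;> omega) _ (npow_mem_zpowers h 2) fun e => by
      simpa [h5] using orderOf_dvd_of_pow_eq_one e
  have := Fintype.ofFinite (G ⧸ M)
  obtain ⟨x0, hx⟩ := Equiv.Perm.exists_fixed_point_of_prime (p := 5) (n := 1) (σ := toPermHom G (G ⧸ M) h)
    (by rw [← Nat.card_eq_fintype_card, ← index, m3]; norm_num) (by
      rw [← map_pow, pow_one, ← h5, pow_orderOf_eq_one, map_one])
  replace hx : h • x0 = x0 := hx
  let e : ZMod 11 ≃ G ⧸ M := Equiv.ofBijective (fun k => Y k • x0)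
    ((Nat.bijective_iff_injective_and_card _).2 ⟨fun k l a => by
      have b := (stabilizer G x0).index_mul_card
      rw [index_stabilizer_of_transitive, ← index, m3, H.card] at b
      have c := pow_mem_card (n := 720) (by omega) (show Y (-l + k) ∈ stabilizer G x0 by
        rw [mem_stabilizer_iff, Ya, mul_smul, show Y (-l) = (Y l)⁻¹ from map_inv ι _, inv_smul_eq_iff]
        exact a)
      rw [Yp, ← Y0] at c
      exact (neg_add_eq_zero.1 ((mul_eq_zero.1 (Yi c)).resolve_left (by decide))).symm, by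
        rw [← index, m3]; simp⟩)
  let π : G →* Equiv.Perm (ZMod 11) := e.symm.permCongrHom.toMonoidHom.comp (toPermHom G _)
  have p1 : ∀ g p r, π g p = r ↔ g • e p = e r := fun g p r => e.symm_apply_eq
  have y1 : ∀ k x, π (Y k) x = x + k := fun k x => (p1 _ _ _).2
    (show Y k • Y x • x0 = Y _ • x0 by rw [smul_smul, ← Ya, add_comm])
  have h1 : ∀ x, π h x = 3 * x := fun x => (p1 _ _ _).2 (show h • Y x • x0 = Y _ • x0 by
    rw [← Yc h 3 hh, mul_smul, mul_smul, inv_smul_eq_iff.2 hx.symm])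
  have hi := (MonoidHom.ker_eq_bot_iff _).1 ((IsSimpleGroup.eq_bot_or_eq_top_of_normal _
    π.normal_ker).resolve_right fun e => by
      simpa [show π (Y 1) = 1 from MonoidHom.mem_ker.1 (e ▸ mem_top _)] using y1 1 0)
  have s0 : ∀ x, π w (3 * x) = 9 * π w x := fun x => by
    rw [← h1, ← Equiv.Perm.mul_apply, ← map_mul, mul_inv_eq_iff_eq_mul.1 hw, pow_two]
    simp only [map_mul, Equiv.Perm.mul_apply, h1]
    ring
  have s1 : ∀ (k : ℕ) x, π w (3 ^ k * x) = 9 ^ k * π w x := fun k x => by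
    induction k with
    | zero => simp
    | succ k ih => rw [pow_succ', mul_assoc, s0, ih, pow_succ', mul_assoc]
  have s2 : ∀ x, π w x = S11 (π w 1) (π w 2) x := fun x => by
    rw [S11]
    split_ifs with a b
    · subst a
      exact (show ∀ u : ZMod 11, u = 9 * u → u = 0 by decide) _ (by simpa using s0 0)
    all_goals conv_lhs => rw [lg11_spec x a, s1]
    exacts [by rw [if_pos b], by rw [if_neg b]]
  have s3 : ∀ (j : ℕ) x, π (w * h ^ j) x = π w (3 ^ j * x) := fun j x => by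
    rw [map_mul, Equiv.Perm.mul_apply]
    congr 1
    induction j with
    | zero => simp
    | succ j ih => rw [pow_succ', map_mul, Equiv.Perm.mul_apply, ih, h1, pow_succ', mul_assoc]
  have h0 : ∀ i : ZMod 11, Y i = Y 1 ^ i.val := fun i => by simp [Yp]
  obtain ⟨j, -, a | a⟩ := dec11 (π w 1) (π w 2) fun i => by
    have c : ⇑(π (Y i * w)) = fun x => S11 (π w 1) (π w 2) x + i := funext fun x => by
      rw [map_mul, Equiv.Perm.mul_apply, y1, ← s2]
    obtain ⟨n, a, b⟩ := (show ∀ o ∈ ({1, 2, 3, 4, 5, 6, 8, 11} : Finset ℕ), ∃ n ∈ [8, 6, 5, 11], o ∣ n by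
      decide) _ (H.ho (Y i * w))
    exact ⟨n, a, fun x => by
      rw [← c, Equiv.Perm.iterate_eq_pow, ← map_pow, orderOf_dvd_iff_pow_eq_one.1 b]; simp⟩
  · exact fin H.card π hi Y (w * h ^ j) (S11 1 6) (fun x => some (2 ^ x.val)) (by decide)
      (el 983435072843990828779021698901151808 970567384681219435340729552166356352 (by decide +kernel))
      (el 232652365823391711183829569059784736 227578386318009578406903204956702752 (by decide +kernel))
      h0 y1 (fun x => by rw [s3, s2, a]) (by decide +kernel) (by decide +kernel) (by decide +kernel)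
  · exact fin H.card π hi Y (w * h ^ j) (S11 1 10) (fun x => some (12 ^ x.val)) (by decide)
      (el 970567384681219435340729552166356352 983435072843990828779021698901151808 (by decide +kernel))
      (el 226779289883713961998112600821473312 235249743767511380627629882912348192 (by decide +kernel))
      h0 y1 (fun x => by rw [s3, s2, a]) (by decide +kernel) (by decide +kernel) (by decide +kernel)

/-- A simple group of order `7920` with the class data of `M₁₁` is `M₁₁`. -/
theorem m11 [IsSimpleGroup G] (hc : Nat.card G = 7920)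
    (h2 : ∀ s t : G, orderOf s = 2 → orderOf t = 2 → IsConj s t)
    (c2 : ∀ t : G, orderOf t = 2 → Nat.card (centralizer ({t} : Set G)) = 48)
    (h3 : ∀ s t : G, orderOf s = 3 → orderOf t = 3 → IsConj s t)
    (c3 : ∀ t : G, orderOf t = 3 → Nat.card (centralizer ({t} : Set G)) = 18)
    (c5 : ∀ t : G, orderOf t = 5 → Nat.card (centralizer ({t} : Set G)) = 5)
    (c11 : ∀ t : G, orderOf t = 11 → Nat.card (centralizer ({t} : Set G)) = 11)
    (ho : ∀ g : G, orderOf g ∈ ({1, 2, 3, 4, 5, 6, 8, 11} : Finset ℕ)) : Nonempty (G ≃* M11) :=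
  Hy.m11 ⟨hc, h2, c2, h3, c3, c5, c11, ho⟩

end Cfsg.Agent.H3.MR
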