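import Cfsg.Agent.H5.PronZ

/-! Abstract lemmas for pronormality in direct products; more on groups with dihedral involution
centralisers. -/

set_option autoImplicit false

namespace Cfsg.Agent.H3.Pr

open Subgroup Function H5

variable {G : Type*} [Group G] {T : G → Subgroup G}

theorem tori_strong [Finite G] (h : Tori T) {i j : G} (hi : Inv2 i) (hj : Inv2 j) (h1 : i ≠ j)
    (S : Sylow 2 G) (i1 : i ∈ S) (j1 : j ∈ S) {g : G}
    (hg : g ∈ normalizer ((S : Subgroup G) : Set G)) (g0 : g ∉ S) :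
    (∀ s ∈ S, s = 1 ∨ s = i ∨ s = j ∨ s = j * i) ∧ ∀ H : Subgroup G, (S : Subgroup G) ≤ H →
      g ∉ H ⊔ H.map (MulAut.conj g).toMonoidHom → H = S := by
  have n1 : ∀ {g : G}, g ∈ normalizer ((S : Subgroup G) : Set G) → g * g ∈ S → g ∈ S := fun {g} a b => by
    obtain ⟨k, hk⟩ := S.2 ⟨_, b⟩
    refine ((show IsPGroup 2 (zpowers g) from ?_).inf_normalizer_sylow S).le ⟨mem_zpowers g, a⟩ |>.2
    refine IsPGroup.iff_card.2 ?_
    rw [Nat.card_zpowers]
    exact ((Nat.dvd_prime_pow Nat.prime_two).1 (orderOf_dvd_of_pow_eq_one (n := 2 ^ (k + 1))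
      (by rw [pow_succ', pow_mul, sq]; exact congrArg Subtype.val hk))).imp fun _ => And.right
  have n2 : ∀ {t g : G}, Inv2 t → (∀ s ∈ S, Commute s t) → g ∈ normalizer ((S : Subgroup G) : Set G) →
      Commute g t → g ∈ S := fun {t g} a b c d => by
    obtain ⟨τ, t1, t2⟩ : ∃ τ ∈ S, τ ∉ T t := by
      by_contra! e
      exact h1 ((h.ti hi a hi.1 (h.self hi) (e _ i1)).trans (h.ti hj a hj.1 (h.self hj) (e _ j1)).symm)
    have k : ∀ {g}, g ∈ normalizer ((S : Subgroup G) : Set G) → g ∈ T t → g ∈ S := fun {g} c d => n1 c (by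
      have e2 := h.inv a ((h.le d).mul_left (b τ t1)) fun e => t2 ((mul_mem_cancel_left d).1 e)
      have := mul_mem ((mem_normalizer_iff.1 c τ).1 t1) (inv_mem t1)
      rwa [show g * τ * g⁻¹ * τ⁻¹ = g * (τ * τ) * (g * τ * (g * τ))⁻¹ * g by group, e2, h.inv a (b τ t1) t2, inv_one,
        mul_one, mul_one] at this)
    by_cases e : g ∈ T t
    · exact k c e
    · exact (mul_mem_cancel_right t1).1 (k (mul_mem c (le_normalizer t1)) (h.two a d (b τ t1) e t2))
  have g1 : ∀ {s}, s ∈ S → g * s * g⁻¹ ∈ S := fun e => (mem_normalizer_iff.1 hg _).1 e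
  have g2 : ∀ {s}, s ∈ S → g⁻¹ * s * g ∈ S := fun e => (mem_normalizer_iff''.1 hg _).1 e
  have n3 : ∀ {t}, t ∈ S → Inv2 t → (∀ s ∈ S, Commute s t) → g * t * g⁻¹ ≠ t ∧
      ∀ s ∈ S, s = 1 ∨ s = t ∨ s = g * t * g⁻¹ ∨ s = g * t * g⁻¹ * t := fun {t} a b c => by
    have e : g * t * g⁻¹ ≠ t := fun e => g0 (n2 b c hg (mul_inv_eq_iff_eq_mul.1 e))
    exact ⟨e, fun s hs => h.four b (b.conj g) e (c _ (g1 a)) (c s hs) (by
      simpa [mul_assoc] using (c _ (g2 hs)).map (MulAut.conj g))⟩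
  have n4 : ∀ s ∈ S, ∀ s' ∈ S, Commute s s' := by
    have : Nontrivial S := ⟨⟨⟨i, i1⟩, 1, fun e => hi.1 (congrArg Subtype.val e)⟩⟩
    have := S.2.center_nontrivial
    obtain ⟨⟨⟨t, t1⟩, t2⟩, ht⟩ := exists_prime_orderOf_dvd_card' (G := center S) 2 (by
      obtain ⟨k, hk⟩ := (S.2.to_subgroup (center S)).nontrivial_iff_card.1 this
      exact hk.2 ▸ dvd_pow_self 2 hk.1.ne')
    rw [← orderOf_coe, ← orderOf_coe] at ht
    have t3 : ∀ s ∈ S, Commute s t := fun s hs => congrArg Subtype.val (mem_center_iff.1 t2 ⟨s, hs⟩)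
    have t4 := n3 t1 ⟨fun e => by simp [e] at ht, by rw [← sq, ← ht, pow_orderOf_eq_one]⟩ t3
    have t5 : ∀ s ∈ S, Commute s (g * t * g⁻¹) := fun s hs => by
      simpa [mul_assoc] using (t3 _ (g2 hs)).map (MulAut.conj g)
    intro s hs s' hs'
    obtain rfl | rfl | rfl | rfl := t4.2 s' hs'
    exacts [Commute.one_right _, t3 s hs, t5 s hs, (t5 s hs).mul_right (t3 s hs)]
  replace n3 := fun {t} a b => @n3 t a b fun s hs => n4 s hs t a
  refine ⟨fun s hs => h.four hi hj h1.symm (n4 j j1 i i1) (n4 s hs i i1) (n4 s hs j j1),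
    fun H hH h0 => ?_⟩
  have n5 : ∀ {a b y}, a ∈ S → Inv2 a → b ∈ S → y ∈ H ⊔ H.map (MulAut.conj g).toMonoidHom → y * a * y⁻¹ = b → a = b :=
    fun {a b y} a1 a2 b1 y1 e => by
      obtain ⟨m, m1, m2⟩ := H3.sylow_conj_in (y • S) S ((H ⊔ H.map (MulAut.conj g).toMonoidHom) ⊓ centralizer {b})
        (by
          rintro _ ⟨s, hs, rfl⟩
          exact mem_inf.2 ⟨mul_mem (mul_mem y1 (mem_sup_left (hH hs))) (inv_mem y1),
            mem_centralizer_singleton_iff.2 (e ▸ (n4 s hs a a1).map (MulAut.conj y))⟩)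
        fun s hs => ⟨mem_sup_left (hH hs), mem_centralizer_singleton_iff.2 (n4 s hs b b1)⟩
      rw [smul_smul, Sylow.smul_eq_iff_mem_normalizer] at m2
      rw [mem_inf] at m1
      have e1 : m * y * a = b * (m * y) := by
        rw [← mul_assoc, ← mem_centralizer_singleton_iff.1 m1.2, ← e]; group
      have e2 : ∀ {x}, x ∈ S → x ∈ H ⊔ H.map (MulAut.conj g).toMonoidHom := fun hx => mem_sup_left (hH hx)
      obtain e3 | e3 | e3 | e3 := (n3 a1 a2).2 b b1
      · exact absurd (conj_eq_one_iff.1 (e.trans e3)) a2.1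
      · exact e3.symm
      · refine absurd ((mul_mem_cancel_right (mul_mem m1.1 y1)).1 (e2 (n2 a2 (n4 · · a a1)
          (mul_mem (inv_mem hg) m2) ?_))) (by rwa [inv_mem_iff])
        rw [Commute, SemiconjBy, mul_assoc, e1, e3]; group
      · refine absurd ((mul_mem_cancel_right (mul_mem m1.1 y1)).1 (e2 (n2 a2 (n4 · · a a1) (mul_mem hg m2) ?_))) h0
        obtain e4 | e4 | e4 | e4 := (n3 a1 a2).2 _ (g2 a1)
        · exact absurd (conj_eq_one_iff.1 (show g⁻¹ * a * g⁻¹⁻¹ = 1 by rwa [inv_inv])) a2.1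
        · exact absurd (by nth_rewrite 1 [← e4]; group) (n3 a1 a2).1
        · exact absurd (n1 hg (n2 a2 (n4 · · a a1) (mul_mem hg hg) (by
            rw [Commute, SemiconjBy, mul_assoc, mul_inv_eq_iff_eq_mul.1 e4.symm]; group))) g0
        · rw [Commute, SemiconjBy, mul_assoc, e1, e3, ← e4]; group
  have n6 : ∀ {a x}, a ∈ S → Inv2 a → x ∈ H → Commute x a → x ∈ S := fun {a x} a1 a2 x1 x2 => by
    have k : ∀ {x}, x ∈ H → x ∈ T a → x ∈ S := fun {x} x1 x2 => by
      by_contra x3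
      have b1 := g1 a1
      have c1 := mul_mem b1 a1
      have k1 : ∀ {a b : G} (a1 : a ∈ S) (b1 : b ∈ S), Inv2 a → a ≠ b → ¬ IsConj (⟨a, mem_sup_left (hH a1)⟩ :
          ↥(H ⊔ H.map (MulAut.conj g).toMonoidHom)) ⟨b, mem_sup_left (hH b1)⟩ := fun a1 b1 a2 e e' =>
        let ⟨y, hy⟩ := isConj_iff.1 e'; e (n5 a1 a2 b1 y.2 (congrArg Subtype.val hy))
      have k2 : ∀ {a : G} (a1 : a ∈ S), Inv2 a →
          Inv2 (⟨a, mem_sup_left (hH a1)⟩ : ↥(H ⊔ H.map (MulAut.conj g).toMonoidHom)) := fun a1 a2 =>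
        ⟨fun e => a2.1 (congrArg Subtype.val e), Subtype.ext a2.2⟩
      refine (h.comap (H ⊔ H.map (MulAut.conj g).toMonoidHom)).three (k2 a1 a2) (k2 b1 (a2.conj g))
        (k2 c1 ⟨fun e => (n3 a1 a2).1 ?_, ?_⟩)
        (k1 a1 b1 a2 (n3 a1 a2).1.symm) (k1 a1 c1 a2 fun e => (a2.conj g).1 (right_eq_mul.1 e))
        (k1 b1 c1 (a2.conj g) fun e => a2.1 (left_eq_mul.1 e)) (x := ⟨x, mem_sup_left x1⟩) x2
        (fun e => x3 ((show x = 1 from congrArg Subtype.val e) ▸ one_mem _))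
        (fun e => x3 ((show x = a from congrArg Subtype.val e) ▸ a1))
        (y := ⟨g * x * g⁻¹, mem_sup_right (mem_map_of_mem _ x1)⟩) (h.conj g x2)
        (fun e => x3 (conj_eq_one_iff.1 (congrArg Subtype.val e) ▸ one_mem _))
        fun e => x3 ((MulAut.conj g).injective (congrArg Subtype.val e) ▸ a1)
      · rw [← mul_one (g * a * g⁻¹), ← a2.2, ← mul_assoc, e, one_mul]
      · rw [(n4 _ b1 a a1).symm.mul_mul_mul_comm, (a2.conj g).2, a2.2, one_mul]
    by_cases e : x ∈ T a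
    · exact k x1 e
    · exact (mul_mem_cancel_right (g1 a1)).1 (k (mul_mem x1 (hH (g1 a1)))
        (h.two a2 x2 (n4 _ (g1 a1) a a1) e (h.notMem a2 (a2.conj g) (n3 a1 a2).1)))
  exact le_antisymm (fun x hx => by
    obtain ⟨w, w1, w2, w3, w4⟩ := exists_inv2_comm (hi.conj x) hj H (mul_mem (mul_mem hx (hH i1)) (inv_mem hx)) (hH j1)
      fun y hy e => h1 (n5 i1 hi j1 (mem_sup_left (mul_mem (inv_mem hy) hx)) (by
        rw [← mul_left_cancel_iff (a := y), ← mul_right_cancel_iff (a := y⁻¹), e]; group))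
    exact n6 i1 hi hx (mul_inv_eq_iff_eq_mul.1 (n5 i1 hi (n6 (n6 j1 hj w1 w4) w2
      (mul_mem (mul_mem hx (hH i1)) (inv_mem hx)) w3.symm) (mem_sup_left hx) rfl).symm)) hH

theorem tori_of_ca {G' : Type*} [Group G'] {π : G →* G'} (hπ : Surjective π) {z : G}
    (h1 : ∀ x, π x = 1 ↔ x = 1 ∨ x = z) (h2 : ∀ x, x * x = 1 ↔ x = 1 ∨ x = z) (h3 : ∀ x, Commute x z)
    (h4 : ∀ x a b, x ≠ 1 → x ≠ z → Commute a x → Commute b x → Commute a b) :
    Tori (fun t : G' => (centralizer (π ⁻¹' {t})).map π) ∧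
      ∀ {x t}, π x ∈ (centralizer (π ⁻¹' {π t})).map π ↔ Commute x t := by
  have z1 := (h1 z).2 (Or.inr rfl)
  have z2 := (h2 z).2 (Or.inr rfl)
  have a1 : ∀ {a b}, π a = π b → a = b ∨ a = z * b := fun e =>
    ((h1 _).1 (by rw [map_mul, map_inv, e, mul_inv_cancel])).imp mul_inv_eq_one.1 mul_inv_eq_iff_eq_mul.1
  have a2 : ∀ {x t}, π x ∈ (centralizer (π ⁻¹' {π t})).map π ↔ Commute x t := fun {x t} =>
    ⟨fun ⟨y, y1, y2⟩ => by
      obtain rfl | rfl := a1 y2.symm
      exacts [(y1 t rfl).symm, (h3 t).symm.mul_left (y1 t rfl).symm],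
    fun e => mem_map_of_mem π fun u hu => by
      obtain rfl | rfl := a1 hu
      exacts [e.symm, (h3 x).symm.mul_left e.symm]⟩
  have a3 : ∀ {t}, Inv2 (π t) → t * t = z := fun e =>
    ((h1 _).1 ((map_mul π _ _).trans e.2)).resolve_left fun e' => e.1 ((h1 _).2 ((h2 _).1 e'))
  have a4 : ∀ {x t}, Commute (π x) (π t) → ¬ Commute x t → x * t = z * (t * x) := fun e e' =>
    (a1 (by simpa using e.eq)).resolve_left e'
  have a5 : ∀ {x y t}, x * t = z * (t * x) → y * t = z * (t * y) → Commute (x * y) t := fun {x y t} e e' => by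
    rw [Commute, SemiconjBy, mul_assoc, e', ← mul_assoc, (h3 x).eq, mul_assoc, ← mul_assoc x, e, mul_assoc z,
      ← mul_assoc z, z2, one_mul, mul_assoc]
  refine ⟨⟨fun {t} _ => ?_, fun {t x} => ?_,
    fun {t x} => ?_, fun {t x y} => ?_, fun {t u x} => ?_, fun {t x} y => ?_⟩, a2⟩
  · obtain ⟨t, rfl⟩ := hπ t
    exact a2.2 rfl
  · obtain ⟨t, rfl⟩ := hπ t
    obtain ⟨x, rfl⟩ := hπ x
    exact fun e => (a2.1 e).map π
  · obtain ⟨t, rfl⟩ := hπ t
    obtain ⟨x, rfl⟩ := hπ x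
    intro _ b c
    rw [a2] at c
    rw [← map_mul, h1]
    by_contra! d
    exact c (h4 _ _ _ d.1 d.2 ((Commute.refl x).mul_right rfl) (a5 (a4 b c) (a4 b c)).symm)
  · obtain ⟨t, rfl⟩ := hπ t
    obtain ⟨x, rfl⟩ := hπ x
    obtain ⟨y, rfl⟩ := hπ y
    intro _ b c d e
    rw [← map_mul, a2]
    exact a5 (a4 b fun h => d (a2.2 h)) (a4 c fun h => e (a2.2 h))
  · obtain ⟨t, rfl⟩ := hπ t
    obtain ⟨u, rfl⟩ := hπ u
    obtain ⟨x, rfl⟩ := hπ x
    intro a b c d e
    rw [Ne, h1, not_or] at c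
    have := (h1 (t * u)).2 ((h2 _).1 (by
      rw [(h4 x u t c.1 c.2 (a2.1 e).symm (a2.1 d).symm).mul_mul_mul_comm, a3 a, a3 b, z2]))
    rw [map_mul, ← b.2] at this
    exact mul_right_cancel this
  · obtain ⟨t, rfl⟩ := hπ t
    obtain ⟨x, rfl⟩ := hπ x
    obtain ⟨y, rfl⟩ := hπ y
    simp only [← map_inv, ← map_mul, a2]
    exact fun e => e.map (MulAut.conj y)

theorem dih {s t : G} (hs : s * s = 1) (ht : t * t = 1) (k : ℕ) :
    t * ((s * t) ^ k)⁻¹ = (s * t) ^ k * t := by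
  rw [← inv_pow]
  exact (show SemiconjBy t (s * t)⁻¹ (s * t) by
    rw [SemiconjBy, _root_.mul_inv_rev, inv_eq_of_mul_eq_one_right ht,
      inv_eq_of_mul_eq_one_right hs, ← mul_assoc, mul_assoc s, ht, one_mul, mul_one]).pow_right k

theorem conj_of_odd {s t : G} (hs : s * s = 1) (ht : t * t = 1) (h : Odd (orderOf (s * t))) :
    ∃ k : ℕ, (s * t) ^ k * t * ((s * t) ^ k)⁻¹ = s := by
  obtain ⟨k, hk⟩ := h
  refine ⟨k + 1, ?_⟩
  rw [mul_assoc, dih hs ht, ← mul_assoc, ← pow_add,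
    show k + 1 + (k + 1) = orderOf (s * t) + 1 by omega, pow_succ, pow_orderOf_eq_one, one_mul,
    mul_assoc, ht, mul_one]

theorem mul_pow_odd {s t : G} (hs : s * s = 1) (ht : t * t = 1) (k : ℕ) :
    s * (s * t) ^ (2 * k + 1) = ((s * t) ^ k)⁻¹ * t * ((s * t) ^ k)⁻¹⁻¹ := by
  rw [inv_inv, eq_comm, mul_assoc, inv_mul_eq_iff_eq_mul, pow_succ', ← mul_assoc s,
    ← mul_assoc s, hs, one_mul, ← mul_assoc, ← dih hs ht, two_mul, pow_add,
    mul_assoc, inv_mul_cancel_left]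

theorem tori_iso [Finite G] (h : Tori T) {I : Set G} (h1 : ∀ s ∈ I, Inv2 s)
    (h2 : ∀ s ∈ I, ∀ y, y * s * y⁻¹ ∈ I) (h3 : ∀ s ∈ I, ∀ t ∈ I, Odd (orderOf (s * t))) {a ρ : G}
    (ha : a ∈ I) (r1 : ρ ∈ T a) (r2 : ρ * ρ = a) :
    ∀ s ∈ I, ∀ t ∈ I, Commute (a * s) (a * t) := by
  classical
  have ia := h1 a ha
  have iso : ∀ s ∈ I, ∀ t ∈ I, Commute s t → s = t := fun s hs t ht c => by
    have e : (s * t) ^ 2 = 1 := by rw [c.mul_pow, sq, sq, (h1 s hs).2, (h1 t ht).2, one_mul]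
    have := Nat.eq_one_of_dvd_coprimes (Nat.coprime_two_right.2 (h3 s hs t ht)) dvd_rfl
      (orderOf_dvd_of_pow_eq_one e)
    rw [orderOf_eq_one_iff] at this
    rw [← mul_one s, ← (h1 t ht).2, ← mul_assoc, this, one_mul]
  have nc : ∀ {x}, Commute x a → x ≠ a → ¬ IsConj a x := fun {x} c e e' => by
    obtain ⟨y, rfl⟩ := isConj_iff.1 e'
    exact e (iso _ (h2 a ha y) a ha c)
  by_cases hc : ∀ b, Commute b a → b ∈ T a
  · have cj : ∀ s ∈ I, IsConj a s := fun s hs =>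
      let ⟨_, e⟩ := conj_of_odd (h1 s hs).2 ia.2 (h3 s hs a ha); isConj_iff.2 ⟨_, e⟩
    have k1 : ∀ t, ∀ x ∈ T a, x ≠ 1 → t * x * t⁻¹ ∈ T a → t * a * t⁻¹ = a := fun t x a1 a2 a3 =>
      h.ti (ia.conj t) ia (_root_.mt conj_eq_one_iff.1 a2) (h.conj t a1) a3
    have k2 := H2.card_conj_TI (T a) fun t x a1 a2 a3 =>
      mem_normalizer_fintype fun y hy => k1 t x a1 a2 a3 ▸ h.conj t hy
    have k3 : normalizer (T a : Set G) = T a := le_antisymm (fun t ht => hc t
      (mul_inv_eq_iff_eq_mul.1 (k1 t a (h.self ia) ia.1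
        ((mem_normalizer_iff.1 ht a).1 (h.self ia))))) le_normalizer
    have k4 : centralizer ({a} : Set G) = T a := by
      ext x
      rw [mem_centralizer_singleton_iff]
      exact ⟨hc x, fun e => h.le e⟩
    have k5 : I = (ConjClasses.mk a).carrier := by
      ext s
      rw [ConjClasses.mem_carrier_iff_mk_eq, eq_comm, ConjClasses.mk_eq_mk_iff_isConj]
      exact ⟨cj s, fun e => by obtain ⟨y, rfl⟩ := isConj_iff.1 e; exact h2 a ha y⟩
    have k6 : I.ncard = (T a).index := by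
      rw [k5, ← Nat.card_coe_set_eq, H2.card_carrier_eq_index, k4]
    set A : Set G := {x | x ≠ 1 ∧ ∃ y, y * x * y⁻¹ ∈ T a} with hA
    change A.ncard * _ = _ at k2
    rw [k3] at k2
    have k7 : Aᶜ.ncard = (T a).index := by
      have e1 := Set.ncard_add_ncard_compl A
      have e2 := (T a).index_mul_card
      obtain ⟨m, hm⟩ := Nat.exists_eq_add_one_of_ne_zero (Nat.card_pos (α := T a)).ne'
      rw [hm] at k2 e2
      rw [← e2, Nat.add_sub_cancel, mul_right_comm] at k2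
      have := Nat.eq_of_mul_eq_mul_right m.succ_pos k2
      rw [← e2, this, mul_add, mul_one] at e1
      omega
    have k8 : ∀ s ∈ I, (fun t => s * t) '' I = Aᶜ := fun s hs => by
      refine Set.eq_of_subset_of_ncard_le ?_ (by
        rw [Set.ncard_image_of_injective _ (mul_right_injective s), k6, k7])
      rintro _ ⟨t, ht, rfl⟩ ⟨b1, y, b2⟩
      have b3 := h2 a ha y⁻¹
      have b4 : s * t ∈ T (y⁻¹ * a * y⁻¹⁻¹) := by simpa [mul_assoc] using h.conj y⁻¹ b2
      have b5 := h.conj s b4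
      have b6 : s * (s * t) * s⁻¹ = (s * t)⁻¹ := by
        rw [← mul_assoc, (h1 s hs).2, one_mul, _root_.mul_inv_rev,
          inv_eq_of_mul_eq_one_right (h1 t ht).2]
      rw [b6, inv_mem_iff] at b5
      have b7 := h.ti (h1 _ (h2 _ b3 s)) (h1 _ b3) b1 b5 b4
      have b8 := iso s hs _ b3 (mul_inv_eq_iff_eq_mul.1 b7)
      rw [← b8] at b4
      have b9 : Commute s t := by
        have := (h.le b4).eq
        rw [mul_assoc, mul_right_inj] at this
        exact this.symm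
      exact b1 (show s * t = 1 by rw [iso s hs t ht b9, (h1 t ht).2])
    intro s hs t ht
    obtain ⟨u, hu, e⟩ : a * t ∈ (fun t => s * t) '' I := by
      rw [k8 s hs, ← k8 a ha]; exact ⟨t, ht, rfl⟩
    have e1 : a * s * (a * t) = a * u := by
      rw [← e, ← mul_assoc, mul_assoc a, (h1 s hs).2, mul_one]
    have i0 : ∀ {x}, x ∈ I → x⁻¹ = x := fun hx => inv_eq_of_mul_eq_one_right (h1 _ hx).2
    have e2 := congrArg (fun x => a * x⁻¹ * a) e1
    simp only [_root_.mul_inv_rev, i0 ha, i0 hs, i0 ht, i0 hu] at e2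
    rw [Commute, SemiconjBy, e1]
    calc a * u = a * (u * a) * a := by rw [mul_assoc, mul_assoc, ia.2, mul_one]
      _ = _ := by rw [← e2]; simp only [mul_assoc, ia.2, mul_one]
  · push Not at hc
    obtain ⟨b, b1, b2⟩ := hc
    have out : ∀ {x}, x ∈ T a → x * b ∉ T a := fun hx e => b2 ((mul_mem_cancel_left hx).1 e)
    have inv2 : ∀ {x}, x ∈ T a → Inv2 (x * b) := fun {x} hx =>
      ⟨fun e => out hx (e ▸ one_mem _), h.inv ia ((h.le hx).mul_left b1) (out hx)⟩
    have ib : Inv2 b := by simpa using inv2 (one_mem _)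
    have cb : ∀ {x}, x ∈ T a → x * b * x⁻¹ = x * x * b := fun {x} hx => by
      rw [mul_assoc x x, mul_assoc, mul_right_inj, mul_inv_eq_iff_eq_mul]
      calc b = x * b * (x * b) * b := by rw [(inv2 hx).2, one_mul]
        _ = _ := by rw [mul_assoc (x * b), mul_assoc x b b, ib.2, mul_one]
    obtain ⟨y, hy⟩ : ∃ y : T a, ∀ x : T a, x * x ≠ y := by
      by_contra! e
      have := Finite.injective_iff_surjective.2 (show Surjective fun x : T a => x * x from e)
      exact ia.1 (congrArg Subtype.val (this (a₁ := ⟨a, h.self ia⟩) (a₂ := 1)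
        (Subtype.ext (by simpa using ia.2))))
    have ic := inv2 y.2
    have cc : Commute (y.1 * b) a := (h.le y.2).mul_left b1
    have ca : y.1 * b ≠ a := fun e => out y.2 (by rw [e]; exact h.self ia)
    have ba : b ≠ a := fun e => b2 (by rw [e]; exact h.self ia)
    have bc : ¬ IsConj b (y.1 * b) := fun e => by
      obtain ⟨g, e⟩ := isConj_iff.1 e
      have c1 : Commute (g * a * g⁻¹) (y.1 * b) := e ▸ b1.symm.map (MulAut.conj g)
      obtain ⟨k, hk⟩ := conj_of_odd ia.2 (ia.conj g).2 (h3 a ha _ (h2 a ha g))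
      have c2 : Commute ((a * (g * a * g⁻¹)) ^ k) (y.1 * b) := (cc.symm.mul_left c1).pow_left k
      set w := (a * (g * a * g⁻¹)) ^ k
      have c3 : Commute (w * g) a := by
        rw [Commute, SemiconjBy, ← mul_inv_eq_iff_eq_mul]
        exact Eq.trans (by group) hk
      have c4 : w * g * b * (w * g)⁻¹ = y.1 * b := by
        rw [← mul_inv_eq_iff_eq_mul.2 c2.eq, ← e]; group
      by_cases c5 : w * g ∈ T a
      · rw [cb c5, mul_left_inj] at c4
        exact hy ⟨_, c5⟩ (Subtype.ext c4)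
      · have c6 := h.two ia c3 b1 c5 b2
        have := cb c6
        rw [show w * g * b * b * (w * g * b)⁻¹ = w * g * b * (w * g)⁻¹ by group, c4,
          mul_left_inj] at this
        exact hy ⟨_, c6⟩ (Subtype.ext this.symm)
    have tb : ∀ x ∈ T b, x = 1 ∨ x = b := fun x hx => by
      by_contra! e
      exact h.three ia ib ic (nc b1 ba) (nc cc ca) bc r1 (fun e => ia.1 (by rw [← r2, e, mul_one]))
        (fun e => ia.1 (by rw [← r2, e, ia.2])) hx e.1 e.2
    have cb' : ∀ x, Commute x b → Commute x a := fun x c => by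
      by_cases e : x ∈ T b
      · rcases tb x e with rfl | rfl
        exacts [Commute.one_left _, b1]
      · rw [← mul_one x, ← ia.2, ← mul_assoc]
        refine Commute.mul_left ?_ (Commute.refl a)
        rcases tb _ (h.two ib c b1.symm e (h.notMem ib ia ba.symm)) with e | e <;> rw [e]
        exacts [Commute.one_left _, b1]
    have key : ∀ s ∈ I, s = a := fun s hs => by
      obtain ⟨w, -, w1, w2, w3⟩ := exists_inv2_comm (h1 s hs) ib ⊤ trivial trivial fun g _ e =>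
        ba (iso b (by simpa [← e, mul_assoc] using h2 s hs g⁻¹) a ha b1)
      by_cases e : w ∈ T b
      · rcases tb w e with rfl | rfl
        · exact absurd rfl w1.1
        · exact iso s hs a ha (cb' s w2.symm)
      · have e' : w = w * a * a := by rw [mul_assoc, ia.2, mul_one]
        rcases tb _ (h.two ib w3 b1.symm e (h.notMem ib ia ba.symm)) with e1 | e1 <;>
          rw [e1] at e'
        · exact iso s hs a ha (by simpa [e'] using w2.symm)
        · rw [b1.eq, ← r2, ← cb r1] at e'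
          have c1 : Commute (ρ⁻¹ * s * ρ⁻¹⁻¹) b := by
            simpa [e', mul_assoc] using w2.symm.map (MulAut.conj ρ⁻¹)
          have c2 := iso _ (h2 s hs ρ⁻¹) a ha (cb' _ c1)
          rw [← mul_inv_eq_iff_eq_mul.2 (h.le r1).eq, ← c2]; group
    intro s hs t ht
    rw [key s hs, key t ht]

/-- every overgroup `H` of `S` is normalised by `g` unless `g` lies in the join of `H` with its
conjugate; the normaliser of `S` is abelian modulo `S` -/
structure SP (S : Subgroup G) : Prop where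
  ab : ∀ x ∈ normalizer (S : Set G), ∀ y ∈ normalizer (S : Set G), x * y * x⁻¹ * y⁻¹ ∈ S
  dich : ∀ H : Subgroup G, S ≤ H → ∀ g ∈ normalizer (S : Set G),
    g ∉ H ⊔ H.map (MulAut.conj g).toMonoidHom → ∀ y ∈ H, g * y * g⁻¹ ∈ H

theorem SP.of_self {S : Subgroup G} (h : ∀ x ∈ normalizer (S : Set G), x ∈ S) : SP S :=
  ⟨fun x hx y hy => mul_mem (mul_mem (mul_mem (h x hx) (h y hy)) (inv_mem (h x hx)))
    (inv_mem (h y hy)), fun _ hH g hg h0 => absurd (mem_sup_left (hH (h g hg))) h0⟩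

theorem oddPron_pi {ι : Type*} [Finite ι] {G : ι → Type*} [∀ i, Group (G i)] [∀ i, Finite (G i)]
    (S : ∀ i, Sylow 2 (G i)) (hS : ∀ i, SP (S i : Subgroup (G i))) : OddPron (∀ i, G i) := by
  classical
  haveI := Fintype.ofFinite ι
  let P : Subgroup (∀ i, G i) := pi Set.univ fun i => S i
  have mP : ∀ {x}, x ∈ P ↔ ∀ i, x i ∈ (S i : Subgroup (G i)) := fun {x} => by simp [P, mem_pi]
  have sP : ∀ i, ∀ s ∈ (S i : Subgroup (G i)), Pi.mulSingle i s ∈ P := fun i s hs => mP.2 fun j => by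
    rcases eq_or_ne j i with rfl | e
    · simpa using hs
    · simp [e]
  have nP : ∀ {x}, x ∈ normalizer (P : Set (∀ i, G i)) →
      ∀ i, x i ∈ normalizer ((S i : Subgroup (G i)) : Set (G i)) := fun {x} hx i =>
    mem_normalizer_fintype fun s hs => by
      have := mP.1 ((mem_normalizer_iff.1 hx _).1 (sP i s hs)) i
      rwa [Pi.mul_apply, Pi.mul_apply, Pi.mulSingle_eq_same] at this
  have pP : IsPGroup 2 P := fun x => by
    choose k hk using fun i => (S i).2 ⟨x.1 i, mP.1 x.2 i⟩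
    refine ⟨∑ i, k i, Subtype.ext (funext fun i => ?_)⟩
    obtain ⟨c, hc⟩ := Nat.exists_eq_add_of_le
      (Finset.single_le_sum (f := k) (fun _ _ => Nat.zero_le _) (Finset.mem_univ i))
    have : x.1 i ^ 2 ^ k i = 1 := congrArg Subtype.val (hk i)
    simp [hc, pow_add, pow_mul, this]
  obtain ⟨Q, hQ⟩ := exists_sylow_eq pP fun y hy k hk => mP.2 fun i =>
    ((show IsPGroup 2 (zpowers (y i)) by
      rintro ⟨_, n, rfl⟩
      refine ⟨k, Subtype.ext ?_⟩
      change (y i ^ n) ^ 2 ^ k = 1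
      rw [← zpow_natCast, ← zpow_mul, mul_comm, zpow_mul, zpow_natCast,
        show y i ^ 2 ^ k = 1 from congrFun hk i, one_zpow]).inf_normalizer_sylow (S i)).le
      ⟨mem_zpowers _, nP hy i⟩ |>.2
  refine oddPron_of_sylow Q fun H hH => pronormal_of_sylow Q hH fun g hg => ?_
  rw [hQ] at hg
  have hP : P ≤ H := hQ ▸ hH
  let D : ∀ i, Subgroup (G i) := fun i => H.comap (MonoidHom.mulSingle G i)
  have mD : ∀ {i d}, d ∈ D i ↔ Pi.mulSingle i d ∈ H := Iff.rfl
  have sD : ∀ i, (S i : Subgroup (G i)) ≤ D i := fun i s hs => hP (sP i s hs)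
  have cj : ∀ (y : ∀ i, G i) i d, y * Pi.mulSingle i d * y⁻¹ = Pi.mulSingle i (y i * d * (y i)⁻¹) :=
    fun y i d => funext fun j => by
      rcases eq_or_ne j i with rfl | e
      · simp
      · simp [e]
  let E : Subgroup (∀ i, G i) := pi Set.univ D
  have mE : ∀ {x}, x ∈ E ↔ ∀ i, x i ∈ D i := fun {x} => by simp [E, mem_pi]
  have eH : E ≤ H := fun x hx => pi_mem_of_mulSingle_mem x fun i => mE.1 hx i
  have pE : (Q : Subgroup (∀ i, G i)) ≤ E := hQ ▸ fun x hx => mE.2 fun i => sD i (mP.1 hx i)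
  have fr : ∀ y ∈ H, ∃ d ∈ E, d⁻¹ * y ∈ normalizer (P : Set (∀ i, G i)) := fun y hy => by
    obtain ⟨d, hd, e⟩ := H3.sylow_conj_in Q (y • Q) E pE (by
      rintro _ ⟨s, hs, rfl⟩
      refine mE.2 fun i => mD.2 ?_
      have := cj y i (s i)
      exact this ▸ mul_mem (mul_mem hy (mD.1 (mE.1 (pE hs) i))) (inv_mem hy))
    refine ⟨d, hd, ?_⟩
    rw [← hQ, Sylow.coe_coe, ← Sylow.smul_eq_iff_mem_normalizer, mul_smul, ← e, inv_smul_smul]
  let c : ι → Prop := fun i => g i ∈ D i ⊔ (D i).map (MulAut.conj (g i)).toMonoidHom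
  let x : ∀ i, G i := fun i => if c i then g i else 1
  have x1 : x ∈ H ⊔ H.map (MulAut.conj g).toMonoidHom := pi_mem_of_mulSingle_mem x fun i => by
    by_cases e : c i
    · rw [show x i = g i from if_pos e]
      refine (show D i ⊔ (D i).map (MulAut.conj (g i)).toMonoidHom ≤ comap (MonoidHom.mulSingle G i)
        (H ⊔ H.map (MulAut.conj g).toMonoidHom) from sup_le (fun d hd => mem_sup_left hd) ?_) e
      rintro _ ⟨d, hd, rfl⟩
      exact mem_sup_right ⟨_, hd, cj g i d⟩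
    · rw [show x i = 1 from if_neg e, Pi.mulSingle_one]; exact one_mem _
  have x2 : x⁻¹ * g ∈ normalizer (H : Set (∀ i, G i)) := pi_mem_of_mulSingle_mem _ fun i => by
    by_cases e : c i
    · rw [show (x⁻¹ * g) i = 1 by simp [x, e], Pi.mulSingle_one]; exact one_mem _
    rw [show (x⁻¹ * g) i = g i by simp [x, e]]
    refine mem_normalizer_fintype fun y hy => ?_
    obtain ⟨d, hd, hn⟩ := fr y hy
    have k1 : Pi.mulSingle i (g i) * d * (Pi.mulSingle i (g i))⁻¹ ∈ E := mE.2 fun j => by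
      rcases eq_or_ne j i with rfl | e'
      · simpa using (hS j).dich _ (sD j) _ (nP hg j) e _ (mE.1 hd j)
      · simpa [e'] using mE.1 hd j
    have k2 : Pi.mulSingle i (g i) * (d⁻¹ * y) * (Pi.mulSingle i (g i))⁻¹ * (d⁻¹ * y)⁻¹ ∈ P :=
      mP.2 fun j => by
        rcases eq_or_ne j i with rfl | e'
        · simpa using (hS j).ab _ (nP hg j) _ (nP hn j)
        · simp [e']
    have := mul_mem (mul_mem (eH k1) (hP k2)) (mul_mem (inv_mem (eH hd)) hy)
    change _ ∈ H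
    convert this using 1
    group
  refine ⟨x, x1, ?_⟩
  ext z
  simp only [mem_map, MulEquiv.coe_toMonoidHom, MulAut.conj_apply]
  constructor
  · rintro ⟨y, hy, rfl⟩
    exact ⟨_, (mem_normalizer_iff.1 x2 y).1 hy, by group⟩
  · rintro ⟨y, hy, rfl⟩
    exact ⟨_, (mem_normalizer_iff.1 (inv_mem x2) y).1 hy, by group⟩

end Cfsg.Agent.H3.Pr
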