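import Cfsg.Agent.H3.PrA

/-! Unit quaternions over a finite field of odd order and their Sylow `2`-subgroups. -/

set_option autoImplicit false

namespace Cfsg.Agent.H3.Pr

open Subgroup Function H5 Quaternion

theorem mem_of_pow {G : Type*} [Group G] (S : Sylow 2 G) {g : G}
    (hg : g ∈ normalizer ((S : Subgroup G) : Set G)) {k : ℕ} (h : g ^ 2 ^ k ∈ S) : g ∈ S := by
  obtain ⟨l, hl⟩ := S.2 ⟨_, h⟩
  have e : g ^ 2 ^ (k + l) = 1 := by rw [pow_add, pow_mul]; exact congrArg Subtype.val hl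
  refine ((show IsPGroup 2 (zpowers g) from ?_).inf_normalizer_sylow S).le ⟨mem_zpowers _, hg⟩ |>.2
  rintro ⟨_, n, rfl⟩
  refine ⟨k + l, Subtype.ext ?_⟩
  change (g ^ n) ^ 2 ^ (k + l) = 1
  rw [← zpow_natCast, ← zpow_mul, mul_comm, zpow_mul, zpow_natCast, e, one_zpow]

variable {F : Type*} [Field F]

/-- the unit quaternions -/
abbrev U (F : Type*) [Field F] := unitary ℍ[F]

theorem mem_U {x : ℍ[F]} : x ∈ unitary ℍ[F] ↔ normSq x = 1 := by
  rw [Unitary.mem_iff, star_mul_self, self_mul_star, and_self, ← Quaternion.coe_one, Quaternion.coe_inj]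

theorem U_norm (x : U F) : normSq (x : ℍ[F]) = 1 := mem_U.1 x.2

instance [Finite F] : Finite ℍ[F] := Finite.of_equiv _ (Quaternion.equivTuple F).symm

/-- a quaternion from its coordinates -/
def mq (a b c d : F) : ℍ[F] := ⟨a, b, c, d⟩

@[simp] theorem mq_re (a b c d : F) : (mq a b c d).re = a := rfl
@[simp] theorem mq_imI (a b c d : F) : (mq a b c d).imI = b := rfl
@[simp] theorem mq_imJ (a b c d : F) : (mq a b c d).imJ = c := rfl
@[simp] theorem mq_imK (a b c d : F) : (mq a b c d).imK = d := rfl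
@[simp] theorem U_coe_neg (x : U F) : ((-x : U F) : ℍ[F]) = -x := rfl

theorem U_ext {x y : U F} (h : (x : ℍ[F]) = y) : x = y := Subtype.ext h

/-- the quaternion `i` -/
def qi : U F := ⟨mq 0 1 0 0, mem_U.2 (by simp [normSq_def'])⟩
/-- the quaternion `j` -/
def qj : U F := ⟨mq 0 0 1 0, mem_U.2 (by simp [normSq_def'])⟩

variable [NeZero (2 : F)]

theorem two_ne : (2 : F) ≠ 0 := NeZero.ne 2

/-- a unit quaternion of order three -/
def qw : U F := ⟨mq (-2⁻¹) (-2⁻¹) (-2⁻¹) (-2⁻¹), mem_U.2 (by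
  simp only [normSq_def', mq_re, mq_imI, mq_imJ, mq_imK]; field_simp [two_ne]; norm_num)⟩

theorem U_neg_ne : (-1 : U F) ≠ 1 := fun h => two_ne (F := F) (by
  have := congrArg (fun x : U F => (x : ℍ[F]).re) h
  simp at this
  linear_combination -this)

omit [NeZero (2 : F)] in
theorem U_scal {x : U F} (h1 : x.1.imI = 0) (h2 : x.1.imJ = 0) (h3 : x.1.imK = 0) :
    x = 1 ∨ x = -1 := by
  have := U_norm x
  rw [normSq_def', h1, h2, h3] at this
  refine (sq_eq_one_iff_of_ne_zero_aux this).imp (fun e => U_ext ?_) fun e => U_ext ?_ <;>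
    ext <;> simp [*]
where sq_eq_one_iff_of_ne_zero_aux {a : F} (h : a ^ 2 + 0 ^ 2 + 0 ^ 2 + 0 ^ 2 = 1) :
    a = 1 ∨ a = -1 := mul_self_eq_one_iff.1 (by linear_combination h)

theorem U_sq {x : U F} : x * x = 1 ↔ x = 1 ∨ x = -1 := by
  refine ⟨fun h => ?_, by rintro (rfl | rfl) <;> simp⟩
  have e : star x.1 = x.1 := congrArg Subtype.val (inv_eq_of_mul_eq_one_right h)
  have k : ∀ {a : F}, -a = a → a = 0 := fun {a} h =>
    (mul_eq_zero.1 (show 2 * a = 0 by linear_combination -h)).resolve_left two_ne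
  exact U_scal (k (by simpa using congrArg (·.imI) e)) (k (by simpa using congrArg (·.imJ) e))
    (k (by simpa using congrArg (·.imK) e))

theorem comm_iff {a b : ℍ[F]} : a * b = b * a ↔ a.imJ * b.imK = a.imK * b.imJ ∧
    a.imK * b.imI = a.imI * b.imK ∧ a.imI * b.imJ = a.imJ * b.imI := by
  constructor
  · intro h
    have h1 := congrArg (·.imI) h
    have h2 := congrArg (·.imJ) h
    have h3 := congrArg (·.imK) h
    simp only [imI_mul, imJ_mul, imK_mul] at h1 h2 h3
    refine ⟨?_, ?_, ?_⟩ <;> apply mul_left_cancel₀ (two_ne (F := F))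
    · linear_combination h1
    · linear_combination h2
    · linear_combination h3
  · rintro ⟨h1, h2, h3⟩
    ext <;> simp only [re_mul, imI_mul, imJ_mul, imK_mul]
    · ring
    · linear_combination 2 * h1
    · linear_combination 2 * h2
    · linear_combination 2 * h3

theorem U_ca (x a b : U F) (h1 : x ≠ 1) (h2 : x ≠ -1) (h3 : Commute a x) (h4 : Commute b x) :
    Commute a b := by
  obtain ⟨a1, a2, a3⟩ := comm_iff.1 (congrArg Subtype.val h3.eq)
  obtain ⟨b1, b2, b3⟩ := comm_iff.1 (congrArg Subtype.val h4.eq)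
  refine U_ext (comm_iff.2 ?_)
  by_cases e1 : x.1.imI = 0
  · by_cases e2 : x.1.imJ = 0
    · have e3 : x.1.imK ≠ 0 := fun e3 => (U_scal e1 e2 e3).elim h1 h2
      refine ⟨?_, ?_, ?_⟩ <;> apply mul_left_cancel₀ e3
      · linear_combination b.1.imK * a1 - a.1.imK * b1
      · linear_combination b.1.imK * a2 - a.1.imK * b2
      · linear_combination -b.1.imJ * a2 - b.1.imI * a1 - a.1.imK * b3
    · refine ⟨?_, ?_, ?_⟩ <;> apply mul_left_cancel₀ e2
      · linear_combination b.1.imJ * a1 - a.1.imJ * b1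
      · linear_combination -b.1.imI * a1 - b.1.imK * a3 - a.1.imJ * b2
      · linear_combination b.1.imJ * a3 - a.1.imJ * b3
  · refine ⟨?_, ?_, ?_⟩ <;> apply mul_left_cancel₀ e1
    · linear_combination -b.1.imK * a3 - b.1.imJ * a2 - a.1.imI * b1
    · linear_combination b.1.imI * a2 - a.1.imI * b2
    · linear_combination b.1.imI * a3 - a.1.imI * b3

omit [NeZero (2 : F)] in
theorem qi_sq : (qi * qi : U F) = -1 := U_ext (by ext <;> simp [qi])
omit [NeZero (2 : F)] in
theorem qj_sq : (qj * qj : U F) = -1 := U_ext (by ext <;> simp [qj])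
omit [NeZero (2 : F)] in
theorem qi_qj : (qi * qj : U F) = -(qj * qi) := U_ext (by ext <;> simp [qi, qj])
theorem qw_qi : (qw * qi : U F) = qj * qw := U_ext (by ext <;> simp [qi, qj, qw])
theorem qw_qj : (qw * qj : U F) = qi * qj * qw := U_ext (by ext <;> simp [qi, qj, qw])
theorem qw_cube : (qw * qw * qw : U F) = 1 := U_ext (by
  ext <;> simp [qw] <;> field_simp [two_ne] <;> norm_num)

instance : (zpowers (-1 : U F)).Normal :=
  ⟨by rintro _ ⟨k, rfl⟩ g; simp [((Commute.neg_one_right g).zpow_right k).eq]⟩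

/-- what is used about a Sylow `2`-subgroup with a larger normaliser -/
structure Q8 (S : Subgroup (U F)) : Prop where
  dich : ∀ τ ∈ normalizer (S : Set (U F)), ∀ D, S ≤ D →
    τ ∉ D ⊔ D.map (MulAut.conj τ).toMonoidHom → D = S
  gen : ∀ τ ∈ normalizer (S : Set (U F)), ∃ e : ℕ, τ * qw ^ e ∈ S
  norm : qw ∈ normalizer (S : Set (U F))

theorem exists_base [Finite F] : ∃ S : Sylow 2 (U F), qi ∈ S ∧ qj ∈ S ∧
    ((∀ x ∈ normalizer ((S : Subgroup (U F)) : Set (U F)), x ∈ S) ∨ Q8 (S : Subgroup (U F))) := by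
  let π := QuotientGroup.mk' (zpowers (-1 : U F))
  have hπ : Surjective π := QuotientGroup.mk'_surjective _
  have k1 : ∀ x, π x = 1 ↔ x = 1 ∨ x = -1 := fun x => (QuotientGroup.eq_one_iff x).trans
    ⟨by rintro ⟨k, rfl⟩; exact U_sq.1 (show (-1 : U F) ^ k * (-1) ^ k = 1 by rw [← (Commute.refl _).mul_zpow]; simp),
      by rintro (rfl | rfl); exacts [one_mem _, mem_zpowers _]⟩
  obtain ⟨h, -⟩ := tori_of_ca hπ k1 (fun _ => U_sq) (fun x => Commute.neg_one_right x) U_ca
  have n1 : π (-1) = 1 := (k1 _).2 (Or.inr rfl)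
  have n2 : ∀ x, π (-x) = π x := fun x => by rw [← neg_one_mul x, map_mul, n1, one_mul]
  have a6 : ∀ {t}, t * t = -1 → Inv2 (π t) := fun {t} e => ⟨fun e' => U_neg_ne (F := F) (by
    obtain rfl | rfl := (k1 _).1 e' <;> simpa using e.symm), by rw [← map_mul, e, n1]⟩
  have hi := a6 qi_sq
  have hj := a6 qj_sq
  have c1 : Commute (π qi) (π qj) := by
    rw [Commute, SemiconjBy, ← map_mul, qi_qj, n2, map_mul]
  have ij : π qi ≠ π qj := fun e => by
    have : π (qi * qj) = 1 := by rw [map_mul, e, hj.2]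
    rcases (k1 _).1 this with e | e <;> simpa [qi, qj] using congrArg (fun x : U F => x.1.imK) e
  obtain ⟨S', hS'⟩ := (show IsPGroup 2 (zpowers (π qi) ⊔ zpowers (π qj) :) from
    IsPGroup.to_sup_of_normal_right'
    (IsPGroup.of_card (n := 1) (by
      rw [Nat.card_zpowers, orderOf_eq_prime ((sq _).trans hi.2) hi.1, pow_one]))
    (IsPGroup.of_card (n := 1) (by
      rw [Nat.card_zpowers, orderOf_eq_prime ((sq _).trans hj.2) hj.1, pow_one]))
    (zpowers_le.2 (mem_normalizer_fintype (by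
      rintro _ ⟨k, rfl⟩; simp [(c1.zpow_right k).eq])))).exists_le_sylow
  have i1 : π qi ∈ S' := hS' (mem_sup_left (mem_zpowers _))
  have j1 : π qj ∈ S' := hS' (mem_sup_right (mem_zpowers _))
  let S : Sylow 2 (U F) := S'.comapOfKerIsPGroup π (fun x => ⟨1, Subtype.ext (by
    rcases (k1 _).1 x.2 with e | e <;> simp [e])⟩) (by rw [π.range_eq_top.2 hπ]; exact le_top)
  have mS : ∀ {x}, x ∈ S ↔ π x ∈ S' := Iff.rfl
  have nS : ∀ {x}, x ∈ normalizer ((S : Subgroup (U F)) : Set (U F)) →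
      π x ∈ normalizer (S'.1 : Set (U F ⧸ zpowers (-1 : U F))) := fun {x} hx =>
    mem_normalizer_fintype fun y hy => by
      obtain ⟨y, rfl⟩ := hπ y
      simpa using mS.1 ((mem_normalizer_iff.1 hx y).1 hy)
  refine ⟨S, i1, j1, or_iff_not_imp_left.2 fun hn => ?_⟩
  push Not at hn
  obtain ⟨g, g1, g2⟩ := hn
  have four := (tori_strong h hi hj ij S' i1 j1 (nS g1) g2).1
  have w1 : π qw * π qi * (π qw)⁻¹ = π qj := by
    rw [mul_inv_eq_iff_eq_mul, ← map_mul, qw_qi, map_mul]
  have w2 : π qw * π qj * (π qw)⁻¹ = π qj * π qi := by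
    rw [mul_inv_eq_iff_eq_mul, ← map_mul, qw_qj, map_mul, map_mul, c1.eq]
  have w3 : π qw * (π qj * π qi) * (π qw)⁻¹ = π qi := by
    rw [← conj_mul, w1, w2, ← c1.eq, mul_assoc, hj.2, mul_one]
  have wN : qw ∈ normalizer ((S : Subgroup (U F)) : Set (U F)) := mem_normalizer_fintype fun y hy => by
    refine mS.2 ?_
    rw [map_mul, map_mul, map_inv]
    rcases four _ hy with e | e | e | e <;> rw [e]
    · simp
    · rwa [w1]
    · rw [w2]; exact mul_mem j1 i1
    · rwa [w3]
  have key : ∀ x ∈ normalizer (S'.1 : Set (U F ⧸ zpowers (-1 : U F))), x * π qi * x⁻¹ = π qi → x ∈ S' :=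
    fun x hx e => by
      refine mem_of_pow S' hx (k := 1) ?_
      have e1 : Commute x (π qi) := mul_inv_eq_iff_eq_mul.1 e
      have e2 : x * (x * π qj * x⁻¹) * x⁻¹ = π qj := by
        rcases four _ ((mem_normalizer_iff.1 hx _).1 j1) with e' | e' | e' | e'
        · exact absurd e' (hj.conj x).1
        · exact absurd ((MulAut.conj x).injective (e.trans e'.symm)) ij
        · rw [e', e']
        · rw [e', ← conj_mul, e', e, mul_assoc, hi.2, mul_one]
      rcases h.four hi hj ij.symm c1.symm (e1.pow_left (2 ^ 1)) (x := x ^ 2 ^ 1) (by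
        rw [Commute, SemiconjBy, ← mul_inv_eq_iff_eq_mul]
        exact Eq.trans (by rw [pow_one, sq]; group) e2) with e' | e' | e' | e' <;> rw [e']
      exacts [one_mem _, i1, j1, mul_mem j1 i1]
  refine ⟨fun τ hτ D hD h0 => ?_, fun τ hτ => ?_, wN⟩
  · have kD : π.ker ≤ D := fun x hx => hD (mS.2 (by rw [show π x = 1 from hx]; exact one_mem _))
    have := (tori_strong h hi hj ij S' i1 j1 (nS hτ) fun e => h0 (mem_sup_left (hD e))).2
      (D.map π) (fun y hy => by obtain ⟨y, rfl⟩ := hπ y; exact mem_map_of_mem π (hD hy)) fun e => h0 (by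
        rw [← map_conj_map, ← Subgroup.map_sup] at e
        rw [← comap_map_eq_self (kD.trans le_sup_left)]
        exact e)
    rw [← comap_map_eq_self kD, this]
    rfl
  · have t1 := nS hτ
    have t2 := nS wN
    rcases four _ ((mem_normalizer_iff''.1 t1 _).1 i1) with e | e | e | e
    · exact absurd (by simpa using e) (hi.conj (π τ)⁻¹).1
    · exact ⟨0, by rw [pow_zero, mul_one]; exact mS.2 (key _ t1 (by nth_rewrite 1 [← e]; group))⟩
    · refine ⟨1, mS.2 ?_⟩
      rw [pow_one, map_mul]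
      exact key _ (mul_mem t1 t2) (Eq.trans (by group) (by rw [w1, ← e]; group :
        π τ * (π qw * π qi * (π qw)⁻¹) * (π τ)⁻¹ = π qi))
    · refine ⟨2, mS.2 ?_⟩
      rw [sq, map_mul, map_mul]
      exact key _ (mul_mem t1 (mul_mem t2 t2)) (Eq.trans (by group) (by rw [w1, w2, ← e]; group :
        π τ * (π qw * (π qw * π qi * (π qw)⁻¹) * (π qw)⁻¹) * (π τ)⁻¹ = π qi))

theorem Q8.ab {S : Subgroup (U F)} (h : Q8 S) {x y : U F} (hx : x ∈ normalizer (S : Set (U F)))
    (hy : y ∈ normalizer (S : Set (U F))) : x * y * x⁻¹ * y⁻¹ ∈ S := by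
  obtain ⟨a, ha⟩ := h.gen x hx
  obtain ⟨b, hb⟩ := h.gen y hy
  have c : Commute (qw ^ a : U F) (qw ^ b) := (Commute.refl _).pow_pow a b
  have e1 := (mem_normalizer_iff''.1 (pow_mem h.norm a) _).1 hb
  have e2 := (mem_normalizer_iff''.1 (pow_mem h.norm b) _).1 (inv_mem ha)
  have := mul_mem (mul_mem (mul_mem ha e1) e2) (inv_mem hb)
  convert this using 1
  calc x * y * x⁻¹ * y⁻¹ = x * y * (qw ^ b * qw ^ a * (qw ^ b)⁻¹ * (qw ^ a)⁻¹) * x⁻¹ * y⁻¹ := by
        rw [← c.eq]; group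
    _ = _ := by group

end Cfsg.Agent.H3.Pr
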