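import Cfsg.Agent.H3.PrB
import Cfsg.Agent.H3.Syl2

/-! Unitary matrices over the quaternions: monomial subgroups and their normalisers. -/

set_option autoImplicit false

namespace Cfsg.Agent.H3.Pr

open Subgroup Function Quaternion Equiv

variable {F : Type*} [Field F] {I : Type*} [Fintype I] [DecidableEq I]

/-- the unitary group over the quaternions -/
abbrev GU (I F : Type*) [Fintype I] [DecidableEq I] [Field F] := unitary (Matrix I I ℍ[F])

instance [Finite F] : Finite (Matrix I I ℍ[F]) := inferInstanceAs (Finite (I → I → ℍ[F]))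

theorem GU_ext {g h : GU I F} (e : ∀ a b, g.1 a b = h.1 a b) : g = h := Subtype.ext (Matrix.ext e)

theorem U_star_mul (x : U F) : star x.1 * x.1 = 1 := x.2.1
theorem U_mul_star (x : U F) : x.1 * star x.1 = 1 := x.2.2
theorem U_ne (x : U F) : x.1 ≠ 0 := fun h => by simpa [h] using U_norm x

theorem inv_apply (h : GU I F) (a b : I) : (h⁻¹).1 a b = star (h.1 b a) := rfl

theorem mul_apply' (g h : GU I F) (a b : I) : (g * h).1 a b = ∑ c, g.1 a c * h.1 c b :=
  Matrix.mul_apply

theorem col_mul (h : GU I F) (c d : I) :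
    ∑ a, star (h.1 a c) * h.1 a d = if c = d then 1 else 0 := by
  have := mul_apply' h⁻¹ h c d
  rw [inv_mul_cancel] at this
  exact this.symm.trans Matrix.one_apply

theorem col_norm (h : GU I F) (c : I) : ∑ a, normSq (h.1 a c) = 1 := by
  have := col_mul h c c
  simp only [star_mul_self, if_true] at this
  exact Quaternion.coe_injective ((map_sum (algebraMap F ℍ[F]) _ _).trans this)

/-- diagonal matrices -/
def dg : (I → U F) →* GU I F where
  toFun f := ⟨Matrix.diagonal fun a => (f a).1, by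
    simp [Unitary.mem_iff, Matrix.star_eq_conjTranspose, Matrix.diagonal_conjTranspose,
      Matrix.diagonal_mul_diagonal]⟩
  map_one' := Subtype.ext (by simp)
  map_mul' f g := Subtype.ext (by simp [Matrix.diagonal_mul_diagonal])

/-- permutation matrices -/
def pm : Perm I →* GU I F where
  toFun σ := ⟨Matrix.of fun a b => if a = σ b then 1 else 0, by
    constructor <;> ext1 a b
    · simp [Matrix.mul_apply, Matrix.one_apply, apply_ite star, eq_comm]
    · simp [Matrix.mul_apply, Matrix.one_apply, apply_ite star, ← Equiv.symm_apply_eq,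
        @eq_comm _ b a]⟩
  map_one' := Subtype.ext (by ext1 a b; simp [Matrix.one_apply]; rfl)
  map_mul' f g := Subtype.ext (by ext1 a b; simp [Matrix.mul_apply]; rfl)

theorem dg_apply (f : I → U F) (a b : I) : (dg f).1 a b = if a = b then (f a).1 else 0 :=
  Matrix.diagonal_apply _ _ _

theorem pm_apply (σ : Perm I) (a b : I) : (pm σ : GU I F).1 a b = if a = σ b then 1 else 0 := rfl

theorem dg_mul (f : I → U F) (h : GU I F) (a b : I) : (dg f * h).1 a b = (f a).1 * h.1 a b :=
  Matrix.diagonal_mul _ _ _ _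

theorem mul_dg (f : I → U F) (h : GU I F) (a b : I) : (h * dg f).1 a b = h.1 a b * (f b).1 :=
  Matrix.mul_diagonal _ _ _ _

theorem mul_pm (σ : Perm I) (h : GU I F) (a b : I) : (h * pm σ).1 a b = h.1 a (σ b) := by
  simp [mul_apply', pm_apply]

theorem pm_mul (σ : Perm I) (h : GU I F) (a b : I) : (pm σ * h).1 a b = h.1 (σ⁻¹ a) b := by
  simp [mul_apply', pm_apply, ← Perm.inv_eq_iff_eq]

theorem mon_apply (f : I → U F) (σ : Perm I) (a b : I) :
    (dg f * pm σ).1 a b = if a = σ b then (f a).1 else 0 := by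
  simp [dg_mul, pm_apply]

theorem pm_dg (σ : Perm I) (f : I → U F) : pm σ * dg f = dg (f ∘ ⇑σ⁻¹) * pm σ :=
  GU_ext fun a b => by
    rw [mon_apply, pm_mul, dg_apply]; simp [Equiv.symm_apply_eq]

theorem mon_inj {f g : I → U F} {σ τ : Perm I} (h : dg f * pm σ = dg g * pm τ) : f = g ∧ σ = τ := by
  have e : σ = τ := Equiv.ext fun b => by
    have := congrArg (fun x : GU I F => x.1 (σ b) b) h
    simp only [mon_apply, if_true] at this
    by_contra e
    rw [if_neg e] at this
    exact U_ne _ this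
  subst e
  refine ⟨funext fun a => U_ext ?_, rfl⟩
  simpa [dg_apply] using congrArg (fun x : GU I F => x.1 a a) (mul_right_cancel h)

/-- a unit quaternion acting on one coordinate -/
abbrev sg (c : I) (d : U F) : GU I F := dg (Pi.mulSingle c d)

theorem sg_apply (c : I) (d : U F) (a b : I) :
    (sg c d).1 a b = (if a = b then 1 else 0) + if a = c ∧ b = c then d.1 - 1 else 0 := by
  rw [dg_apply]
  by_cases e : a = b
  · subst e
    by_cases e' : a = c
    · subst e'; simp
    · simp [e']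
  · rw [if_neg e, if_neg e, if_neg (fun h => e (h.1.trans h.2.symm)), add_zero]

theorem conj_sg (h : GU I F) (c : I) (d : U F) (a b : I) : (h * sg c d * h⁻¹).1 a b =
    (if a = b then 1 else 0) + h.1 a c * (d.1 - 1) * star (h.1 b c) := by
  have e := mul_apply' h h⁻¹ a b
  rw [mul_inv_cancel] at e
  rw [mul_apply', ← show (1 : GU I F).1 a b = _ from Matrix.one_apply, e,
    ← Finset.add_sum_erase _ _ (Finset.mem_univ c), ← Finset.add_sum_erase _ _ (Finset.mem_univ c),
    Finset.sum_congr rfl (g := fun l => h.1 a l * (h⁻¹).1 l b) fun l hl => by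
      rw [mul_dg, Pi.mulSingle_eq_of_ne (Finset.mem_erase.1 hl).1]; simp]
  rw [mul_dg, Pi.mulSingle_eq_same, inv_apply]
  noncomm_ring

theorem pm_sg (σ : Perm I) (c : I) (d : U F) : pm σ * sg c d * (pm σ)⁻¹ = sg (σ c) d := by
  rw [pm_dg, mul_inv_cancel_right]
  congr 1
  funext a
  by_cases e : a = σ c
  · subst e; simp
  · simp [Pi.mulSingle_apply, e, Equiv.symm_apply_eq]

/-- column `c` is supported at `a` -/
def Mon (h : GU I F) (a c : I) : Prop := ∀ b, b ≠ a → h.1 b c = 0

theorem Mon.mem {h : GU I F} {a c : I} (m : Mon h a c) : h.1 a c ∈ unitary ℍ[F] := by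
  rw [mem_U, ← col_norm h c, Finset.sum_eq_single a (fun b _ hb => by simp [m b hb]) (by simp)]

theorem Mon.conj {h : GU I F} {a c : I} (m : Mon h a c) (d : U F) :
    h * sg c d * h⁻¹ = sg a (⟨_, m.mem⟩ * d * (⟨_, m.mem⟩ : U F)⁻¹) := GU_ext fun x y => by
  rw [conj_sg, sg_apply]
  congr 1
  split_ifs with e
  · rw [e.1, e.2, mul_sub, sub_mul, mul_one, m.mem.2]; rfl
  · rcases not_and_or.1 e with e | e <;> simp [m _ e]

theorem exists_mon {h : GU I F} (m : ∀ c, ∃ a, Mon h a c) :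
    ∃ (f : I → U F) (σ : Perm I), h = dg f * pm σ := by
  choose s hs using m
  have inj : Injective s := fun c d e => by
    by_contra n
    have := col_mul h c d
    rw [if_neg n, Finset.sum_eq_single (s c) (fun b _ hb => by simp [hs c b hb]) (by simp)] at this
    have e2 := congrArg normSq this
    rw [map_mul, normSq_star, mem_U.1 (hs c).mem, e, mem_U.1 (hs d).mem] at e2
    simp at e2
  let σ := Equiv.ofBijective s (Finite.injective_iff_bijective.1 inj)
  refine ⟨fun a => ⟨h.1 a (σ⁻¹ a), ?_⟩, σ, GU_ext fun a b => ?_⟩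
  · have := (hs (σ⁻¹ a)).mem
    rwa [show s (σ⁻¹ a) = a from σ.apply_symm_apply a] at this
  · rw [mon_apply]
    split_ifs with e
    · simp [e]
    · exact hs b a e

/-- monomial matrices with entries in `S` and permutation in `X` -/
def WS (S : Subgroup (U F)) (X : Subgroup (Perm I)) : Subgroup (GU I F) where
  carrier := {g | ∃ f : I → U F, (∀ a, f a ∈ S) ∧ ∃ σ ∈ X, g = dg f * pm σ}
  one_mem' := ⟨1, fun _ => one_mem _, 1, one_mem _, by simp⟩
  mul_mem' := by
    rintro _ _ ⟨f, hf, σ, hσ, rfl⟩ ⟨g, hg, τ, hτ, rfl⟩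
    refine ⟨f * g ∘ ⇑σ⁻¹, fun a => mul_mem (hf _) (hg _), σ * τ, mul_mem hσ hτ, ?_⟩
    rw [mul_assoc, ← mul_assoc (pm σ), pm_dg, map_mul, map_mul, mul_assoc, mul_assoc]
  inv_mem' := by
    rintro _ ⟨f, hf, σ, hσ, rfl⟩
    refine ⟨f⁻¹ ∘ ⇑σ⁻¹⁻¹, fun a => inv_mem (hf _), σ⁻¹, inv_mem hσ, ?_⟩
    rw [mul_inv_rev, ← map_inv, ← map_inv, pm_dg]

variable {S : Subgroup (U F)} {X : Subgroup (Perm I)}

theorem dg_mem {f : I → U F} (hf : ∀ a, f a ∈ S) : dg f ∈ WS S X := ⟨f, hf, 1, one_mem _, by simp⟩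

theorem pm_mem {σ : Perm I} (h : σ ∈ X) : pm σ ∈ WS S X := ⟨1, fun _ => one_mem _, σ, h, by simp⟩

theorem sg_mem {d : U F} (h : d ∈ S) (c : I) : sg c d ∈ WS S X := dg_mem fun a => by
  rcases eq_or_ne a c with rfl | e
  · simpa using h
  · simp [e]

theorem mon_mem {f : I → U F} {σ : Perm I} (h : dg f * pm σ ∈ WS S X) : (∀ a, f a ∈ S) ∧ σ ∈ X := by
  obtain ⟨g, hg, τ, hτ, e⟩ := h
  obtain ⟨rfl, rfl⟩ := mon_inj e
  exact ⟨hg, hτ⟩

theorem card_WS : Nat.card (WS S X) = Nat.card S ^ Fintype.card I * Nat.card X := by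
  rw [← Nat.card_eq_fintype_card, ← Nat.card_fun, ← Nat.card_prod]
  refine (Nat.card_congr (Equiv.ofBijective (fun p : (I → S) × X =>
    (⟨dg (fun a => p.1 a) * pm p.2, _, fun a => (p.1 a).2, _, p.2.2, rfl⟩ : WS S X)) ⟨?_, ?_⟩)).symm
  · rintro ⟨f, σ⟩ ⟨g, τ⟩ e
    obtain ⟨e1, e2⟩ := mon_inj (congrArg Subtype.val e)
    exact Prod.ext (funext fun a => Subtype.ext (congrFun e1 a)) (Subtype.ext e2)
  · rintro ⟨_, f, hf, σ, hσ, rfl⟩
    exact ⟨(fun a => ⟨f a, hf a⟩, ⟨σ, hσ⟩), rfl⟩

variable [NeZero (2 : F)]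

omit [NeZero (2 : F)] in
theorem conj_z (h : GU I F) (c a b : I) : (h * sg c (-1) * h⁻¹).1 a b =
    (if a = b then 1 else 0) - 2 * (h.1 a c * star (h.1 b c)) := by
  rw [conj_sg, U_coe_neg, OneMemClass.coe_one]
  noncomm_ring

theorem two_mul_eq_zero {x : ℍ[F]} (h : 2 * x = 0) : x = 0 := by
  rw [show (2 : ℍ[F]) = ((2 : F) : ℍ[F]) from (map_ofNat (algebraMap F ℍ[F]) 2).symm,
    coe_mul_eq_smul] at h
  exact (smul_eq_zero.1 h).resolve_left two_ne

omit [NeZero (2 : F)] in
theorem eq_zero_of_mul {x y : ℍ[F]} (hx : normSq x ≠ 0) (h : x * y = 0) : y = 0 := by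
  have : star x * (x * y) = 0 := by rw [h, mul_zero]
  rw [← mul_assoc, star_mul_self, coe_mul_eq_smul] at this
  exact (smul_eq_zero.1 this).resolve_left hx

omit [NeZero (2 : F)] in
theorem two_self {x : ℍ[F]} (h : 2 * normSq x = 1) : 2 * (x * star x) = 1 := by
  rw [self_mul_star, two_mul, ← coe_add, ← two_mul, h, Quaternion.coe_one]

/-- a monomial conjugate of a coordinate involution -/
theorem classify {h : GU I F} {c : I} {f : I → U F} {σ : Perm I}
    (e : h * sg c (-1) * h⁻¹ = dg f * pm σ) : (∃ a, Mon h a c) ∨ ∃ a b, a ≠ b ∧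
      (∀ l, l ≠ a → l ≠ b → h.1 l c = 0) ∧ 2 * normSq (h.1 a c) = 1 ∧ 2 * normSq (h.1 b c) = 1 ∧
      (f a).1 = -(2 * (h.1 a c * star (h.1 b c))) := by
  have k : ∀ a b, (if a = b then 1 else 0) - 2 * (h.1 a c * star (h.1 b c)) =
      if a = σ b then (f a).1 else 0 := fun a b => by rw [← conj_z, e, mon_apply]
  have z : ∀ {a b}, normSq (h.1 a c) ≠ 0 → a ≠ b → a ≠ σ b → h.1 b c = 0 := fun {a b} h0 h1 h2 => by
    have := k a b
    rw [if_neg h1, if_neg h2, zero_sub, neg_eq_zero] at this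
    exact star_eq_zero.1 (eq_zero_of_mul h0 (two_mul_eq_zero this))
  have d : ∀ {a}, a ≠ σ a → 2 * normSq (h.1 a c) = 1 := fun {a} h1 => by
    have := congrArg (·.re) (k a a)
    simp only [if_true, if_neg h1, self_mul_star, two_mul, re_sub, re_add, re_one, re_coe,
      re_zero] at this
    linear_combination -this
  by_cases h1 : ∀ a, a = σ a
  · obtain ⟨a, -, ha⟩ := Finset.exists_ne_zero_of_sum_ne_zero
      ((col_norm h c).trans_ne one_ne_zero)
    exact Or.inl ⟨a, fun b hb => z ha hb.symm (h1 b ▸ hb.symm)⟩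
  · obtain ⟨a, ha⟩ := not_forall.1 h1
    have hb : a ≠ σ⁻¹ a := fun e => ha (by rw [eq_comm, ← Perm.eq_inv_iff_eq]; exact e)
    refine Or.inr ⟨a, σ⁻¹ a, hb, fun l l1 l2 => z (fun e => by simpa [e] using d ha) l1.symm
      fun e => l2 (by simp [e]), d ha, d (by simpa using hb.symm), ?_⟩
    have := (k a (σ⁻¹ a)).symm
    rwa [if_neg hb, if_pos (by simp), zero_sub] at this

theorem normalizer_WS (X : Sylow 2 (Perm I)) (hX : ∀ a b, ∃ σ ∈ X, σ a = b) (hi : qi ∈ S) (a0 : I)
    {x : GU I F} (hx : x ∈ normalizer (WS S X.1 : Set (GU I F))) :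
    ∃ s ∈ WS S X.1, ∃ τ ∈ normalizer (S : Set (U F)), x = s * dg fun _ => τ := by
  have hm : (-1 : U F) ∈ S := qi_sq (F := F) ▸ mul_mem hi hi
  obtain ⟨f, σ, rfl⟩ := exists_mon (h := x) fun c => by
    obtain ⟨f, -, σ, -, e⟩ := (mem_normalizer_iff.1 hx _).1 (sg_mem hm c)
    refine (classify e).resolve_right ?_
    rintro ⟨a, b, h1, h2, h3, h4, -⟩
    obtain ⟨g, -, τ, -, e'⟩ := (mem_normalizer_iff''.1 hx _).1 (sg_mem hi a)
    have c1 : Commute (sg c (-1)) (dg g * pm τ * sg c (-1) * (dg g * pm τ)⁻¹) := by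
      rw [mul_inv_rev, mul_assoc (dg g), mul_assoc (dg g), ← mul_assoc _ _ (dg g)⁻¹, pm_sg,
        ← map_inv, ← map_mul, ← map_mul]
      refine Commute.map ?_ dg
      funext l
      have k : ∀ (u : I) (y : U F), Commute (Pi.mulSingle (M := fun _ => U F) u (-1) l) y :=
        fun u y => by
          rw [Pi.mulSingle_apply]; split_ifs
          exacts [Commute.neg_one_left _, Commute.one_left _]
      exact k _ _
    have c2 := c1.map (MulAut.conj x)
    rw [← e'] at c2
    simp only [MulAut.conj_apply] at c2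
    rw [show x * (x⁻¹ * sg a qi * x * sg c (-1) * (x⁻¹ * sg a qi * x)⁻¹) * x⁻¹ =
      sg a qi * x * sg c (-1) * (sg a qi * x)⁻¹ by group] at c2
    have c3 := congrArg (fun y : GU I F => y.1 a a) c2.eq
    simp only [mul_apply' _ _ a a, conj_z, dg_mul] at c3
    rw [Finset.sum_eq_add a b h1 (fun l _ hl => by simp [h2 l hl.1 hl.2, hl.1.symm]) (by simp) (by simp),
      Finset.sum_eq_add a b h1 (fun l _ hl => by simp [h2 l hl.1 hl.2, hl.1.symm]) (by simp)
        (by simp)] at c3
    have k0 := two_self h3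
    have k1 : 2 * (x.1 a c * star (x.1 b c)) * (2 * (x.1 b c * star (x.1 a c))) = 1 := by
      calc _ = 2 * (x.1 a c * (2 * (star (x.1 b c) * x.1 b c)) * star (x.1 a c)) := by noncomm_ring
        _ = 1 := by rw [star_comm_self, two_self h4, mul_one, k0]
    simp only [if_true, if_neg h1, if_neg h1.symm, Pi.mulSingle_eq_same, k0, sub_self, zero_mul,
      mul_zero, Pi.mulSingle_eq_of_ne h1.symm, OneMemClass.coe_one, one_mul, zero_add, zero_sub,
      neg_mul_neg, star_mul] at c3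
    have c4 : star (qi : U F).1 = (qi : U F).1 := by
      calc _ = 1 * star (qi : U F).1 := (one_mul _).symm
        _ = _ := by rw [← k1]; noncomm_ring
        _ = _ := c3
        _ = (qi : U F).1 * 1 := by rw [← k1]; noncomm_ring
        _ = _ := mul_one _
    have := congrArg (·.imI) c4
    simp only [qi, imI_star, mq_imI] at this
    exact two_ne (F := F) (by linear_combination -this)
  have h1 : σ ∈ X := by
    change σ ∈ X.1
    rw [← normalizer_sylow_two_perm X]
    refine mem_normalizer_fintype fun ξ hξ => ?_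
    have := (mem_normalizer_iff.1 hx _).1 (pm_mem (S := S) hξ)
    rw [mul_inv_rev, mul_assoc (dg f), mul_assoc (dg f), ← mul_assoc _ _ (dg f)⁻¹, ← map_inv,
      ← map_mul, ← map_mul, ← map_inv, pm_dg, ← mul_assoc, ← map_mul] at this
    exact (mon_mem this).2
  have h2 : dg f ∈ normalizer (WS S X.1 : Set (GU I F)) :=
    (mul_mem_cancel_right (le_normalizer (pm_mem h1))).1 hx
  have h3 : ∀ a, f a * (f a0)⁻¹ ∈ S := fun a => by
    obtain ⟨ξ, hξ, rfl⟩ := hX a0 a
    have := (mem_normalizer_iff.1 h2 _).1 (pm_mem (S := S) hξ)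
    rw [mul_assoc, ← map_inv, pm_dg, ← mul_assoc, ← map_mul] at this
    simpa using (mon_mem this).1 (ξ a0)
  refine ⟨dg (fun a => f a * (f a0)⁻¹) * pm σ, mul_mem (dg_mem h3) (pm_mem h1), f a0,
    mem_normalizer_iff.2 fun s => ⟨fun hs => ?_, fun hs => ?_⟩, ?_⟩
  · have := (mem_normalizer_iff.1 h2 _).1 (sg_mem (X := X.1) hs a0)
    rw [← map_inv, ← map_mul, ← map_mul, ← mul_one (dg _), ← map_one pm] at this
    simpa using (mon_mem this).1 a0
  · have := (mem_normalizer_iff''.1 h2 _).1 (sg_mem (X := X.1) hs a0)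
    rw [← map_inv, ← map_mul, ← map_mul, ← mul_one (dg _), ← map_one pm] at this
    simpa [mul_assoc] using (mon_mem this).1 a0
  · rw [mul_assoc, pm_dg, ← mul_assoc, ← map_mul]
    congr 2
    funext a
    simp

end Cfsg.Agent.H3.Pr
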