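import Cfsg.Agent.H3.PrC

/-! Two conjugate coordinate involutions in general position. -/

set_option autoImplicit false

namespace Cfsg.Agent.H3.Pr

open Subgroup Function Quaternion H5 Matrix
open scoped MatrixGroups

theorem exists_psl {Y k : Type*} [Group Y] [Field k] [IsAlgClosed k] (h2 : (2 : k) ≠ 0)
    (M : Y →* Matrix (Fin 2) (Fin 2) k) :
    ∃ (f : Y →* ProjectiveSpecialLinearGroup (Fin 2) k)
      (T : ProjectiveSpecialLinearGroup (Fin 2) k → Subgroup _), Tori T ∧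
      (∀ y y', Commute (M y) (M y') → f y ∈ T (f y')) ∧
      ∀ y, f y = 1 ↔ ∃ c : k, M y = c • 1 := by
  let π := QuotientGroup.mk' (center SL(2, k))
  have k1 : ∀ x, π x = 1 ↔ x = 1 ∨ x = -1 := fun x =>
    (QuotientGroup.eq_one_iff x).trans H2.mem_center_SL_iff'
  obtain ⟨h, a2⟩ := tori_of_ca (π := π) (QuotientGroup.mk'_surjective _) (z := -1) k1
    (fun x => ⟨fun h => H2.isScal_SL_iff.1 (by
      by_contra h1
      have h3 := H2.cayley x.1
      rw [show x.1 * x.1 = 1 from congrArg Subtype.val h, x.2] at h3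
      exact h2 (H2.comb_injective h1 (a := 2) (b := 0) (a' := 0) (b' := x.1.trace)
        (by linear_combination (norm := module) h3)).1), by rintro (rfl | rfl) <;> simp⟩)
    (fun x => Commute.neg_one_right x) (fun x a b h1 h3 h4 h5 => by
      have h6 : ¬ H2.IsScal x.1 := fun h => (H2.isScal_SL_iff.1 h).elim h1 h3
      obtain ⟨c, d, e1⟩ := (H2.commute_iff_of_not_scal h6 a.1).1 (congrArg Subtype.val h4.eq)
      refine Subtype.ext (show Commute a.1 b.1 from ?_)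
      rw [e1]
      exact ((Commute.one_left _).smul_left c).add_left
        (Commute.smul_left (congrArg Subtype.val h5.symm.eq) d))
  have d0 : ∀ y, (M y).det ≠ 0 := fun y e => by
    have := congrArg det (M.map_mul y y⁻¹)
    rw [mul_inv_cancel, map_one, det_one, det_mul, e, zero_mul] at this
    exact one_ne_zero this
  choose s hs using fun y => IsAlgClosed.exists_eq_mul_self (M y).det⁻¹
  have s0 : ∀ y, s y ≠ 0 := fun y e => inv_ne_zero (d0 y) (by rw [hs, e, mul_zero])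
  let B : Y → SL(2, k) := fun y => ⟨s y • M y, by
    rw [det_smul, Fintype.card_fin, sq, ← hs, inv_mul_cancel₀ (d0 y)]⟩
  have key : ∀ (x y : SL(2, k)) (c : k), x.1 = c • y.1 → π x = π y := fun x y c e => by
    have := congrArg det e
    rw [det_smul, x.2, y.2, Fintype.card_fin, mul_one, eq_comm, sq, mul_self_eq_one_iff] at this
    rcases this with rfl | rfl
    · rw [show x = y from Subtype.ext (by simpa using e)]
    · rw [show x = -1 * y from Subtype.ext (by simpa using e), map_mul, (k1 _).2 (Or.inr rfl),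
        one_mul]
  refine ⟨MonoidHom.mk' (fun y => π (B y)) fun y y' => ?_, _, h, fun y y' c => a2.2 ?_, fun y =>
    ⟨fun e => ⟨(s y)⁻¹ * (B y).1 0 0, ?_⟩, fun ⟨c, e⟩ => ?_⟩⟩
  · rw [← map_mul]
    refine key _ _ (s (y * y') * (s y * s y')⁻¹) ?_
    change s (y * y') • M (y * y') = _ • ((s y • M y) * (s y' • M y'))
    rw [smul_mul_smul_comm, smul_smul, map_mul, inv_mul_cancel_right₀ (mul_ne_zero (s0 y) (s0 y'))]
  · exact Subtype.ext ((c.smul_left _).smul_right _)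
  · have e1 : M y = (s y)⁻¹ • (B y).1 := (inv_smul_smul₀ (s0 y) _).symm
    rcases (k1 _).1 e with e | e <;> rw [e1, e] <;> simp
  · exact (key _ 1 (s y * c) (by rw [← smul_smul]; exact congrArg (s y • ·) e)).trans (map_one π)

theorem two_dim {Y k : Type*} [Group Y] [Finite Y] [Field k] [IsAlgClosed k] (k2 : (2 : k) ≠ 0)
    (M : Y →* Matrix (Fin 2) (Fin 2) k) {ι N : k} (hι : -1 = ι * ι) (N0 : N ≠ 0) (N1 : 1 - N ≠ 0)
    {yi yz : Y} (m1 : M yi = !![ι, (ι - 1) * N; 0, 1]) (m2 : M yz = !![1, 0; -2, -1])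
    {D : Set Y} (D1 : ∀ y, y * (yi * yi) * y⁻¹ ∈ D) (D2 : ∀ y, y * yz * y⁻¹ ∈ D)
    (D3 : ∀ x ∈ D, x * x = 1) (D4 : ∀ x ∈ D, ∀ y ∈ D, ∀ m : ℕ, (x * y) ^ 2 ^ m = 1 → Commute x y) :
    False := by
  have m3 : M yi⁻¹ = !![-ι, (-1 - ι) * N; 0, 1] := by
    rw [← mul_one (M _), show (1 : Matrix (Fin 2) (Fin 2) k) = M yi * !![-ι, (-1 - ι) * N; 0, 1] by
      rw [m1]; ext i j; fin_cases i <;> fin_cases j <;> simp
      · linear_combination -hι
      · linear_combination -N * hι, ← mul_assoc, ← map_mul, inv_mul_cancel, map_one, one_mul]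
  have m4 : M (yi * yi) = !![-1, -2 * N; 0, 1] := by
    rw [map_mul, m1]; ext i j; fin_cases i <;> fin_cases j <;> simp
    · linear_combination -hι
    · linear_combination -N * hι
  obtain ⟨f, T, hT, t1, t2⟩ := exists_psl k2 M
  let C : Set Y := {x | ∃ y : Y, x = y * (yi * yi) * y⁻¹ ∨ x = y * yz * y⁻¹}
  have C1 : ∀ x ∈ C, ∀ y, y * x * y⁻¹ ∈ C := by
    rintro _ ⟨u, rfl | rfl⟩ y
    exacts [⟨y * u, Or.inl (by group)⟩, ⟨y * u, Or.inr (by group)⟩]
  have C2 : ∀ x ∈ C, x ∈ D := by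
    rintro _ ⟨u, rfl | rfl⟩
    exacts [D1 u, D2 u]
  have C3 : ∀ x ∈ C, x * x = 1 := fun x hx => D3 x (C2 x hx)
  have k2' : (-1 : k) ≠ 1 := fun e => k2 (by linear_combination -e)
  have C4 : ∀ x ∈ C, Inv2 (f x) := fun x hx => ⟨by
    obtain ⟨u, rfl | rfl⟩ := hx <;> rw [map_mul, map_mul f u, map_inv, Ne, conj_eq_one_iff, t2] <;>
      rintro ⟨d, e⟩
    · rw [m4] at e
      exact k2' ((congrFun₂ e 0 0).trans (congrFun₂ e 1 1).symm)
    · rw [m2] at e
      exact k2' ((congrFun₂ e 1 1).trans (congrFun₂ e 0 0).symm),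
    by rw [← map_mul, C3 x hx, map_one]⟩
  have C5 : ∀ x ∈ C, ∀ x' ∈ C, Odd (orderOf (f x * f x')) := fun x hx x' hx' => by
    obtain ⟨m, _, ⟨r, rfl⟩, e⟩ := Nat.exists_eq_two_pow_mul_odd (orderOf_pos (x * x')).ne'
    have e1 := mul_pow_odd (C3 x hx) (C3 x' hx') r
    have e2 : x * (x * x') ^ (2 * r + 1) ∈ C := e1 ▸ C1 x' hx' _
    have e3 : x * (x * (x * x') ^ (2 * r + 1)) = (x * x') ^ (2 * r + 1) := by
      rw [← mul_assoc, C3 x hx, one_mul]
    have e4 : Commute x (x * (x * x') ^ (2 * r + 1)) := D4 _ (C2 _ hx) _ (C2 _ e2) m (by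
      rw [e3, ← pow_mul, mul_comm, ← e, pow_orderOf_eq_one])
    have e5 := hT.ti (C4 _ hx) (C4 _ e2) (C4 _ hx).1 (hT.self (C4 _ hx)) (t1 _ _ (e4.map M))
    have e6 : (f x * f x') ^ (2 * r + 1) = 1 := by
      rw [← map_mul, ← map_pow, ← e3, map_mul, ← e5, (C4 _ hx).2]
    exact Odd.of_dvd_nat ⟨r, rfl⟩ (orderOf_dvd_of_pow_eq_one e6)
  have z1 : yi * yi ∈ C := ⟨1, Or.inl (by simp)⟩
  have z2 : yz ∈ C := ⟨1, Or.inr (by simp)⟩
  haveI : Finite f.range := Finite.of_surjective _ f.rangeRestrict_surjective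
  have fin := tori_iso (hT.comap f.range) (I := f.rangeRestrict '' C)
    (by
      rintro _ ⟨x, hx, rfl⟩
      exact ⟨fun e => (C4 x hx).1 (congrArg Subtype.val e), Subtype.ext (C4 x hx).2⟩)
    (by
      rintro _ ⟨x, hx, rfl⟩ ⟨_, y, rfl⟩
      exact ⟨_, C1 x hx y, Subtype.ext (by simp)⟩)
    (by
      rintro _ ⟨x, hx, rfl⟩ _ ⟨x', hx', rfl⟩
      rw [← orderOf_coe]
      exact C5 x hx x' hx') ⟨_, z1, rfl⟩ (ρ := f.rangeRestrict yi)
    (t1 _ _ (((Commute.refl yi).mul_right (Commute.refl yi)).map M)) (map_mul _ _ _).symm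
    _ ⟨_, z2, rfl⟩ _ ⟨_, C1 _ z2 yi, rfl⟩
  set x := yi * yi * yz
  set x' := yi * yi * (yi * yz * yi⁻¹)
  have m5 : M x = !![4 * N - 1, 2 * N; -2, -1] := by
    rw [map_mul, m4, m2]; ext i j; fin_cases i <;> fin_cases j <;> simp; ring
  have m6 : M x' = !![(2 - 2 * ι) * N - 1, 2 * ι * N * (1 - 2 * N); 2 * ι, (2 + 2 * ι) * N - 1] := by
    rw [map_mul, m4, map_mul, map_mul, m1, m2, m3]
    ext i j; fin_cases i <;> fin_cases j <;> simp
    · linear_combination (2 * N - 1) * hι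
    · linear_combination (2 * N ^ 2 - N) * hι
    · ring
  obtain ⟨d, hd⟩ := (t2 (x * x' * (x' * x)⁻¹)).1 (by
    have := congrArg Subtype.val fin.eq
    rw [map_mul, map_inv, mul_inv_eq_one]
    simpa [x, x'] using this)
  have hd' : M x * M x' = d • (M x' * M x) := by
    rw [← map_mul, ← map_mul, ← inv_mul_cancel_right (x * x') (x' * x), map_mul, hd, smul_mul_assoc,
      one_mul]
  rw [m5, m6] at hd'
  have q1 := congrFun₂ hd' 0 0
  have q2 := congrFun₂ hd' 1 0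
  simp [mul_apply, Fin.sum_univ_two] at q1 q2
  have q3 : (1 - d) * (2 * (1 - ι) * (1 - 2 * N)) = 0 := by linear_combination q2
  have ι0 : ι ≠ 0 := fun e => by simp [e] at hι
  rcases mul_eq_zero.1 q3 with q | q
  · have q4 : 2 * 2 * 2 * ι * N * (1 - N) = 0 := by
      rw [← sub_eq_zero.1 q] at q1; linear_combination q1
    exact mul_ne_zero (mul_ne_zero (mul_ne_zero (mul_ne_zero (mul_ne_zero k2 k2) k2) ι0) N0) N1 q4
  rcases mul_eq_zero.1 q with q | q
  · exact k2' (by rw [hι, ← sub_eq_zero.1 ((mul_eq_zero.1 q).resolve_left k2), mul_one])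
  have q5 : f x ^ 2 = 1 := by
    rw [sq, ← map_mul, t2]
    refine ⟨-1, ?_⟩
    rw [map_mul, m5]
    ext i j; fin_cases i <;> fin_cases j <;> simp
    · linear_combination (2 - 8 * N) * q
    · linear_combination (-4 * N) * q
    · linear_combination 4 * q
    · linear_combination 2 * q
  have q6 := Nat.eq_one_of_dvd_coprimes (Nat.coprime_two_right.2 (C5 _ z1 _ z2)) dvd_rfl
    (by rw [← map_mul]; exact orderOf_dvd_of_pow_eq_one q5)
  rw [orderOf_eq_one_iff, ← map_mul, t2] at q6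
  obtain ⟨c, hc⟩ := q6
  have q7 := congrFun₂ (m5.symm.trans hc) 1 0
  exact k2 (by simpa using q7)


variable {F : Type*} [Field F] {I : Type*} [Fintype I] [DecidableEq I]

/-- the frame spanned by a coordinate vector and the projection to a column -/
def Phi (h : GU I F) (a c : I) : Matrix I (Fin 2) ℍ[F] :=
  of fun l => ![if l = a then 1 else 0, h.1 l c * star (h.1 a c)]

theorem Phi_zero (h : GU I F) (a c l : I) : Phi h a c l 0 = if l = a then 1 else 0 := rfl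
theorem Phi_one (h : GU I F) (a c l : I) : Phi h a c l 1 = h.1 l c * star (h.1 a c) := rfl

theorem Phi_inj {h : GU I F} {a c : I} (n0 : normSq (h.1 a c) ≠ 0) (n1 : normSq (h.1 a c) ≠ 1)
    (A B : Matrix (Fin 2) (Fin 2) ℍ[F]) (e : Phi h a c * A = Phi h a c * B) : A = B := by
  set n := normSq (h.1 a c) with hn
  rw [← sub_eq_zero, ← Matrix.mul_sub] at e
  rw [← sub_eq_zero]
  generalize A - B = D at e
  have e1 : ∀ l j, (if l = a then D 0 j else 0) + h.1 l c * star (h.1 a c) * D 1 j = 0 :=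
    fun l j => by simpa [Phi_zero, Phi_one, mul_apply, Fin.sum_univ_two] using congrFun₂ e l j
  have e2 : ∀ j, D 0 j + n • D 1 j = 0 := fun j => by
    simpa [self_mul_star, coe_mul_eq_smul] using e1 a j
  have e3 : ∀ j, D 0 j + D 1 j = 0 := fun j => by
    have := Finset.sum_congr rfl fun l (_ : l ∈ Finset.univ) =>
      congrArg (star (h.1 l c) * ·) (e1 l j)
    simp only [mul_add, Finset.sum_add_distrib, mul_ite, mul_zero, Finset.sum_ite_eq',
      Finset.mem_univ, if_true, ← mul_assoc, ← Finset.sum_mul, col_mul, one_mul,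
      Finset.sum_const_zero] at this
    exact eq_zero_of_mul (x := star (h.1 a c)) (by rwa [normSq_star]) (by rw [mul_add, this])
  have e4 : ∀ j, D 1 j = 0 := fun j => (smul_eq_zero.1 (show (n - 1) • D 1 j = 0 by
    rw [sub_smul, one_smul]; linear_combination (norm := abel) e2 j - e3 j)).resolve_left
      (sub_ne_zero.2 n1)
  ext1 i j
  fin_cases i
  · simpa [e4] using e3 j
  · exact e4 j

theorem Phi_sg (h : GU I F) (a c : I) (d : U F) : (sg a d).1 * Phi h a c =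
    Phi h a c * !![d.1, normSq (h.1 a c) • (d.1 - 1); 0, 1] := by
  refine Matrix.ext fun l => Fin.forall_fin_two.2 ⟨?_, ?_⟩ <;>
    refine (diagonal_mul _ _ _ _).trans ?_ <;>
    rw [mul_apply, Fin.sum_univ_two, Phi_zero, Phi_one] <;> rcases eq_or_ne l a with rfl | hl
  · simp
  · simp [hl]
  · simp [self_mul_star, mul_coe_eq_smul, smul_sub, ← coe_mul_eq_smul]
  · simp [hl]

theorem Phi_z (h : GU I F) (a c : I) : (h * sg c (-1) * h⁻¹).1 * Phi h a c =
    Phi h a c * (!![1, 0; -2, -1] : Matrix (Fin 2) (Fin 2) ℍ[F]) := by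
  have s1 : ∀ l, ∑ m, 2 * (h.1 l c * star (h.1 m c)) * (h.1 m c * star (h.1 a c)) =
      2 * (h.1 l c * star (h.1 a c)) := fun l => by
    rw [Finset.sum_congr rfl (g := fun m => 2 * h.1 l c * (star (h.1 m c) * h.1 m c) *
      star (h.1 a c)) fun m _ => by noncomm_ring, ← Finset.sum_mul, ← Finset.mul_sum, col_mul,
      if_pos rfl, mul_one, mul_assoc]
  refine Matrix.ext fun l => Fin.forall_fin_two.2 ⟨?_, ?_⟩ <;>
    rw [mul_apply, mul_apply, Fin.sum_univ_two, Phi_zero, Phi_one] <;>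
    simp only [conj_z, Phi_zero, Phi_one, sub_mul, Finset.sum_sub_distrib, s1]
  · simp
    noncomm_ring
  · simp
    noncomm_ring

theorem exists_rep [Finite F] (H : Subgroup (GU I F)) (Φ : Matrix I (Fin 2) ℍ[F])
    (Φinj : ∀ A B : Matrix (Fin 2) (Fin 2) ℍ[F], Φ * A = Φ * B → A = B) {K k : Type*} [CommRing K]
    [CommRing k] (e : K →+* ℍ[F]) (e_inj : Injective e) (κ : K →+* k) :
    ∃ (Y : Subgroup (GU I F)) (M : Y →* Matrix (Fin 2) (Fin 2) k), Y ≤ H ∧
      ∀ g ∈ H, ∀ A : Matrix (Fin 2) (Fin 2) K, g.1 * Φ = Φ * A.map e →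
        ∃ hg : g ∈ Y, M ⟨g, hg⟩ = A.map κ := by
  let R : GU I F → Matrix (Fin 2) (Fin 2) K → Prop := fun g A => g.1 * Φ = Φ * A.map e
  have Rm : ∀ {g g' A A'}, R g A → R g' A' → R (g * g') (A * A') := fun {g g' A A'} r r' => by
    change g.1 * g'.1 * Φ = _
    rw [Matrix.mul_assoc, r', ← Matrix.mul_assoc, r, Matrix.mul_assoc, Matrix.map_mul]
  have R1 : R 1 1 := by simp [R]
  have Ru : ∀ {g A A'}, R g A → R g A' → A = A' := fun r r' =>
    Matrix.map_injective e_inj (Φinj _ _ (r.symm.trans r'))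
  let Y : Subgroup (GU I F) :=
    { carrier := {g | g ∈ H ∧ ∃ A, R g A}
      one_mem' := ⟨one_mem _, 1, R1⟩
      mul_mem' := fun ⟨a1, _, a2⟩ ⟨b1, _, b2⟩ => ⟨mul_mem a1 b1, _, Rm a2 b2⟩
      inv_mem' := fun {g} ⟨a1, A, a2⟩ => ⟨inv_mem a1, A ^ (orderOf g - 1), by
        have : ∀ m : ℕ, R (g ^ m) (A ^ m) := fun m => by
          induction m with
          | zero => simpa using R1
          | succ m ih => rw [pow_succ, pow_succ]; exact Rm ih a2
        convert this (orderOf g - 1)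
        rw [eq_comm, ← mul_eq_one_iff_eq_inv, ← pow_succ, Nat.sub_add_cancel (orderOf_pos g),
          pow_orderOf_eq_one]⟩ }
  let M : Y →* Matrix (Fin 2) (Fin 2) k :=
    { toFun := fun y => y.2.2.choose.map κ
      map_one' := by rw [Ru (1 : Y).2.2.choose_spec R1]; simp
      map_mul' := fun y y' => by
        rw [Ru (y * y').2.2.choose_spec (Rm y.2.2.choose_spec y'.2.2.choose_spec),
          Matrix.map_mul] }
  have Mv : ∀ (y : Y) {A}, R y A → M y = A.map κ := fun y A r =>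
    congrArg (Matrix.map · κ) (Ru y.2.2.choose_spec r)
  exact ⟨Y, M, fun _ hg => hg.1, fun g hg A r => ⟨⟨hg, A, r⟩, Mv _ r⟩⟩

theorem norm_cases [NeZero (2 : F)] [Finite F] {H : Subgroup (GU I F)} (hi : ∀ c, sg c qi ∈ H)
    (hC : ∀ h ∈ H, ∀ h' ∈ H, ∀ c c' (k : ℕ),
      (h * sg c (-1) * h⁻¹ * (h' * sg c' (-1) * h'⁻¹)) ^ 2 ^ k = 1 →
        Commute (h * sg c (-1) * h⁻¹) (h' * sg c' (-1) * h'⁻¹))
    {h : GU I F} (hh : h ∈ H) (a c : I) : normSq (h.1 a c) = 0 ∨ normSq (h.1 a c) = 1 := by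
  by_contra! hn
  obtain ⟨n0, n1⟩ := hn
  set n := normSq (h.1 a c) with hn
  have ii : ∀ c : I, sg c (qi : U F) * sg c qi = sg c (-1) := fun c => by
    rw [← map_mul, ← Pi.mulSingle_mul, qi_sq]
  have zz : ∀ c : I, sg c (-1 : U F) * sg c (-1) = 1 := fun c => by
    rw [← map_mul, ← Pi.mulSingle_mul]; simp
  have hz : ∀ c, sg c (-1) ∈ H := fun c => ii c ▸ mul_mem (hi c) (hi c)
  let k := AlgebraicClosure F
  obtain ⟨ι, hι⟩ := IsAlgClosed.exists_eq_mul_self (-1 : k)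
  have k2 : (2 : k) ≠ 0 := by
    rw [← map_ofNat (algebraMap F k) 2]; exact (map_ne_zero _).2 two_ne
  let K := QuadraticAlgebra F (-1) 0
  let e : K →ₐ[F] ℍ[F] := QuadraticAlgebra.lift ⟨(qi : U F).1, by
    simpa using congrArg Subtype.val (qi_sq (F := F))⟩
  let κ : K →ₐ[F] k := QuadraticAlgebra.lift ⟨ι, by simp [← hι]⟩
  have e_ap : ∀ x : K, e x = x.re • 1 + x.im • (qi : U F).1 := fun _ => rfl
  have κ_ap : ∀ x : K, κ x = x.re • 1 + x.im • ι := fun _ => rfl
  have e_inj : Injective e := fun x y h => QuadraticAlgebra.ext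
    (by simpa [e_ap, qi] using congrArg (·.re) h) (by simpa [e_ap, qi] using congrArg (·.imI) h)
  obtain ⟨Y, M, y1, y2⟩ := exists_rep H _ (Phi_inj n0 n1) e.toRingHom e_inj κ.toRingHom
  obtain ⟨r1, m1⟩ := y2 _ (hi a) !![⟨0, 1⟩, ⟨-n, n⟩; 0, 1] ((Phi_sg h a c qi).trans (by
    congr 1
    refine Matrix.ext (Fin.forall_fin_two.2 ⟨Fin.forall_fin_two.2 ⟨?_, ?_⟩,
      Fin.forall_fin_two.2 ⟨?_, ?_⟩⟩)
    · simp [e_ap]
    · simp [e_ap, smul_sub, ← hn]; abel
    · simp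
    · simp))
  obtain ⟨r2, m2⟩ := y2 _ (mul_mem (mul_mem hh (hz c)) (inv_mem hh)) !![1, 0; -2, -1]
    ((Phi_z h a c).trans (by
      congr 1
      ext1 i j; fin_cases i <;> fin_cases j <;> simp [map_ofNat]))
  refine two_dim k2 M hι (N := algebraMap F k n) ((map_ne_zero _).2 n0) (by
      rw [← map_one (algebraMap F k), ← map_sub]; exact (map_ne_zero _).2 (sub_ne_zero.2 n1.symm))
    (yi := ⟨_, r1⟩) (yz := ⟨_, r2⟩) (m1.trans ?_) (m2.trans ?_)
    (D := {x | ∃ g ∈ H, ∃ d, x.1 = g * sg d (-1) * g⁻¹})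
    (fun u => ⟨u, y1 u.2, a, by rw [← ii]; rfl⟩) (fun u => ⟨u * h, mul_mem (y1 u.2) hh, c, by
      change u.1 * (h * _ * h⁻¹) * u.1⁻¹ = _; group⟩) ?_ ?_
  · refine Matrix.ext (Fin.forall_fin_two.2 ⟨Fin.forall_fin_two.2 ⟨?_, ?_⟩,
      Fin.forall_fin_two.2 ⟨?_, ?_⟩⟩)
    · simp [κ_ap]
    · simp [κ_ap, Algebra.smul_def]; ring
    · simp
    · simp
  · ext1 i j; fin_cases i <;> fin_cases j <;> simp [map_ofNat]
  · rintro x ⟨g, -, d, e⟩
    exact Subtype.ext (by change x.1 * x.1 = 1; rw [e, conj_mul, zz, mul_one, mul_inv_cancel])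
  · rintro x ⟨g, hg, d, a1⟩ y ⟨g', hg', d', a2⟩ m e
    have := hC g hg g' hg' d d' m (by rw [← a1, ← a2]; exact congrArg Subtype.val e)
    rw [← a1, ← a2] at this
    exact Subtype.ext this

end Cfsg.Agent.H3.Pr
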