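import Cfsg.Agent.H3.PrD

/-! Overgroups of the monomial Sylow `2`-subgroup. -/

set_option autoImplicit false

namespace Cfsg.Agent.H3.Pr

open Subgroup Function Quaternion H5 Matrix Equiv

variable {F : Type*} [Field F] {I : Type*} [Fintype I] [DecidableEq I]

/-- the matrix selecting two coordinates -/
def sel (F : Type*) [Field F] (a b : I) : Matrix I (Fin 2) ℍ[F] :=
  of fun l => ![if l = a then 1 else 0, if l = b then 1 else 0]

/-- a two by two block -/
def emb (a b : I) (A : Matrix (Fin 2) (Fin 2) ℍ[F]) : Matrix I I ℍ[F] :=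
  1 + sel F a b * A * (sel F a b)ᴴ

theorem emb_mul {a b : I} (h : a ≠ b) (A B : Matrix (Fin 2) (Fin 2) ℍ[F]) :
    emb a b A * emb a b B = emb a b (A + B + A * B) := by
  have e : (sel F a b)ᴴ * sel F a b = 1 := by
    ext1 i j
    fin_cases i <;> fin_cases j <;> simp [sel, mul_apply, apply_ite star, h, h.symm]
  simp only [emb, Matrix.mul_add, Matrix.add_mul, Matrix.mul_one, Matrix.one_mul, Matrix.mul_assoc]
  rw [← Matrix.mul_assoc (sel F a b)ᴴ, e, Matrix.one_mul]
  abel

theorem emb_apply (a b : I) (p q r s : ℍ[F]) (x y : I) : emb a b !![p, q; r, s] x y =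
    (if x = y then 1 else 0) + ((if x = a then (if y = a then p else 0) + (if y = b then q else 0)
      else 0) + if x = b then (if y = a then r else 0) + (if y = b then s else 0) else 0) := by
  simp only [emb, Matrix.add_apply, one_apply, mul_apply, Fin.sum_univ_two, conjTranspose_apply]
  simp [sel, apply_ite star]
  split_ifs <;> abel

theorem sg_left (a b : I) (d : U F) : (sg a d).1 = emb a b !![d.1 - 1, 0; 0, 0] := by
  ext1 x y
  rw [emb_apply, sg_apply]
  by_cases h : x = a <;> by_cases h' : y = a <;> simp [h, h']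

theorem sg_right (a b : I) (d : U F) : (sg b d).1 = emb a b !![0, 0; 0, d.1 - 1] := by
  ext1 x y
  rw [emb_apply, sg_apply]
  by_cases h : x = b <;> by_cases h' : y = b <;> simp [h, h']

theorem sg_mul (a : I) (d e : U F) : sg a (d * e) = sg a d * sg a e := by
  rw [← map_mul, ← Pi.mulSingle_mul]

theorem Mon.norm {H : Subgroup (GU I F)} [Finite F] {S : Subgroup (U F)}
    (hS : ∀ a d, sg a d ∈ H ↔ d ∈ S) {h : GU I F} (hh : h ∈ H) {a c : I} (m : Mon h a c) :
    (⟨_, m.mem⟩ : U F) ∈ normalizer (S : Set (U F)) :=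
  mem_normalizer_fintype fun s hs => (hS a _).1
    (m.conj s ▸ mul_mem (mul_mem hh ((hS c s).2 hs)) (inv_mem hh))

variable [NeZero (2 : F)] [Finite F]

theorem pair_mem {H : Subgroup (GU I F)} (S : Sylow 2 (U F)) (hi : qi ∈ S) (hj : qj ∈ S)
    (hS : ∀ a d, sg a d ∈ H ↔ d ∈ S.1) {h : GU I F} (hh : h ∈ H) {a b c : I} (h1 : a ≠ b)
    (h2 : ∀ l, l ≠ a → l ≠ b → h.1 l c = 0) (h3 : 2 * normSq (h.1 a c) = 1)
    (h4 : 2 * normSq (h.1 b c) = 1) {f : U F} (hf : f ∈ S)
    (h5 : f.1 = -(2 * (h.1 a c * star (h.1 b c)))) : sg a qw * sg b qw ∈ H := by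
  have hm : (-1 : U F) ∈ S := qi_sq (F := F) ▸ mul_mem hi hi
  obtain ⟨g, hg⟩ : ∃ g, g = sg b f * h := ⟨_, rfl⟩
  have g0 : g ∈ H := hg ▸ mul_mem ((hS _ _).2 hf) hh
  obtain ⟨β, hβ⟩ : ∃ β, β = h.1 a c := ⟨_, rfl⟩
  have g1 : g.1 a c = β := by rw [hg, dg_mul, Pi.mulSingle_eq_of_ne h1, hβ]; simp
  have g2 : g.1 b c = -β := by
    rw [hg, dg_mul, Pi.mulSingle_eq_same, h5, hβ]
    calc _ = -(h.1 a c * (2 * (star (h.1 b c) * h.1 b c))) := by noncomm_ring
      _ = _ := by rw [star_comm_self, two_self h4, mul_one]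
  have g3 : ∀ l, l ≠ a → l ≠ b → g.1 l c = 0 := fun l l1 l2 => by
    rw [hg, dg_mul, h2 l l1 l2, mul_zero]
  rw [← hβ] at h3
  have b1 := two_self h3
  have key : ∀ d ∈ S, d * d = -1 → ∃ G ∈ H, G.1 = emb a b !![normSq β • (d.1 - 1),
      -(normSq β • (d.1 - 1)); -(normSq β • (d.1 - 1)), normSq β • (d.1 - 1)] := fun d d1 d2 => by
    have e1 : β * (2 * (star β * d.1 * β)) = d.1 * β := by
      calc _ = 2 * (β * star β) * (d.1 * β) := by noncomm_ring
        _ = _ := by rw [b1, one_mul]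
    have e2 : ∀ l, (g⁻¹ * (sg a d * sg b d * g)).1 l c =
        if l = c then 2 * (star β * d.1 * β) else 0 := fun l => by
      rw [mul_apply', Finset.sum_congr rfl
        (g := fun m => star (g.1 m l) * g.1 m c * (2 * (star β * d.1 * β))) fun m _ => ?_,
        ← Finset.sum_mul, col_mul, ite_mul, one_mul, zero_mul]
      rw [inv_apply, mul_assoc (star _), mul_assoc (sg a d), dg_mul, dg_mul]
      congr 1
      by_cases m1 : m = a
      · subst m1; simp [h1, g1, e1]
      by_cases m2 : m = b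
      · subst m2; simp [m1, g2, e1]
      simp [g3 m m1 m2]
    have m : Mon (g⁻¹ * (sg a d * sg b d * g)) c c := fun l hl => by rw [e2, if_neg hl]
    have e3 : (g⁻¹ * (sg a d * sg b d * g)).1 c c = 2 * (star β * d.1 * β) := by rw [e2, if_pos rfl]
    have e4 := mem_of_pow S (m.norm hS (mul_mem (inv_mem g0)
      (mul_mem (mul_mem ((hS _ _).2 d1) ((hS _ _).2 d1)) g0))) (k := 1) (by
        convert hm using 1
        refine U_ext ?_
        rw [pow_one, sq, Submonoid.coe_mul, Subtype.coe_mk, e3]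
        calc _ = 2 * (star β * d.1 * (β * (2 * (star β * d.1 * β)))) := by noncomm_ring
          _ = 2 * (star β * (d * d : U F).1 * β) := by rw [e1, Submonoid.coe_mul]; noncomm_ring
          _ = -(2 * (star β * β)) := by rw [d2]; simp
          _ = _ := by rw [star_comm_self, b1]; rfl)
    refine ⟨_, mul_mem (mul_mem g0 ((hS c _).2 e4)) (inv_mem g0), ?_⟩
    have e5 : β * (2 * (star β * d.1 * β) - 1) * star β = normSq β • (d.1 - 1) := by
      rw [mul_sub, e1, mul_one, ← mul_coe_eq_smul, ← self_mul_star]; noncomm_ring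
    ext1 x y
    rw [conj_sg, emb_apply]
    congr 1
    change _ * ((g⁻¹ * (sg a d * sg b d * g)).1 c c - 1) * _ = _
    rw [e3]
    by_cases x1 : x = a
    · by_cases y1 : y = a
      · simp [x1, y1, h1, g1, e5]
      by_cases y2 : y = b
      · simp [x1, y2, h1, h1.symm, g1, g2, e5]
      simp [y1, y2, g3 y y1 y2]
    by_cases x2 : x = b
    · by_cases y1 : y = a
      · simp [x2, y1, h1, h1.symm, g1, g2, e5]
      by_cases y2 : y = b
      · simp [x2, y2, h1.symm, g2, e5]
      simp [y1, y2, g3 y y1 y2]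
    simp [x1, x2, g3 x x1 x2]
  obtain ⟨G1, a1, a2⟩ := key qi hi qi_sq
  obtain ⟨G2, a3, a4⟩ := key qj hj qj_sq
  have n2 : normSq β = 2⁻¹ := eq_inv_of_mul_eq_one_right h3
  have e : G1 * sg a (qi * qj) * G2 = sg a (qw * qi) * sg b (qw * -1) := by
    refine Subtype.ext ?_
    rw [Submonoid.coe_mul, Submonoid.coe_mul, Submonoid.coe_mul, a2, a4, sg_left a b, sg_left a b,
      sg_right a b, emb_mul h1, emb_mul h1, emb_mul h1, n2]
    congr 1
    ext i j <;> fin_cases i <;> fin_cases j <;> simp [qi, qj, qw] <;> field_simp [two_ne] <;>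
      norm_num
  have e' : sg a qw * sg b qw =
      G1 * sg a (qi * qj) * G2 * (sg a qi * sg b (-1) : GU I F)⁻¹ := by
    rw [e, eq_mul_inv_iff_mul_eq]
    simp only [← map_mul]
    congr 1
    funext l
    by_cases l1 : l = a
    · simp [l1, h1]
    by_cases l2 : l = b
    · simp [l2, h1.symm]
    simp [l1, l2]
  rw [e']
  exact mul_mem (mul_mem (mul_mem a1 ((hS _ _).2 (mul_mem hi hj))) a3)
    (inv_mem (mul_mem ((hS _ _).2 hi) ((hS _ _).2 hm)))

omit [Finite F] in
theorem const_mem {H : Subgroup (GU I F)} (X : Sylow 2 (Perm I)) (hX : ∀ a b, ∃ σ ∈ X, σ a = b)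
    (hp : ∀ σ ∈ X, pm σ ∈ H) {a b : I} (h : sg a qw * sg b qw ∈ H) : (dg fun _ => qw) ∈ H := by
  classical
  haveI := Fintype.ofFinite X.1
  let A : AddSubmonoid (I → ℕ) :=
    { carrier := {n | dg (fun l => (qw : U F) ^ n l) ∈ H}
      zero_mem' := by simp [← Pi.one_def]
      add_mem' := fun {m n} hm hn => by
        have := H.mul_mem hm hn
        rw [← map_mul] at this
        simpa [pow_add, Pi.mul_def] using this }
  have a1 : ∀ σ : X.1, Pi.single (σ.1 a) 1 + Pi.single (σ.1 b) 1 ∈ A := fun σ => by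
    have := mul_mem (mul_mem (hp σ σ.2) h) (inv_mem (hp σ σ.2))
    rw [← conj_mul, pm_sg, pm_sg, ← map_mul] at this
    change dg _ ∈ H
    convert this using 2
    funext l
    simp [pow_add, Pi.single_apply, Pi.mulSingle_apply]
  have a2 := A.sum_mem (t := Finset.univ) fun σ _ => a1 σ
  set s : I → ℕ := ∑ σ : X.1, (Pi.single (σ.1 a) 1 + Pi.single (σ.1 b) 1) with hs
  have a3 : ∀ l, s l = s a := fun l => by
    obtain ⟨τ, hτ, rfl⟩ := hX a l
    rw [hs, Finset.sum_apply, Finset.sum_apply]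
    refine (Fintype.sum_equiv (Equiv.mulLeft (⟨τ, hτ⟩ : X.1)) _ _ fun σ => ?_).symm
    simp [Pi.single_apply]
  have a4 : s a ∣ 2 * Nat.card X.1 := by
    refine ⟨Fintype.card I, ?_⟩
    calc _ = ∑ l, s l := by
          simp only [hs, Finset.sum_apply]
          rw [Finset.sum_comm]
          simp [Finset.sum_add_distrib, mul_comm, Pi.single_apply]
      _ = _ := by simp [a3, mul_comm]
  obtain ⟨k, hk⟩ := IsPGroup.iff_card.1 X.2
  rw [hk, ← pow_succ'] at a4
  have a5 : ¬ 3 ∣ s a := fun e => by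
    simpa using (Nat.prime_three.dvd_of_dvd_pow (e.trans a4))
  have a6 : (dg fun _ : I => (qw : U F) ^ s a) ∈ H := by
    have : (dg fun l : I => (qw : U F) ^ s l) ∈ H := a2
    simpa only [a3] using this
  have a7 := pow_mem a6 (s a)
  rw [← map_pow] at a7
  convert a7 using 2
  funext l
  have a8 : (qw : U F) ^ 3 = 1 := by rw [pow_succ, sq, qw_cube]
  have a9 : s a * s a % 3 = 1 := by
    have : s a % 3 = 1 ∨ s a % 3 = 2 := by omega
    rcases this with e | e <;> simp [Nat.mul_mod, e]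
  rw [Pi.pow_apply, ← pow_mul, ← Nat.div_add_mod (s a * s a) 3, a9, pow_add, pow_mul, a8]
  simp

end Cfsg.Agent.H3.Pr
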