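import Cfsg.Agent.H3.PrE

/-! The dichotomy for overgroups of a Sylow `2`-subgroup of the quaternionic unitary group. -/

set_option autoImplicit false

namespace Cfsg.Agent.H3.Pr

open Subgroup Function Quaternion H5 Matrix Equiv

theorem exists_conj_le {G : Type*} [Group G] [Finite G] (P : Sylow 2 G) {H R : Subgroup G}
    (hP : P.1 ≤ H) (hR : R ≤ H) (h2 : IsPGroup 2 R) : ∃ u ∈ H, ∀ r ∈ R, u * r * u⁻¹ ∈ P := by
  obtain ⟨T, hT⟩ := (h2.of_equiv (subgroupOfEquivOfLe hR).symm).exists_le_sylow
  obtain ⟨u, hu⟩ := MulAction.exists_smul_eq H T (P.subtype hP)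
  refine ⟨u, u.2, fun r hr => ?_⟩
  have : u * ⟨r, hR hr⟩ * u⁻¹ ∈ u • T := ⟨_, hT (x := ⟨r, hR hr⟩) hr, rfl⟩
  rw [hu] at this
  exact this

variable {F : Type*} [Field F] {I : Type*} [Fintype I] [DecidableEq I] [NeZero (2 : F)]

omit [NeZero (2 : F)] in
theorem eq_zero_of_re {x : ℍ[F]} (h1 : x.re = 0) (h2 : ((qi : U F).1 * x).re = 0)
    (h3 : ((qj : U F).1 * x).re = 0) (h4 : ((qi * qj : U F).1 * x).re = 0) : x = 0 := by
  ext
  · exact h1
  · simpa [qi] using h2
  · simpa [qj] using h3
  · simpa [qi, qj] using h4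

theorem all_mon {H : Subgroup (GU I F)} {S : Subgroup (U F)} (hi : qi ∈ S) (hj : qj ∈ S)
    (hS : ∀ a, ∀ d ∈ S, sg a d ∈ H)
    (hn : ∀ h ∈ H, ∀ a c, normSq (h.1 a c) = 0 ∨ normSq (h.1 a c) = 1) {h : GU I F} (hh : h ∈ H)
    (c : I) : ∃ a, Mon h a c := by
  have hm : (-1 : U F) ∈ S := qi_sq (F := F) ▸ mul_mem hi hi
  obtain ⟨a, -, ha⟩ := Finset.exists_ne_zero_of_sum_ne_zero ((col_norm h c).trans_ne one_ne_zero)
  replace ha := (hn h hh a c).resolve_left ha
  refine ⟨a, fun b hb => ?_⟩
  obtain ⟨α, hα⟩ : ∃ α, α = h.1 a c := ⟨_, rfl⟩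
  obtain ⟨β, hβ⟩ : ∃ β, β = h.1 b c := ⟨_, rfl⟩
  have key : ∀ d ∈ S, ∀ e ∈ S, ∀ x, x = d.1 * α - 2 * (α * (star α * d.1 * α + star β * e.1 * β -
      star β * β)) → normSq x = 0 ∨ normSq x = 1 := fun d hd e he x hx => by
    convert hn _ (mul_mem (mul_mem (mul_mem hh (hS c _ hm)) (inv_mem hh))
      (mul_mem (mul_mem (hS a d hd) (hS b e he)) hh)) a c
    all_goals
      rw [mul_apply', hx]
      simp only [conj_z, sub_mul, Finset.sum_sub_distrib, ite_mul, one_mul, zero_mul,
        Finset.sum_ite_eq, Finset.mem_univ, if_true, mul_assoc (sg a d), dg_mul]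
      rw [Pi.mulSingle_eq_same, Pi.mulSingle_eq_of_ne hb.symm, OneMemClass.coe_one, one_mul, ← hα]
      congr 1
      simp only [mul_assoc, ← Finset.mul_sum]
      congr 2
      have e1 := col_mul h c c
      rw [if_pos rfl, ← Finset.add_sum_erase _ _ (Finset.mem_univ a), ← Finset.add_sum_erase _ _
        (Finset.mem_erase.2 ⟨hb, Finset.mem_univ b⟩)] at e1
      rw [← Finset.add_sum_erase _ _ (Finset.mem_univ a), ← Finset.add_sum_erase _ _
        (Finset.mem_erase.2 ⟨hb, Finset.mem_univ b⟩), Finset.sum_congr rfl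
          (g := fun l => star (h.1 l c) * h.1 l c) fun l hl => by
            rw [Pi.mulSingle_eq_of_ne (Finset.mem_erase.1 hl).1, Pi.mulSingle_eq_of_ne
              (Finset.mem_erase.1 (Finset.mem_erase.1 hl).2).1]; simp]
      rw [star_mul_self (h.1 a c), ha, Quaternion.coe_one, add_eq_left, ← hβ,
        add_eq_zero_iff_neg_eq] at e1
      simp [← e1, ← hα, ← hβ, hb, hb.symm, sub_eq_add_neg, add_assoc]
  rw [← hα] at ha
  rw [← hβ]
  have a1 : α * star α = 1 := by rw [self_mul_star, ha, Quaternion.coe_one]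
  have a2 : star α * α = 1 := by rw [star_mul_self, ha, Quaternion.coe_one]
  have n2 : ∀ x : ℍ[F], normSq (1 - 2 * x) = 1 - 4 * x.re + 4 * normSq x := fun x => by
    simp [normSq_def', two_mul]; ring
  rcases hβ ▸ hn h hh b c with b0 | b1
  · have b1 : star β * β = 0 := by rw [star_mul_self, b0, Quaternion.coe_zero]
    have k1 : ∀ d ∈ S, ∀ e ∈ S, (star d.1 * (α * (star β * e.1 * β) * star α)).re = 0 ∨
        4 * (star d.1 * (α * (star β * e.1 * β) * star α)).re = -1 := fun d hd e he => by
      have := key d hd e he (-(d.1 * (1 - 2 * -(star d.1 * (α * (star β * e.1 * β) * star α))) * α))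
        (by
          have d1 := U_mul_star d
          calc _ = -(d.1 * α) - 2 * ((d.1 * star d.1) * (α * (star β * e.1 * β) * (star α * α))) := by
                noncomm_ring
            _ = d.1 * α - 2 * ((α * star α) * d.1 * α + α * (star β * e.1 * β)) := by
                rw [d1, a1, a2]; noncomm_ring
            _ = _ := by rw [b1]; noncomm_ring)
      simp only [normSq_neg, map_mul, U_norm, ha, n2, b0, re_neg, mul_zero, one_mul, mul_one,
        zero_mul, add_zero] at this
      refine this.symm.imp (fun e => ?_) fun e => by linear_combination e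
      exact (mul_eq_zero.1 (show (2 : F) * 2 * _ = 0 by linear_combination e)).resolve_left
        (mul_ne_zero two_ne two_ne)
    have k2 : ∀ d ∈ S, ∀ e ∈ S, (d.1 * (α * (star β * e.1 * β) * star α)).re = 0 :=
      fun d hd e he => by
        have p1 := k1 _ (inv_mem hd) e he
        have p2 := k1 _ (inv_mem hd) _ (mul_mem hm he)
        rw [show star (d⁻¹).1 = d.1 from star_star _] at p1 p2
        rw [neg_one_mul e] at p2
        simp only [U_coe_neg, mul_neg, neg_mul, re_neg] at p2
        refine p1.resolve_right fun q1 => two_ne (F := F) ?_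
        rcases p2 with q2 | q2
        · rw [neg_eq_zero.1 q2] at q1
          linear_combination 2 * q1
        · linear_combination q1 + q2
    have k3 : ∀ e ∈ S, star β * e.1 * β = 0 := fun e he => by
      have := eq_zero_of_re (by simpa using k2 1 (one_mem _) e he) (k2 _ hi e he) (k2 _ hj e he)
        (k2 _ (mul_mem hi hj) e he)
      calc _ = star α * α * (star β * e.1 * β) * (star α * α) := by rw [a2, one_mul, mul_one]
        _ = star α * (α * (star β * e.1 * β) * star α) * α := by noncomm_ring
        _ = 0 := by rw [this, mul_zero, zero_mul]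
    have q0 := congrArg QuaternionAlgebra.re (k3 _ (one_mem _))
    have q1 := congrArg QuaternionAlgebra.imI (k3 _ hi)
    have q2 := congrArg QuaternionAlgebra.imJ (k3 _ hj)
    have q3 := congrArg QuaternionAlgebra.imK (k3 _ (mul_mem hi hj))
    simp [qi, qj] at q0 q1 q2 q3
    have z : ∀ x : F, 2 * 2 * (x * x) = 0 → x = 0 := fun x hx =>
      mul_self_eq_zero.1 ((mul_eq_zero.1 hx).resolve_left (mul_ne_zero two_ne two_ne))
    ext
    · exact z _ (by linear_combination q0 + q1 + q2 + q3)
    · exact z _ (by linear_combination q0 + q1 - q2 - q3)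
    · exact z _ (by linear_combination q0 - q1 + q2 - q3)
    · exact z _ (by linear_combination q0 - q1 - q2 + q3)
  · exfalso
    have b2 : star β * β = 1 := by rw [star_mul_self, b1, Quaternion.coe_one]
    have k1 : ∀ e ∈ S, 5 - 4 * e.1.re = 0 ∨ 5 - 4 * e.1.re = 1 := fun e he => by
      have := key 1 (one_mem _) e he (α * (1 - 2 * (star β * e.1 * β))) (by
        rw [OneMemClass.coe_one, mul_one, a2, b2]; noncomm_ring)
      have r : (star β * e.1 * β).re = e.1.re := by
        have : (star β * e.1 * β).re = e.1.re * normSq β := by simp [normSq_def']; ring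
        rw [this, b1, mul_one]
      simp only [map_mul, ha, n2, normSq_star, b1, U_norm, r] at this
      exact this.imp (fun q => by linear_combination q) fun q => by linear_combination q
    have p1 := k1 _ hm
    have p2 := k1 _ hi
    simp only [U_coe_neg, OneMemClass.coe_one, re_neg, re_one, qi, mq_re] at p1 p2
    have t2 := two_ne (F := F)
    rcases p1 with p1 | p1
    · rcases p2 with p2 | p2
      · exact one_ne_zero (α := F) (by linear_combination 2 * p2 - p1)
      · exact mul_ne_zero t2 t2 (by linear_combination p2)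
    · exact mul_ne_zero (mul_ne_zero t2 t2) t2 (by linear_combination p1)

end Cfsg.Agent.H3.Pr
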