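import Cfsg.Agent.H3.PrF

/-! The Sylow `2`-subgroups of the quaternionic unitary group of degree a power of two. -/

set_option autoImplicit false

namespace Cfsg.Agent.H3.Pr

open Subgroup Function Quaternion H5 Matrix Equiv

variable {F : Type*} [Field F] {I : Type*} [Fintype I] [DecidableEq I] [NeZero (2 : F)] [Finite F]

theorem dich (S : Sylow 2 (U F)) (hi : qi ∈ S) (hj : qj ∈ S) (hQ : Q8 S.1)
    (X : Sylow 2 (Perm I)) (hX : ∀ a b, ∃ σ ∈ X, σ a = b) (P : Sylow 2 (GU I F))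
    (hP : P.1 = WS S.1 X.1) {H : Subgroup (GU I F)} (hH : P.1 ≤ H) {τ : U F}
    (hτ : τ ∈ normalizer (S.1 : Set (U F)))
    (h0 : (dg fun _ => τ) ∉ H ⊔ H.map (MulAut.conj (dg fun _ : I => τ)).toMonoidHom) :
    ∀ y ∈ H, (dg fun _ => τ) * y * (dg fun _ => τ)⁻¹ ∈ H := by
  have hm : (-1 : U F) ∈ S := qi_sq (F := F) ▸ mul_mem hi hi
  have hW : WS S.1 X.1 ≤ H := hP ▸ hH
  have hS : ∀ a d, sg a d ∈ H ↔ d ∈ S.1 := fun a d => by
    let φ : U F →* GU I F := dg.comp (MonoidHom.mulSingle (fun _ => U F) a)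
    rw [← hQ.dich τ hτ (H.comap φ) (fun s hs => hW (sg_mem hs a)) fun h1 => h0 ?_]
    · rfl
    have h2 : sg a τ ∈ H ⊔ H.map (MulAut.conj (dg fun _ : I => τ)).toMonoidHom := by
      refine (sup_le (c := comap φ _) (comap_mono le_sup_left) ?_) h1
      rintro _ ⟨d, hd, rfl⟩
      refine mem_sup_right ⟨_, hd, ?_⟩
      change dg _ * dg _ * (dg _)⁻¹ = dg _
      rw [← map_inv, ← map_mul, ← map_mul]
      congr 1
      funext b
      rcases eq_or_ne b a with rfl | e
      · simp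
      · simp [e]
    refine mem_comap.1 (pi_mem_of_mulSingle_mem (fun _ : I => τ) fun b => ?_)
    obtain ⟨σ, hσ, rfl⟩ := hX a b
    have := mem_sup_left (T := H.map (MulAut.conj (dg fun _ : I => τ)).toMonoidHom)
      (hW (pm_mem hσ))
    exact mem_comap.2 ((pm_sg σ a τ).subst (motive := (· ∈ _))
      (mul_mem (mul_mem this h2) (inv_mem this)))
  have h1 : ∀ h ∈ H, ∀ c, h * sg c (-1) * h⁻¹ ∈ P.1 → ∃ a, h * sg c (-1) * h⁻¹ = sg a (-1) :=
    fun h hh c hc => by
      obtain ⟨f, hf, σ, -, e⟩ : _ ∈ WS S.1 X.1 := hP ▸ hc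
      rcases classify e with ⟨a, m⟩ | ⟨a, b, h1, h2, h3, h4, h5⟩
      · exact ⟨a, by rw [m.conj]; simp⟩
      · obtain ⟨k, hk⟩ := hQ.gen τ hτ
        have := const_mem X hX (fun σ hσ => hW (pm_mem hσ))
          (pair_mem S hi hj hS hh h1 h2 h3 h4 (hf a) h5)
        refine absurd (mem_sup_left ?_) h0
        rw [← mul_mem_cancel_right (pow_mem this k), ← map_pow, ← map_mul]
        exact hW (dg_mem fun _ => hk)
  have z2 : ∀ (h : GU I F) c, h * sg c (-1) * h⁻¹ * (h * sg c (-1) * h⁻¹) = 1 := fun h c => by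
    rw [conj_mul, ← sg_mul]; simp [sg]
  have hn := fun h hh => norm_cases (H := H) (h := h) (fun c => (hS c _).2 hi)
    (fun h hh h' hh' c c' k hk => by
      have x1 := mul_mem (mul_mem hh ((hS c _).2 hm)) (inv_mem hh)
      have y1 := mul_mem (mul_mem hh' ((hS c' _).2 hm)) (inv_mem hh')
      have x2 := z2 h c
      have y2 := z2 h' c'
      have x3 := fun u hu => h1 (u * h) (mul_mem hu hh) c
      have y3 := fun u hu => h1 (u * h') (mul_mem hu hh') c'
      have e : ∀ u h s : GU I F, u * h * s * (u * h)⁻¹ = u * (h * s * h⁻¹) * u⁻¹ := by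
        intros; group
      simp only [e] at x3 y3
      generalize h * sg c (-1) * h⁻¹ = x at *
      generalize h' * sg c' (-1) * h'⁻¹ = y at *
      have p : ∀ {z : GU I F} {k : ℕ}, z ^ 2 ^ k = 1 → IsPGroup 2 (zpowers z) := fun {z k} hz => by
        rintro ⟨_, n, rfl⟩
        refine ⟨k, Subtype.ext ?_⟩
        change (z ^ n) ^ 2 ^ k = 1
        rw [← zpow_natCast, ← _root_.zpow_mul, mul_comm, _root_.zpow_mul, zpow_natCast, hz,
          _root_.one_zpow]
      have q : x ∈ normalizer (zpowers (x * y) : Set (GU I F)) := mem_normalizer_fintype (by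
        rintro _ ⟨n, rfl⟩
        rw [← conj_zpow, show x * (x * y) * x⁻¹ = (x * y)⁻¹ by
          rw [← mul_assoc, x2, one_mul, _root_.mul_inv_rev, inv_eq_of_mul_eq_one_right y2]]
        exact zpow_mem (inv_mem (mem_zpowers _)) n)
      obtain ⟨u, hu, r⟩ := exists_conj_le P hH (sup_le (zpowers_le.2 x1) (zpowers_le.2 (mul_mem x1 y1)))
        ((p (k := 1) (by rw [pow_one, sq, x2])).to_sup_of_normal_right' (p hk) (zpowers_le.2 q))
      have r1 : x ∈ zpowers x ⊔ zpowers (x * y) := mem_sup_left (mem_zpowers _)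
      obtain ⟨a, ha⟩ := x3 u hu (r _ r1)
      obtain ⟨b, hb⟩ := y3 u hu (r _ ((mul_mem_cancel_left r1).1 (mem_sup_right (mem_zpowers _))))
      have : Commute (u * x * u⁻¹) (u * y * u⁻¹) := by
        rw [ha, hb]
        refine Commute.map (funext fun l => ?_) dg
        simp only [Pi.mul_apply, Pi.mulSingle_apply]
        split_ifs <;> simp
      simpa [mul_assoc] using this.conj u⁻¹) hh
  intro y hy
  obtain ⟨f, σ, rfl⟩ := exists_mon (all_mon hi hj (fun a d => (hS a d).2) hn hy)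
  have hf : ∀ a, f a ∈ normalizer (S.1 : Set (U F)) := fun a => by
    have m : Mon (dg f * pm σ) a (σ⁻¹ a) := fun b hb => by simp [mon_apply, hb]
    rw [show f a = ⟨_, m.mem⟩ from U_ext (by simp [mon_apply])]
    exact m.norm hS hy
  have : (dg fun _ => τ) * (dg f * pm σ) * (dg fun _ => τ)⁻¹ =
      dg (fun a => τ * f a * τ⁻¹ * (f a)⁻¹) * (dg f * pm σ) := by
    rw [← map_inv, mul_assoc, mul_assoc, pm_dg, ← mul_assoc, ← mul_assoc, ← mul_assoc, ← map_mul,
      ← map_mul, ← map_mul]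
    congr 2
    funext a
    simp
  rw [this]
  exact mul_mem (hW (dg_mem fun a => hQ.ab hτ (hf a))) hy

theorem exists_sp (a0 : I) (hX : ∀ X : Sylow 2 (Perm I), ∀ a b, ∃ σ ∈ X, σ a = b)
    (hc : (Nat.card (GU I F)).factorization 2 = Fintype.card I * (Nat.card (U F)).factorization 2 +
      (Nat.card (Perm I)).factorization 2) : ∃ P : Sylow 2 (GU I F), SP P.1 := by
  obtain ⟨S, hi, hj, hS⟩ := exists_base (F := F)
  obtain ⟨X⟩ : Nonempty (Sylow 2 (Perm I)) := inferInstance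
  let P : Sylow 2 (GU I F) := Sylow.ofCard (WS S.1 X.1) (by
    rw [card_WS, hc, S.card_eq_multiplicity, X.card_eq_multiplicity, pow_add, ← pow_mul,
      mul_comm (Fintype.card I)])
  have hP : P.1 = WS S.1 X.1 := rfl
  have k := fun x hx => normalizer_WS (S := S.1) X (hX X) hi a0 (x := x) hx
  refine ⟨P, ?_⟩
  rcases hS with hS | hQ
  · refine SP.of_self fun x hx => ?_
    obtain ⟨s, hs, τ, hτ, rfl⟩ := k x hx
    exact mul_mem hs (dg_mem fun _ => hS τ hτ)
  refine ⟨fun x hx y hy => ?_, fun H hH g hg h0 y hy => ?_⟩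
  · obtain ⟨s, hs, τ, hτ, rfl⟩ := k x hx
    obtain ⟨s', hs', τ', hτ', rfl⟩ := k y hy
    have e1 := mem_normalizer_iff.1 ((mul_mem_cancel_left (le_normalizer hs)).1 hx) s'
    have e2 := mem_normalizer_iff.1 ((mul_mem_cancel_left (le_normalizer hs')).1 hy) s⁻¹
    have e3 : dg (fun _ => τ) * dg (fun _ => τ') * (dg fun _ => τ)⁻¹ * (dg fun _ => τ')⁻¹ ∈ P.1 := by
      rw [← map_inv, ← map_inv, ← map_mul, ← map_mul, ← map_mul]
      exact dg_mem fun _ => hQ.ab hτ hτ'
    convert mul_mem (mul_mem (mul_mem (mul_mem hs (e1.1 hs')) e3) (e2.1 (inv_mem hs))) (inv_mem hs')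
      using 1
    group
  · obtain ⟨s, hs, τ, hτ, rfl⟩ := k g hg
    have s1 := mem_sup_left (T := H.map (MulAut.conj (s * dg fun _ => τ)).toMonoidHom) (hH hs)
    have := dich S hi hj hQ X (hX X) P hP hH hτ 
      (fun h1 => h0 (mul_mem s1 (sup_le (c := H ⊔ _) le_sup_left ?_ h1))) y hy
    · convert mul_mem (mul_mem (hH hs) this) (inv_mem (hH hs)) using 1
      group
    · rintro _ ⟨z, hz, rfl⟩
      convert mul_mem (mul_mem (inv_mem s1) (mem_sup_right ⟨z, hz, rfl⟩)) s1 using 1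
      simp [mul_assoc]

end Cfsg.Agent.H3.Pr
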