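import Cfsg.Agent.H3.PrG
import Cfsg.Agent.H5.Sp
import Cfsg.Agent.H2.M2

/-! The quaternionic unitary group is the symplectic group. -/

set_option autoImplicit false

namespace Cfsg.Agent.H3.Pr

open Subgroup Function Quaternion H5 Matrix Equiv

variable {F : Type*} [Field F] {I : Type*} [Fintype I] [DecidableEq I]

/-- the splitting of the quaternion matrices -/
def psi (a b : F) (A : Matrix I I ℍ[F]) : Matrix (I ⊕ I) (I ⊕ I) F :=
  fromBlocks (A.map fun x => x.re + a * x.imJ - b * x.imK)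
    (A.map fun x => -x.imI + b * x.imJ + a * x.imK) (A.map fun x => x.imI + b * x.imJ + a * x.imK)
    (A.map fun x => x.re - a * x.imJ + b * x.imK)

omit [DecidableEq I] in
theorem psi_mul {a b : F} (h : a ^ 2 + b ^ 2 = -1) (A B : Matrix I I ℍ[F]) :
    psi a b (A * B) = psi a b A * psi a b B := by
  have e : ∀ (f : ℍ[F] →+ F) (g : I → ℍ[F]), f (∑ l, g l) = ∑ l, f (g l) := fun f g => map_sum f g _
  have e0 := e ⟨⟨QuaternionAlgebra.re, rfl⟩, fun _ _ => rfl⟩
  have e1 := e ⟨⟨QuaternionAlgebra.imI, rfl⟩, fun _ _ => rfl⟩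
  have e2 := e ⟨⟨QuaternionAlgebra.imJ, rfl⟩, fun _ _ => rfl⟩
  have e3 := e ⟨⟨QuaternionAlgebra.imK, rfl⟩, fun _ _ => rfl⟩
  replace e0 : ∀ g : I → ℍ[F], (∑ l, g l).re = ∑ l, (g l).re := e0
  replace e1 : ∀ g : I → ℍ[F], (∑ l, g l).imI = ∑ l, (g l).imI := e1
  replace e2 : ∀ g : I → ℍ[F], (∑ l, g l).imJ = ∑ l, (g l).imJ := e2
  replace e3 : ∀ g : I → ℍ[F], (∑ l, g l).imK = ∑ l, (g l).imK := e3
  rw [psi, psi, psi, fromBlocks_multiply]
  congr 1 <;> ext x y <;>
    simp only [map_apply, mul_apply, Matrix.add_apply, e0, e1, e2, e3, Finset.mul_sum,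
      ← Finset.sum_neg_distrib, ← Finset.sum_add_distrib, ← Finset.sum_sub_distrib] <;>
    refine Finset.sum_congr rfl fun l _ => ?_ <;>
    simp only [re_mul, imI_mul, imJ_mul, imK_mul]
  · linear_combination (-(A x l).imJ * (B l y).imJ - (A x l).imK * (B l y).imK) * h
  · linear_combination (- (A x l).imJ * (B l y).imK + (A x l).imK * (B l y).imJ) * h
  · linear_combination ((A x l).imJ * (B l y).imK - (A x l).imK * (B l y).imJ) * h
  · linear_combination (-(A x l).imJ * (B l y).imJ - (A x l).imK * (B l y).imK) * h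

omit [Fintype I] in
theorem psi_one (a b : F) : psi a b (1 : Matrix I I ℍ[F]) = 1 := by
  rw [psi, ← fromBlocks_one]
  congr 1 <;> ext x y <;> by_cases e : x = y <;> simp [one_apply, e]

theorem psi_star (a b : F) (A : Matrix I I ℍ[F]) :
    J I F * (psi a b A)ᵀ = psi a b (star A) * J I F := by
  rw [psi, psi, J, fromBlocks_transpose, fromBlocks_multiply, fromBlocks_multiply]
  congr 1 <;> ext x y <;> simp [star_apply] <;> ring

omit [Fintype I] [DecidableEq I] in
theorem psi_bij [NeZero (2 : F)] {a b : F} (h : a ^ 2 + b ^ 2 = -1) :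
    Bijective (psi (I := I) a b) := by
  have t := two_ne (F := F)
  refine bijective_iff_has_inverse.2 ⟨fun M => of fun x y =>
    mq ((M (.inl x) (.inl y) + M (.inr x) (.inr y)) / 2) ((M (.inr x) (.inl y) - M (.inl x) (.inr y)) / 2)
      (-(a * (M (.inl x) (.inl y) - M (.inr x) (.inr y)) + b * (M (.inr x) (.inl y) + M (.inl x) (.inr y))) / 2)
      ((b * (M (.inl x) (.inl y) - M (.inr x) (.inr y)) - a * (M (.inr x) (.inl y) + M (.inl x) (.inr y))) / 2),
    fun A => ?_, fun M => ?_⟩
  · ext x y <;> simp [psi] <;> field_simp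
    · linear_combination (-2 * (A x y).imJ) * h
    · linear_combination (-2 * (A x y).imK) * h
  · ext (x | x) (y | y) <;> simp [psi] <;> field_simp
    · linear_combination (M (.inr x) (.inr y) - M (.inl x) (.inl y)) * h
    · linear_combination (-M (.inr x) (.inl y) - M (.inl x) (.inr y)) * h
    · linear_combination (-M (.inr x) (.inl y) - M (.inl x) (.inr y)) * h
    · linear_combination (M (.inl x) (.inl y) - M (.inr x) (.inr y)) * h

theorem exists_iso [NeZero (2 : F)] [Finite F] : Nonempty (GU I F ≃* symplecticGroup I F) := by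
  obtain ⟨a, b, h⟩ := H2.exists_form_eq (F := F) (t := 0) (d := 1) (Or.inr fun e =>
    mul_ne_zero two_ne two_ne (show (2 : F) * 2 = 0 by linear_combination -e)) (-1)
  replace h : a ^ 2 + b ^ 2 = -1 := by linear_combination h
  have k : ∀ A : Matrix I I ℍ[F], psi a b A ∈ symplecticGroup I F ↔ A ∈ GU I F := fun A => by
    rw [SymplecticGroup.mem_iff, Matrix.mul_assoc, psi_star, ← Matrix.mul_assoc]
    refine ⟨fun e => ?_, fun e => by rw [← psi_mul h, e.2, psi_one, Matrix.one_mul]⟩
    have e1 : psi a b A * psi a b (star A) = 1 := by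
      have := congrArg (· * J I F) e
      simpa only [Matrix.mul_assoc, J_squared, Matrix.mul_neg, Matrix.mul_one, neg_inj] using this
    exact ⟨(psi_bij h).1 (by rw [psi_mul h, psi_one, mul_eq_one_comm.1 e1]),
      (psi_bij h).1 (by rw [psi_mul h, psi_one, e1])⟩
  let φ : GU I F →* symplecticGroup I F :=
    ⟨⟨fun A => ⟨_, (k A).2 A.2⟩, Subtype.ext (psi_one a b)⟩, fun A B => Subtype.ext (psi_mul h _ _)⟩
  refine ⟨MulEquiv.ofBijective φ ⟨fun A B e => Subtype.ext ((psi_bij h).1 (congrArg Subtype.val e)),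
    fun M => ?_⟩⟩
  obtain ⟨A, hA⟩ := (psi_bij h).2 M.1
  exact ⟨⟨A, (k A).1 (hA ▸ M.2)⟩, Subtype.ext hA⟩

omit [DecidableEq I] in
theorem sylow_trans {k : ℕ} (hk : Fintype.card I = 2 ^ k) (X : Sylow 2 (Perm I)) (a b : I) :
    ∃ σ ∈ X, σ a = b := by
  have h1 : (MulAction.stabilizer (Perm I) a).index = 2 ^ k := by
    rw [MulAction.index_stabilizer_of_transitive, Nat.card_eq_fintype_card, hk]
  have h2 : 2 ^ k ∣ (MulAction.stabilizer (Perm I) a).relIndex X.1 := by
    refine (Nat.Coprime.pow_left k ((Nat.Prime.coprime_iff_not_dvd Nat.prime_two).2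
      X.not_dvd_index)).dvd_of_dvd_mul_right ?_
    rw [← inf_relIndex_right, relIndex_mul_index inf_le_right, ← h1]
    exact index_dvd_of_le inf_le_left
  have h3 : (MulAction.orbit X.1 a).ncard = (MulAction.stabilizer (Perm I) a).relIndex X.1 :=
    (MulAction.index_stabilizer X.1 a).symm
  have h4 : MulAction.orbit X.1 a = Set.univ := Set.eq_of_subset_of_ncard_le (Set.subset_univ _) (by
    rw [Set.ncard_univ, Nat.card_eq_fintype_card, hk, h3]
    exact Nat.le_of_dvd (Nat.pos_of_ne_zero FiniteIndex.index_ne_zero) h2)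
  obtain ⟨σ, hσ⟩ : b ∈ MulAction.orbit X.1 a := h4 ▸ Set.mem_univ b
  exact ⟨σ, σ.2, hσ⟩

theorem fact_sp [Fintype F] (hF : Odd (Fintype.card F)) (n : ℕ) :
    (Nat.card (symplecticGroup (Fin n) F)).factorization 2 =
      n * (Fintype.card F ^ 2 - 1).factorization 2 + n.factorial.factorization 2 := by
  have q1 : 1 < Fintype.card F := Fintype.one_lt_card
  have q2 : ¬2 ∣ Fintype.card F := hF.not_two_dvd_nat
  have q3 : ∀ i, Fintype.card F ^ (2 * (i + 1)) - 1 ≠ 0 := fun i =>
    Nat.sub_ne_zero_of_lt (Nat.one_lt_pow (by omega) q1)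
  rw [card_sp, Nat.factorization_mul (by positivity) (Finset.prod_ne_zero_iff.2 fun i _ => q3 i),
    Finsupp.add_apply, Nat.factorization_pow, Finsupp.smul_apply,
    Nat.factorization_eq_zero_of_not_dvd q2, smul_zero, zero_add]
  induction n with
  | zero => simp
  | succ n ih =>
    have e1 := padicValNat.pow_two_sub_one q1 q2 (n := 2 * (n + 1)) (by omega) (by simp)
    have e2 := padicValNat.pow_two_sub_one q1 q2 (n := 2) (by omega) (by simp)
    rw [padicValNat.mul (by omega) (by omega)] at e1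
    rw [Finset.prod_range_succ, Nat.factorization_mul (Finset.prod_ne_zero_iff.2 fun i _ => q3 i)
      (q3 n), Finsupp.add_apply, ih, Nat.factorial_succ, Nat.factorization_mul (by omega)
      (Nat.factorial_ne_zero n), Finsupp.add_apply]
    simp only [Nat.factorization_def _ Nat.prime_two, add_mul]
    omega

theorem exists_sp_fin [Fintype F] (hF : Odd (Fintype.card F)) [NeZero (2 : F)] {m k : ℕ}
    (hm : m = 2 ^ k) : ∃ P : Sylow 2 (GU (Fin m) F), SP P.1 := by
  have c : ∀ n, Nat.card (GU (Fin n) F) = Nat.card (symplecticGroup (Fin n) F) := fun n =>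
    Nat.card_congr exists_iso.some.toEquiv
  have e : WS (⊤ : Subgroup (U F)) (⊤ : Subgroup (Perm (Fin 1))) = ⊤ := eq_top_iff.2 fun h _ => by
    obtain ⟨f, σ, rfl⟩ := exists_mon (h := h) fun c => ⟨c, fun b hb => absurd (Subsingleton.elim _ _) hb⟩
    exact ⟨f, fun _ => trivial, σ, trivial, rfl⟩
  have e1 := card_WS (S := (⊤ : Subgroup (U F))) (X := (⊤ : Subgroup (Perm (Fin 1))))
  rw [e, card_top, card_top, card_top, Nat.card_perm] at e1
  refine exists_sp ⟨0, by rw [hm]; positivity⟩ (sylow_trans (k := k) (by simpa using hm)) ?_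
  rw [c, fact_sp hF, Nat.card_perm, show Nat.card (U F) = _ by simpa using e1.symm, c, fact_sp hF]
  simp

end Cfsg.Agent.H3.Pr
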