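import Cfsg.Agent.H2.PLg

set_option autoImplicit false
set_option linter.unusedSectionVars false

namespace Cfsg.Agent.H3.RC

open MulAction Finset Module Cfsg.Agent.H1 Cfsg.Agent.H4 Cfsg.Agent.H2.PL
open scoped Classical Pointwise

variable {F : Type*} [Field F] {V : Type*} [AddCommGroup V] [Module F V] [FiniteDimensional F V]
  [Fintype F] [Fintype V] [Fintype (SpecialLinearGroup F V)]
  {X : Type*} [Fintype X] [MulAction (SpecialLinearGroup F V) X] {x : X}

local notation "𝔾" => SpecialLinearGroup F V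
local notation "q" => Fintype.card F
local notation "n" => finrank F V

/-- commutator of two transvections fixing `x` -/
theorem comm_in {a b : V} {f g : Dual F V} (hf : f a = 0) (hg : g b = 0) (h : g a = 0)
    (h1 : tv a f • x = x) (h2 : tv b g • x = x) : tv a (f b • g) • x = x := by
  have e : tv a (f b • g) = (tv b g * tv a f)⁻¹ * (tv a f * tv b g) := by
    rw [tv_comm hf hg h, inv_mul_cancel_left]
  have h3 : (tv b g * tv a f) • x = x := by rw [mul_smul, h1, h2]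
  rw [e, mul_smul, mul_smul (tv a f), h2, h1, inv_smul_eq_iff, h3]

/-- multiplication by `l` maps the root set of `(ψ, w)` into that of `(φ, w)` -/
def Mv (x : X) (w : V) (φ ψ : Dual F V) (l : F) : Prop :=
  ∀ c : F, tv w (c • ψ) • x = x → tv w ((l * c) • φ) • x = x

theorem Mv.trans {w : V} {φ ψ χ : Dual F V} {l m : F} (h : Mv x w φ ψ l) (h' : Mv x w ψ χ m) :
    Mv x w φ χ (l * m) := fun c hc => by
  rw [mul_assoc]; exact h _ (h' _ hc)

theorem Mv.pow {w : V} {φ : Dual F V} {l : F} (h : Mv x w φ φ l) (k : ℕ) : Mv x w φ φ (l ^ k) := by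
  induction k with
  | zero => intro c hc; simpa using hc
  | succ k ih => rw [pow_succ]; exact ih.trans h

theorem Mv.inv {w : V} {φ : Dual F V} {l : F} (h : Mv x w φ φ l) (hl : l ≠ 0) : Mv x w φ φ l⁻¹ := by
  have h2 := two_le_q (F := F)
  have : l⁻¹ = l ^ (q - 2) := by
    refine inv_eq_of_mul_eq_one_right ?_
    rw [← pow_succ', show q - 2 + 1 = q - 1 by omega]
    exact FiniteField.pow_card_sub_one_eq_one l hl
  rw [this]
  exact h.pow _

theorem mv_step (hax : ∀ (w : V) (φ : Dual F V), w ≠ 0 → φ ≠ 0 → φ w = 0 → ∃ c : F, c ≠ 0 ∧ tv w (c • φ) • x = x)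
    {w v : V} {φ : Dual F V} (hφ : φ ≠ 0) (hw : φ w = 0) (hv : v ≠ 0) (h : φ v = 0) :
    ∃ c : F, c ≠ 0 ∧ ∀ ψ : Dual F V, ψ w = 0 → Mv x w φ ψ (c * ψ v) := by
  obtain ⟨c, h1, h2⟩ := hax v φ hv hφ h
  refine ⟨c, h1, fun ψ hψ d hd => ?_⟩
  have := comm_in (a := w) (b := v) (f := d • ψ) (g := c • φ) (by simp [hψ]) (by simp [h]) (by simp [hw]) hd h2
  rw [smul_smul] at this
  convert this using 3
  simp only [LinearMap.smul_apply, smul_eq_mul]
  ring_nf

/-- the case `j = 1` of piece C: not every flag is an axis -/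
theorem j_one (hn : 5 ≤ n) (R : RK 𝔾 x)
    (hax : ∀ (w : V) (φ : Dual F V), w ≠ 0 → φ ≠ 0 → φ w = 0 → ∃ c : F, c ≠ 0 ∧ tv w (c • φ) • x = x) :
    False := by
  refine R.ne_top fun g => ?_
  have : stabilizer 𝔾 x = ⊤ := eq_top_of_tv _ fun w χ hχ => ?_
  · exact (this ▸ Subgroup.mem_top g : g ∈ stabilizer 𝔾 x)
  by_cases hw : w = 0
  · rw [hw, tv_zero_left]; exact one_mem _
  by_cases h0 : χ = 0
  · rw [h0, tv_zero_right]; exact one_mem _
  obtain ⟨e1, he1⟩ := exists_ne_zero h0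
  have hk := finrank_ker_dual h0
  obtain ⟨e3, h3, h3'⟩ := exists_mem_not (S := Submodule.span F {w, e1}) (T := LinearMap.ker χ)
    (by have := finrank_pair_le (F := F) w e1; omega)
  obtain ⟨e2, h2, h2'⟩ := exists_mem_not (S := Submodule.span F {w, e1, e3}) (T := LinearMap.ker χ)
    (by have := finrank_three_le (F := F) w e1 e3; omega)
  obtain ⟨ψ, p1, p2⟩ := sep_vec _ _ h2'
  obtain ⟨φ0, f1, f2⟩ := sep_vec _ _ h3'
  have pw : ψ w = 0 := p2 _ (Submodule.subset_span (by simp))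
  have pe1 : ψ e1 = 0 := p2 _ (Submodule.subset_span (by simp))
  have pe3 : ψ e3 = 0 := p2 _ (Submodule.subset_span (by simp))
  have fw : φ0 w = 0 := f2 _ (Submodule.subset_span (by simp))
  have fe1 : φ0 e1 = 0 := f2 _ (Submodule.subset_span (by simp))
  have c2 : χ e2 = 0 := h2
  have c3 : χ e3 = 0 := h3
  let φ : Dual F V := φ0 - φ0 e2 • ψ
  have gw : φ w = 0 := by simp [φ, fw, pw]
  have g1 : φ e1 = 0 := by simp [φ, fe1, pe1]
  have g2 : φ e2 = 0 := by simp [φ, p1]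
  have g3 : φ e3 = 1 := by simp [φ, f1, pe3]
  have hφ : φ ≠ 0 := fun e => by simp [e] at g3
  have hψ : ψ ≠ 0 := fun e => by simp [e] at p1
  obtain ⟨d, d0, hd⟩ := mv_step hax h0 hχ (v := e3) (fun e => by simp [e] at g3) c3
  obtain ⟨d', d0', hd'⟩ := mv_step hax hψ pw (v := e1) (fun e => by simp [e] at he1) pe1
  obtain ⟨r, r0, hr⟩ := hax w χ hw h0 hχ
  obtain ⟨c, c0, hc⟩ := mv_step hax hφ gw (v := (d' * r⁻¹) • e1 + e2)
    (fun e => by have := congrArg ψ e; simp [pe1, p1] at this) (by simp [g1, g2])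
  have m1 := (hd φ gw).trans (hc χ hχ)
  have m2 := (hd φ gw).trans ((hc ψ pw).trans (hd' χ hχ))
  have m3 := m1.trans (m2.inv (by simp [g3, pe1, p1, he1, d0, c0, d0'])) r hr
  simp only [g3, map_add, map_smul, pe1, p1, he1, c2, smul_eq_mul] at m3
  rw [show d * 1 * (c * (d' * r⁻¹ * 1 + 0)) * (d * 1 * (c * (d' * r⁻¹ * 0 + 1) * (d' * 1)))⁻¹ * r = 1 by
    simp only [mul_one, mul_zero, add_zero, zero_add]; field_simp, one_smul] at m3
  exact m3

/-- a point-transitive stabilizer is transitive on hyperplanes -/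
theorem hyp_tr (hp : ∀ v w : V, v ≠ 0 → w ≠ 0 → ∃ h : 𝔾, h • x = x ∧ h • (F ∙ v) = F ∙ w)
    {φ ψ : Dual F V} (hφ : φ ≠ 0) (hψ : ψ ≠ 0) :
    ∃ h : 𝔾, h • x = x ∧ ∃ c : F, c ≠ 0 ∧ slDual h φ = c • ψ := by
  by_contra hcon
  have : Fintype (Dual F V) := DFunLike.fintype _
  let O : Finset (Dual F V) := {u | ∃ h : 𝔾, h • x = x ∧ ∃ c : F, c ≠ 0 ∧ slDual h φ = c • u}
  have hO : ∀ u, u ∈ O ↔ ∃ h : 𝔾, h • x = x ∧ ∃ c : F, c ≠ 0 ∧ slDual h φ = c • u := fun u => by simp [O]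
  have hOh : ∀ k : 𝔾, k • x = x → ∀ u ∈ O, slDual k u ∈ O := fun k hk u hu => by
    obtain ⟨h, h1, c, h2, h3⟩ := (hO u).1 hu
    exact (hO _).2 ⟨k * h, by rw [mul_smul, h1, hk], c, h2, by rw [map_mul, Module.End.mul_apply, h3, map_smul]⟩
  have hle : ∀ v w : V, v ≠ 0 → w ≠ 0 → #{u ∈ O | u v = 0} ≤ #{u ∈ O | u w = 0} := fun v w hv hw => by
    obtain ⟨h, h1, h2⟩ := hp v w hv hw
    refine card_le_card_of_injOn (slDual h) (fun u hu => ?_) fun u _ u' _ e => ?_
    · simp only [coe_filter, Set.mem_ofPred_eq] at hu ⊢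
      refine ⟨hOh h h1 u hu.1, ?_⟩
      rw [smul_span1] at h2
      obtain ⟨c, hc⟩ := Submodule.mem_span_singleton.1 (h2 ▸ Submodule.mem_span_singleton_self w : w ∈ F ∙ (h • v))
      rw [← hc, map_smul, dual_smul, hu.2, smul_zero]
    · ext z
      rw [← dual_smul h u, e, dual_smul]
  obtain ⟨v0, hv0⟩ := exists_ne_zero hφ
  have hv : v0 ≠ 0 := fun e => by simp [e] at hv0
  have hsum : ∀ χ : Dual F V, χ ≠ 0 → ∑ u ∈ O, #{v | u v = 0 ∧ χ v = 0} =
      #O + (q ^ (n - 1) - 1) * #{u ∈ O | u v0 = 0} := fun χ hχ => by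
    have h1 : ∑ u ∈ O, #{v | u v = 0 ∧ χ v = 0} = ∑ v with χ v = 0, #{u ∈ O | u v = 0} := by
      simp only [card_eq_sum_ones, sum_filter]
      rw [sum_comm]
      refine sum_congr rfl fun v _ => ?_
      by_cases e : χ v = 0 <;> simp [e]
    rw [h1, ← add_sum_erase _ _ (a := 0) (by simp), ← card_ker hχ, ← card_erase_of_mem (a := 0) (by simp),
      sum_congr rfl (g := fun _ => #{u ∈ O | u v0 = 0}) fun v h =>
        le_antisymm (hle _ _ (ne_of_mem_erase h) hv) (hle _ _ hv (ne_of_mem_erase h))]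
    simp
  have hcard : ∀ u χ : Dual F V, #{v | u v = 0 ∧ χ v = 0} =
      q ^ finrank F ↥(LinearMap.ker u ⊓ LinearMap.ker χ) := fun u χ => by
    rw [← card_sub]
    exact congrArg card (filter_congr fun _ _ => Iff.rfl)
  have hq := two_le_q (F := F)
  have hlt : ∀ u ∈ O, finrank F ↥(LinearMap.ker u ⊓ LinearMap.ker ψ) + 1 ≤ finrank F (LinearMap.ker u) := fun u hu => by
    refine Submodule.finrank_lt_finrank_of_lt (lt_of_le_of_ne inf_le_left fun e => hcon ?_)
    obtain ⟨a, ha⟩ := exists_smul_of_ker (f := ψ) (g := u) fun w hw => (e.ge hw).2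
    obtain ⟨h, h1, c, h2, h3⟩ := (hO u).1 hu
    have a0 : a ≠ 0 := fun e => hψ (by ext w; simp [ha, e])
    refine ⟨h, h1, c * a⁻¹, by simp [h2, a0], ?_⟩
    rw [h3]
    ext w
    simp only [LinearMap.smul_apply, smul_eq_mul, ha]
    field_simp
  have hmem : φ ∈ O := (hO φ).2 ⟨1, one_smul _ _, 1, one_ne_zero, by simp⟩
  refine ((hsum ψ hψ).trans (hsum φ hφ).symm).not_lt (sum_lt_sum (fun u hu => ?_) ⟨φ, hmem, ?_⟩)
  · rw [hcard, hcard]
    have := hlt u hu
    have := finrank_inf_ker (LinearMap.ker u) φ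
    exact Nat.pow_le_pow_right (by omega) (by omega)
  · rw [hcard, hcard, inf_idem]
    have := hlt φ hmem
    exact Nat.pow_lt_pow_right (by omega) (by omega)

end Cfsg.Agent.H3.RC
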