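import Cfsg.Agent.H3.RC1

set_option autoImplicit false
set_option linter.unusedSectionVars false

namespace Cfsg.Agent.H3.RC

open MulAction Finset Module Cfsg.Agent.H1 Cfsg.Agent.H4 Cfsg.Agent.H2.PL
open scoped Classical Pointwise

variable {F : Type*} [Field F] {V : Type*} [AddCommGroup V] [Module F V] [FiniteDimensional F V]
  [Fintype F] [Fintype V] [Fintype (SpecialLinearGroup F V)]
  {X : Type*} [Fintype X] [MulAction (SpecialLinearGroup F V) X] {x : X}

local notation "𝔾" => SpecialLinearGroup F V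
local notation "q" => Fintype.card F
local notation "n" => finrank F V

/-- the transvection `tv v φ` fixes `x` -/
def In (x : X) (v : V) (φ : Dual F V) : Prop := φ v = 0 ∧ tv v φ • x = x

/-- `φ` is an axis for the centre `v` -/
def Ax (x : X) (v : V) (φ : Dual F V) : Prop := φ ≠ 0 ∧ ∃ c : F, c ≠ 0 ∧ In x v (c • φ)

variable (F) in
/-- the intersection of all axes with centre `v` -/
def KK (x : X) (v : V) : Submodule F V where
  carrier := {w | ∀ φ : Dual F V, In x v φ → φ w = 0}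
  add_mem' ha hb φ h := by rw [map_add, ha φ h, hb φ h, add_zero]
  zero_mem' φ _ := map_zero φ
  smul_mem' c _ ha φ h := by rw [map_smul, ha φ h, smul_zero]

theorem In.conj {h : 𝔾} (hx : h • x = x) {v : V} {φ : Dual F V} (H : In x v φ) : In x (h • v) (slDual h φ) :=
  ⟨by rw [dual_smul, H.1], by
    rw [← conj_tv h H.1, mul_smul, mul_smul, inv_smul_eq_iff.2 hx.symm, H.2, hx]⟩

theorem in_smul {c : F} (hc : c ≠ 0) {v : V} {φ : Dual F V} : In x (c • v) φ ↔ In x v (c • φ) := by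
  constructor
  · rintro ⟨h1, h2⟩
    have : φ v = 0 := by simpa [hc] using h1
    exact ⟨by simp [this], by rwa [← tv_smul this]⟩
  · rintro ⟨h1, h2⟩
    have : φ v = 0 := by simpa [hc] using h1
    exact ⟨by simp [this], by rwa [tv_smul this]⟩

theorem Ax.conj {h : 𝔾} (hx : h • x = x) {v : V} {φ : Dual F V} (H : Ax x v φ) : Ax x (h • v) (slDual h φ) := by
  obtain ⟨h1, c, h2, h3⟩ := H
  exact ⟨dual_ne h h1, c, h2, map_smul (slDual h) c φ ▸ h3.conj hx⟩

theorem Ax.left {c : F} (hc : c ≠ 0) {v : V} {φ : Dual F V} (H : Ax x v φ) : Ax x (c • v) φ := by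
  obtain ⟨h1, d, h2, h3⟩ := H
  refine ⟨h1, c⁻¹ * d, by simp [hc, h2], (in_smul hc).2 ?_⟩
  rwa [smul_smul, mul_inv_cancel_left₀ hc]

theorem Ax.right {c : F} (hc : c ≠ 0) {v : V} {φ : Dual F V} (H : Ax x v (c • φ)) : Ax x v φ := by
  obtain ⟨h1, d, h2, h3⟩ := H
  exact ⟨right_ne_zero_of_smul h1, d * c, by simp [hc, h2], by rwa [← smul_smul]⟩

theorem Ax.ker {v w : V} {φ : Dual F V} (H : Ax x v φ) (h : w ∈ KK F x v) : φ w = 0 := by
  obtain ⟨-, c, h2, h3⟩ := H
  simpa [h2] using h _ h3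

theorem mem_KK (v : V) : v ∈ KK F x v := fun _ h => h.1

theorem KK_conj {h : 𝔾} (hx : h • x = x) (v : V) : KK F x (h • v) = h • KK F x v := by
  ext w
  rw [mem_smul_iff]
  constructor
  · intro H φ hφ
    exact H _ (hφ.conj hx)
  · intro H φ hφ
    have := H _ (inv_smul_smul h v ▸ hφ.conj (inv_smul_eq_iff.2 hx.symm))
    rwa [dual_smul] at this

theorem KK_smul {c : F} (hc : c ≠ 0) (v : V) : KK F x (c • v) = KK F x v := by
  ext w
  constructor
  · intro H φ hφ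
    simpa [hc] using H (c⁻¹ • φ) ((in_smul hc).2 (by rwa [smul_inv_smul₀ hc]))
  · intro H φ hφ
    simpa [hc] using H _ ((in_smul hc).1 hφ)

theorem Ax.key {v w : V} {φ : Dual F V} (H : Ax x v φ) (h : φ w = 0) (hv : v ∉ KK F x w) : Ax x w φ := by
  obtain ⟨h1, c, h2, h3⟩ := H
  obtain ⟨ψ, p1, p2⟩ : ∃ ψ : Dual F V, In x w ψ ∧ ψ v ≠ 0 := by
    by_contra! e
    exact hv e
  refine ⟨h1, ψ v * c, mul_ne_zero p2 h2, by simp [h], ?_⟩
  rw [← smul_smul]
  exact comm_in p1.1 h3.1 (by simp [h]) p1.2 h3.2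

theorem card_mem_ne {M : Type*} [AddCommGroup M] [Module F M] [Fintype M] (U : Submodule F M)
    [DecidablePred fun z => z ≠ 0 ∧ z ∈ U] : #{z | z ≠ 0 ∧ z ∈ U} + 1 = q ^ finrank F U := by
  have := card_diff (F := F) (bot_le (a := U))
  rw [finrank_bot, pow_zero] at this
  rw [← this]
  congr 2
  ext z
  simp [and_comm]

/-- PIECE C of S2194 -/
theorem pieceC (hn : 5 ≤ n) (R : RK 𝔾 x)
    (hp : ∀ v w : V, v ≠ 0 → w ≠ 0 → ∃ h : 𝔾, h • x = x ∧ h • (F ∙ v) = F ∙ w)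
    {w : V} {f : Dual F V} (hw : w ≠ 0) (hf : f ≠ 0) (hfw : f w = 0) : tv w f • x ≠ x := by
  intro hx
  have : Fintype (Dual F V) := DFunLike.fintype _
  have hA : Ax x w f := ⟨hf, 1, one_ne_zero, by rw [one_smul]; exact ⟨hfw, hx⟩⟩
  have hp' : ∀ v u : V, v ≠ 0 → u ≠ 0 → ∃ h : 𝔾, h • x = x ∧ ∃ c : F, c ≠ 0 ∧ u = c • h • v := fun v u hv hu => by
    obtain ⟨h, h1, h2⟩ := hp v u hv hu
    rw [smul_span1] at h2
    obtain ⟨c, hc⟩ := Submodule.mem_span_singleton.1 (h2 ▸ Submodule.mem_span_singleton_self u : u ∈ F ∙ (h • v))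
    exact ⟨h, h1, c, fun e => hu (by rw [← hc, e, zero_smul]), hc.symm⟩
  have ha : ∀ v u : V, v ≠ 0 → u ≠ 0 → #{φ : Dual F V | φ ≠ 0 ∧ Ax x v φ} ≤ #{φ : Dual F V | φ ≠ 0 ∧ Ax x u φ} :=
    fun v u hv hu => by
    obtain ⟨h, h1, c, h2, rfl⟩ := hp' v u hv hu
    refine card_le_card_of_injOn (slDual h) (fun φ hφ => ?_) fun φ _ φ' _ e => ?_
    · simp only [coe_filter, Set.mem_ofPred_eq, mem_univ, true_and] at hφ ⊢
      exact ⟨dual_ne h hφ.1, (hφ.2.conj h1).left h2⟩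
    · ext z
      rw [← dual_smul h φ, e, dual_smul]
  have hc : ∀ φ ψ : Dual F V, φ ≠ 0 → ψ ≠ 0 → #{v : V | v ≠ 0 ∧ Ax x v φ} ≤ #{v : V | v ≠ 0 ∧ Ax x v ψ} :=
    fun φ ψ hφ hψ => by
    obtain ⟨h, h1, c, h2, h3⟩ := hyp_tr hp hφ hψ
    refine card_le_card_of_injOn (h • ·) (fun v hv => ?_) fun v _ v' _ e => smul_left_cancel h e
    simp only [coe_filter, Set.mem_ofPred_eq, mem_univ, true_and] at hv ⊢
    exact ⟨(smul_ne_zero_iff_ne h).2 hv.1, Ax.right h2 (h3 ▸ hv.2.conj h1)⟩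
  have hd : ∀ v u : V, v ≠ 0 → u ≠ 0 → #{z : V | z ≠ 0 ∧ v ∈ KK F x z} ≤ #{z : V | z ≠ 0 ∧ u ∈ KK F x z} :=
    fun v u hv hu => by
    obtain ⟨h, h1, c, h2, rfl⟩ := hp' v u hv hu
    refine card_le_card_of_injOn (h • ·) (fun z hz => ?_) fun v _ v' _ e => smul_left_cancel h e
    simp only [coe_filter, Set.mem_ofPred_eq, mem_univ, true_and] at hz ⊢
    exact ⟨(smul_ne_zero_iff_ne h).2 hz.1, Submodule.smul_mem _ _ (by rw [KK_conj h1]; exact smul_mem.2 hz.2)⟩
  have hj : ∀ v : V, v ≠ 0 → finrank F (KK F x v) = finrank F (KK F x w) := fun v hv => by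
    obtain ⟨h, h1, c, h2, rfl⟩ := hp' w v hw hv
    rw [KK_smul h2, KK_conj h1, finrank_smul]
  have hq := two_le_q (F := F)
  have n1 := card_ne (F := F) (M := V)
  have n2 : #{φ : Dual F V | φ ≠ 0} + 1 = q ^ n := by
    rw [← Subspace.dual_finrank_eq]
    convert card_ne (F := F) (M := Dual F V)
  have npos : 0 < #{v : V | v ≠ 0} := card_pos.2 ⟨w, by simpa using hw⟩
  have hac : #{φ : Dual F V | φ ≠ 0 ∧ Ax x w φ} = #{v : V | v ≠ 0 ∧ Ax x v f} := by
    have : #{v : V | v ≠ 0} * #{φ : Dual F V | φ ≠ 0 ∧ Ax x w φ} =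
        #{φ : Dual F V | φ ≠ 0} * #{v : V | v ≠ 0 ∧ Ax x v f} := card_mul_eq_card_mul (fun v φ => Ax x v φ)
      (fun v hv => by
        rw [bipartiteAbove, filter_filter]
        exact le_antisymm (ha _ _ (by simpa using hv) hw) (ha _ _ hw (by simpa using hv)))
      (fun φ hφ => by
        rw [bipartiteBelow, filter_filter]
        exact le_antisymm (hc _ _ (by simpa using hφ) hf) (hc _ _ hf (by simpa using hφ)))
    rw [show #{φ : Dual F V | φ ≠ 0} = #{v : V | v ≠ 0} by omega] at this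
    exact Nat.eq_of_mul_eq_mul_left npos this
  have hdj : #{z : V | z ≠ 0 ∧ w ∈ KK F x z} + 1 = q ^ finrank F (KK F x w) := by
    have : #{v : V | v ≠ 0} * #{z : V | z ≠ 0 ∧ w ∈ KK F x z} =
        #{v : V | v ≠ 0} * #{z : V | z ≠ 0 ∧ z ∈ KK F x w} := card_mul_eq_card_mul (fun v z => v ∈ KK F x z)
      (fun v hv => by
        rw [bipartiteAbove, filter_filter]
        exact le_antisymm (hd _ _ (by simpa using hv) hw) (hd _ _ hw (by simpa using hv)))
      (fun z hz => by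
        rw [bipartiteBelow, filter_filter]
        have e1 := card_mem_ne (KK F x z)
        have e2 := card_mem_ne (KK F x w)
        rw [hj z (by simpa using hz)] at e1
        omega)
    rw [Nat.eq_of_mul_eq_mul_left npos this, card_mem_ne]
  have hann : #{φ : Dual F V | φ ≠ 0 ∧ Ax x w φ} + 1 ≤ q ^ finrank F (KK F x w).dualAnnihilator := by
    rw [← card_mem_ne]
    refine Nat.succ_le_succ (card_le_card (monotone_filter_right _ fun φ _ h => ⟨h.1, ?_⟩))
    exact (Submodule.mem_dualAnnihilator φ).2 fun z hz => h.2.ker hz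
  have hfr := Subspace.finrank_add_finrank_dualAnnihilator_eq (KK F x w)
  have hsp : ∀ v : V, v ≠ 0 → #{z | z ≠ 0 ∧ z ∈ F ∙ v} + 1 = q := fun v hv => by
    rw [card_mem_ne, finrank_span_singleton hv, pow_one]
  have hsub : ∀ (v : V) (φ : Dual F V), Ax x v φ →
      ({z | z ≠ 0 ∧ z ∈ F ∙ v} : Finset V) ⊆ ({z | z ≠ 0 ∧ Ax x z φ} : Finset V) := fun v φ h =>
    monotone_filter_right _ fun z _ hz => ⟨hz.1, by
      obtain ⟨c, rfl⟩ := Submodule.mem_span_singleton.1 hz.2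
      exact h.left (left_ne_zero_of_smul hz.1)⟩
  have hker := finrank_ker_dual hf
  have hineq : q ^ finrank F (LinearMap.ker f) + q ≤
      #{v : V | v ≠ 0 ∧ Ax x v f} + #{z : V | z ≠ 0 ∧ w ∈ KK F x z} + 2 := by
    have e1 := card_union_add_card_inter ({v | v ≠ 0 ∧ Ax x v f} : Finset V) {z | z ≠ 0 ∧ w ∈ KK F x z}
    have e2 : ({z | z ≠ 0 ∧ z ∈ LinearMap.ker f} : Finset V) ⊆
        ({v | v ≠ 0 ∧ Ax x v f} : Finset V) ∪ ({z | z ≠ 0 ∧ w ∈ KK F x z} : Finset V) := fun z hz => by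
      simp only [mem_union, mem_filter, mem_univ, true_and] at hz ⊢
      by_cases e : w ∈ KK F x z
      · exact Or.inr ⟨hz.1, e⟩
      · exact Or.inl ⟨hz.1, hA.key hz.2 e⟩
    have e3 : ({z | z ≠ 0 ∧ z ∈ F ∙ w} : Finset V) ⊆
        ({v | v ≠ 0 ∧ Ax x v f} : Finset V) ∩ ({z | z ≠ 0 ∧ w ∈ KK F x z} : Finset V) :=
      subset_inter (hsub w f hA) (monotone_filter_right _ fun z _ hz =>
        ⟨hz.1, mem_of_mem_span hz.1 hz.2 (mem_KK z)⟩)
    have := card_le_card e2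
    have := card_le_card e3
    have := card_mem_ne (LinearMap.ker f)
    have := hsp w hw
    omega
  have j1 : 1 ≤ finrank F (KK F x w) := by
    rw [← finrank_span_singleton (K := F) hw]
    exact Submodule.finrank_mono (span1_le (mem_KK w))
  have j2 : finrank F (KK F x w) ≤ finrank F (LinearMap.ker f) := Submodule.finrank_mono fun z hz => hA.ker hz
  have hex : ∀ φ : Dual F V, φ ≠ 0 → ∃ v : V, v ≠ 0 ∧ Ax x v φ := fun φ hφ => by
    obtain ⟨v, hv⟩ := card_pos.1 (lt_of_lt_of_le (card_pos.2 ⟨w, by simpa using ⟨hw, hA⟩⟩) (hc f φ hf hφ))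
    exact ⟨v, by simpa using hv⟩
  by_cases c1 : finrank F (KK F x w) = 1
  · refine j_one hn R fun u φ hu hφ h => ?_
    obtain ⟨v, hv, H⟩ := hex φ hφ
    have : Ax x u φ := by
      by_cases e : v ∈ KK F x u
      · rw [eq_span1 ((hj u hu).trans c1) hu (mem_KK u)] at e
        obtain ⟨c, rfl⟩ := Submodule.mem_span_singleton.1 e
        have c0 := left_ne_zero_of_smul hv
        exact inv_smul_smul₀ c0 u ▸ H.left (inv_ne_zero c0)
      · exact H.key h e
    obtain ⟨-, c, h1, h2⟩ := this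
    exact ⟨c, h1, h2.2⟩
  by_cases c2 : finrank F (KK F x w) + 1 = n
  · refine no_polarity hn R (KK F x) (fun v hv => (hj v hv).symm ▸ c2) (fun v _ => mem_KK v) (fun v u hv hu h => ?_)
      fun h hx v => KK_conj hx v
    by_contra e
    obtain ⟨φ, hφ⟩ := card_pos.1 (lt_of_lt_of_le (card_pos.2 ⟨f, by simpa using ⟨hf, hA⟩⟩) (ha w v hw hv))
    simp only [mem_filter, mem_univ, true_and] at hφ
    have h1 := hφ.2.key (hφ.2.ker h) e
    rw [show finrank F (KK F x w).dualAnnihilator = 1 by omega, pow_one] at hann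
    have h2 := eq_of_subset_of_card_le (hsub v φ hφ.2) (by
      have := hc φ f hφ.1 hf
      have := hsp v hv
      omega)
    have h3 : u ∈ ({z | z ≠ 0 ∧ z ∈ F ∙ v} : Finset V) := h2 ▸ (by simpa using ⟨hu, h1⟩)
    simp only [mem_filter, mem_univ, true_and] at h3
    exact e (mem_of_mem_span hu h3.2 (mem_KK u))
  · have b1 : q ^ finrank F (KK F x w) ≤ q ^ (n - 2) := Nat.pow_le_pow_right (by omega) (by omega)
    have b2 : q ^ finrank F (KK F x w).dualAnnihilator ≤ q ^ (n - 2) := Nat.pow_le_pow_right (by omega) (by omega)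
    rw [show finrank F (LinearMap.ker f) = n - 2 + 1 by omega, pow_succ] at hineq
    have : q ^ (n - 2) * 2 ≤ q ^ (n - 2) * q := Nat.mul_le_mul_left _ hq
    omega

end Cfsg.Agent.H3.RC
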