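import Cfsg.Agent.H8.TwCard
import Cfsg.Agent.H8.TwX
import Cfsg.Agent.H7.TT10

/-! The index of the Borel subgroup of a twisted group, and some counting lemmas. -/

set_option autoImplicit false
set_option linter.unusedSectionVars false

namespace Cfsg.Agent.H3.TF

open Cfsg.Lie Cfsg.Agent.H7 Cfsg.Agent.H8
open scoped commutatorElement

section tw

variable {D : ChevalleyDatum} {K : Type*} [Field K] {G : Type*} [Group G] {x : ℕ → K → G}
  [hD : RootFacts D] [hN : NFacts D]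
  {σ : G →* G} {ρ : Equiv.Perm ℕ} {π : Fin D.rank → Fin D.rank} {f : ℕ → K → K} {S : Subgroup G}
  {O : Fin D.rank → Set ℕ} (hS : TwSub D x σ π S O) (h : Twist D x σ ρ π f) (hx : IsFaith D x) [Finite G]
include hS h hx

/-- The index of the Borel subgroup as a sum over the relative Weyl group. -/
theorem index_B {ι : Type*} [Fintype ι] (w : ι → Equiv.Perm ℕ) (hw : ∀ i, w i ∈ W D ∧ Commute ρ (w i))
    (hi : Function.Injective w) (hs : ∀ v ∈ W D, Commute ρ v → ∃ i, v = w i) :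
    ((BB D x).subgroupOf S).index = ∑ i, Nat.card ↥(S ⊓ Um D x (w i)) := by
  choose n hn hn' using fun i => hS.exists_rep h hx (hw i).1 (hw i).2
  rw [Subgroup.index, ← Nat.card_sigma]
  refine (Nat.card_congr (Equiv.ofBijective (fun p : Σ i, ↥(S ⊓ Um D x (w i)) =>
    ((⟨(n p.1 * p.2)⁻¹, inv_mem (mul_mem (hn _) p.2.2.1)⟩ : S) : S ⧸ (BB D x).subgroupOf S)) ⟨?_, fun a => ?_⟩)).symm
  · rintro ⟨i, u⟩ ⟨j, v⟩ e
    have h1 : n i * u * (n j * v)⁻¹ ∈ BB D x := by simpa [Subgroup.mem_subgroupOf] using QuotientGroup.eq.1 e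
    obtain rfl : i = j := hi (hx.cell_unique (Cell.mul_right (hn' i).mem_cell (UU_le_BB x (Um_le_UU x _ u.2.2))) (by
      simpa [mul_assoc] using Cell.mul_left (Cell.mul_right (hn' j).mem_cell (UU_le_BB x (Um_le_UU x _ v.2.2))) h1))
    obtain ⟨a, ha, b, hb, e⟩ := hx.toIsSt.mem_BB.1 h1
    obtain rfl : u = v := Subtype.ext (sharp_unique hx (one_mem _) ha (hn' i) ((hn' i).HH_mul hx.toIsSt hb) u.2.2 v.2.2
      (by rw [mul_inv_eq_iff_eq_mul] at e; rw [one_mul, e]; group)).2.2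
    rfl
  · obtain ⟨g, rfl⟩ := QuotientGroup.mk_surjective a
    obtain ⟨v, hW, hv, u, hu, m, hm, h1, u', hu', e⟩ := hS.bruhat h hx (inv_mem g.2)
    obtain ⟨i, rfl⟩ := hs v hW hv
    refine ⟨⟨i, u', hu'⟩, QuotientGroup.eq.2 ?_⟩
    have := mul_mem (HH_le_BB x ((hn' i).mul_inv_mem hx.toIsSt h1)) (inv_mem (UU_le_BB x hu.2))
    rw [inv_eq_iff_eq_inv] at e
    simpa [Subgroup.mem_subgroupOf, e, mul_assoc] using this

/-- The exact order of the groups `S ⊓ U_w`. -/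
theorem card_Um_pow {c k : ℕ} (hc : 0 < c)
    (hb : ∀ i, c ^ len D (wJ D (O i)) ≤ Nat.card ↥(S ⊓ Um D x (wJ D (O i))) ^ k)
    (hU : Nat.card ↥(S ⊓ UU D x) ^ k ≤ c ^ (D.nroots / 2)) {w : Equiv.Perm ℕ} (hW : w ∈ W D) (hw : Commute ρ w) :
    Nat.card ↥(S ⊓ Um D x w) ^ k = c ^ len D w := by
  classical
  refine le_antisymm ?_ (hS.pow_le_card h hx hb hW hw)
  have h1 := hS.pow_le_card h hx hb (mul_mem w0_mem hW) ((h.commute_w0 hx).mul_right hw)
  have h2 : D.nroots / 2 ≤ len D w + len D (w0 D * w) := by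
    rw [← card_posF, len, len]
    refine (Finset.card_le_card fun r hr => ?_).trans (Finset.card_union_le _ _)
    rw [mem_posF] at hr
    rw [Finset.mem_union, mem_invSet, mem_invSet]
    exact (pos_or_neg (W_lt hW hr.1)).symm.imp (fun h => ⟨hr, h⟩) fun h => ⟨hr, w0_neg_of_pos h⟩
  have h3 := card_mul_le_of_disjoint (A := S ⊓ Um D x w) (B := S ⊓ Um D x (w0 D * w)) (C := S ⊓ UU D x)
    ((disjoint_Um_Up hx hW).mono inf_le_right (inf_le_right.trans (XS_mono x fun r hr => And.intro hr.1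
      (pos_of_not_neg (W_lt hW hr.1.1) fun h => not_neg_of_pos (w0_pos_of_neg h) hr.2))))
    (inf_le_inf_left _ (Um_le_UU x _)) (inf_le_inf_left _ (Um_le_UU x _))
  refine Nat.le_of_mul_le_mul_right ?_ (Nat.pow_pos (n := len D (w0 D * w)) hc)
  calc _ ≤ Nat.card ↥(S ⊓ Um D x w) ^ k * Nat.card ↥(S ⊓ Um D x (w0 D * w)) ^ k := by gcongr
    _ ≤ Nat.card ↥(S ⊓ UU D x) ^ k := by rw [← mul_pow]; gcongr
    _ ≤ c ^ (D.nroots / 2) := hU
    _ ≤ _ := by rw [← pow_add]; exact Nat.pow_le_pow_right hc h2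

end tw

section lay

variable {D : ChevalleyDatum} {K : Type*} [Field K] {G : Type*} [Group G] {x : ℕ → K → G}
  [hD : RootFacts D] {lay bs : ℕ → ℕ} {ρ : Equiv.Perm ℕ} {n : ℕ}

theorem comm_mem2 (L : LayOK D K ρ lay bs n) (hx : IsSt D x) {j k m : ℕ} (H : ∀ r < D.nroots, ∀ s < D.nroots,
    D.IsPosRoot r ∧ j ≤ lay r → D.IsPosRoot s ∧ k ≤ lay s → ∀ c ∈ D.commTerms r s, (c.2.1 : K) = 0 ∨ m ≤ lay c.1)
    {g g' : G} (hg : g ∈ XS x (FL D lay j)) (hy : g' ∈ XS x (FL D lay k)) : ⁅g, g'⁆ ∈ XS x (FL D lay m) := by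
  refine comm_mem_closure (fun g hg _ => L.conj hx upL_FL (XS_FL_le j hg)) ?_ hg
  rintro _ ⟨r, hr, t, rfl⟩
  rw [← inv_mem_iff]
  simp only [_root_.mul_inv_rev, inv_inv, ← mul_assoc]
  refine comm_mem_closure (fun g hg _ => L.conj hx upL_FL (XS_FL_le k hg)) ?_ hy
  rintro _ ⟨s, hs, u, rfl⟩
  by_cases h : s = r
  · rw [h, (hx.commute_self r u t).eq]; simp
  have := hx.comm' h (ne_neg_of_pos (one_mem _) hr.1 hs.1) (-t) (-u)
  rw [hx.neg, hx.neg, inv_inv, inv_inv] at this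
  rw [this]
  refine ev_mem fun p hp => ?_
  obtain ⟨c, hc, rfl⟩ := mem_commWord hp
  obtain ⟨-, -, -, h1, h2, h3⟩ := commTerms_spec hc
  obtain h4 | h4 := H r hr.1.1 s hs.1.1 hr hs c hc
  · simp [h4, hx.zero]
  · exact x_mem_XS (And.intro (pos_comb hr.1 hs.1 h1 h2 h3).1 h4) _

end lay

section grp

variable {G : Type*} [Group G] [Finite G]

theorem crd_card {K : Type*} [Field K] [Finite K] {A A' T : Subgroup G} {α χ : G → K} (c : Crd A A' T α χ)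
    (D : Subgroup G) : Nat.card ↥(A ⊓ D) ≤ Nat.card K * Nat.card ↥(A' ⊓ D) := by
  let φ : ↥(A ⊓ D) →* Multiplicative K := MonoidHom.mk' (fun a => Multiplicative.ofAdd (α a))
    fun a b => congrArg Multiplicative.ofAdd (c.add _ a.2.1 _ b.2.1)
  rw [← φ.ker.index_mul_card, Subgroup.index_ker]
  exact Nat.mul_le_mul (Finite.card_subtype_le _) (Nat.card_le_card_of_injective
    (fun a => ⟨a.1.1, (c.zero _ a.1.2.1).1 a.2, a.1.2.2⟩) fun a b e => Subtype.ext (Subtype.ext (congrArg (·.1) e)))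

/-- The pairing lemma for a group acting on an abelian section. -/
theorem heis2 {Q A R Z D : Subgroup G} (hA : A ≤ Q) (hR : R ≤ A) (hc : ∀ r ∈ R, ∀ u ∈ Q, r * u = u * r)
    (h1 : ∀ u ∈ Q, ∀ v ∈ A, ⁅u, v⁆ ∈ R) (h2 : ∀ u ∈ Q, u ∉ Z → ∀ r ∈ R, ∃ v ∈ A, ⁅u, v⁆ = r) (h0 : R ≠ ⊥)
    (h : ∀ r ∈ R, r ∈ D → r = 1) :
    Nat.card ↥(Q ⊓ D) * (Nat.card ↥(A ⊓ D) * Nat.card R) ≤ Nat.card A * Nat.card ↥(Z ⊓ D) := by
  let _ : CommGroup R := { (inferInstance : Group R) with mul_comm := fun a b => Subtype.ext (hc _ a.2 _ (hA (hR b.2))) }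
  obtain ⟨l, h3, -⟩ := exists_char (H := R) (C := ⊥) fun e =>
    h0 (eq_bot_iff.2 fun r hr => congrArg Subtype.val (Subgroup.mem_bot.1 (e.ge (Subgroup.mem_top (⟨r, hr⟩ : R)))))
  let χ : ↥(Q ⊓ D) → A → ℂ := fun a y => l ⟨⁅a.1, y.1⁆, h1 _ a.2.1 _ y.2⟩
  have := char_pair χ (fun a b y => by
      rw [← map_mul]; refine congrArg l (Subtype.ext ?_)
      have := hc _ (h1 _ b.2.1 _ y.2) _ a.2.1
      calc ⁅a.1 * b.1, y.1⁆ = a.1 * ⁅b.1, y.1⁆ * a.1⁻¹ * ⁅a.1, y.1⁆ := by group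
        _ = ⁅b.1, y.1⁆ * ⁅a.1, y.1⁆ := by rw [← this]; group
        _ = _ := hc _ (h1 _ b.2.1 _ y.2) _ (hA (hR (h1 _ a.2.1 _ y.2))))
    (fun a y z => by
      rw [← map_mul]; refine congrArg l (Subtype.ext ?_)
      have := hc _ (h1 _ a.2.1 _ z.2) _ (hA y.2)
      calc ⁅a.1, y.1 * z.1⁆ = ⁅a.1, y.1⁆ * (y.1 * ⁅a.1, z.1⁆ * y.1⁻¹) := by group
        _ = _ := by rw [← this]; simp)
    (fun a => (congrArg l (Subtype.ext (by simp))).trans (map_one l))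
    (fun a => (congrArg l (Subtype.ext (by simp))).trans (map_one l))
  refine le_trans (Nat.mul_le_mul_left _ ?_) (this.le.trans (Nat.mul_le_mul_left _ ?_))
  · rw [← Nat.card_prod]
    refine Nat.card_le_card_of_injective (fun p => ⟨⟨p.1 * p.2, mul_mem p.1.2.1 (hR p.2.2)⟩, fun a =>
      (congrArg l (Subtype.ext ?_)).trans (map_one l)⟩) fun p p' e => ?_
    · have e1 : ⁅a.1, p.1.1 * p.2.1⁆ = ⁅a.1, p.1.1⁆ := by
        calc _ = a.1 * p.1.1 * (p.2.1 * a.1⁻¹) * p.2.1⁻¹ * p.1.1⁻¹ := by group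
          _ = _ := by rw [hc _ p.2.2 _ (inv_mem a.2.1)]; group
      exact e1.trans (h _ (h1 _ a.2.1 _ p.1.2.1)
        (mul_mem (mul_mem (mul_mem a.2.2 p.1.2.2) (inv_mem a.2.2)) (inv_mem p.1.2.2)))
    · have e1 : p.1.1 * p.2.1 = p'.1.1 * p'.2.1 := congrArg (·.1.1) e
      have e2 : p'.2.1 * p.2.1⁻¹ = p'.1.1⁻¹ * p.1.1 := by rw [eq_inv_mul_iff_mul_eq, ← mul_assoc, ← e1]; group
      have e3 := h _ (mul_mem p'.2.2 (inv_mem p.2.2)) (e2 ▸ mul_mem (inv_mem p'.1.2.2) p.1.2.2)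
      rw [e3, eq_comm, inv_mul_eq_one] at e2
      exact Prod.ext (Subtype.ext e2.symm) (Subtype.ext (mul_inv_eq_one.1 e3).symm)
  · exact Nat.card_le_card_of_injective (fun a => ⟨a.1.1, by_contra fun hz => h3 (MonoidHom.ext fun c => by
      obtain ⟨b, hb, e⟩ := h2 _ a.1.2.1 hz c c.2
      simpa [χ, e] using a.2 ⟨b, hb⟩), a.1.2.2⟩) fun a b e => Subtype.ext (Subtype.ext (congrArg (·.1) e))

end grp

theorem num_int {q m j i : ℤ} (hq : 8 ≤ q) (hm : 1 ≤ m) (hj : 1 ≤ j) (h1 : m - j = q ^ 2 - q + i * q ^ 3)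
    (h2 : m * (j * q ^ 2 - q + 1) + i = q ^ 5 + q ^ 2 - q) : False := by
  have q2 : 8 * q ≤ q ^ 2 := by nlinarith
  have q3 : 8 * q ^ 2 ≤ q ^ 3 := by nlinarith
  have q4 : 8 * q ^ 3 ≤ q ^ 4 := by nlinarith
  have q5 : 8 * q ^ 4 ≤ q ^ 5 := by nlinarith
  have k : ∀ a b : ℤ, 0 ≤ a → 0 ≤ b → a ≤ m → b ≤ j * q ^ 2 - q + 1 → a * b ≤ m * (j * q ^ 2 - q + 1) :=
    fun a b ha hb h3 h4 => mul_le_mul h3 h4 hb (by omega)
  rcases lt_trichotomy i 0 with h | rfl | h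
  · have h3 : (-i * q ^ 3 - q ^ 2 + q + 1) * q ^ 2 ≤ j * q ^ 2 := mul_le_mul_of_nonneg_right (by linarith) (by omega)
    have h4 : q ^ 5 ≤ -i * q ^ 5 := by nlinarith
    have h5 : -i * 1 ≤ -i * q ^ 4 := mul_le_mul_of_nonneg_left (by omega) (by omega)
    have h6 : -i * (8 * q ^ 4) ≤ -i * q ^ 5 := mul_le_mul_of_nonneg_left q5 (by omega)
    rcases hm.eq_or_lt with rfl | hm
    · obtain rfl : j = 1 - q ^ 2 + q - i * q ^ 3 := by omega
      rcases (show i ≤ -1 by omega).eq_or_lt with rfl | h7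
      · nlinarith
      · have : 2 * q ^ 5 ≤ -i * q ^ 5 := by nlinarith
        nlinarith
    · have := k 2 (-i * q ^ 5 - q ^ 4) (by omega) (by omega) hm (by nlinarith)
      nlinarith
  · rcases le_or_gt j q with h | h
    · have : m * (j * q ^ 2 - q + 1) ≤ q ^ 2 * (q * q ^ 2 - q + 1) :=
        mul_le_mul (by omega) (by nlinarith) (by nlinarith) (by omega)
      nlinarith
    · have := k (q ^ 2 + 1) ((q + 1) * q ^ 2 - q + 1) (by omega) (by nlinarith) (by omega) (by nlinarith)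
      nlinarith
  · have h3 : q ^ 3 ≤ i * q ^ 3 := by nlinarith
    rcases hj.eq_or_lt with rfl | hj
    · rcases (show 1 ≤ i by omega).eq_or_lt with rfl | h7
      · obtain rfl : m = q ^ 3 + q ^ 2 - q + 1 := by omega
        nlinarith
      · have := k (2 * q ^ 3) (q ^ 2 - q) (by omega) (by omega) (by nlinarith) (by omega)
        nlinarith
    · have := k (q ^ 3) (2 * q ^ 2 - q) (by omega) (by omega) (by omega) (by nlinarith)
      nlinarith

theorem num_T {q n l : ℕ} (hq : 8 ≤ q) (hn : 0 < n) (h1 : q ^ 5 ∣ n)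
    (h : l * (n - 1) = (q + 1) * (q ^ 2 + 1) * (q ^ 3 + 1) * (q ^ 6 + 1) * (q - 1)) : False := by
  obtain ⟨m, rfl⟩ := h1
  have hm : 1 ≤ m := Nat.pos_of_mul_pos_left hn
  zify [hn, (by omega : 1 ≤ q)] at h hq hm
  have hl : (0 : ℤ) ≤ l := Nat.cast_nonneg _
  generalize (l : ℤ) = l at *
  generalize (m : ℤ) = m at *
  generalize (q : ℤ) = q at *
  have h0 : q ≠ 0 := by omega
  obtain ⟨j, hj⟩ : ∃ j, j = l * m - (q ^ 8 + q ^ 5 - q ^ 4 + q ^ 2 - q) := ⟨_, rfl⟩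
  have h1 : l = j * q ^ 5 - q ^ 4 + q ^ 3 + 1 := by rw [hj]; linear_combination -h
  have h2 : 1 ≤ j := by
    by_contra h2
    have : j * q ^ 5 ≤ 0 := mul_nonpos_of_nonpos_of_nonneg (by omega) (by positivity)
    have q3 : 8 * q ^ 3 ≤ q ^ 4 := by nlinarith [pow_pos (show 0 < q by omega) 3]
    have := pow_pos (show 0 < q by omega) 3
    omega
  subst h1
  exact num_int hq hm h2 (i := q ^ 5 + q ^ 2 - q - m * (j * q ^ 2 - q + 1)) (by linear_combination -hj) (by ring)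

end Cfsg.Agent.H3.TF
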