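import Cfsg.Agent.H3.TF2

/-! The large Ree groups have no 2-transitive action with transitive Borel subgroup. -/

set_option autoImplicit false
set_option linter.unusedSectionVars false

namespace Cfsg.Agent.H3.TF

open Cfsg.Lie Cfsg.Agent.H7 Cfsg.Agent.H8 MulAction
open scoped commutatorElement

variable {K : Type*} [Field K] [CharP K 2] {G : Type*} [Group G] {x : ℕ → K → G} {e : ℕ} {φ : K →+* K} {σ : G →* G}

theorem comm2 (hx : IsSt chevF4 x) {j k m : ℕ} (H : ∀ r < chevF4.nroots, ∀ s < chevF4.nroots,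
    chevF4.IsPosRoot r ∧ j ≤ ly r → chevF4.IsPosRoot s ∧ k ≤ ly s → ∀ c ∈ ctOf fastF4.ch r s, 2 ∣ c.2.1 ∨ m ≤ ly c.1)
    {g g' : G} (hg : g ∈ XS x (FL chevF4 ly j)) (hy : g' ∈ XS x (FL chevF4 ly k)) : ⁅g, g'⁆ ∈ XS x (FL chevF4 ly m) :=
  comm_mem2 layOK hx (fun r hr s hs h1 h2 c hc => (H r hr s hs h1 h2 c (agrF4.commTerms_ct hr hs ▸ hc)).imp_left
    fun ⟨d, e⟩ => by simp [e, CharTwo.two_eq_zero]) hg hy

theorem FL12 {g : G} (hg : g ∈ XS x (FL chevF4 ly 12)) : g = 1 :=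
  Subgroup.mem_bot.1 ((XS_le (H := ⊥)).2 (fun r hr => absurd ((layOK (K := K)).lt r hr.1) (not_lt.2 hr.2)) hg)

set_option synthInstance.maxSize 4000 in
theorem pair_co (hx : IsFaith chevF4 x) {k : ℕ} (hk : k ∈ [2, 3, 4, 5]) {g : G} (hg : g ∈ XS x (FL chevF4 ly k)) :
    ∃ t, CoL chevF4 x ly (lg k) g t ∧
      ∀ s s', CoL chevF4 x ly 47 ⁅g, x (lg (12 - k)) s * x (sh (12 - k)) s'⁆ (t * s) := by
  obtain ⟨⟨a1, a2, a3, a4, a5⟩, b1, ⟨b2, b3⟩, b4, w⟩ := (by decide +kernel : ∀ k ∈ [2, 3, 4, 5],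
    (chevF4.IsPosRoot (lg k) ∧ chevF4.IsPosRoot (sh k) ∧ ly (lg k) = k ∧ ly (sh k) = k ∧ sh k ≠ lg k) ∧
    (∀ r < chevF4.nroots, chevF4.IsPosRoot r → ly r = k → r = lg k ∨ r = sh k) ∧
    ((chevF4.IsPosRoot (lg (12 - k)) ∧ 12 - k ≤ ly (lg (12 - k))) ∧
      chevF4.IsPosRoot (sh (12 - k)) ∧ 12 - k ≤ ly (sh (12 - k))) ∧
    (∀ r < chevF4.nroots, ∀ s < chevF4.nroots, chevF4.IsPosRoot r ∧ k + 1 ≤ ly r →
      chevF4.IsPosRoot s ∧ 12 - k ≤ ly s → ∀ c ∈ ctOf fastF4.ch r s, 2 ∣ c.2.1 ∨ 12 ≤ ly c.1) ∧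
    weq fastF4 2 id [(lg k, [(1, [1])]), (sh k, [(1, [0, 1])]), (lg (12 - k), [(1, [0, 0, 1])]),
        (sh (12 - k), [(1, [0, 0, 0, 1])])]
      [(47, [(1, [1, 0, 1])]), (44, [(1, [0, 1, 0, 1])]), (lg (12 - k), [(1, [0, 0, 1])]),
        (sh (12 - k), [(1, [0, 0, 0, 1])]), (lg k, [(1, [1])]), (sh k, [(1, [0, 1])])] = true) k hk
  have hs := hx.toIsSt
  obtain ⟨t, ht⟩ := layOK.exists_coL hs a1 (a3.symm ▸ hg)
  obtain ⟨t', ht'⟩ := layOK.exists_coL hs a2 (g := (x (lg k) t)⁻¹ * g)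
    (XS_mono x (by rw [a3, a4]; exact Set.sdiff_subset) ht)
  have h1 : (x (sh k) t')⁻¹ * ((x (lg k) t)⁻¹ * g) ∈ XS x (FL chevF4 ly (k + 1)) :=
    XS_mono x (T := FL chevF4 ly (k + 1)) (fun r hr => And.intro hr.1.1.1 (lt_of_le_of_ne (a4.ge.trans hr.1.1.2)
      fun e => (b1 r hr.1.1.1.1 hr.1.1.1 e.symm).elim hr.2.2 hr.1.2))
      (layOK.mem_inter hx upL_FL' upL_FL' ht' (mul_mem (inv_mem (x_mem_XS
        (S := FL chevF4 ly (ly (lg k)) \ {lg k}) ⟨⟨a2, (a3.trans a4.symm).le⟩, a5⟩ _)) ht))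
  refine ⟨t, ht, fun s s' => ?_⟩
  have h2 := commutatorElement_eq_one_iff_commute.1 (FL12 (comm2 hs b4 h1 (mul_mem (x_mem_XS b2 s) (x_mem_XS b3 s'))))
  have h3 := hs.eq_of_weq agrF4 (CharP.cast_eq_zero K 2) (fun i => [t, t', s, s'].getD i 0) w
  simp only [evS_cons, evS_nil, pev_cons, pev_nil, mev] at h3
  simp at h3
  rw [show g = x (lg k) t * x (sh k) t' * ((x (sh k) t')⁻¹ * ((x (lg k) t)⁻¹ * g)) by group]
  generalize (x (sh k) t')⁻¹ * ((x (lg k) t)⁻¹ * g) = c at h2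
  rw [show ⁅x (lg k) t * x (sh k) t' * c, x (lg (12 - k)) s * x (sh (12 - k)) s'⁆ = x 47 (t * s) * x 44 (t' * s') by
    rw [commutatorElement_def, mul_assoc _ c, h2.eq, mul_inv_eq_iff_eq_mul, mul_inv_eq_iff_eq_mul, ← mul_assoc _ _ c, ← mul_assoc _ _ c,
      mul_left_inj]
    simpa [mul_assoc] using h3]
  exact CoL.of_mul (x_mem_XS (S := FL chevF4 ly (ly 47) \ {47}) ⟨⟨by decide +kernel, by decide⟩, by decide⟩ _) _

/-- The elements of the natural module. -/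
def vv (x : ℕ → K → G) (φ : K →+* K) (s t : K) : G := xiF x φ (40, 46) s * xiF x φ (44, 47) t

theorem vv_add (hx : IsSt chevF4 x) (s t s' t' : K) : vv x φ (s + s') (t + t') = vv x φ s t * vv x φ s' t' := by
  have := hx.eq_of_weq agrF4 (CharP.cast_eq_zero K 2)
    (fun i => [s, φ s, t, φ t, s', φ s', t', φ t'].getD i 0) (key := id)
    (w := [(46, [(1, [1]), (1, [0, 0, 0, 0, 1])]), (40, [(1, [0, 1]), (1, [0, 0, 0, 0, 0, 1])]),
      (47, [(1, [0, 0, 1]), (1, [0, 0, 0, 0, 0, 0, 1])]), (44, [(1, [0, 0, 0, 1]), (1, [0, 0, 0, 0, 0, 0, 0, 1])])])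
    (w' := [(46, [(1, [1])]), (40, [(1, [0, 1])]), (47, [(1, [0, 0, 1])]), (44, [(1, [0, 0, 0, 1])]),
      (46, [(1, [0, 0, 0, 0, 1])]), (40, [(1, [0, 0, 0, 0, 0, 1])]), (47, [(1, [0, 0, 0, 0, 0, 0, 1])]),
      (44, [(1, [0, 0, 0, 0, 0, 0, 0, 1])])]) (by decide +kernel)
  simpa [mev, vv, xiF, mul_assoc] using this

theorem vv_up (hx : IsSt chevF4 x) (c s t : K) :
    x 33 (φ c) * x 24 c * vv x φ s t = vv x φ s (t + c * s) * (x 33 (φ c) * x 24 c) := by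
  have := hx.eq_of_weq agrF4 (CharP.cast_eq_zero K 2)
    (fun i => [s, φ s, t, φ t, c, φ c].getD i 0) (key := id)
    (w := [(33, [(1, [0, 0, 0, 0, 0, 1])]), (24, [(1, [0, 0, 0, 0, 1])]),
      (46, [(1, [1])]), (40, [(1, [0, 1])]), (47, [(1, [0, 0, 1])]), (44, [(1, [0, 0, 0, 1])])])
    (w' := [(46, [(1, [1])]), (40, [(1, [0, 1])]), (47, [(1, [0, 0, 1]), (1, [1, 0, 0, 0, 1])]),
      (44, [(1, [0, 0, 0, 1]), (1, [0, 1, 0, 0, 0, 1])]), (33, [(1, [0, 0, 0, 0, 0, 1])]), (24, [(1, [0, 0, 0, 0, 1])])])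
    (by decide +kernel)
  simpa [mev, vv, xiF, mul_assoc, mul_comm c, mul_comm (φ c)] using this

theorem vv_lo (hx : IsSt chevF4 x) (t : K) : x 14 1 * x 23 1 * vv x φ t t = vv x φ 0 t * (x 14 1 * x 23 1) := by
  have := hx.eq_of_weq agrF4 (CharP.cast_eq_zero K 2)
    (fun i => [t, φ t].getD i 0) (key := fun r => [14, 23, 47, 44, 46, 40].idxOf r)
    (w := [(14, [(1, [])]), (23, [(1, [])]), (46, [(1, [1])]), (40, [(1, [0, 1])]), (47, [(1, [1])]), (44, [(1, [0, 1])])])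
    (w' := [(47, [(1, [1])]), (44, [(1, [0, 1])]), (14, [(1, [])]), (23, [(1, [])])]) (by decide +kernel)
  simpa [mev, vv, xiF, mul_assoc, hx.zero] using this

variable [Fintype K] (hφ : ∀ t, φ t = t ^ e) (h2 : ∀ t, φ (φ t) ^ 2 = t)
  (h : TwD chevF4 x σ rhoF4 pfF4 (twF H7.twF4 φ) (twS x (f4Words K e)) (fun i => {j | j ∈ oLF4 i}) (eF4 e) (zF4 x hφ))

local notation "𝐒" => twS x (f4Words K e)
local notation "𝐪" => Fintype.card K

include h2 h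

theorem exists_xi {k : ℕ} (hk : k ∈ [7, 8, 9, 10, 11]) (t : K) : ∃ g : 𝐒, (g : G) = xiF x φ (sh k, lg k) t ∧
    g ∈ PP x e k ∧ CoL chevF4 x ly (lg k) g t := by
  obtain ⟨h3, h4, h5, h6⟩ := (by decide +kernel : ∀ k ∈ [7, 8, 9, 10, 11], (XiOK (sh k, lg k) ∧
    sh k ≠ chevF4.neg (lg k) ∧ chevF4.commTerms (lg k) (sh k) = []) ∧ chevF4.IsPosRoot (lg k) ∧ ly (lg k) = k ∧
    (chevF4.IsPosRoot (sh k) ∧ ly (lg k) ≤ ly (sh k)) ∧ sh k ≠ lg k) k hk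
  have h7 : CoL chevF4 x ly (lg k) (xiF x φ (sh k, lg k) t) t := CoL.of_mul (x_mem_XS h6 _) t
  exact ⟨⟨_, xiF_mem hφ h2 h h3 t⟩, rfl, by have := h7.mem h4; rwa [h5] at this, h7⟩

theorem vv_mem (s t : K) : vv x φ s t ∈ 𝐒 :=
  mul_mem (xiF_mem hφ h2 h (by decide +kernel) s) (xiF_mem hφ h2 h (by decide +kernel) t)

theorem PP_conj {k : ℕ} {g : 𝐒} (hg : g ∈ (BB chevF4 x).subgroupOf 𝐒) : ∀ u ∈ PP x e k, g * u * g⁻¹ ∈ PP x e k :=
  fun u hu => by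
    obtain ⟨a, ha, b, hb, e⟩ := h.st.mem_BB.1 hg
    have := layOK.conj h.st upL_FL ha (h.st.HH_conj_XS hb hu)
    change (g : G) * u * (g : G)⁻¹ ∈ XS x _
    rw [show (g : G) = _ from e]
    simpa [mul_assoc] using this

theorem mem_PP11 {g : 𝐒} : g ∈ PP x e 11 ↔ ∃ t, (g : G) = vv x φ 0 t := by
  obtain ⟨co, χ, h3, h4, -, h5⟩ := exists_co hφ h
  have h6 : ∀ t, xiF x φ (sh 11, lg 11) t = vv x φ 0 t := fun t => by simp [vv, xiF, h.st.zero, sh, lg]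
  refine ⟨fun hg => ?_, fun ⟨t, ht⟩ => ?_⟩
  · obtain ⟨a, a1, a2, a3⟩ := exists_xi hφ h2 h (k := 11) (by simp) (co 11 g)
    have := (h4 11 (by omega)).eq a2 hg (h5 11 (by omega) a _ a3)
    rw [h3, Subgroup.mem_bot, inv_mul_eq_one] at this
    exact ⟨_, this ▸ a1.trans (h6 _)⟩
  · obtain ⟨a, a1, a2, -⟩ := exists_xi hφ h2 h (k := 11) (by simp) t
    rwa [show g = a from Subtype.ext (ht.trans (a1.trans (h6 _)).symm)]

theorem vv_inj {t t' : K} (e : vv x φ 0 t = vv x φ 0 t') : t = t' := by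
  simpa using oprod_inj_pos h.faith (L := [47, 44]) (by decide +kernel) (by decide)
    (f := fun k => if k = 47 then t else φ t) (f' := fun k => if k = 47 then t' else φ t')
    (by simpa [vv, xiF, h.st.zero] using e) 47 (by simp)

theorem card_inf (D : Subgroup 𝐒) :
    Nat.card ↥(PP x e 11 ⊓ D) = Nat.card {t : K // (⟨_, vv_mem hφ h2 h 0 t⟩ : 𝐒) ∈ D} :=
  (Nat.card_congr (Equiv.ofBijective (fun t : {t : K // (⟨_, vv_mem hφ h2 h 0 t⟩ : 𝐒) ∈ D} =>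
    (⟨_, (mem_PP11 hφ h2 h).2 ⟨t, rfl⟩, t.2⟩ : ↥(PP x e 11 ⊓ D)))
    ⟨fun a b e => Subtype.ext (vv_inj hφ h2 h (congrArg (·.1.1) e)), fun g => by
      obtain ⟨t, ht⟩ := (mem_PP11 hφ h2 h).1 g.2.1
      have e : g.1 = ⟨_, vv_mem hφ h2 h 0 t⟩ := Subtype.ext ht
      exact ⟨⟨t, e ▸ g.2.2⟩, Subtype.ext e.symm⟩⟩)).symm

theorem card_PP11 : Nat.card (PP x e 11) = 𝐪 := by
  have := card_inf hφ h2 h ⊤
  rw [inf_top_eq] at this
  simpa using this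

variable {Ω : Type*} [Finite Ω] [MulAction (twS x (f4Words K e)) Ω] [FaithfulSMul (twS x (f4Words K e)) Ω]
  (hB : ∀ a b : Ω, ∃ g ∈ (BB chevF4 x).subgroupOf (twS x (f4Words K e)), g • a = b)
include hB

theorem fpf (a : Ω) : Nat.card ↥(PP x e 11 ⊓ stabilizer 𝐒 a) = 1 := by
  have := h.chev.finite_G h.top
  have hx := h.st
  have hN : NT (PP x e 11) Ω := NT.of hB fun g => PP_conj hφ h2 h
  have hc : ∀ b : Ω, Nat.card ↥(PP x e 11 ⊓ stabilizer 𝐒 b) = Nat.card ↥(PP x e 11 ⊓ stabilizer 𝐒 a) := fun b =>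
    Nat.eq_of_mul_eq_mul_left (ob_pos (PP x e 11) a) (by rw [ob_mul, hN.ob_eq a b, ob_mul])
  let ψ : Multiplicative (K × K) →* 𝐒 := MonoidHom.mk' (fun p => ⟨_, vv_mem hφ h2 h p.toAdd.1 p.toAdd.2⟩)
    fun p p' => Subtype.ext (vv_add hx _ _ _ _)
  have key : ∀ (g : 𝐒) (s t c : K), c ≠ 0 → (∀ k, (g : G) * vv x φ (k * s) (k * t) = vv x φ 0 (k * c) * g) →
      Nat.card {k : K // k • (s, t) ∈ Subgroup.toAddSubgroup' ((stabilizer 𝐒 a).comap ψ)} =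
        Nat.card ↥(PP x e 11 ⊓ stabilizer 𝐒 a) := fun g s t c hc' hg => by
    rw [← hc (g • a), card_inf hφ h2 h]
    refine Nat.card_congr ((Equiv.mulRight₀ c hc').subtypeEquiv fun k => ?_)
    have e : g * ⟨_, vv_mem hφ h2 h (k * s) (k * t)⟩ = ⟨_, vv_mem hφ h2 h 0 (k * c)⟩ * g := Subtype.ext (hg k)
    change (⟨_, vv_mem hφ h2 h (k * s) (k * t)⟩ : 𝐒) • a = a ↔ (⟨_, vv_mem hφ h2 h 0 (k * c)⟩ : 𝐒) • g • a = g • a
    rw [← mul_smul, ← e, mul_smul, smul_left_cancel_iff]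
  refine (line_lemma (Subgroup.toAddSubgroup' ((stabilizer 𝐒 a).comap ψ)) fun ⟨s, t⟩ hv => ?_).resolve_right fun e1 => ?_
  · by_cases hs : s = 0
    · exact key 1 s t t (fun ht => hv (by simp [hs, ht])) fun k => by simp [hs]
    refine key ⟨x 14 1 * x 23 1 * (x 33 (φ ((s + t) / s)) * x 24 ((s + t) / s)), mul_mem
      (by simpa using mem_f4a (x := x) (e := e) (r := 14) (s := 23) (by simp) (1 : K))
      (hφ _ ▸ mem_f4a (by simp) _)⟩ s t s hs fun k => ?_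
    rw [mul_assoc, vv_up hx, show k * t + (s + t) / s * (k * s) = k * s by
      field_simp; linear_combination k * t * CharTwo.two_eq_zero (R := K), ← mul_assoc, vv_lo hx, mul_assoc]
  · have h3 : (⟨_, vv_mem hφ h2 h 0 1⟩ : 𝐒) = ⟨_, vv_mem hφ h2 h 0 0⟩ := eq_of_smul_eq_smul (α := Ω) fun b => by
      have h4 : PP x e 11 ⊓ stabilizer 𝐒 b = PP x e 11 := Subgroup.eq_of_le_of_card_ge inf_le_left (by
        rw [hc, e1, card_PP11 hφ h2 h, Nat.card_eq_fintype_card])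
      exact (h4.ge ((mem_PP11 hφ h2 h).2 ⟨1, rfl⟩)).2.trans (h4.ge ((mem_PP11 hφ h2 h).2 ⟨0, rfl⟩)).2.symm
    exact one_ne_zero (vv_inj hφ h2 h (congrArg Subtype.val h3))

set_option synthInstance.maxSize 4000 in
theorem stab_le (a : Ω) : Nat.card ↥(PP x e 2 ⊓ stabilizer 𝐒 a) ≤ 𝐪 ^ 5 := by
  have := h.chev.finite_G h.top
  obtain ⟨co, χ, h3, h4, h5, h6⟩ := exists_co hφ h
  have an : ∀ {j k}, j ≤ k → PP x e k ≤ PP x e j := fun hjk =>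
    Subgroup.comap_mono (XS_mono x fun r hr => ⟨hr.1, hjk.trans hr.2⟩)
  have c1 : ∀ u ∈ PP x e 2, ∀ v ∈ PP x e 7, ⁅u, v⁆ ∈ PP x e 11 := fun u hu v hv =>
    comm2 h.st (j := 2) (k := 7) (m := 11) (by decide +kernel) hu hv
  have c2 : ∀ k ∈ [2, 3, 4, 5], ∀ u ∈ PP x e k, u ∉ PP x e (k + 1) → ∀ r ∈ PP x e 11, ∃ v ∈ PP x e 7, ⁅u, v⁆ = r :=
    fun k hk u hu hu' r hr => by
      obtain ⟨k1, k2, k3, k4⟩ := (by decide : ∀ k ∈ [2, 3, 4, 5], 2 ≤ k ∧ k < 12 ∧ 7 ≤ 12 - k ∧ 12 - k ∈ [7, 8, 9, 10, 11]) k hk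
      obtain ⟨t, t1, t2⟩ := pair_co h.faith hk hu
      have t3 : t ≠ 0 := fun e => hu' (((h4 k k2).zero u hu).1 ((h6 k k2 u t t1).trans e))
      obtain ⟨v, v1, v2, -⟩ := exists_xi hφ h2 h k4 (co 11 r / t)
      refine ⟨v, an k3 v2, ?_⟩
      have := (h4 11 (by omega)).eq (c1 u (an k1 hu) v (an k3 v2)) hr ((h6 11 (by omega) _ _ (by
        change CoL chevF4 x ly 47 ⁅(u : G), (v : G)⁆ _
        rw [v1]; exact t2 _ _)).trans (mul_div_cancel₀ _ t3))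
      rwa [h3, Subgroup.mem_bot, inv_mul_eq_one] at this
  have h7 := heis2 (Z := PP x e 6) (D := stabilizer 𝐒 a) (an (by omega : 2 ≤ 7)) (an (by omega : 7 ≤ 11))
    (fun r hr u hu => (commutatorElement_eq_one_iff_mul_comm.1
      (Subgroup.mem_bot.1 (h3 ▸ h5 11 u (an (by omega) hu) r hr))).symm) c1 (fun u hu hu' => by
      by_contra hn
      exact hu' (by_contra fun h8 => hn (c2 5 (by simp) u (by_contra fun h8 => hn (c2 4 (by simp) u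
        (by_contra fun h8 => hn (c2 3 (by simp) u (by_contra fun h8 => hn (c2 2 (by simp) u hu h8)) h8)) h8)) h8)))
    (fun e => by
      have := card_PP11 hφ h2 h
      rw [e, Subgroup.card_bot] at this
      exact Fintype.one_lt_card.ne this)
    fun r hr hr' => (Subgroup.card_eq_one.1 (fpf hφ h2 h hB a)).le ⟨hr, hr'⟩
  rw [card_PP11 hφ h2 h] at h7
  refine Nat.le_of_mul_le_mul_right (h7.trans ?_) (Nat.mul_pos Nat.card_pos Fintype.card_pos)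
  rw [mul_comm _ 𝐪]
  exact Nat.mul_le_mul (card_PP_le hφ h rfl) (card_step hφ h (by omega) _)

theorem main {n : ℕ} (hK : 𝐪 = 2 ^ n) (hq : 8 ≤ 𝐪) (ht : TT 𝐒 Ω) : False := by
  have := h.chev.finite_G h.top
  have := ht.nt
  obtain ⟨a⟩ : Nonempty Ω := inferInstance
  obtain ⟨l, -, hl⟩ := ht.count_sub (P := (BB chevF4 x).subgroupOf 𝐒) (fun g => PP_conj hφ h2 h (k := 11))
    (NT.of hB fun g => PP_conj hφ h2 h) a
  have h3 := ob_mul (PP x e 11) a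
  rw [fpf hφ h2 h hB, mul_one, card_PP11 hφ h2 h] at h3
  rw [h3, index_BF hφ h] at hl
  refine num_T hq Nat.card_pos (Dvd.dvd.trans ?_ ((NT.of hB fun g => PP_conj hφ h2 h (k := 2)).ob_dvd a)) hl
  obtain ⟨k, hk⟩ := ob_pow (p := 2) (Q := PP x e 2)
    (((h.faith.isPGroup_UU 2).to_le (XS_FL_le 2)).comap_subtype (K := 𝐒)) a
  have h4 : 𝐪 ^ 5 * 𝐪 ^ 5 ≤ ob (PP x e 2) a * 𝐪 ^ 5 := by
    rw [← pow_add]
    exact ((card_PP2 hφ h).trans_eq (ob_mul _ a).symm).trans (Nat.mul_le_mul_left _ (stab_le hφ h2 h hB a))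
  have h5 := Nat.le_of_mul_le_mul_right h4 (Nat.pow_pos Fintype.card_pos)
  rw [hk, hK, ← pow_mul] at *
  exact pow_dvd_of_le one_lt_two h5

omit h2 h hB in
/-- The large Ree groups. -/
theorem pieceT {K : Type*} [Field K] [Fintype K] {m : ℕ} (hm : 1 ≤ m) (hK : Fintype.card K = 2 ^ (2 * m + 1))
    {Ω : Type*} [Finite Ω] [MulAction (twS (xg chevF4 K) (f4Words K (2 ^ m))) Ω]
    [FaithfulSMul (twS (xg chevF4 K) (f4Words K (2 ^ m))) Ω] (ht : TT (twS (xg chevF4 K) (f4Words K (2 ^ m))) Ω)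
    (hB : ∀ a b : Ω, ∃ g : twS (xg chevF4 K) (f4Words K (2 ^ m)),
      (g : chevF4.group K) ∈ BB chevF4 (xg chevF4 K) ∧ g • a = b) : False := by
  have : CharP K 2 := charP_of_card_eq_prime_pow hK
  have hφ : ∀ t : K, iterateFrobenius K 2 m t = t ^ 2 ^ m := fun _ => rfl
  have h2 : ∀ t, iterateFrobenius K 2 m (iterateFrobenius K 2 m t) ^ 2 = t := fun t => by
    rw [hφ, hφ, ← pow_mul, ← pow_mul, ← pow_succ, ← pow_add, ← add_assoc, ← two_mul, ← hK, FiniteField.pow_card]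
  obtain ⟨σ, hσ⟩ := exists_twistF4 (H7.isChev_xg (F := K)) H7.GG_xg (iterateFrobenius K 2 m)
  exact main hφ h2 (twD_F4 H7.isChev_xg H7.GG_xg hφ h2 hσ) hB hK
    (hK ▸ Nat.pow_le_pow_right (n := 2) (i := 3) two_pos (by omega)) ht

end Cfsg.Agent.H3.TF
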