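import Cfsg.Agent.H3.TF1
import Cfsg.Agent.H8.TwInv

/-! The index of the stabiliser of a root subgroup in a twisted group. -/

set_option autoImplicit false
set_option linter.unusedSectionVars false

namespace Cfsg.Agent.H3.TF

open Cfsg.Lie Cfsg.Agent.H7 Cfsg.Agent.H8

variable {D : ChevalleyDatum} {K : Type*} [Field K] {G : Type*} [Group G] {x : ℕ → K → G}
  [hD : RootFacts D] [hN : NFacts D] {J : Set ℕ} {θ : ℕ}

omit hN in
theorem WJ_fix (h : ∀ i : Fin D.rank, i.1 ∈ J → sref D i θ = θ) {w : Equiv.Perm ℕ} (hw : w ∈ WJ D J) : w θ = θ :=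
  WJ_len_induction (P := fun w => w θ = θ) rfl (fun v _ i hi _ e => by rw [Equiv.Perm.mul_apply, h i hi, e]) hw

omit hN in
theorem mem_WJ_of_fix (h1 : ∀ r < D.nroots, D.IsPosRoot r → 0 ≤ A D θ r)
    (h2 : ∀ i : Fin D.rank, A D θ (D.simple i) = 0 → i.1 ∈ J) (h : ∀ i : Fin D.rank, i.1 ∈ J → sref D i θ = θ)
    {w : Equiv.Perm ℕ} (hw : w ∈ W D) (e : w θ = θ) : w ∈ WJ D J := by
  generalize hn : len D w = n
  induction n using Nat.strong_induction_on generalizing w with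
  | _ n ih =>
    by_cases h3 : w = 1
    · exact h3 ▸ one_mem _
    obtain ⟨i, hi⟩ := exists_simple_neg hw h3
    have h4 := h1 _ (neg_lt hi.1) ((neg_pos_iff hi.1).2 hi)
    rw [A_neg_right _ hi.1, ← e, A_W hw] at h4
    have h5 := h2 i (by have := h1 _ (simple_lt i) (simple_pos i); omega)
    have h6 := len_mul_sref_of_neg hw hi
    have := mul_mem (ih _ (by omega) (mul_mem hw (sref_mem i)) (by rw [Equiv.Perm.mul_apply, h i h5, e]) rfl)
      (sref_mem_WJ h5)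
    rwa [mul_assoc, sref_mul_self, mul_one] at this

variable {σ : G →* G} {ρ : Equiv.Perm ℕ} {π : Fin D.rank → Fin D.rank} {f : ℕ → K → K} {S : Subgroup G}
  {O : Fin D.rank → Set ℕ} (hS : TwSub D x σ π S O) (h : Twist D x σ ρ π f) (hx : IsFaith D x) [Finite G]
include hS h hx

/-- The index of a parabolic subgroup as a sum over minimal coset representatives. -/
theorem index_P {ι : Type*} [Fintype ι] (w : ι → Equiv.Perm ℕ) (hw : ∀ i, w i ∈ W D ∧ Commute ρ (w i))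
    (hm : ∀ i, ∀ j : Fin D.rank, j.1 ∈ J → D.IsPosRoot ((w i)⁻¹ (D.simple j)))
    (hi : ∀ i j, w i * (w j)⁻¹ ∈ WJ D J → i = j) (hs : ∀ v ∈ W D, Commute ρ v → ∃ i, v * (w i)⁻¹ ∈ WJ D J) :
    ((PJ D x J).subgroupOf S).index = ∑ i, Nat.card ↥(S ⊓ Um D x (w i)) := by
  choose n hn hn' using fun i => hS.exists_rep h hx (hw i).1 (hw i).2
  have hs' := hx.toIsSt
  rw [Subgroup.index, ← Nat.card_sigma]
  refine (Nat.card_congr (Equiv.ofBijective (fun p : Σ i, ↥(S ⊓ Um D x (w i)) =>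
    ((⟨(n p.1 * p.2)⁻¹, inv_mem (mul_mem (hn _) p.2.2.1)⟩ : S) : S ⧸ (PJ D x J).subgroupOf S)) ⟨?_, fun a => ?_⟩)).symm
  · rintro ⟨i, u⟩ ⟨j, v⟩ e
    have h1 : n i * (u * (v : G)⁻¹) * (n j)⁻¹ ∈ PJ D x J := by
      simpa [Subgroup.mem_subgroupOf, mul_assoc] using QuotientGroup.eq.1 e
    have h2 : (u : G) * (v : G)⁻¹ ∈ UU D x := mul_mem (Um_le_UU x _ u.2.2) (inv_mem (Um_le_UU x _ v.2.2))
    obtain rfl : i = j := by
      obtain ⟨y, hy, h3⟩ := (mem_PJ hs').1 h1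
      obtain ⟨a, ha, m, h4, b, hb, e⟩ := hs'.cell_sharp h3
      have h5 := Cell.mul_right (Cell.mul_left (h4.mul hs' (hn' j)).mem_cell (UU_le_BB x ha)) (UU_le_BB x
        ((hn' j).conj_XS' hs' (T := {r | D.IsPosRoot r}) (fun s hs => W_pos_of_J (inv_mem (hw j).1) (hm j) hs.1
          (WJ_inv_pos hy hs.1 hs.2)) hb))
      rw [show a * (m * n j) * ((n j)⁻¹ * b * n j) = n i * (u * (v : G)⁻¹) by
        rw [mul_inv_eq_iff_eq_mul] at e; rw [e]; group] at h5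
      exact hi _ _ (by rwa [hx.cell_unique (Cell.mul_right (hn' i).mem_cell (UU_le_BB x h2)) h5, mul_inv_cancel_right])
    have h3 : n i * (u * (v : G)⁻¹) * (n i)⁻¹ ∈ YJ D x J := hx.VV_inf_PJ.le
      ⟨(hn' i).conj_XS hs' (T := {r | D.IsNegRoot r}) (fun s hs => hs.2) (mul_mem u.2.2 (inv_mem v.2.2)), h1⟩
    have h4 := (hn' i).conj_XS' hs' (T := {r | D.IsNegRoot r}) (fun s hs => W_neg_neg (inv_mem (hw i).1) hs.1
      (W_pos_of_J (inv_mem (hw i).1) (hm i) ((neg_pos_iff hs.1.1).2 hs.1) (H8.inRootSub_neg hs.2))) h3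
    obtain rfl : u = v := Subtype.ext (mul_inv_eq_one.1 (hx.eq_one_of_UU_VV h2 (by simpa [mul_assoc, VV] using h4)))
    rfl
  · obtain ⟨g, rfl⟩ := QuotientGroup.mk_surjective a
    obtain ⟨v, hW, hv, u, hu, m, hm, h1, u', hu', e⟩ := hS.bruhat h hx (inv_mem g.2)
    obtain ⟨i, h2⟩ := hs v hW hv
    obtain ⟨b, hb, a, ha, e'⟩ := hs'.UU_eq_Um_Up (hw i).1 (inv_mem (Um_le_UU x _ hu'.2))
    have h3 := hS.mem_of_UU h hx (Um_le_UU x _ hb) (h.fix_Um_Up hx (hw i).1 (hw i).2 hb ha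
      (e' ▸ hS.fix _ (inv_mem hu'.1))).1
    refine ⟨⟨i, b⁻¹, S.inv_mem h3, (Um D x _).inv_mem hb⟩, QuotientGroup.eq.2 ?_⟩
    have h5 := (hx.mem_PJ_iff (h1.mul hs' ((hn' i).inv hs')).mem_cell).2 h2
    have h4 := (PJ D x J).mul_mem ((PJ D x J).mul_mem (BB_le_PJ (UU_le_BB x ((hn' i).conj_XS hs' (T := {r | D.IsPosRoot r})
      (fun s hs => hs.2) ha))) (inv_mem h5)) (inv_mem (BB_le_PJ (J := J) (UU_le_BB x hu.2)))
    rw [inv_eq_iff_eq_inv] at e e'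
    simpa [Subgroup.mem_subgroupOf, e, e', mul_assoc] using h4

end Cfsg.Agent.H3.TF
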