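import Cfsg.Agent.H3.TF4

/-! Abstract lemmas for the 2-transitive actions of simply laced groups and their twisted forms. -/

set_option autoImplicit false
set_option linter.unusedSectionVars false

namespace Cfsg.Agent.H3.TG

open Cfsg.Agent.H7 MulAction
open scoped commutatorElement

open Polynomial in
theorem sq_sum {F : Type*} [Field F] [Finite F] (c : F) : ∃ a b : F, a ^ 2 + b ^ 2 = c := by
  have := Fintype.ofFinite F
  by_cases h : ringChar F = 2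
  · obtain ⟨a, rfl⟩ := FiniteField.isSquare_of_char_two h c
    exact ⟨a, 0, by ring⟩
  obtain ⟨a, b, hab⟩ := FiniteField.exists_root_sum_quadratic (f := X ^ 2) (g := X ^ 2 - C c) (degree_X_pow 2)
    (degree_X_pow_sub_C (by decide) _) (FiniteField.odd_card_of_char_ne_two h)
  exact ⟨a, b, by simpa [← add_sub_assoc, sub_eq_zero] using hab⟩

theorem fam_mem {F Γ : Type*} [Field F] [Finite F] [Group Γ] {y : F → Γ} (hy : ∀ t u, y (t + u) = y t * y u)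
    {N : Subgroup Γ} (h : ∀ c ≠ 0, ∀ t, y t ∈ N → y (c ^ 2 * t) ∈ N) {s : F} (hs : s ≠ 0) (h1 : y s ∈ N) (t : F) :
    y t ∈ N := by
  obtain ⟨a, b, e⟩ := sq_sum (t / s)
  have h2 : ∀ c, y (c ^ 2 * s) ∈ N := fun c => by
    by_cases hc : c = 0
    · simp [hc, H8.add_fam_zero hy]
    · exact h c hc s h1
  rw [show t = a ^ 2 * s + b ^ 2 * s by rw [← add_mul, e, div_mul_cancel₀ _ hs], hy]
  exact mul_mem (h2 a) (h2 b)

theorem num {q M l0 l n : ℕ} (hn : 0 < n) (hq : 0 < q) (h1 : M ∣ n) (h0 : 0 < l0) (h2 : l0 * q < M - 1 + l0) (h3 : l0 < M)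
    (h : l * (n - 1) = l0 * (q * M - 1)) : n = q * M := by
  obtain ⟨m, rfl⟩ := h1
  have hm : 1 ≤ m := Nat.pos_of_mul_pos_left hn
  have hM : 1 ≤ M := by omega
  have h4 : 1 ≤ q * M := Nat.mul_pos hq hM
  zify [hn, hM, h4] at *
  have hl : (0 : ℤ) ≤ l := Nat.cast_nonneg _
  generalize (l : ℤ) = l at *
  obtain ⟨j, hj⟩ : ∃ j, j = l * m - l0 * q := ⟨_, rfl⟩
  obtain rfl : l = l0 + j * M := by rw [hj]; linear_combination -h
  rcases lt_trichotomy j 0 with h5 | rfl | h5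
  · nlinarith
  · exact mul_left_cancel₀ h0.ne' (by linear_combination h)
  · have h6 : (l0 + M : ℤ) * (M - 1) ≤ (l0 + j * M) * (M * m - 1) :=
      mul_le_mul (by nlinarith) (by nlinarith) (by omega) hl
    nlinarith

variable {G Ω : Type*} [Group G] [MulAction G Ω] [Finite G] [Finite Ω]

/-- A subgroup that is central modulo the kernel of the action on the orbits of `Q`. -/
theorem cen_orb {P Q U A : Subgroup G} {hP : ∀ g ∈ P, ∀ u ∈ Q, g * u * g⁻¹ ∈ Q} (hU : U ≤ P) (hA : A ≤ U)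
    (ht : ∀ x y : Ω, ∃ u ∈ U, u • x = y) (hc : ∀ u ∈ U, ∀ a ∈ A, ⁅u, a⁆ ∈ kerO P Q Ω hP) (x : Ω)
    (hn : Nat.card Ω ≤ Nat.card A * ob Q x) : (∃ a ∈ A, a ≠ 1 ∧ a ∈ kerO P Q Ω hP) ∨
      Nat.card A * ob Q x ≤ Nat.card Ω ∧ ∀ u ∈ U, ∀ v ∈ U, ⁅u, v⁆ ∈ kerO P Q Ω hP := by
  let _ := qAct (Ω := Ω) P Q hP
  let φ := toPermHom P (orbitRel.Quotient Q Ω)
  have h0 : ∀ g : P, g.1 ∈ kerO P Q Ω hP ↔ φ g = 1 := fun g => ⟨fun h => Equiv.ext fun y =>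
    Quotient.inductionOn' y fun y => Quotient.sound' (h.2 y), fun h => ⟨g.2, fun y =>
      Quotient.exact' (congrArg (· (Quotient.mk'' y : orbitRel.Quotient Q Ω)) h)⟩⟩
  have h1 : ∀ u v : P, ⁅u.1, v.1⁆ ∈ kerO P Q Ω hP ↔ Commute (φ u) (φ v) := fun u v =>
    (h0 ⁅u, v⁆).trans (by rw [map_commutatorElement, commutatorElement_eq_one_iff_commute])
  have h6 : ∀ u v : P, u.1 ∈ U → v.1 ∈ A → ∀ y, φ u (φ v y) = φ v (φ u y) := fun u v hu hv =>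
    Equiv.congr_fun ((h1 u v).1 (hc _ hu _ hv)).eq
  have h2 : ∀ y, ∃ u : P, u.1 ∈ U ∧ φ u (Quotient.mk'' x) = y := fun y => Quotient.inductionOn' y fun y =>
    let ⟨u, hu, e⟩ := ht x y; ⟨⟨u, hU hu⟩, hu, e ▸ rfl⟩
  let f : A → orbitRel.Quotient Q Ω := fun a => φ ⟨a, hU (hA a.2)⟩ (Quotient.mk'' x)
  have h3 := (NT.of (Ω := Ω) (fun x y => let ⟨u, hu, e⟩ := ht x y; ⟨u, hU hu, e⟩) hP).card_eq x
  by_cases hf : Function.Injective f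
  · refine .inr ⟨h3 ▸ Nat.mul_le_mul_right _ (Nat.card_le_card_of_injective f hf), ?_⟩
    have h4 := (hf.bijective_of_nat_card_le (Nat.le_of_mul_le_mul_right (h3 ▸ hn) (ob_pos Q x))).2
    have h5 : ∀ u : P, u.1 ∈ U → ∃ a : A, φ u = φ ⟨a, hU (hA a.2)⟩ := fun u hu => by
      obtain ⟨a, ha⟩ := h4 (φ u (Quotient.mk'' x))
      refine ⟨a, Equiv.ext fun y => ?_⟩
      obtain ⟨c, rfl⟩ := h4 y
      exact (h6 u ⟨c, hU (hA c.2)⟩ hu c.2 _).trans ((congrArg (φ _) ha.symm).trans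
        (h6 ⟨c, hU (hA c.2)⟩ ⟨a, hU (hA a.2)⟩ (hA c.2) a.2 _))
    intro u hu v hv
    obtain ⟨a, ha⟩ := h5 ⟨v, hU hv⟩ hv
    exact (h1 ⟨u, hU hu⟩ ⟨v, hU hv⟩).2 (ha ▸ (h1 ⟨u, hU hu⟩ ⟨a, hU (hA a.2)⟩).1 (hc _ hu _ a.2))
  · obtain ⟨a, b, e, hab⟩ := Function.not_injective_iff.1 hf
    refine .inl ⟨_, (b⁻¹ * a).2, fun h => hab (inv_mul_eq_one.1 (Subtype.ext h)).symm,
      (h0 ⟨_, hU (hA (b⁻¹ * a).2)⟩).2 (Equiv.ext fun y => ?_)⟩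
    obtain ⟨u, hu, rfl⟩ := h2 y
    refine (h6 u ⟨_, hU (hA (b⁻¹ * a).2)⟩ hu (b⁻¹ * a).2 _).symm.trans
      (congrArg (φ u) (?_ : _ = Quotient.mk'' x))
    rw [show (⟨_, hU (hA (b⁻¹ * a).2)⟩ : P) = (⟨b, hU (hA b.2)⟩ : P)⁻¹ * ⟨a, hU (hA a.2)⟩ from rfl, map_mul, map_inv]
    exact Equiv.Perm.inv_eq_iff_eq.2 e

/-- The subgroup of elements moving a point inside an orbit of a central subgroup. -/
theorem comm_orb {Q R : Subgroup G} (ht : ∀ x y : Ω, ∃ u ∈ Q, u • x = y) (h1 : ∀ u ∈ Q, ∀ v ∈ Q, ⁅u, v⁆ ∈ R)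
    (hc : ∀ r ∈ R, ∀ u ∈ Q, r * u = u * r) {x : Ω} {y e : G} (hy : ∀ r ∈ R, r * y = y * r) (he : e ∈ Q)
    (h : e • x ∈ orbit R x) : ⁅y, e⁆ • x ∈ orbit R x := by
  obtain ⟨r, hr, h2⟩ := mem_orb.1 h
  obtain ⟨v, hv, h3⟩ := ht x (y⁻¹ • x)
  refine mem_orb.2 ⟨_, h1 e he v hv, ?_⟩
  have h4 : e⁻¹ • x = r⁻¹ • x := by rw [inv_smul_eq_iff, ← mul_smul, ← hc _ (inv_mem hr) e he, mul_smul, ← h2, inv_smul_smul]
  have h5 : y⁻¹ * r⁻¹ = r⁻¹ * y⁻¹ := by rw [← mul_inv_rev, hy r hr, mul_inv_rev]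
  calc ⁅e, v⁆ • x = (⁅e, v⁆ * y) • v • x := by rw [h3, mul_smul, smul_inv_smul]
    _ = (y * (⁅e, v⁆ * v) * r⁻¹) • r • x := by rw [hy _ (h1 e he v hv)]; simp [mul_smul]
    _ = (y * (e * r⁻¹) * v) • x := by
      rw [h2, ← mul_smul, mul_assoc, hc _ (inv_mem hr) e he, mul_assoc y, mul_assoc y, mul_assoc e, hc _ (inv_mem hr) v hv]
      congr 2; group
    _ = _ := by rw [mul_smul, h3, commutatorElement_def, mul_smul _ e⁻¹, h4, ← mul_smul, ← mul_smul, mul_assoc _ y⁻¹, h5]; simp [mul_assoc]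

end Cfsg.Agent.H3.TG
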