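import Cfsg.Agent.H3.TG1
import Cfsg.Agent.H2.MinD4

/-! The unipotent radical attached to the highest root of a simply laced group or a twisted form. -/

set_option autoImplicit false
set_option linter.unusedSectionVars false

namespace Cfsg.Agent.H3.TG

open Cfsg.Lie Cfsg.Agent.H2 Cfsg.Agent.H2.MD Cfsg.Agent.H7 Cfsg.Agent.H8 MulAction
open scoped commutatorElement

variable {D : ChevalleyDatum} [hD : RootFacts D] [hN : NFacts D] [hS : SLFacts D] {K : Type*} [Field K] {G : Type*}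
  [Group G] [Finite G] {k : Type*} [Field k] [Finite k] {M : MD D K G k} {r a b g θ : ℕ} {T U : Set ℕ} {y y' : M.S}

theorem split (h1 : IsClosed D T) (h2 : ∀ r ∈ T, D.IsPosRoot r) (h3 : M.Inv T) (hr : r ∈ T)
    (h4 : IsClosed D (T \ orb M.ρ r)) (hy : y ∈ M.Y T) : ∃ u ∈ M.X r, ∃ v ∈ M.Y (T \ orb M.ρ r), y = u * v := by
  have h5 : M.Inv (T \ orb M.ρ r) := fun s s' e hs => ⟨h3 s s' e hs.1, fun h => hs.2 (h.trans e.symm)⟩
  have h6 : ∀ y ∈ XS M.x (orb M.ρ r), y ∈ XS M.x (T \ orb M.ρ r) → y = 1 := fun y e e' => by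
    have := M.faith.mem_XS_inter (one_mem _) (nrm_orb (h2 r hr).1).1 h4 (fun s e => (pos_orb e).2 (h2 r hr))
      (fun s hs => h2 s hs.1) e e'
    rwa [Set.inter_sdiff_self, XS_empty, Subgroup.mem_bot] at this
  obtain ⟨u, hu, v, hv, e⟩ := st.exists_mul (S₁ := orb M.ρ r) (S₂ := (orb M.ρ r)ᶜ) h1 (one_mem _) h2 (fun s _ => em _) hy
  replace hu := XS_mono _ Set.inter_subset_right hu
  replace e : (y : G) = u * v := e
  have h8 : u⁻¹ * M.σ u = v * (M.σ v)⁻¹ := by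
    rw [eq_mul_inv_iff_mul_eq, mul_assoc, ← map_mul, ← e, M.sub.fix _ y.2, e, inv_mul_cancel_left]
  have h9 := mem_S (h2 r hr).1 hu (inv_mul_eq_one.1 (h6 _ (mul_mem (inv_mem hu) (M.tw.map_XS (fun s e => e.apply_right) hu))
    (h8 ▸ mul_mem hv (inv_mem (M.tw.map_XS (fun s hs => h5 _ _ (Equiv.Perm.SameCycle.refl _ _).apply_right hs) hv))))).symm
  exact ⟨⟨u, h9⟩, hu, ⟨v, by simpa only [e, inv_mul_cancel_left] using mul_mem (inv_mem h9) y.2⟩, hv, Subtype.ext e⟩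

variable (M) in
/-- The positive roots above a level. -/
def Ab (c : ℤ) : Set ℕ := {b | D.IsPosRoot b ∧ c < M.F b}

theorem nrm_Ab (hT : ∀ r ∈ T, D.IsPosRoot r) (c : ℤ) : Nrm D T (Ab M c) :=
  Nrm.of_sm fun r hr s hs => ⟨(hT r hr).1, hs.1.1, ne_neg_pos (hT r hr) hs.1, fun _ e => ⟨e.pos (hT r hr) hs.1, by
    have := F_pos (M := M) (hT r hr); have := hs.2; rw [F_add e]; omega⟩⟩

theorem inv_Ab (c : ℤ) : M.Inv (Ab M c) := fun _ _ e h => ⟨(pos_orb e).2 h.1, F_orb e ▸ h.2⟩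

theorem comm_Ab {c d : ℤ} (hT : ∀ r ∈ T, D.IsPosRoot r ∧ c ≤ M.F r) (hU : ∀ r ∈ U, D.IsPosRoot r ∧ d < M.F r)
    (hy : y ∈ M.Y T) (hy' : y' ∈ M.Y U) : ⁅y, y'⁆ ∈ M.Y (Ab M (d + c)) :=
  comm_Y (nrm_Ab (fun r hr => (hT r hr).1) _) (nrm_Ab (fun r hr => (hU r hr).1) _) (fun r hr s hs => ⟨(hT r hr).1.1,
    (hU s hs).1.1, ne_neg_pos (hT r hr).1 (hU s hs).1, fun _ e => ⟨e.pos (hT r hr).1 (hU s hs).1, by
      have := (hT r hr).2; have := (hU s hs).2; rw [F_add e]; omega⟩⟩) hy hy'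

theorem orb_pos (hr : D.IsPosRoot r) : ∀ s ∈ orb M.ρ r, D.IsPosRoot s ∧ M.F r ≤ M.F s := fun _ e =>
  ⟨(pos_orb e).2 hr, (F_orb e).ge⟩

theorem z_not_mem (hr : M.Fx r) (hp : D.IsPosRoot r) {t : k} (h : M.z r t ∈ M.Y (Ab M (M.F r))) : t = 0 := by
  have := M.faith.mem_XS_inter (one_mem _) (nrm_orb hr.1).1 (nrm_Ab (fun _ h => h.1) _).1 (fun s e => (pos_orb e).2 hp)
    (fun s hs => hs.1) (z_mem hr t) h
  rw [show orb M.ρ r ∩ Ab M (M.F r) = ∅ from Set.eq_empty_of_forall_notMem fun _ h => h.2.2.ne' (F_orb h.1), XS_empty,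
    Subgroup.mem_bot] at this
  exact z_inj hr ((Subtype.ext this).trans (z_zero hr).symm)

theorem comm_z (ha : M.Fx a) (hb : M.Fx b) (hr : M.Fx r) (e : Sm D a b r) :
    ∃ d : k, d ≠ 0 ∧ ∀ t u, ⁅M.z a t, M.z b u⁆ = M.z r (d * t * u) := by
  obtain ⟨δ, h3, h4⟩ := (st (M := M)).comm_sum e.1 e.2.1 e.2.2.1 e.2.2.2
  obtain ⟨d, rfl⟩ : ∃ d, M.ι d = δ := by
    rcases mul_self_eq_one_iff.1 h3 with rfl | rfl
    exacts [⟨1, map_one _⟩, ⟨-1, by simp⟩]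
  refine ⟨d, fun h => by simp [h] at h3, fun t u => Subtype.ext ?_⟩
  rw [z_val hr, map_mul, map_mul, ← h4, ← z_val ha, ← z_val hb]; rfl

theorem PJ_conj {J : Set ℕ} (hT : Nrm D {r | D.IsPosRoot r} T) (hW : ∀ w ∈ WJ D J, ∀ r ∈ T, w r ∈ T) :
    ∀ g ∈ (PJ D M.x J).subgroupOf M.S, ∀ u ∈ M.Y T, g * u * g⁻¹ ∈ M.Y T := fun g hg u hu => by
  have h1 : ∀ b ∈ BB D M.x, ∀ u ∈ XS M.x T, b * u * b⁻¹ ∈ XS M.x T := fun b hb u hu => by
    obtain ⟨v, hv, t, ht, rfl⟩ := st.mem_BB.1 hb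
    simpa [mul_assoc] using st.conj_mem hT.1 hT.2 hv (st.HH_conj_XS ht hu)
  obtain ⟨w, hw, b, hb, n, hn, b', hb', e⟩ := (mem_PJ st).1 hg
  change (g : G) * u * (g : G)⁻¹ ∈ XS M.x T
  rw [show (g : G) = _ from e]
  simpa [mul_assoc] using h1 b hb _ (hn.conj_XS st (hW w hw) (h1 b' hb' _ hu))

theorem irr_fx (hr : M.Fx r) {N : Subgroup M.S} (hN : ∀ h : M.S, (h : G) ∈ HH D M.x → ∀ u ∈ N, h * u * h⁻¹ ∈ N)
    (hy : y ∈ M.X r) (h1 : y ∈ N) (h0 : y ≠ 1) : M.X r ≤ N := fun u hu => by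
  obtain ⟨s, rfl⟩ := exists_z hr hy
  obtain ⟨t, rfl⟩ := exists_z hr hu
  refine fam_mem (z_add hr) (fun c hc t ht => ?_) (fun e => h0 (by rw [e, z_zero hr])) h1 t
  obtain ⟨n, h2, h3⟩ := exists_hE hr hc
  simpa [h3 r hr, A_self hr.1] using hN n (h2.mem_HH st) _ ht

theorem card_inf (hr : M.Fx r) (E : Subgroup M.S) : Nat.card ↥(M.X r ⊓ E) = Nat.card {t : k // M.z r t ∈ E} :=
  (Nat.card_congr (Equiv.ofBijective (fun t : {t : k // M.z r t ∈ E} => (⟨_, z_mem hr t, t.2⟩ : ↥(M.X r ⊓ E)))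
    ⟨fun _ _ e => Subtype.ext (z_inj hr (congrArg (·.1) e)), fun g => by
      obtain ⟨t, ht⟩ := exists_z hr g.2.1
      exact ⟨⟨t, ht ▸ g.2.2⟩, Subtype.ext ht.symm⟩⟩)).symm

variable (D θ) in
/-- The roots of the unipotent radical. -/
def Rd : Set ℕ := {b | 1 ≤ A D θ b}

omit hD hN hS in
theorem mem_Rd : b ∈ Rd D θ ↔ 1 ≤ A D θ b := Iff.rfl

variable (M θ) in
/-- The highest root. -/
structure Hi : Prop where
  fx : M.Fx θ
  pos : ∀ b, 1 ≤ A D θ b → D.IsPosRoot b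

namespace Hi
variable (h : Hi M θ)
include h

theorem nonneg (hb : D.IsPosRoot b) : 0 ≤ A D θ b := by
  by_contra h1
  exact not_neg_of_pos hb ((neg_pos_iff hb.1).1 (h.pos _ (by rw [A_neg_right _ hb.1]; omega)))

theorem mem : θ ∈ Rd D θ := by rw [mem_Rd, A_self h.fx.1]; omega

theorem inv : M.Inv (Rd D θ) := fun _ _ e hr => hr.trans_eq (A_orb h.fx e).symm

theorem nrm (hT : T ⊆ Rd D θ) (hU : U ⊆ Rd D θ) (h1 : θ ∈ U) : Nrm D T U := Nrm.of_sm fun b hb c hc =>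
  ⟨(h.pos b (hT hb)).1, (h.pos c (hU hc)).1, ne_neg_pos (h.pos b (hT hb)) (h.pos c (hU hc)), fun d e => by
    rwa [eq_of_A (D := D) (r := θ) (s := d) (by have := mem_Rd.1 (hT hb); have := mem_Rd.1 (hU hc); rw [e.add]; omega)]⟩

theorem nrm_Rd : Nrm D {r | D.IsPosRoot r} (Rd D θ) := Nrm.of_sm fun b hb c hc =>
  ⟨hb.1, (h.pos c hc).1, ne_neg_pos hb (h.pos c hc), fun d e => by
    have := h.nonneg hb; have := mem_Rd.1 hc; rw [mem_Rd, e.add]; omega⟩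

theorem cen (hy : y ∈ M.X θ) (hy' : y' ∈ M.Y {r | D.IsPosRoot r}) : y * y' = y' * y :=
  commute_Y (T := {θ}) (fun _ e s hs => e ▸ ⟨h.fx.1, hs.1, h.nonneg hs⟩) (X_fx h.fx ▸ hy) hy'

theorem le_U : M.Y (Rd D θ) ≤ M.Y {r | D.IsPosRoot r} := Y_mono h.pos

theorem X_le : M.X θ ≤ M.Y (Rd D θ) := MD.X_le h.inv h.mem

theorem comm (hy : y ∈ M.Y (Rd D θ)) (hy' : y' ∈ M.Y (Rd D θ)) : ⁅y, y'⁆ ∈ M.X θ :=
  have h1 := h.nrm subset_rfl (Set.singleton_subset_iff.2 h.mem) rfl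
  X_fx h.fx ▸ comm_Y h1 h1 (fun b hb c hc => ⟨(h.pos b hb).1, (h.pos c hc).1, ne_neg_pos (h.pos b hb) (h.pos c hc),
    fun d e => eq_of_A (by have := mem_Rd.1 hb; have := mem_Rd.1 hc; rw [e.add]; omega)⟩) hy hy'

theorem sm (hb : b ∈ Rd D θ) (h1 : b ≠ θ) : Sm D b (cpl D θ b) θ :=
  sm_cpl h.fx.1 (h.pos b hb).1 (le_antisymm ((A_le h.fx.1 (h.pos b hb).1).resolve_left h1) hb)

theorem F_lt (hb : b ∈ Rd D θ) (h1 : b ≠ θ) : M.F b < M.F θ := by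
  have := F_pos (M := M) (h.pos _ (h.sm hb h1).symm.A_left.ge)
  rw [F_add (h.sm hb h1)]; omega

theorem closed_diff (hT : T ⊆ Rd D θ) (h1 : θ ∈ T) (hr : r ≠ θ) : IsClosed D (T \ orb M.ρ r) :=
  (h.nrm (Set.sdiff_subset.trans hT) (Set.sdiff_subset.trans hT) ⟨h1, fun e => hr ((eq_orb h.fx e).1 rfl)⟩).1

theorem heis (hT : T ⊆ Rd D θ) (h1 : θ ∈ T) (h3 : M.Inv T) (hy : y ∈ M.Y T) (h0 : y ∉ M.X θ) (t : k) :
    ∃ v ∈ M.Y (Rd D θ), ⁅v, y⁆ = M.z θ t := by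
  have hf : ∀ T : Set ℕ, T ⊆ Rd D θ → T.Finite := fun T hT =>
    (Set.finite_lt_nat D.nroots).subset fun r hr => (h.pos r (hT hr)).1
  generalize hn : T.ncard = n
  induction n using Nat.strong_induction_on generalizing T y with
  | _ n ih =>
  obtain ⟨r, hr, h2⟩ : ∃ r ∈ T, r ≠ θ := by
    by_contra! h2
    exact h0 (X_fx h.fx ▸ Y_mono h2 hy)
  obtain ⟨u, hu, v, hv, rfl⟩ := split (h.nrm hT hT h1).1 (fun r hr => h.pos r (hT hr)) h3 hr (h.closed_diff hT h1 h2) hy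
  by_cases h4 : u = 1
  · rw [h4, one_mul] at h0 ⊢
    exact ih _ (hn ▸ Set.ncard_lt_ncard ⟨Set.sdiff_subset, fun h => (h hr).2 (mem_orb r)⟩ (hf T hT))
      (Set.sdiff_subset.trans hT) ⟨h1, fun e => h2 ((eq_orb h.fx e).1 rfl)⟩
      (fun s s' e hs => ⟨h3 s s' e hs.1, fun h => hs.2 (h.trans e.symm)⟩) hv h0 rfl
  have e := h.sm (hT hr) h2
  obtain ⟨c, hc, h5⟩ := heis' h.fx e hu h4 t
  refine ⟨c, MD.X_le h.inv e.symm.A_left.ge hc, ?_⟩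
  have h6 := commute_Y (fun g' hg s hs => ?_) hc hv
  · rw [← h5, commutatorElement_def, ← mul_assoc, mul_assoc _ v, ← h6.inv_left.eq]; group
  have h7 : A D θ g' = 1 := (A_orb h.fx hg).trans e.symm.A_left
  have h8 := h.pos s (hT hs.1)
  refine ⟨(h.pos _ h7.ge).1, h8.1, A_nonneg (h.pos _ h7.ge) h8 fun d e' => hs.2 ?_⟩
  obtain rfl := eq_of_A (D := D) (r := θ) (s := d) (by have := mem_Rd.1 (hT hs.1); rw [e'.add]; omega)
  have := cpl_orb h.fx e.2.1 hg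
  rwa [← e.symm.eq (sm_cpl e.2.2.1 e.2.1 e.symm.A_left), ← e'.eq (sm_cpl e.2.2.1 e'.1 h7)] at this

theorem heis' (hy : y ∈ M.Y (Rd D θ)) (h0 : y ∉ M.X θ) (hy' : y' ∈ M.X θ) : ∃ v ∈ M.Y (Rd D θ), ⁅y, v⁆ = y' := by
  obtain ⟨t, ht⟩ := exists_z h.fx (inv_mem hy')
  obtain ⟨v, hv, e⟩ := h.heis subset_rfl h.mem h.inv hy h0 t
  exact ⟨v, hv, by rw [← commutatorElement_inv, e, ← ht, inv_inv]⟩

theorem conjV (ha : M.Fx a) (h1 : A D θ a = 1) {s : k} (hs : s ≠ 0) (t : k) : ∃ g : M.S, ∃ c ≠ 0, ∀ j : k,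
    g * (M.z (cpl D θ a) (j * s) * M.z θ (j * t)) = M.z θ (j * c) * g := by
  have e := sm_cpl h.fx.1 ha.1 h1
  have hb := h.fx.of_sm ha.2 e
  obtain ⟨d, hd, h2⟩ := comm_z ha hb h.fx e
  obtain ⟨n, hn⟩ := exists_nE ha
  obtain ⟨c, hc, h3⟩ := conj_z hn hb
  rw [wt_inj (exists_sm e.1 e.2.1 e.A_eq).2.2.1 e.2.2.1 ((exists_sm e.1 e.2.1 e.A_eq).2.2.2.trans e.2.2.2.symm)] at h3
  refine ⟨n * M.z a (-t / (d * s)), c * s, mul_ne_zero hc hs, fun j => ?_⟩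
  have h4 := h2 (-t / (d * s)) (j * s)
  rw [show d * (-t / (d * s)) * (j * s) = -(j * t) by field_simp, commutatorElement_def, mul_inv_eq_iff_eq_mul,
    mul_inv_eq_iff_eq_mul] at h4
  have h5 := fun r (hr : M.Fx r) (e : 1 ≤ A D θ r) t u => h.cen (z_mem h.fx t) (z_mem' hr (h.pos r e) u)
  rw [mul_left_comm, ← h3, mul_assoc, mul_assoc, inv_mul_cancel_left, mul_assoc, mul_right_inj, ← mul_assoc, h4, mul_assoc,
    ← h5 a ha h1.ge, h5 _ hb e.symm.A_left.ge, ← mul_assoc, mul_assoc (M.z _ _), ← z_add h.fx, neg_add_cancel,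
    z_zero h.fx, mul_one]

end Hi

end Cfsg.Agent.H3.TG
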