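import Cfsg.Agent.H3.TG2

/-! Simply laced groups and their twisted forms: no 2-transitive action with transitive Borel subgroup. -/

set_option autoImplicit false
set_option linter.unusedSectionVars false

namespace Cfsg.Agent.H3.TG

open Cfsg.Lie Cfsg.Agent.H2 Cfsg.Agent.H2.MD Cfsg.Agent.H7 Cfsg.Agent.H8 MulAction
open scoped commutatorElement

variable {D : ChevalleyDatum} [hD : RootFacts D] [hN : NFacts D] [hS : SLFacts D] {K : Type*} [Field K] {G : Type*}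
  [Group G] [Finite G] {k : Type*} [Field k] [Finite k] {M : MD D K G k} {r a b g θ : ℕ} {T U J : Set ℕ} {y y' : M.S}

variable (M) in
/-- Nontrivial commutators modulo higher terms. -/
def NC (θ r : ℕ) : Prop := ∀ u ∈ M.X r, u ≠ 1 → ∃ g, D.IsPosRoot g ∧ M.F r + M.F g < M.F θ ∧
  ∃ y ∈ M.X g, ⁅y, u⁆ ∉ M.Y (Ab M (M.F r + M.F g))

theorem NC.of_fx {s : ℕ} (hs : M.Fx s) (hr : D.IsPosRoot r) (hg : D.IsPosRoot g) (e : Sm D r g s) (h : M.F s < M.F θ) :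
    NC M θ r := fun u hu h0 => by
  obtain ⟨y, hy, h1⟩ := heis' hs e hu h0 1
  exact ⟨g, hg, F_add (M := M) e ▸ h, y, hy, fun h2 => one_ne_zero (z_not_mem hs (e.pos hr hg) (by rwa [← h1, F_add e]))⟩

theorem NC.of_orb (h : NC M θ r) (e : M.ρ.SameCycle r b) : NC M θ b := by
  unfold NC; rwa [X_orb e, F_orb e]

namespace Hi

variable (h : Hi M θ) {Ω : Type*} [Finite Ω] [MulAction M.S Ω] [FaithfulSMul M.S Ω]
include h

theorem P_R (hJ : ∀ i : Fin D.rank, i.1 ∈ J → sref D i θ = θ) :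
    ∀ g ∈ (PJ D M.x J).subgroupOf M.S, ∀ u ∈ M.X θ, g * u * g⁻¹ ∈ M.X θ :=
  X_fx h.fx ▸ PJ_conj (Nrm.of_nonneg fun r hr _ e => e ▸ ⟨hr.1, h.fx.1, A_symm (D := D) θ r ▸ h.nonneg hr⟩)
    fun _ hw _ e => e ▸ TF.WJ_fix hJ hw

theorem P_Q (hJ : ∀ i : Fin D.rank, i.1 ∈ J → sref D i θ = θ) :
    ∀ g ∈ (PJ D M.x J).subgroupOf M.S, ∀ u ∈ M.Y (Rd D θ), g * u * g⁻¹ ∈ M.Y (Rd D θ) :=
  PJ_conj h.nrm_Rd fun w hw r e => by rwa [mem_Rd, ← TF.WJ_fix hJ hw, A_W (WJ_le J hw)]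

theorem fpf (ha : M.Fx a) (h1 : A D θ a = 1) (hN : NT (M.X θ) Ω) (x : Ω) :
    Nat.card ↥(M.X θ ⊓ stabilizer M.S x) = 1 := by
  have hb := h.fx.of_sm ha.2 (sm_cpl h.fx.1 ha.1 h1)
  have hc : ∀ b : Ω, Nat.card ↥(M.X θ ⊓ stabilizer M.S b) = Nat.card ↥(M.X θ ⊓ stabilizer M.S x) := fun b =>
    Nat.eq_of_mul_eq_mul_left (ob_pos (M.X θ) x) (by rw [ob_mul, hN.ob_eq x b, ob_mul])
  let ψ : Multiplicative (k × k) →* M.S := MonoidHom.mk' (fun p => M.z (cpl D θ a) p.toAdd.1 * M.z θ p.toAdd.2)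
    fun p p' => by
      simp only [toAdd_mul, Prod.fst_add, Prod.snd_add, z_add hb, z_add h.fx, mul_assoc, mul_right_inj]
      rw [← mul_assoc, ← mul_assoc, h.cen (z_mem h.fx _) (z_mem' hb (h.pos _ (sm_cpl h.fx.1 ha.1 h1).symm.A_left.ge) _)]
  have key : ∀ (g : M.S) (s t c : k), c ≠ 0 → (∀ j, g * (M.z (cpl D θ a) (j * s) * M.z θ (j * t)) = M.z θ (j * c) * g) →
      Nat.card {j : k // j • (s, t) ∈ Subgroup.toAddSubgroup' ((stabilizer M.S x).comap ψ)} =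
        Nat.card ↥(M.X θ ⊓ stabilizer M.S x) := fun g s t c hc' hg => by
    rw [← hc (g • x), card_inf h.fx]
    refine Nat.card_congr ((Equiv.mulRight₀ c hc').subtypeEquiv fun j => ?_)
    change (M.z (cpl D θ a) (j * s) * M.z θ (j * t)) • x = x ↔ M.z θ (j * c) • g • x = g • x
    rw [← mul_smul, ← hg, mul_smul g, smul_left_cancel_iff]
  refine (line_lemma (Subgroup.toAddSubgroup' ((stabilizer M.S x).comap ψ)) fun ⟨s, t⟩ hv => ?_).resolve_right fun e1 => ?_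
  · by_cases hs : s = 0
    · exact key 1 s t t (fun ht => hv (by simp [hs, ht])) fun k => by simp [hs, z_zero hb]
    obtain ⟨g, c, hc, hg⟩ := h.conjV ha h1 hs t
    exact key g s t c hc hg
  · refine one_ne_zero (z_inj h.fx (eq_of_smul_eq_smul (α := Ω) fun b => ?_))
    have h4 : M.X θ ⊓ stabilizer M.S b = M.X θ := Subgroup.eq_of_le_of_card_ge inf_le_left (by rw [hc, e1, card_X_fx h.fx])
    exact (h4.ge (z_mem h.fx 1)).2.trans (h4.ge (z_mem h.fx 0)).2.symm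

theorem U_le (hJ : ∀ i : Fin D.rank, i.1 ∈ J → sref D i θ = θ)
    (hirr : ∀ r < D.nroots, M.ρ r ≠ r → ∀ N : Subgroup M.S, (∀ h : M.S, (h : G) ∈ HH D M.x → ∀ u ∈ N, h * u * h⁻¹ ∈ N) →
      ∀ y ∈ M.X r, y ∈ N → y ≠ 1 → M.X r ≤ N)
    (hsum : ∀ r, M.Fx r → D.IsPosRoot r → A D θ r = 0 → ∃ w ∈ WJ D J, Commute M.ρ w ∧ ∃ b g, D.IsPosRoot b ∧
      D.IsPosRoot g ∧ Sm D b g (w r)) (hU : ∀ x y : Ω, ∃ u ∈ M.Y {r | D.IsPosRoot r}, u • x = y) (x : Ω)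
    (hn : Nat.card Ω ≤ Nat.card k * ob (M.Y (Rd D θ)) x) :
    M.Y {r | D.IsPosRoot r} ≤ kerO _ (M.Y (Rd D θ)) Ω (h.P_Q hJ) := by
  refine gen isClosed_pos (fun _ h => h) (fun _ _ e => (pos_orb e).2) ?_
  by_contra! h0
  obtain ⟨r, ⟨hr, h1⟩, hm⟩ := Set.exists_max_image {r | D.IsPosRoot r ∧ ¬ M.X r ≤ kerO _ (M.Y (Rd D θ)) Ω (h.P_Q hJ)} M.F
    ((Set.finite_lt_nat D.nroots).subset fun r hr => hr.1.1) h0
  have hP : M.Y {r | D.IsPosRoot r} ≤ (PJ D M.x J).subgroupOf M.S := fun _ hu => BB_le_PJ (UU_le_BB _ hu)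
  have h2 : ∀ r, D.IsPosRoot r → M.X r ≤ M.Y {r | D.IsPosRoot r} := fun r hr => Y_mono fun _ e => (pos_orb e).2 hr
  have h3 := gen (nrm_Ab (fun _ h => h.1) (M.F r)).1 (fun _ h => h.1) (inv_Ab _) fun s hs =>
    by_contra fun e => hs.2.not_ge (hm s ⟨hs.1, e⟩)
  rcases cen_orb hP (h2 r hr) hU (fun u hu v hv => h3 (by
    simpa using inv_mem (comm_Ab (orb_pos hr) (d := 0) (fun s hs => ⟨hs, F_pos hs⟩) hv hu))) x
    (hn.trans (Nat.mul_le_mul_right _ (by simpa using card_X hr.1 {r} (by simp [Equiv.Perm.SameCycle.refl])))) with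
    ⟨y, hy, h4, h5⟩ | ⟨h4, h5⟩
  · have h6 := fun (g : M.S) (hg : (g : G) ∈ HH D M.x) u (hu : u ∈ kerO _ (M.Y (Rd D θ)) Ω (h.P_Q hJ)) =>
      kerO_conj hu (g := g) (BB_le_PJ (HH_le_BB _ hg))
    by_cases e : M.ρ r = r
    exacts [h1 (irr_fx ⟨hr.1, e⟩ h6 hy h5 h4), h1 (hirr r hr.1 e _ h6 y hy h5 h4)]
  have h6 : M.Fx r := ⟨hr.1, by_contra fun e => by
    have h6 := card_X (M := M) hr.1 {M.ρ r, r} (by simp [Equiv.Perm.SameCycle.refl])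
    rw [Finset.card_pair e] at h6
    have h7 := h6.trans (Nat.le_of_mul_le_mul_right (h4.trans hn) (ob_pos _ x))
    have := Finite.one_lt_card (α := k)
    nlinarith⟩
  obtain ⟨w, hw, h7, b, g, hb, hg, e⟩ := hsum r h6 hr (by
    have := h.nonneg hr
    have := mt (fun e => (MD.X_le h.inv e).trans (le_kerO (h.le_U.trans hP))) h1
    rw [mem_Rd] at this; omega)
  obtain ⟨n, h8⟩ := exists_rep (WJ_le J hw) h7
  obtain ⟨u, hu, h9⟩ := exists_ne_one (M := M) hb.1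
  refine h1 fun v hv => ?_
  obtain ⟨t, ht⟩ := exists_z (h6.map h8) (conj_X h8 hv)
  obtain ⟨y, hy, h10⟩ := MD.heis' (h6.map h8) e hu h9 t
  have := kerO_conj (h5 y (h2 g hg hy) u (h2 b hb hu)) (g := n⁻¹) (inv_mem ((mem_PJ st).2 ⟨w, hw, h8.mem_cell⟩))
  rwa [commutatorElement_def, h10, ← ht, show n⁻¹ * (n * v * n⁻¹) * n⁻¹⁻¹ = v by group] at this

theorem mem_R (hinj : ∀ r ∈ Rd D θ, ∀ s ∈ Rd D θ, M.F r = M.F s → M.ρ.SameCycle r s) (hb : M.Fx b)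
    (h1 : ∀ r ∈ Rd D θ, r ≠ θ → M.F r ≤ M.F b) (hnc : ∀ r ∈ Rd D θ, r ≠ θ → r ≠ b → NC M θ r)
    (hQ : ∀ x y : Ω, ∃ u ∈ M.Y (Rd D θ), u • x = y) {x : Ω} (hV : ∀ s t, (M.z b s * M.z θ t) • x = x → s = 0)
    (hy : y ∈ M.Y (Rd D θ)) (h0 : y • x ∈ orbit (M.X θ) x) : y ∈ M.X θ := by
  have h2 : ∀ c, M.F b ≤ c → M.Y (Rd D θ ∩ Ab M c) ≤ M.X θ := fun c hc => X_fx h.fx ▸ Y_mono fun r hr =>
    by_contra fun e => hr.2.2.not_ge ((h1 r hr.1 e).trans hc)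
  have h3 : ∀ n : ℕ, ∀ y ∈ M.Y (Rd D θ ∩ Ab M (M.F b - n)), y • x ∈ orbit (M.X θ) x → y ∈ M.X θ := fun n => by
    induction n with
    | zero => exact fun y hy _ => h2 _ (by omega) hy
    | succ n ih =>
    intro y hy h0
    by_cases h3 : ∃ r ∈ Rd D θ, r ≠ θ ∧ M.F r = M.F b - n
    swap
    · refine by_contra fun h4 => h4 (ih y (Y_mono (fun r hr => And.intro hr.1 ⟨hr.2.1, ?_⟩) hy) h0)
      by_cases e : r = θ
      · by_contra h5
        exact h4 (X_fx h.fx ▸ Y_mono (fun s hs => by_contra fun e' => by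
          have := h.F_lt hs.1 e'; have := hs.2.2; rw [e] at h5; omega) hy)
      · have := hr.2.2; have := mt (fun e' => ⟨r, hr.1, e, e'⟩) h3; omega
    obtain ⟨r, hr, h3, h4⟩ := h3
    have h5 := h.F_lt hr h3
    have h6 : θ ∈ Rd D θ ∩ Ab M (M.F b - (n + 1 : ℕ)) := ⟨h.mem, h.pos _ h.mem, by omega⟩
    obtain ⟨u, hu, v, hv, rfl⟩ := split (h.nrm Set.inter_subset_left Set.inter_subset_left h6).1 (fun r hr => hr.2.1)
      (fun s s' e hs => ⟨h.inv s s' e hs.1, inv_Ab _ s s' e hs.2⟩) ⟨hr, h.pos r hr, by omega⟩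
      (h.closed_diff Set.inter_subset_left h6 h3) hy
    replace hv : v ∈ M.Y (Rd D θ ∩ Ab M (M.F b - n)) := Y_mono (fun s hs => And.intro hs.1.1 ⟨hs.1.2.1, by
      have := hs.1.2.2; have := mt (fun e => hinj r hr s hs.1.1 e) hs.2; omega⟩) hv
    by_cases h7 : u = 1
    · rw [h7, one_mul] at h0 ⊢; exact ih v hv h0
    exfalso
    by_cases h8 : r = b
    · obtain ⟨s, rfl⟩ := exists_z hb (h8 ▸ hu)
      obtain ⟨c, hc, h9⟩ := mem_orb.1 h0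
      obtain ⟨t, ht⟩ := exists_z h.fx (mul_mem (h2 _ (by rw [h8] at h4; omega) hv) (inv_mem hc))
      refine h7 (by rw [hV s t (by rw [← ht, ← mul_assoc, ← h.cen (inv_mem hc) (h.le_U (Y_mono Set.inter_subset_left hy)),
        mul_smul, ← h9, inv_smul_smul]), z_zero hb])
    obtain ⟨g, hg, h9, c, hc, h10⟩ := hnc r hr h3 h8 u hu h7
    have h11 : c ∈ M.Y {r | D.IsPosRoot r} := Y_mono (fun _ e => (pos_orb e).2 hg) hc
    have h12 : ⁅c, u * v⁆ ∈ M.Y (Rd D θ ∩ Ab M (M.F b - n)) := by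
      have h13 : ∀ c, Nrm D {r | D.IsPosRoot r} (Rd D θ ∩ Ab M c) := fun c =>
        ⟨fun r hr s hs d hd i j hi hj e => ⟨h.nrm_Rd.1 r hr s hs.1 d hd i j hi hj e,
          (nrm_Ab (fun _ h => h) c).1 r hr s hs.2 d hd i j hi hj e⟩, fun r hr s hs => h.nrm_Rd.2 r hr s hs.1⟩
      refine comm_Y (h13 _) ((h13 _).mono fun _ h => h.2.1) (fun s hs s' hs' => ⟨hs.1, hs'.2.1.1, ne_neg_pos hs hs'.2.1,
        fun d e => ⟨?_, e.pos hs hs'.2.1, ?_⟩⟩) h11 hy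
      · have := h.nonneg hs; have := mem_Rd.1 hs'.1; rw [mem_Rd, e.add]; omega
      · have := F_pos (M := M) hs; have := hs'.2.2; rw [F_add e]; omega
    have h13 := Y_mono (T := {θ}) (U := Ab M (M.F r + M.F g)) (fun _ e => e ▸ ⟨h.pos _ h.mem, h9⟩) (X_fx h.fx ▸ ih _ h12
      (comm_orb hQ (fun _ hu _ => h.comm hu) (fun _ hr _ hu => h.cen hr (h.le_U hu)) (fun _ hr => h.cen hr h11)
        (Y_mono Set.inter_subset_left hy) h0))
    have h14 := conj_Y (nrm_Ab (fun s e => (orb_pos (h.pos r hr) s e).1) _) hu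
      (comm_Ab (d := M.F r) (orb_pos hg) (fun s hs => ⟨hs.2.1, h4 ▸ hs.2.2⟩) hc hv)
    exact h10 (by simpa [commutatorElement_def, mul_assoc] using mul_mem h13 (inv_mem h14))
  exact h3 (M.F b).toNat y (Y_mono (fun r hr => And.intro hr ⟨h.pos r hr, by
    have := F_pos (M := M) (h.pos r hr); omega⟩) hy) h0

/-- The main argument. -/
theorem core [Finite K] (ha : M.Fx a) (h1 : A D θ a = 1) (hJ : ∀ i : Fin D.rank, i.1 ∈ J → sref D i θ = θ)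
    (hX : ∀ r < D.nroots, Nat.card (M.X r) = Nat.card k ^ (orb M.ρ r).ncard) {m l0 : ℕ} (hm : 2 ≤ m)
    (hT : (Rd D θ).ncard = 2 * m + 1)
    (hi : ((PJ D M.x J).subgroupOf M.S).index * (Nat.card k - 1) = l0 * (Nat.card k * Nat.card k ^ (m + 1) - 1))
    (h2 : l0 * Nat.card k < Nat.card k ^ (m + 1) - 1 + l0) (h3 : l0 < Nat.card k ^ (m + 1))
    (hirr : ∀ r < D.nroots, M.ρ r ≠ r → ∀ N : Subgroup M.S, (∀ h : M.S, (h : G) ∈ HH D M.x → ∀ u ∈ N, h * u * h⁻¹ ∈ N) →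
      ∀ y ∈ M.X r, y ∈ N → y ≠ 1 → M.X r ≤ N)
    (hsum : ∀ r, M.Fx r → D.IsPosRoot r → A D θ r = 0 → ∃ w ∈ WJ D J, Commute M.ρ w ∧ ∃ b g, D.IsPosRoot b ∧
      D.IsPosRoot g ∧ Sm D b g (w r))
    (hinj : ∀ r ∈ Rd D θ, ∀ s ∈ Rd D θ, M.F r = M.F s → M.ρ.SameCycle r s)
    (h4 : ∀ r ∈ Rd D θ, M.F a ≤ M.F r) (hnc : ∀ r ∈ Rd D θ, r ≠ θ → r ≠ cpl D θ a → NC M θ r)
    (hp : ∀ p : ℕ, p.Prime → CharP K p → ¬ p ∣ ((UU D M.x).subgroupOf M.S).index) (ht : TT M.S Ω)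
    (hB : ∀ x y : Ω, ∃ g : M.S, (g : G) ∈ BB D M.x ∧ g • x = y) : False := by
  have := ht.nt
  have := ht.pre
  have := Fintype.ofFinite k
  obtain ⟨x⟩ : Nonempty Ω := inferInstance
  obtain ⟨p, hK⟩ := CharP.exists K
  have := Fact.mk (CharP.char_is_prime K p)
  have : CharP k p := M.ι.charP M.ι.injective p
  obtain ⟨f, hp', hq⟩ := FiniteField.card k p
  rw [← Nat.card_eq_fintype_card] at hq
  have hq1 := Finite.one_lt_card (α := k)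
  replace hB : ∀ x y : Ω, ∃ g ∈ (PJ D M.x J).subgroupOf M.S, g • x = y := fun x y =>
    let ⟨g, h1, h2⟩ := hB x y; ⟨g, BB_le_PJ h1, h2⟩
  have hN := NT.of hB (h.P_R hJ)
  have h5 : ∀ x : Ω, ∀ r ∈ M.X θ, r • x = x → r = 1 := fun x r hr e =>
    (Subgroup.card_eq_one.1 (h.fpf ha h1 hN x)).le ⟨hr, e⟩
  have hQ := card_Y hX (h.nrm subset_rfl subset_rfl h.mem).1 h.pos h.inv
  have h6 : Nat.card k ^ (m + 1) ≤ ob (M.Y (Rd D θ)) x := by
    have := heis_ob h.X_le (fun _ hr _ hu => h.cen hr (h.le_U hu)) (fun _ hu _ => h.comm hu)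
      (fun _ hu h0 _ => h.heis' hu h0) (fun e => by have := card_X_fx h.fx; rw [e, Subgroup.card_bot] at this; omega) (h5 x)
    rwa [hQ, hT, card_X_fx h.fx, ← pow_succ, show 2 * m + 1 + 1 = (m + 1) * 2 by ring, pow_mul,
      Nat.pow_le_pow_iff_left two_ne_zero] at this
  obtain ⟨l, -, hl⟩ := ht.count_sub (h.P_R hJ) hN x
  have h7 := ob_mul (M.X θ) x
  rw [h.fpf ha h1 hN, mul_one, card_X_fx h.fx] at h7
  rw [h7, hi] at hl
  have hn := num Nat.card_pos Nat.card_pos (Dvd.dvd.trans ?_ ((NT.of hB (h.P_Q hJ)).ob_dvd x)) (Nat.pos_of_ne_zero fun e => by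
    rw [e, zero_mul] at hi
    exact Nat.mul_ne_zero Subgroup.index_ne_zero_of_finite (by omega) hi) h2 h3 hl
  swap
  · obtain ⟨j, hj⟩ := ob_pow (p := p) (((M.faith.isPGroup_UU p).comap_subtype (K := M.S)).to_le h.le_U) x
    rw [hj, hq, ← pow_mul] at h6 ⊢
    exact pow_dvd_of_le hp'.one_lt h6
  have hU : ∀ x y : Ω, ∃ u ∈ M.Y {r | D.IsPosRoot r}, u • x = y := trans_of_coprime (by
    rw [hn, ← pow_succ', hq, ← pow_mul]
    exact ((Nat.Prime.coprime_iff_not_dvd hp').2 (hp p hp' hK)).symm.pow_right _)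
  have h8 : ∀ x y : Ω, ∃ u ∈ M.Y (Rd D θ), u • x = y := fun x' y => by
    obtain ⟨u, hu, rfl⟩ := hU x' y
    exact mem_orb.1 ((h.U_le hJ hirr hsum hU x (hn ▸ Nat.mul_le_mul_left _ h6) hu).2 x')
  have e := sm_cpl h.fx.1 ha.1 h1
  have h9 : M.Y (Rd D θ) ⊓ stabilizer M.S x = ⊥ := eq_bot_iff.2 fun y hy => h5 x y (h.mem_R hinj (h.fx.of_sm ha.2 e)
    (fun r hr h0 => by
      have := h4 _ (h.sm hr h0).symm.A_left.ge
      have := F_add (M := M) (h.sm hr h0)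
      have := F_add (M := M) e
      omega) hnc h8 (fun s t hv => by_contra fun hs => by
      obtain ⟨g, c, hc, hg⟩ := h.conjV ha h1 hs t
      have h9 := h5 (g • x) _ (z_mem h.fx (1 * c)) (by rw [← mul_smul, ← hg, mul_smul, one_mul, one_mul, hv])
      exact hc (by simpa using z_inj h.fx (h9.trans (z_zero h.fx).symm))) hy.1
      (mem_orb.2 ⟨1, one_mem _, (one_smul _ x).trans hy.2.symm⟩)) hy.2
  have h10 := ob_mul (M.Y (Rd D θ)) x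
  rw [h9, Subgroup.card_bot, mul_one, hQ, hT] at h10
  have h11 : ob (M.Y (Rd D θ)) x ≤ Nat.card Ω := Finite.card_subtype_le _
  rw [h10, hn, ← pow_succ', Nat.pow_le_pow_iff_right hq1] at h11
  omega

end Hi

end Cfsg.Agent.H3.TG
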