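import Cfsg.Agent.H3.TG3

/-! Decidable forms of the hypotheses of the main argument. -/

set_option autoImplicit false
set_option linter.unusedSectionVars false

namespace Cfsg.Agent.H3.TG

open Cfsg.Lie Cfsg.Agent.H2 Cfsg.Agent.H2.MD Cfsg.Agent.H7 Cfsg.Agent.H8 MulAction
open scoped commutatorElement

/-- Conditions on the roots. -/
def Chk (n : ℕ) (a : ℕ → ℕ → ℤ) (f : ℕ → ℤ) (ρ sm : ℕ → ℕ) (wd : List ℕ → ℕ → ℕ) (θ α m : ℕ) (Ls : List (List ℕ))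
    (Ex : List ℕ) : Prop :=
  (θ < n ∧ ρ θ = θ) ∧ (α < n ∧ ρ α = α) ∧ a θ α = 1 ∧ ((Finset.range n).filter fun b => 1 ≤ a θ b).card = 2 * m + 1 ∧
  (∀ w ∈ Ls, (∀ i ∈ w, a θ (sm i) = 0) ∧ ∀ s < n, ρ (wd w s) = wd w (ρ s)) ∧
  ∀ r < n, (1 ≤ a θ r → 0 < f r ∧ f α ≤ f r ∧ (∀ s < n, f r = f s → 1 ≤ a θ s → s = r ∨ s = ρ r ∨ s = ρ (ρ r)) ∧
    (r = θ ∨ a α r = -1 ∨ r ∈ Ex ∨ ∃ s < n, ρ s = s ∧ a s r = 1 ∧ f r < f s ∧ f s < f θ)) ∧
    (ρ r = r → 0 < f r → a θ r = 0 → ∃ w ∈ Ls, ∃ b < n, a (wd w r) b = 1 ∧ 0 < f b ∧ f b < f (wd w r))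

set_option synthInstance.maxSize 4000 in
instance decChk (n : ℕ) (a : ℕ → ℕ → ℤ) (f : ℕ → ℤ) (ρ sm : ℕ → ℕ) (wd : List ℕ → ℕ → ℕ) (θ α m : ℕ)
    (Ls : List (List ℕ)) (Ex : List ℕ) : Decidable (Chk n a f ρ sm wd θ α m Ls Ex) := by
  unfold Chk; infer_instance

/-- Conditions on the coset representatives. -/
def ChkI (n l : ℕ) (a : ℕ → ℕ → ℤ) (f : ℕ → ℤ) (ρ sm : ℕ → ℕ) (wd : List ℕ → ℕ → ℕ) (θ : ℕ)
    (Ws : List (List ℕ × ℕ)) : Prop :=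
  (Ws.map fun p => wd p.1 θ).Nodup ∧ (∀ r < n, ρ r = r → r ∈ Ws.map fun p => wd p.1 θ) ∧
  ∀ p ∈ Ws, (∀ s < n, ρ (wd p.1 s) = wd p.1 (ρ s)) ∧ (∀ j < l, a θ (sm j) = 0 → 0 < f (wd p.1 (sm j))) ∧
    ((Finset.range n).filter fun r => 0 < f r ∧ ¬ 0 < f (wd p.1 r)).card = p.2

instance decChkI (n l : ℕ) (a : ℕ → ℕ → ℤ) (f : ℕ → ℤ) (ρ sm : ℕ → ℕ) (wd : List ℕ → ℕ → ℕ) (θ : ℕ)
    (Ws : List (List ℕ × ℕ)) : Decidable (ChkI n l a f ρ sm wd θ Ws) := by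
  unfold ChkI; infer_instance

variable {D : ChevalleyDatum} [hD : RootFacts D] [hN : NFacts D] [hS : SLFacts D] {K : Type*} [Field K] {G : Type*}
  [Group G] [Finite G] {k : Type*} [Field k] [Finite k] {M : MD D K G k} {θ α m : ℕ} {T : Fast} (hT : Agree D T)

theorem sref_fix (hθ : θ < D.nroots) (i : Fin D.rank) (h : i.1 ∈ {j | A D θ (D.simple j) = 0}) : sref D i θ = θ := by
  rw [← refl_simple]
  exact refl_eq (by rw [A_self hθ, show A D θ (D.simple i) = 0 from h]; simp)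

include hT

theorem commute_of {l : List ℕ} (h : ∀ s < D.nroots, M.ρ (wdL T l s) = wdL T l (M.ρ s)) :
    Commute M.ρ (wordW D (fl D l)) := Equiv.ext fun r => by
  by_cases hr : r < D.nroots
  · simpa only [Equiv.Perm.mul_apply, ← wdL_eq hT] using h r hr
  · rw [Equiv.Perm.mul_apply, Equiv.Perm.mul_apply, W_apply_ge (wordW_mem _) (not_lt.1 hr),
      W_apply_ge (wordW_mem _) (not_lt.1 (mt (M.tw.lt r).1 hr))]

theorem Hi.index (h : Hi M θ) (hX : ∀ r < D.nroots, Nat.card (M.X r) = Nat.card k ^ (orb M.ρ r).ncard)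
    {Ws : List (List ℕ × ℕ)} (hc : ChkI D.nroots D.rank (A D) M.F M.ρ D.simple (wdL T) θ Ws) :
    ((PJ D M.x {j | A D θ (D.simple j) = 0}).subgroupOf M.S).index = (Ws.map fun p => Nat.card k ^ p.2).sum := by
  obtain ⟨h1, h2, h3⟩ := hc
  have h4 := fun i : Fin Ws.length => h3 _ (List.getElem_mem i.2)
  have h5 := fun i : Fin Ws.length => commute_of hT (h4 i).1
  rw [TF.index_P M.sub M.tw M.faith (fun i : Fin Ws.length => (wordW D (fl D Ws[i.1].1))⁻¹)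
    (fun i => ⟨inv_mem (wordW_mem _), (h5 i).inv_right⟩) (fun i j hj => ?_) (fun i j e => ?_) fun v hv hc => ?_,
    ← Fin.sum_univ_fun_getElem]
  · refine Finset.sum_congr rfl fun i _ => ?_
    rw [← (h4 i).2.2, ← Nat.card_congr (Subgroup.subgroupOfEquivOfLe (inf_le_left : M.S ⊓ Um D M.x _ ≤ M.S)).toEquiv,
      Subgroup.inf_subgroupOf_left]
    refine (card_Y hX (isClosed_Um (inv_mem (wordW_mem (fl D Ws[i.1].1)))) (fun _ h => h.1) fun r s e hr => (inv_of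
      (fun r => D.IsPosRoot r ∧ D.IsNegRoot ((wordW D (fl D Ws[i.1].1))⁻¹ r)) (fun r => by
        rw [M.tw.pos, Twist.comm_apply (h5 i).inv_right, M.tw.negRoot]) e).mpr hr).trans (congrArg _ ?_)
    rw [show {r | D.IsPosRoot r ∧ _} = ↑(invSet D (wordW D (fl D Ws[i.1].1))⁻¹) from Set.ext fun _ => mem_invSet.symm,
      Set.ncard_coe_finset, ← len, len_inv (wordW_mem _), len, invSet]
    refine congrArg _ (Finset.filter_congr fun r hr => ?_)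
    have h6 := W_lt (wordW_mem (fl D Ws[i.1].1)) (Finset.mem_range.1 hr)
    rw [wdL_eq hT, ← pos_iff_F (Finset.mem_range.1 hr), ← pos_iff_F h6]
    exact and_congr_right fun _ => ⟨not_pos_of_neg, negRoot_of_not_pos h6⟩
  · exact pos_of_F (W_lt (wordW_mem _) (simple_lt j)) (wdL_eq hT _ _ ▸ ((h4 i).2.1 j j.2 hj).le)
  · have := TF.WJ_fix (sref_fix h.fx.1) e
    rw [inv_inv, Equiv.Perm.mul_apply, Equiv.Perm.inv_eq_iff_eq, ← wdL_eq hT, ← wdL_eq hT] at this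
    exact Fin.ext ((List.Nodup.getElem_inj_iff h1 (hi := by simp) (hj := by simp)).1 (by simpa using this.symm))
  · obtain ⟨n, hn⟩ := exists_rep (M := M) (inv_mem hv) hc.inv_right
    obtain ⟨p, hp, e⟩ := List.mem_map.1 (h2 _ (h.fx.map hn).1 (h.fx.map hn).2)
    obtain ⟨i, rfl⟩ := List.mem_iff_get.1 hp
    refine ⟨i, TF.mem_WJ_of_fix (fun r _ => h.nonneg) (fun _ e => e) (sref_fix h.fx.1) (mul_mem hv (by
      simpa using wordW_mem _)) ?_⟩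
    rw [inv_inv, Equiv.Perm.mul_apply, ← wdL_eq hT, ← Equiv.Perm.eq_inv_iff_eq]
    exact e

variable {Ls : List (List ℕ)} {Ex : List ℕ} (hc : Chk D.nroots (A D) M.F M.ρ D.simple (wdL T) θ α m Ls Ex)
include hc

omit hT in
theorem Chk.hi : Hi M θ := ⟨hc.1, fun b hb => by
  have h1 : b < D.nroots := by_contra fun e => by simp [A, hD.wt_ge b (not_lt.1 e)] at hb
  exact pos_of_F h1 ((hc.2.2.2.2.2 b h1).1 hb).1.le⟩

/-- The main argument with decidable hypotheses. -/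
theorem Chk.core [Finite K] (hX : ∀ r < D.nroots, Nat.card (M.X r) = Nat.card k ^ (orb M.ρ r).ncard) {l0 : ℕ} (hm : 2 ≤ m)
    (hi : ((PJ D M.x {j | A D θ (D.simple j) = 0}).subgroupOf M.S).index * (Nat.card k - 1) =
      l0 * (Nat.card k * Nat.card k ^ (m + 1) - 1))
    (h2 : l0 * Nat.card k < Nat.card k ^ (m + 1) - 1 + l0) (h3 : l0 < Nat.card k ^ (m + 1))
    (hirr : ∀ r < D.nroots, M.ρ r ≠ r → ∀ N : Subgroup M.S, (∀ h : M.S, (h : G) ∈ HH D M.x → ∀ u ∈ N, h * u * h⁻¹ ∈ N) →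
      ∀ y ∈ M.X r, y ∈ N → y ≠ 1 → M.X r ≤ N) (hE : ∀ r ∈ Ex, NC M θ r)
    (hp : ∀ p : ℕ, p.Prime → CharP K p → ¬ p ∣ ((UU D M.x).subgroupOf M.S).index) {Ω : Type*} [Finite Ω] [MulAction M.S Ω]
    [FaithfulSMul M.S Ω] (ht : TT M.S Ω) (hB : ∀ x y : Ω, ∃ g : M.S, (g : G) ∈ BB D M.x ∧ g • x = y) : False := by
  have h := hc.hi
  obtain ⟨-, h4, h5, h6, h7, h8⟩ := hc
  refine h.core h4 h5 (sref_fix h.fx.1) hX hm (by
    rw [← h6, ← Set.ncard_coe_finset]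
    exact congrArg _ (Set.ext fun b => by simpa [mem_Rd] using fun hb => (h.pos b hb).1)) hi h2 h3 hirr
    (fun r hr hp e => ?_) (fun r hr s hs e => ?_) (fun r hr => ((h8 r (h.pos r hr).1).1 hr).2.1) (fun r hr e e' => ?_) hp ht hB
  · obtain ⟨w, hw, b, hb, h9, h10, h11⟩ := (h8 r hr.1).2 hr.2 (F_pos hp) e
    rw [wdL_eq hT] at h9 h11
    have e' := sm_cpl (W_lt (wordW_mem _) hr.1) hb h9
    exact ⟨_, wordW_mem_WJ fun i hi => (h7 w hw).1 i (by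
      obtain ⟨j, hj, e⟩ := List.mem_filterMap.1 hi
      split_ifs at e
      exact Option.some.inj e ▸ hj), commute_of hT (h7 w hw).2, b, _, pos_of_F hb h10.le,
      pos_of_F (M := M) e'.2.1 (by rw [F_add e'] at h11; omega), e'⟩
  · rcases ((h8 r (h.pos r hr).1).1 hr).2.2.1 s (h.pos s hs).1 e hs with rfl | rfl | rfl
    exacts [mem_orb _, (mem_orb r).apply_right, (mem_orb r).apply_right.apply_right]
  · obtain h9 | h9 | h9 | ⟨s, hs, h9, h10, h11, h12⟩ := ((h8 r (h.pos r hr).1).1 hr).2.2.2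
    · exact absurd h9 e
    · have h10 := exists_sm h4.1 (h.pos r hr).1 h9
      rw [eq_of_A (D := D) (r := θ) (s := refl D α r) (by have := mem_Rd.1 hr; rw [h10.add]; omega)] at h10
      exact absurd (h10.eq (sm_cpl h.fx.1 h4.1 h5)) e'
    · exact hE r h9
    · have e' := sm_cpl hs (h.pos r hr).1 h10
      exact NC.of_fx ⟨hs, h9⟩ (h.pos r hr) (pos_of_F (M := M) e'.2.1 (by rw [F_add e'] at h11; omega)) e' h12

omit hT hc

section th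

variable {x : ℕ → K → G} {σ : G →* G} {ρ : Equiv.Perm ℕ} {π : Fin D.rank → Fin D.rank} {f : ℕ → K → K} {S : Subgroup G}
  {O : Fin D.rank → Set ℕ} {φ : K →+* K} (h : TH D x σ ρ π f S O φ m) [Finite K] {c : Fin D.rank → ℤ}
  (h1 : ∀ r, c ⬝ᵥ wt D (ρ r) = c ⬝ᵥ wt D r) (h2 : ∀ r, D.IsPosRoot r → 0 < c ⬝ᵥ wt D r)
  (h3 : Nat.card (φ.eqLocusField (RingHom.id K)) ^ m = Nat.card K)

theorem card_md {r : ℕ} (hr : r < D.nroots) : Nat.card ((h.md c h1 h2 h3).X r) =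
    Nat.card (φ.eqLocusField (RingHom.id K)) ^ (orb ρ r).ncard := by
  by_cases e : ρ r = r
  · rw [card_X_fx (M := h.md c h1 h2 h3) ⟨hr, e⟩, show orb ρ r = _ from orb_fx (M := h.md c h1 h2 h3) ⟨hr, e⟩,
      Set.ncard_singleton, pow_one]
  · rw [h.ncard_orb hr e, h3, ← h.card_XO hr e]; rfl

include h in
theorem irr_th {r : ℕ} (hr : r < D.nroots) (e : ρ r ≠ r) (N : Subgroup S)
    (hN : ∀ h : S, (h : G) ∈ HH D x → ∀ u ∈ N, h * u * h⁻¹ ∈ N) (y : S) (hy : y ∈ XO x S ρ r) (h1 : y ∈ N) (h0 : y ≠ 1) :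
    XO x S ρ r ≤ N := fun u hu => by
  have hT := h.ind_pm hr e
  have h2 := fun t => x_mem_XS (x := x) (S := {r, D.neg r}) (Or.inl rfl) t
  have h3 : ∀ y ∈ XO x S ρ r, ∃ t, y = ⟨_, h.nm_S hr t⟩ := fun y hy =>
    let ⟨t, ht⟩ := h.exists_nm (y := y) hr e hy y.2; ⟨t, Subtype.ext ht⟩
  have h4 : ∀ t u, (⟨_, h.nm_S hr (t + u)⟩ : S) = ⟨_, h.nm_S hr t⟩ * ⟨_, h.nm_S hr u⟩ := fun t u => Subtype.ext
    ((congrArg (nm σ m) (h.faith.toIsSt.add r t u)).trans (map_mul (h.nmH hT) ⟨_, h2 t⟩ ⟨_, h2 u⟩))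
  obtain ⟨s, rfl⟩ := h3 y hy
  obtain ⟨t, rfl⟩ := h3 u hu
  refine fam_mem (y := fun t => (⟨_, h.nm_S hr t⟩ : S)) h4 (fun c hc t ht => ?_) (fun e : s = 0 => h0 (by
    subst e; exact add_fam_zero (x := fun t => (⟨_, h.nm_S hr t⟩ : S)) h4)) h1 t
  have h5 := h.faith.toIsSt.hE_conj hr hc r t
  rw [A_self hr, zpow_ofNat] at h5
  convert hN ⟨_, h.nmH_S hT ⟨_, h.hE_mem r c⟩⟩ (h.nm_HH (hE_mem_HH x hr hc) m) _ ht using 1
  refine Subtype.ext ((congrArg (nm σ m) h5.symm).trans ?_)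
  exact (map_mul (h.nmH hT) (⟨_, h.hE_mem r c⟩ * ⟨_, h2 t⟩) ⟨_, h.hE_mem r c⟩⁻¹).trans (by rw [map_mul, map_inv])

end th

end Cfsg.Agent.H3.TG
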