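import Cfsg.Agent.H3.TG4
import Cfsg.Agent.H7.TwOutE6
import Cfsg.Agent.H8.LiftTabE6

/-! The twisted groups of type `E6` have no 2-transitive action with transitive Borel subgroup. -/

set_option autoImplicit false
set_option linter.unusedSectionVars false

namespace Cfsg.Agent.H3.TG

open Cfsg.Lie Cfsg.Agent.H2 Cfsg.Agent.H7 Cfsg.Agent.H8 Matrix

theorem not_dvd_of_sylow {G : Type*} [Group G] [Finite G] {p : ℕ} [Fact p.Prime] {U : Subgroup G}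
    (h : ∃ P : Sylow p G, (P : Subgroup G) = U) : ¬ p ∣ U.index := let ⟨P, e⟩ := h; e ▸ P.not_dvd_index

/-- Coset representatives and their lengths. -/
def wsE6 : List (List ℕ × ℕ) := [([], 0), ([1], 1), ([3, 1], 2), ([2, 4, 3, 1], 4), ([0, 5, 2, 4, 3, 1], 6), ([3, 2, 4, 3, 1], 5), ([3, 0, 5, 2, 4, 3, 1], 7), ([1, 3, 2, 4, 3, 1], 6), ([1, 3, 0, 5, 2, 4, 3, 1], 8), ([2, 4, 3, 0, 5, 2, 4, 3, 1], 9), ([2, 4, 1, 3, 0, 5, 2, 4, 3, 1], 10), ([3, 2, 4, 3, 0, 5, 2, 4, 3, 1], 10), ([3, 2, 4, 1, 3, 0, 5, 2, 4, 3, 1], 11), ([1, 3, 2, 4, 3, 0, 5, 2, 4, 3, 1], 11), ([1, 3, 2, 4, 1, 3, 0, 5, 2, 4, 3, 1], 12), ([2, 4, 3, 2, 4, 1, 3, 0, 5, 2, 4, 3, 1], 13), ([2, 4, 1, 3, 2, 4, 1, 3, 0, 5, 2, 4, 3, 1], 14), ([0, 5, 2, 4, 3, 2, 4, 1, 3, 0, 5, 2, 4, 3, 1], 15), ([0, 5, 2, 4, 1, 3, 2, 4, 1, 3, 0, 5, 2, 4, 3, 1], 16), ([3, 2, 4, 1, 3, 2, 4, 1, 3, 0, 5, 2, 4,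 3, 1], 15), ([3, 0, 5, 2, 4, 1, 3, 2, 4, 1, 3, 0, 5, 2, 4, 3, 1], 17), ([2, 4, 3, 0, 5, 2, 4, 1, 3, 2, 4, 1, 3, 0, 5, 2, 4, 3, 1], 19), ([3, 2, 4, 3, 0, 5, 2, 4, 1, 3, 2, 4, 1, 3, 0, 5, 2, 4, 3, 1], 20), ([1, 3, 2, 4, 3, 0, 5, 2, 4, 1, 3, 2, 4, 1, 3, 0, 5, 2, 4, 3, 1], 21)]

theorem chkE6 : TwChk chevE6.nroots 2 (A chevE6) (fun r => (fun i : Fin chevE6.rank => [2241586, 2377282, 3434595, 4623492, 3434595, 2241586].getD i 0) ⬝ᵥ wt chevE6 r)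
      rhoE6 (fun r => (twT H7.twE6 r).2.2) ∧
    Chk chevE6.nroots (A chevE6) (fun r => (fun i : Fin chevE6.rank => [2241586, 2377282, 3434595, 4623492, 3434595, 2241586].getD i 0) ⬝ᵥ wt chevE6 r)
      rhoE6 chevE6.simple (wdL fastE6) 71 46 10 [[], [2, 4]] [] ∧
    ChkI chevE6.nroots chevE6.rank (A chevE6) (fun r => (fun i : Fin chevE6.rank => [2241586, 2377282, 3434595, 4623492, 3434595, 2241586].getD i 0) ⬝ᵥ wt chevE6 r)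
      rhoE6 chevE6.simple (wdL fastE6) 71 wsE6 := by
  rw [A_tab tablesE6, F_tab tablesE6]; decide +kernel

theorem numE6 {q l : ℕ} (hq : 2 ≤ q) (h : l + q ^ 7 + q ^ 3 = q ^ 10 + q ^ 6 + q ^ 4 + 1) :
    (wsE6.map fun p => q ^ p.2).sum * (q - 1) = l * (q * q ^ (10 + 1) - 1) ∧ l * q < q ^ (10 + 1) - 1 + l ∧
      l < q ^ (10 + 1) := by
  have h1 : 1 ≤ q ^ (10 + 1) := Nat.one_le_pow _ _ (by omega)
  have h2 : 1 ≤ q * q ^ (10 + 1) := Nat.mul_pos (by omega) h1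
  zify [h1, h2, show 1 ≤ q by omega] at h hq ⊢
  rw [show (l : ℤ) = q ^ 10 + q ^ 6 + q ^ 4 + 1 - q ^ 7 - q ^ 3 by linarith]
  obtain ⟨r, hr⟩ : ∃ r : ℕ, (q : ℤ) = r + 2 := ⟨q - 2, by omega⟩
  refine ⟨by simp [wsE6]; ring, ?_, ?_⟩ <;> rw [← sub_pos, hr] <;> ring_nf <;> positivity

/-- The twisted groups of type `E6`. -/
theorem pieceE6 {K : Type*} [Field K] [Fintype K] {q : ℕ} (hK : Fintype.card K = q ^ 2) {Ω : Type*} [Finite Ω]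
    [i1 : MulAction (twS (xg chevE6 K) (e6Words K q)) Ω] [i2 : FaithfulSMul (twS (xg chevE6 K) (e6Words K q)) Ω]
    (ht : TT (twS (xg chevE6 K) (e6Words K q)) Ω) (hB : ∀ a b : Ω, ∃ g : twS (xg chevE6 K) (e6Words K q),
      (g : chevE6.group K) ∈ BB chevE6 (xg chevE6 K) ∧ g • a = b) : False := by
  obtain ⟨φ, hφ⟩ := exists_frob hK two_ne_zero
  have hx : IsChev chevE6 (xg chevE6 K) := H7.isChev_xg
  have := hx.finite_G H7.GG_xg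
  obtain ⟨σ, h1⟩ := exists_twistE6 hx H7.GG_xg φ
  have h2 := twD_E6 hx H7.GG_xg hφ (fun t => by rw [hφ, hφ, ← pow_mul, ← pow_two, ← hK, FiniteField.pow_card]) h1
  obtain ⟨h3, h5, h6⟩ := chkE6
  have h4 := card_eqLocus hK hφ two_ne_zero
  have hT := th_of hK hφ le_rfl okE6 h2.sub h1 hx.toIsFaith h3
  have hq : 2 ≤ q := h4 ▸ Finite.one_lt_card
  let M := hT.md _ (h3.c_rho h1.lt) (fun r hr => by
    rw [ord_eq_pk tablesE6 _ hr.1]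
    exact (by decide +kernel : ∀ r < 72, chevE6.IsPosRoot r → 0 < ordOf chevE6 H8.twE6 [2241586, 2377282, 3434595, 4623492, 3434595, 2241586] r) r hr.1 hr)
    (by rw [h4, Nat.card_eq_fintype_card, hK])
  have hX : ∀ r < chevE6.nroots, Nat.card (M.X r) = _ := fun r => card_md hT _ _ _
  obtain ⟨h7, h8, h9⟩ := numE6 (l := q ^ 10 + q ^ 6 + q ^ 4 + 1 - q ^ 7 - q ^ 3) hq (by
    have := Nat.pow_le_pow_right (n := q) (by omega) (show 7 ≤ 10 by omega)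
    have := Nat.pow_le_pow_right (n := q) (by omega) (show 3 ≤ 4 by omega)
    omega)
  rw [← h4] at h7 h8 h9
  let _ : MulAction M.S Ω := i1
  have : FaithfulSMul M.S Ω := i2
  exact Chk.core (M := M) agrE6 h5 hX (by omega) ((Chk.hi (M := M) h5).index agrE6 hX h6 ▸ h7) h8 h9
    (fun r => irr_th hT) (by simp) (fun p hp _ => have := Fact.mk hp; not_dvd_of_sylow (h2.exists_sylow p)) ht hB

end Cfsg.Agent.H3.TG
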