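import Cfsg.Agent.H3.TG5
import Cfsg.Agent.H7.TwOutD4
import Cfsg.Agent.H8.LiftTabSmall

/-! The twisted groups of type `D4` have no 2-transitive action with transitive Borel subgroup. -/

set_option autoImplicit false
set_option linter.unusedSectionVars false

namespace Cfsg.Agent.H3.TG

open Cfsg.Lie Cfsg.Agent.H2 Cfsg.Agent.H2.MD Cfsg.Agent.H7 Cfsg.Agent.H8 Matrix
open scoped commutatorElement

theorem coef_zero {D : ChevalleyDatum} [hD : RootFacts D] [hN : NFacts D] [hS : SLFacts D] {K : Type*} [Field K]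
    {G : Type*} [Group G] {k : Type*} [Field k] {M : MD D K G k} {r : ℕ} (hp : D.IsPosRoot r) {c : K} {g : G}
    (h1 : g ∈ XS M.x (Ab M (M.F r))) {L : List ℕ} (hL : ∀ b ∈ L, D.IsPosRoot b ∧ M.F r ≤ M.F b ∧ b ≠ r)
    (h2 : (M.x r c)⁻¹ * g ∈ XS M.x {b | b ∈ L}) : c = 0 := by
  obtain ⟨T, hT⟩ : ∃ T : Set ℕ, ∀ b, b ∈ T ↔ D.IsPosRoot b ∧ M.F r ≤ M.F b ∧ b ≠ r :=
    ⟨{b | D.IsPosRoot b ∧ M.F r ≤ M.F b ∧ b ≠ r}, fun _ => Iff.rfl⟩
  have h3 : M.x r c ∈ XS M.x T := by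
    have h3 : g ∈ XS M.x T := XS_mono _ (fun b hb => (hT b).2 ⟨hb.1, hb.2.le, fun e => hb.2.ne' (congrArg M.F e)⟩) h1
    have h4 : (M.x r c)⁻¹ * g ∈ XS M.x T := XS_mono _ (fun b hb => (hT b).2 (hL b hb)) h2
    simpa using mul_mem h3 (inv_mem h4)
  have h5 : Nrm D {r} {r} := Nrm.of_nonneg fun _ e _ e' => by rw [e, e', A_self hp.1]; exact ⟨hp.1, hp.1, by omega⟩
  have h6 : Nrm D T T := Nrm.of_sm fun b hb c hc => by
    rw [hT] at hb hc
    refine ⟨hb.1.1, hc.1.1, ne_neg_pos hb.1 hc.1, fun d e => ?_⟩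
    have := F_add (M := M) e
    have := F_pos (M := M) hb.1
    have := hc.2.1
    exact (hT d).2 ⟨e.pos hb.1 hc.1, by omega, fun e => by have := congrArg M.F e; omega⟩
  have h4 := M.faith.mem_XS_inter (one_mem _) h5.1 h6.1 (fun _ e => by rw [e]; exact hp) (fun b h => ((hT b).1 h).1)
    (x_mem_XS (Set.mem_singleton r) c) h3
  rw [show {r} ∩ T = ∅ from Set.eq_empty_of_forall_notMem fun b h => ((hT b).1 h.2).2.2 h.1, XS_empty, Subgroup.mem_bot,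
    ← (st (M := M)).zero r] at h4
  exact M.faith.x_inj hp.1 h4

section
variable {K G k : Type*} [Field K] [Group G] [Finite G] [Field k] [Finite k] {M : MD chevD4 K G k} (hρ : M.ρ = rhoD4)
  (hF : M.F = fun r => (fun i : Fin chevD4.rank => [3, 5, 3, 3].getD i 0) ⬝ᵥ wt chevD4 r) {φ : K →+* K}
  (hy : ∀ t, M.x 18 t * (M.x 13 (φ t) * M.x 12 (φ (φ t))) ∈ M.S)
include hρ hF hy

theorem y_mem (t : K) : (⟨_, hy t⟩ : M.S) ∈ M.X 18 := by
  have h : M.ρ 18 = 13 ∧ M.ρ 13 = 12 := by rw [hρ]; decide +kernel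
  exact mul_mem (x_mem_XS (mem_orb 18) _) (mul_mem (x_mem_XS (h.1 ▸ (mem_orb 18).apply_right) _)
    (x_mem_XS (h.2 ▸ h.1 ▸ (mem_orb 18).apply_right.apply_right) _))

theorem nc14 : NC M 23 14 := fun u hu h0 => by
  have h : M.Fx 14 ∧ chevD4.IsPosRoot 18 ∧ chevD4.IsPosRoot 15 ∧ M.F 14 + M.F 18 = M.F 15 ∧ M.F 15 < M.F 23 ∧
      ∀ b ∈ [16, 17, 19, 20, 21, 22, 23], chevD4.IsPosRoot b ∧ M.F 15 ≤ M.F b ∧ b ≠ 15 := by
    rw [Fx, hρ, hF, F_tab tablesD4]; decide +kernel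
  obtain ⟨h1, h2, h3, h4, h5, h6⟩ := h
  obtain ⟨s, rfl⟩ := exists_z h1 hu
  refine ⟨18, h2, h4 ▸ h5, _, y_mem hρ hF hy 1, fun h7 => h0 ?_⟩
  have h8 := st.evS_scol (x := M.x) agrD4 (p := 0) (by simp) (fun _ => M.ι s) id [(15, [(-1, [1])]), (18, [(1, [])]),
    (13, [(1, [])]), (12, [(1, [])]), (14, [(1, [1])]), (12, [(-1, [])]), (13, [(-1, [])]), (18, [(-1, [])]), (14, [(-1, [1])])]
  rw [(map_eq_zero M.ι (a := s)).1 (coef_zero h3 (h4 ▸ h7) h6 (by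
    have := h8 ▸ evS_mem (x := M.x) (v := fun _ => M.ι s) (S := {r | r ∈ [16, 17, 19, 20, 21, 22, 23]})
      (by simp only [Set.mem_ofPred_eq]; decide +kernel)
    simpa [commutatorElement_def, z_val h1, mev, st.neg, mul_assoc] using this)), z_zero h1]

theorem nc15 {t : K} (ht : φ t ≠ t) (h9 : ∀ u ∈ M.X 15, ∃ a b c, (u : G) = M.x 15 a * (M.x 19 b * M.x 16 c) ∧
    (a = 0 → u = 1)) : NC M 23 15 := fun u hu h0 => by
  have h : chevD4.IsPosRoot 18 ∧ chevD4.IsPosRoot 17 ∧ M.F 15 + M.F 18 = M.F 17 ∧ M.F 17 < M.F 23 ∧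
      ∀ b ∈ [20, 21, 22, 23], chevD4.IsPosRoot b ∧ M.F 17 ≤ M.F b ∧ b ≠ 17 := by
    rw [hF, F_tab tablesD4]; decide +kernel
  obtain ⟨h2, h3, h4, h5, h6⟩ := h
  obtain ⟨a, b, c, e, h1⟩ := h9 u hu
  refine ⟨18, h2, h4 ▸ h5, by_contra fun h7 => h0 (h1 ?_)⟩
  have h8 : ∀ t, φ (φ t) * c + φ t * a = 0 := fun t => by
    have h8 := st.evS_scol (x := M.x) agrD4 (p := 0) (by simp) (fun i => [t, φ t, φ (φ t), a, b, c].getD i 0) id
      [(17, [(-1, [0, 0, 1, 0, 0, 1]), (-1, [0, 1, 0, 1])]), (18, [(1, [1])]), (13, [(1, [0, 1])]), (12, [(1, [0, 0, 1])]),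
        (15, [(1, [0, 0, 0, 1])]), (19, [(1, [0, 0, 0, 0, 1])]), (16, [(1, [0, 0, 0, 0, 0, 1])]), (12, [(-1, [0, 0, 1])]),
        (13, [(-1, [0, 1])]), (18, [(-1, [1])]), (16, [(-1, [0, 0, 0, 0, 0, 1])]), (19, [(-1, [0, 0, 0, 0, 1])]),
        (15, [(-1, [0, 0, 0, 1])])]
    refine coef_zero h3 (h4 ▸ by_contra fun h => h7 ⟨_, y_mem hρ hF hy t, h⟩) h6 ?_
    have := h8 ▸ evS_mem (x := M.x) (v := fun i => [t, φ t, φ (φ t), a, b, c].getD i 0) (S := {r | r ∈ [20, 21, 22, 23]})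
      (by simp only [Set.mem_ofPred_eq]; decide +kernel)
    rw [← st.neg, neg_add]
    simpa [commutatorElement_def, e, mev, st.neg, mul_assoc] using this
  have h10 := h8 1
  simp only [map_one, one_mul] at h10
  exact (mul_eq_zero.1 (show (φ t - φ (φ t)) * a = 0 by linear_combination h8 t - φ (φ t) * h10)).resolve_left
    (sub_ne_zero.2 (φ.injective.ne ht.symm))

end

/-- Coset representatives and their lengths. -/
def wsD4 : List (List ℕ × ℕ) := [([], 0), ([1], 1), ([0, 2, 3, 1], 4), ([1, 0, 2, 3, 1], 5), ([0, 2, 3, 1, 0, 2, 3, 1], 8),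
  ([1, 0, 2, 3, 1, 0, 2, 3, 1], 9)]

theorem chkD4 : TwChk chevD4.nroots 3 (A chevD4) (fun r => (fun i : Fin chevD4.rank => [3, 5, 3, 3].getD i 0) ⬝ᵥ wt chevD4 r)
      rhoD4 (fun r => (twT triD4 r).2.2) ∧
    Chk chevD4.nroots (A chevD4) (fun r => (fun i : Fin chevD4.rank => [3, 5, 3, 3].getD i 0) ⬝ᵥ wt chevD4 r)
      rhoD4 chevD4.simple (wdL fastD4) 23 14 4 [] [14, 15, 19, 16] ∧
    ChkI chevD4.nroots chevD4.rank (A chevD4) (fun r => (fun i : Fin chevD4.rank => [3, 5, 3, 3].getD i 0) ⬝ᵥ wt chevD4 r)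
      rhoD4 chevD4.simple (wdL fastD4) 23 wsD4 := by
  rw [A_tab tablesD4, F_tab tablesD4]; decide +kernel

theorem numD4 {q l : ℕ} (hq : 2 ≤ q) (h : l + q ^ 2 = q ^ 4 + 1) :
    (wsD4.map fun p => q ^ p.2).sum * (q - 1) = l * (q * q ^ (4 + 1) - 1) ∧ l * q < q ^ (4 + 1) - 1 + l ∧
      l < q ^ (4 + 1) := by
  have h1 : 1 ≤ q ^ (4 + 1) := Nat.one_le_pow _ _ (by omega)
  have h2 : 1 ≤ q * q ^ (4 + 1) := Nat.mul_pos (by omega) h1
  zify [h1, h2, show 1 ≤ q by omega] at h hq ⊢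
  rw [show (l : ℤ) = q ^ 4 + 1 - q ^ 2 by linarith]
  obtain ⟨r, hr⟩ : ∃ r : ℕ, (q : ℤ) = r + 2 := ⟨q - 2, by omega⟩
  refine ⟨by simp [wsD4]; ring, ?_, ?_⟩ <;> rw [← sub_pos, hr] <;> ring_nf <;> positivity

/-- The twisted groups of type `D4`. -/
theorem pieceD4 {K : Type*} [Field K] [Fintype K] {q : ℕ} (hK : Fintype.card K = q ^ 3) {Ω : Type*} [Finite Ω]
    [i1 : MulAction (twS (xg chevD4 K) (d4Words K q)) Ω] [i2 : FaithfulSMul (twS (xg chevD4 K) (d4Words K q)) Ω]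
    (ht : TT (twS (xg chevD4 K) (d4Words K q)) Ω) (hB : ∀ a b : Ω, ∃ g : twS (xg chevD4 K) (d4Words K q),
      (g : chevD4.group K) ∈ BB chevD4 (xg chevD4 K) ∧ g • a = b) : False := by
  obtain ⟨φ, hφ⟩ := exists_frob hK three_ne_zero
  have hx : IsChev chevD4 (xg chevD4 K) := H7.isChev_xg
  have := hx.finite_G H7.GG_xg
  obtain ⟨σ, h1⟩ := exists_twistD4 hx H7.GG_xg φ
  have h2 := twD_D4 hx H7.GG_xg hφ (fun t => by
    rw [hφ, hφ, hφ, ← pow_mul, ← pow_mul, ← pow_two, ← pow_succ', ← hK, FiniteField.pow_card]) h1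
  obtain ⟨h3, h5, h6⟩ := chkD4
  have h4 := card_eqLocus hK hφ three_ne_zero
  have hT := th_of hK hφ (by omega) okD4 h2.sub h1 hx.toIsFaith h3
  have hq : 2 ≤ q := h4 ▸ Finite.one_lt_card
  let M := hT.md _ (h3.c_rho h1.lt) (fun r hr => by
    rw [ord_eq_pk tablesD4 _ hr.1]
    exact (by decide +kernel : ∀ r < 24, chevD4.IsPosRoot r → 0 < ordOf chevD4 twD4 [3, 5, 3, 3] r) r hr.1 hr)
    (by rw [h4, Nat.card_eq_fintype_card, hK])
  have hX : ∀ r < chevD4.nroots, Nat.card (M.X r) = _ := fun r => card_md hT _ _ _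
  obtain ⟨h7, h8, h9⟩ := numD4 (l := q ^ 4 + 1 - q ^ 2) hq (by
    have := Nat.pow_le_pow_right (n := q) (by omega) (show 2 ≤ 4 by omega)
    omega)
  obtain ⟨t, h10⟩ : ∃ t, φ t ≠ t := by
    by_contra! h10
    rw [show φ.eqLocusField (RingHom.id K) = ⊤ from eq_top_iff.2 fun t _ => h10 t, Nat.card_congr Subfield.topEquiv.toEquiv,
      Nat.card_eq_fintype_card, hK] at h4
    have := Nat.pow_lt_pow_right hq (show 1 < 3 by omega)
    rw [pow_one] at this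
    omega
  have hy : ∀ t, M.x 18 t * (M.x 13 (φ t) * M.x 12 (φ (φ t))) ∈ M.S := fun t => by
    rw [hφ, hφ]; exact mem_d4b (by simp) t
  have h11 := nc15 (M := M) rfl rfl hy h10 fun u hu => by
    obtain ⟨s, hs⟩ := hT.exists_nm (y := u) (r := 15) (by decide) (by decide +kernel) hu u.2
    refine ⟨s, twF triD4 φ 15 s, twF triD4 φ 19 (twF triD4 φ 15 s), hs.trans ?_, fun e => Subtype.ext (by
      rw [hs, e, hx.toIsSt.zero]; simp [nm])⟩
    simp [nm, List.range_succ, h1.map, (by decide +kernel : rhoD4 15 = 19), (by decide +kernel : rhoD4 19 = 16), M, TH.md]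
  rw [← h4] at h7 h8 h9
  let _ : MulAction M.S Ω := i1
  have : FaithfulSMul M.S Ω := i2
  refine Chk.core (M := M) agrD4 h5 hX (by omega) ((Chk.hi (M := M) h5).index agrD4 hX h6 ▸ h7) h8 h9
    (fun r => irr_th hT) ?_ (fun p hp _ => have := Fact.mk hp; not_dvd_of_sylow (h2.exists_sylow p)) ht hB
  simp only [List.forall_mem_cons]
  exact ⟨nc14 rfl rfl hy, h11, h11.of_orb (mem_orb 15).apply_right, h11.of_orb (mem_orb 15).apply_right.apply_right, by simp⟩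

end Cfsg.Agent.H3.TG
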