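import Cfsg.Agent.H3.TG5
import Cfsg.Agent.H7.TT11
import Cfsg.Agent.H8.InvE6
import Cfsg.Agent.H8.LiftTabE6

/-! The groups of type `E6` have no 2-transitive action with transitive Borel subgroup. -/

set_option autoImplicit false
set_option linter.unusedSectionVars false

namespace Cfsg.Agent.H3.TG

open Cfsg.Lie Cfsg.Agent.H2 Cfsg.Agent.H7 Cfsg.Agent.H8 Matrix

theorem coreU {D : ChevalleyDatum} [RootFacts D] [NFacts D] [SLFacts D] [MatFacts D] [ChainFacts D] {F : Type*} [Field F]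
    [Finite F] {TW TC : ℕ} {c : List ℤ} (hT : chkTables D TW TC = true)
    (hc : ∀ r < D.nroots, D.IsPosRoot r → 0 < ordOf D TW c r) {T : Fast} (hA : Agree D T) {θ α m l : ℕ}
    {Ls : List (List ℕ)} {Ws : List (List ℕ × ℕ)} {E : List ℕ}
    (h : Chk D.nroots (fun r s => if r < D.nroots ∧ s < D.nroots then pkA D TW TC r s else 0)
      (fun r => if r < D.nroots then ordOf D TW c r else 0) id D.simple (wdL T) θ α m Ls [] ∧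
      ChkI D.nroots D.rank (fun r s => if r < D.nroots ∧ s < D.nroots then pkA D TW TC r s else 0)
      (fun r => if r < D.nroots then ordOf D TW c r else 0) id D.simple (wdL T) θ Ws ∧ Ws.map Prod.snd = E ∧ 2 ≤ m)
    (h1 : (E.map (Nat.card F ^ ·)).sum * (Nat.card F - 1) = l * (Nat.card F * Nat.card F ^ (m + 1) - 1) ∧
      l * Nat.card F < Nat.card F ^ (m + 1) - 1 + l ∧ l < Nat.card F ^ (m + 1)) {Ω : Type*} [Finite Ω]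
    [MulAction (D.group F) Ω] [FaithfulSMul (D.group F) Ω] (ht : TT (D.group F) Ω)
    (hB : ∀ a b : Ω, ∃ g ∈ BB D (xg D F), g • a = b) : False := by
  have hx : IsChev D (xg D F) := H7.isChev_xg
  have := hx.finite_G H7.GG_xg
  rw [← A_tab hT, ← F_tab hT] at h
  obtain ⟨h2, h3, rfl, h4⟩ := h
  rw [List.map_map] at h1
  let M := mdU F c hT hc
  have hX : ∀ r < D.nroots, Nat.card (M.X r) = Nat.card F ^ (orb M.ρ r).ncard := fun r hr => by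
    rw [MD.card_X_fx ⟨hr, rfl⟩, MD.orb_fx ⟨hr, rfl⟩, Set.ncard_singleton, pow_one]
  exact Chk.core (M := M) hA h2 hX h4 ((Chk.hi (M := M) h2).index hA hX h3 ▸ h1.1) h1.2.1 h1.2.2
    (fun _ _ e => absurd rfl e) (by simp)
    (fun p hp _ => have := Fact.mk hp; not_dvd_of_sylow ((twD_un D _ hx H7.GG_xg).exists_sylow p))
    ⟨ht.nt, fun a b c d h1 h2 => let ⟨g, hg⟩ := ht.move a b c d h1 h2; ⟨⟨g, trivial⟩, hg⟩⟩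
    fun a b => let ⟨g, hg⟩ := hB a b; ⟨⟨g, trivial⟩, hg⟩

/-- Coset representatives and their lengths. -/
def wsU6 : List (List ℕ × ℕ) := [([], 0), ([1], 1), ([3, 1], 2), ([2, 3, 1], 3), ([4, 3, 1], 3), ([0, 2, 3, 1], 4), ([4, 2, 3, 1], 4), ([5, 4, 3, 1], 4), ([4, 0, 2, 3, 1], 5), ([3, 4, 2, 3, 1], 5), ([5, 4, 2, 3, 1], 5), ([3, 4, 0, 2, 3, 1], 6), ([5, 4, 0, 2, 3, 1], 6), ([1, 3, 4, 2, 3, 1], 6), ([5, 3, 4, 2, 3, 1], 6), ([1, 3, 4, 0, 2, 3, 1], 7), ([2, 3, 4, 0, 2, 3, 1], 7), ([5, 3, 4, 0, 2, 3, 1], 7), ([5, 1, 3, 4, 2, 3, 1], 7), ([4, 5, 3, 4, 2, 3, 1], 7), ([2, 1, 3, 4, 0, 2, 3, 1], 8), ([5, 1, 3, 4, 0, 2, 3, 1], 8), ([5, 2, 3, 4, 0, 2, 3, 1], 8), ([4, 5, 3, 4, 0, 2, 3, 1], 8), ([4, 5, 1, 3, 4, 2, 3, 1], 8), ([3, 2, 1, 3, 4, 0, 2, 3, 1], 9), ([5, 2, 1, 3, 4,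 0, 2, 3, 1], 9), ([4, 5, 1, 3, 4, 0, 2, 3, 1], 9), ([4, 5, 2, 3, 4, 0, 2, 3, 1], 9), ([3, 4, 5, 1, 3, 4, 2, 3, 1], 9), ([4, 3, 2, 1, 3, 4, 0, 2, 3, 1], 10), ([5, 3, 2, 1, 3, 4, 0, 2, 3, 1], 10), ([4, 5, 2, 1, 3, 4, 0, 2, 3, 1], 10), ([3, 4, 5, 1, 3, 4, 0, 2, 3, 1], 10), ([3, 4, 5, 2, 3, 4, 0, 2, 3, 1], 10), ([2, 3, 4, 5, 1, 3, 4, 2, 3, 1], 10), ([5, 4, 3, 2, 1, 3, 4, 0, 2, 3, 1], 11), ([4, 5, 3, 2, 1, 3, 4, 0, 2, 3, 1], 11), ([3, 4, 5, 2, 1, 3, 4, 0, 2, 3, 1], 11), ([2, 3, 4, 5, 1, 3, 4, 0, 2, 3, 1], 11), ([1, 3, 4, 5, 2, 3, 4, 0, 2, 3, 1], 11), ([0, 2, 3, 4, 5, 1, 3, 4, 2, 3, 1], 11), ([4, 5, 4, 3, 2, 1, 3, 4, 0, 2, 3, 1], 12), ([3, 4, 5, 3, 2, 1, 3, 4, 0, 2, 3, 1], 12), ([1, 3, 4, 5, 2, 1, 3, 4, 0, 2, 3, 1], 12), ([2, 3, 4, 5, 2, 1, 3, 4, 0, 2, 3, 1], 12), ([0,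 2, 3, 4, 5, 1, 3, 4, 0, 2, 3, 1], 12), ([3, 4, 5, 4, 3, 2, 1, 3, 4, 0, 2, 3, 1], 13), ([1, 3, 4, 5, 3, 2, 1, 3, 4, 0, 2, 3, 1], 13), ([2, 3, 4, 5, 3, 2, 1, 3, 4, 0, 2, 3, 1], 13), ([2, 1, 3, 4, 5, 2, 1, 3, 4, 0, 2, 3, 1], 13), ([0, 2, 3, 4, 5, 2, 1, 3, 4, 0, 2, 3, 1], 13), ([1, 3, 4, 5, 4, 3, 2, 1, 3, 4, 0, 2, 3, 1], 14), ([2, 3, 4, 5, 4, 3, 2, 1, 3, 4, 0, 2, 3, 1], 14), ([2, 1, 3, 4, 5, 3, 2, 1, 3, 4, 0, 2, 3, 1], 14), ([0, 2, 3, 4, 5, 3, 2, 1, 3, 4, 0, 2, 3, 1], 14), ([0, 2, 1, 3, 4, 5, 2, 1, 3, 4, 0, 2, 3, 1], 14), ([2, 1, 3, 4, 5, 4, 3, 2, 1, 3, 4, 0, 2, 3, 1], 15), ([0, 2, 3, 4, 5, 4, 3, 2, 1, 3, 4, 0, 2, 3, 1], 15), ([0, 2, 1, 3, 4, 5, 3, 2, 1, 3, 4, 0, 2, 3, 1], 15), ([3, 2, 1, 3, 4, 5, 3, 2, 1, 3, 4, 0, 2, 3, 1], 15), ([0, 2, 1, 3, 4, 5, 4, 3, 2, 1, 3,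 4, 0, 2, 3, 1], 16), ([3, 2, 1, 3, 4, 5, 4, 3, 2, 1, 3, 4, 0, 2, 3, 1], 16), ([3, 0, 2, 1, 3, 4, 5, 3, 2, 1, 3, 4, 0, 2, 3, 1], 16), ([3, 0, 2, 1, 3, 4, 5, 4, 3, 2, 1, 3, 4, 0, 2, 3, 1], 17), ([4, 3, 2, 1, 3, 4, 5, 4, 3, 2, 1, 3, 4, 0, 2, 3, 1], 17), ([2, 3, 0, 2, 1, 3, 4, 5, 3, 2, 1, 3, 4, 0, 2, 3, 1], 17), ([2, 3, 0, 2, 1, 3, 4, 5, 4, 3, 2, 1, 3, 4, 0, 2, 3, 1], 18), ([4, 3, 0, 2, 1, 3, 4, 5, 4, 3, 2, 1, 3, 4, 0, 2, 3, 1], 18), ([4, 2, 3, 0, 2, 1, 3, 4, 5, 4, 3, 2, 1, 3, 4, 0, 2, 3, 1], 19), ([3, 4, 2, 3, 0, 2, 1, 3, 4, 5, 4, 3, 2, 1, 3, 4, 0, 2, 3, 1], 20), ([1, 3, 4, 2, 3, 0, 2, 1, 3, 4, 5, 4, 3, 2, 1, 3, 4, 0, 2, 3, 1], 21)]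

theorem numU6 {q : ℕ} (hq : 2 ≤ q) :
    ([0, 1, 2, 3, 3, 4, 4, 4, 5, 5, 5, 6, 6, 6, 6, 7, 7, 7, 7, 7, 8, 8, 8, 8, 8, 9, 9, 9, 9, 9, 10, 10, 10, 10, 10, 10, 11, 11, 11, 11, 11, 11, 12, 12, 12, 12, 12, 13, 13, 13, 13, 13, 14, 14, 14, 14, 14, 15, 15, 15, 15, 16, 16, 16, 17, 17, 17, 18, 18, 19, 20, 21].map (q ^ ·)).sum * (q - 1) =
      (q ^ 10 + q ^ 7 + q ^ 6 + q ^ 4 + q ^ 3 + 1) * (q * q ^ (10 + 1) - 1) ∧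
    (q ^ 10 + q ^ 7 + q ^ 6 + q ^ 4 + q ^ 3 + 1) * q < q ^ (10 + 1) - 1 + (q ^ 10 + q ^ 7 + q ^ 6 + q ^ 4 + q ^ 3 + 1) ∧
    (q ^ 10 + q ^ 7 + q ^ 6 + q ^ 4 + q ^ 3 + 1) < q ^ (10 + 1) := by
  have h1 : 1 ≤ q ^ (10 + 1) := Nat.one_le_pow _ _ (by omega)
  have h2 : 1 ≤ q * q ^ (10 + 1) := Nat.mul_pos (by omega) h1
  zify [h1, h2, show 1 ≤ q by omega] at hq ⊢
  obtain ⟨r, hr⟩ : ∃ r : ℕ, (q : ℤ) = r + 2 := ⟨q - 2, by omega⟩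
  refine ⟨by simp; ring, ?_, ?_⟩ <;> rw [← sub_pos, hr] <;> ring_nf <;> positivity

/-- The groups of type `E6`. -/
theorem pieceU6 {F : Type*} [Field F] [Finite F] {Ω : Type*} [Finite Ω] [MulAction (chevE6.group F) Ω]
    [FaithfulSMul (chevE6.group F) Ω] (ht : TT (chevE6.group F) Ω)
    (hB : ∀ a b : Ω, ∃ g ∈ BB chevE6 (xg chevE6 F), g • a = b) : False :=
  coreU (c := ocE6) tablesE6 (by decide +kernel) agrE6 (θ := 71) (α := 46) (Ls := [[], [2], [3], [4]]) (Ws := wsU6)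
    (by decide +kernel) (numU6 Finite.one_lt_card) ht hB

end Cfsg.Agent.H3.TG
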