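import Cfsg.Agent.H3.TG7
import Cfsg.Agent.H8.PoinE8
import Cfsg.Agent.H8.LiftTabE8
import Cfsg.Agent.H8.TE2

/-! The groups of type `E8` have no 2-transitive action with transitive Borel subgroup. -/

set_option autoImplicit false
set_option linter.unusedSectionVars false

namespace Cfsg.Agent.H3.TG

open Cfsg.Lie Cfsg.Agent.H2 Cfsg.Agent.H7 Cfsg.Agent.H8 Matrix

theorem numU8 {q : ℕ} (hq : 2 ≤ q) :
    hor [1, 1, 1, 1, 1, 1, 2, 2, 2, 2, 3, 3, 4, 4, 4, 4, 5, 5, 6, 6, 6, 6, 7, 7, 7, 7, 7, 7, 8, 8, 7, 7, 7, 7, 7, 7, 6, 6, 6,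
      6, 5, 5, 4, 4, 4, 4, 3, 3, 2, 2, 2, 2, 1, 1, 1, 1, 1, 1] q * (q - 1) =
      (q ^ 28 + q ^ 22 + q ^ 18 + q ^ 16 + q ^ 12 + q ^ 10 + q ^ 6 + 1) * (q * q ^ (28 + 1) - 1) ∧
    (q ^ 28 + q ^ 22 + q ^ 18 + q ^ 16 + q ^ 12 + q ^ 10 + q ^ 6 + 1) * q <
      q ^ (28 + 1) - 1 + (q ^ 28 + q ^ 22 + q ^ 18 + q ^ 16 + q ^ 12 + q ^ 10 + q ^ 6 + 1) ∧
    (q ^ 28 + q ^ 22 + q ^ 18 + q ^ 16 + q ^ 12 + q ^ 10 + q ^ 6 + 1) < q ^ (28 + 1) := by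
  have h1 : 1 ≤ q ^ (28 + 1) := Nat.one_le_pow _ _ (by omega)
  have h2 : 1 ≤ q * q ^ (28 + 1) := Nat.mul_pos (by omega) h1
  simp only [hor, List.foldr]
  zify [h1, h2, show 1 ≤ q by omega] at hq ⊢
  obtain ⟨r, hr⟩ : ∃ r : ℕ, (q : ℤ) = r + 2 := ⟨q - 2, by omega⟩
  refine ⟨by ring, ?_, ?_⟩ <;> rw [← sub_pos, hr] <;> ring_nf <;> positivity

theorem chkU8 : Chk chevE8.nroots (A chevE8) (fun r => (fun i : Fin chevE8.rank => ocE8.getD i 0) ⬝ᵥ wt chevE8 r) id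
    chevE8.simple (wdL fastE8) 239 120 28 [[], [2], [3], [4], [5]] [] ∧
    ∀ j < chevE8.rank, A chevE8 239 (chevE8.simple j) = 0 ↔ j ∈ [0, 1, 2, 3, 4, 5, 6] := by
  rw [A_tab tablesE8, F_tab tablesE8]; decide +kernel

/-- The groups of type `E8`. -/
theorem pieceU8 {F : Type*} [Field F] [Finite F] {Ω : Type*} [Finite Ω] [MulAction (chevE8.group F) Ω]
    [FaithfulSMul (chevE8.group F) Ω] (ht : TT (chevE8.group F) Ω)
    (hB : ∀ a b : Ω, ∃ g ∈ BB chevE8 (xg chevE8 F), g • a = b) : False := by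
  have hx : IsChev chevE8 (xg chevE8 F) := H7.isChev_xg
  have := hx.finite_G H7.GG_xg
  let M := mdU F ocE8 tablesE8 (by decide +kernel)
  have hX : ∀ r < chevE8.nroots, Nat.card (M.X r) = Nat.card F ^ (orb M.ρ r).ncard := fun r hr => by
    rw [MD.card_X_fx ⟨hr, rfl⟩, MD.orb_fx ⟨hr, rfl⟩, Set.ncard_singleton, pow_one]
  obtain ⟨h1, h2, h3⟩ := numU8 (Finite.one_lt_card (α := F))
  rw [← index_PJ hx.toIsFaith H7.GG_xg (by decide) (poinE8a0 _), show PJ chevE8 (xg chevE8 F) {j | j ∈ [0, 1, 2, 3, 4, 5, 6]} =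
    PJ chevE8 (xg chevE8 F) {j | A chevE8 239 (chevE8.simple j) = 0} from congrArg (_ ⊔ Subgroup.closure ·) (Set.ext fun _ =>
      exists_congr fun j => ⟨fun h => ⟨(chkU8.2 j h.2.1).2 h.1, h.2⟩, fun h => ⟨(chkU8.2 j h.2.1).1 h.1, h.2⟩⟩),
    ← Subgroup.relIndex_top_right] at h1
  exact Chk.core (M := M) agrE8 chkU8.1 hX (by omega) h1 h2 h3 (fun _ _ e => absurd rfl e) (by simp)
    (fun p hp _ => have := Fact.mk hp; not_dvd_of_sylow ((twD_un chevE8 _ hx H7.GG_xg).exists_sylow p))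
    ⟨ht.nt, fun a b c d h1 h2 => let ⟨g, hg⟩ := ht.move a b c d h1 h2; ⟨⟨g, trivial⟩, hg⟩⟩
    fun a b => let ⟨g, hg⟩ := hB a b; ⟨⟨g, trivial⟩, hg⟩

end Cfsg.Agent.H3.TG
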