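import Cfsg.Agent.H3.FixCount

/-! A group of order 17971200 with two suitable small subgroups is not doubly transitive. -/

set_option autoImplicit false

namespace Cfsg.Agent.H3

open MulAction L0

noncomputable def degB (n : ℕ) : Bool :=
  decide (n * (n - 1) ∣ 17971200 → n ≤ 27 ∨ n = 40 ∨ n = 65)

theorem degB0 : allR degB 13 0 = true := by decide +kernel

theorem deg_list (n : ℕ) (h : n * (n - 1) ∣ 17971200) : n ≤ 27 ∨ n = 40 ∨ n = 65 := by
  have h1 := Nat.le_of_dvd (by norm_num) h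
  have h2 : n < 8192 := by
    by_contra h3
    have : 8192 * 8191 ≤ n * (n - 1) := Nat.mul_le_mul (by omega) (by omega)
    omega
  have := allR_glue (d := 13) (n := 1) (forall_lt_succ' forall_lt_zero' degB0) n
    (lt_of_lt_of_le h2 (by norm_num))
  exact of_decide_eq_true this h

variable {G : Type*} [Group G] [Finite G] {Ω : Type*} [Fintype Ω] [MulAction G Ω]

omit [Finite G] in
theorem dvd_of_two (h2 : IsMultiplyPretransitive G Ω 2) (hΩ : 3 ≤ Fintype.card Ω) :
    Fintype.card Ω * (Fintype.card Ω - 1) ∣ Nat.card G := by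
  classical
  obtain ⟨a, b, hab⟩ := Fintype.exists_pair_of_one_lt_card (α := Ω) (by omega)
  have hs : ({a, b} : Set Ω).ncard = 2 := Set.ncard_pair hab
  have := IsMultiplyPretransitive.index_of_fixingSubgroup_eq (G := G) {a, b} (hs ▸ h2)
  rw [hs, Nat.card_eq_fintype_card, mul_comm, ← Nat.descFactorial_eq_factorial_mul_choose] at this
  have e : (Fintype.card Ω).descFactorial 2 = Fintype.card Ω * (Fintype.card Ω - 1) := by
    simp [Nat.descFactorial, mul_comm]
  rw [← e, ← this]
  exact Subgroup.index_dvd_card _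

theorem not_two_trans [FaithfulSMul G Ω] (hG : Nat.card G = 17971200) {V S : Subgroup G} {x y : G}
    (hV : Nat.card V = 25) (hS : Nat.card S = 27) (hx : ∀ g ∈ V, g ≠ 1 → IsConj x g)
    (hy : ∀ g ∈ S, g ≠ 1 → IsConj y g) (hxV : x ∈ V) (hx1 : x ≠ 1) (hy1 : y ≠ 1)
    (hy3 : y * y * y = 1) (hx' : y * y * x * y ∈ V) (hΩ : 3 ≤ Fintype.card Ω) :
    ¬ IsMultiplyPretransitive G Ω 2 := by
  classical
  intro h2
  haveI := Fintype.ofFinite V
  have d1 := card_dvd_fx (Ω := Ω) V hx
  have d2 := card_dvd_fx (Ω := Ω) S hy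
  have l1 := fx_lt (Ω := Ω) hx1
  have l2 := fx_lt (Ω := Ω) hy1
  rw [hV] at d1
  rw [hS] at d2
  have hd := deg_list _ (hG ▸ dvd_of_two h2 hΩ)
  haveI : IsPretransitive G Ω := isPretransitive_of_is_two_pretransitive
  have big : Fintype.card Ω = 40 ∨ Fintype.card Ω = 65 → False := by
    intro hn
    have h5 : ∀ a : Ω, Nat.card (stabilizer V a) ≤ 5 := by
      intro a
      have e1 : Nat.card (stabilizer V a) ∣ 5 ^ 2 := by
        rw [show 5 ^ 2 = 25 from rfl, ← hV]; exact Subgroup.card_subgroup_dvd_card _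
      have e2 : Nat.card (stabilizer V a) ∣ Nat.card (stabilizer G a) :=
        Subgroup.card_dvd_of_injective
          ((V.subtype.comp (stabilizer V a).subtype).codRestrict (stabilizer G a) fun g => g.prop)
          fun g g' h => Subtype.ext (Subtype.ext (congrArg (fun u : stabilizer G a => u.val) h))
      have e3 := (stabilizer G a).card_mul_index
      rw [index_stabilizer_of_transitive, hG, Nat.card_eq_fintype_card (α := Ω)] at e3
      obtain ⟨i, hi, e4⟩ := (Nat.dvd_prime_pow (by norm_num)).mp e1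
      rw [e4] at e2 ⊢
      interval_cases i
      · norm_num
      · norm_num
      · exfalso
        rcases hn with hn | hn <;> rw [hn] at e3 <;> omega
    have s1 := sum_fx (Ω := Ω) V hx
    rw [sum_fx_stab, hV] at s1
    have s2 : ∑ a : Ω, Nat.card (stabilizer V a) ≤ Fintype.card Ω * 5 := by
      simpa using Finset.sum_le_card_nsmul Finset.univ _ 5 fun a _ => h5 a
    rcases hn with hn | hn <;> rw [hn] at s1 s2 d1 l1 <;> omega
  have hn : Fintype.card Ω = 27 := by
    rcases hd with hd | hd | hd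
    · omega
    · exact (big (Or.inl hd)).elim
    · exact (big (Or.inr hd)).elim
  rw [hn] at d1 d2 l1 l2
  have f5 : fx Ω x = 2 := by omega
  have f3 : fx Ω y = 0 := by omega
  haveI : Fact (Nat.Prime 5) := ⟨by norm_num⟩
  have hp : IsPGroup 5 V := IsPGroup.of_card (n := 2) hV
  have m := hp.card_modEq_card_fixedPoints Ω
  rw [Nat.card_eq_fintype_card, hn, Nat.card_coe_set_eq] at m
  have eqF : ∀ g ∈ V, g ≠ 1 → fixedBy Ω g = fixedPoints V Ω := by
    intro g hg h1
    have sub : fixedPoints V Ω ⊆ fixedBy Ω g := fun a ha => ha ⟨g, hg⟩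
    have c1 : (fixedBy Ω g).ncard = 2 := by
      rw [← Nat.card_coe_set_eq, ← f5, ← fx_conj (hx g hg h1), fx]
    have c2 := Set.ncard_le_ncard sub
    refine (Set.eq_of_subset_of_ncard_le sub ?_).symm
    unfold Nat.ModEq at m
    omega
  have hyy : y * y = y⁻¹ := eq_inv_of_mul_eq_one_left hy3
  have inv : ∀ a ∈ fixedBy Ω x, y⁻¹ • a ∈ fixedBy Ω x := by
    intro a ha
    rw [eqF x hxV hx1, ← eqF _ hx' (by
      rw [hyy]; intro h; exact hx1 (by simpa [mul_assoc, mul_eq_one_iff_eq_inv'] using h))]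
    rw [mem_fixedBy] at ha ⊢
    rw [hyy, smul_smul, mul_inv_cancel_right, mul_smul, ha]
  have nf : ∀ a : Ω, y • a ≠ a := fun a ha => by
    have : (fixedBy Ω y).ncard = 0 := by rw [← Nat.card_coe_set_eq]; exact f3
    rw [Set.ncard_eq_zero] at this
    exact (this ▸ (mem_fixedBy.mpr ha) : a ∈ (∅ : Set Ω))
  have c1 : (fixedBy Ω x).ncard = 2 := by rw [← Nat.card_coe_set_eq]; exact f5
  obtain ⟨a, b, hab, e⟩ := Set.ncard_eq_two.mp c1
  rw [e] at inv
  have nf' : ∀ a : Ω, y⁻¹ • a ≠ a := fun a ha => nf a (inv_smul_eq_iff.mp ha).symm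
  have ea : y⁻¹ • a = b := by simpa [nf'] using inv a (by simp)
  have eb : y⁻¹ • b = a := by simpa [nf'] using inv b (by simp)
  apply nf a
  have : y = y⁻¹ * y⁻¹ := by
    rw [← mul_inv_rev, hyy, inv_inv]
  calc y • a = (y⁻¹ * y⁻¹) • a := by rw [← this]
    _ = a := by rw [mul_smul, ea, eb]

end Cfsg.Agent.H3
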